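import Cfsg.Prelude.Def_LocalEven
import Cfsg.Prelude.Def_Amalgam
import Cfsg.Prelude.Def_KGroupFacts
import Cfsg.Prelude.Def_SporadicB
import Cfsg.Prelude.Def_CaseTheorems
import Cfsg.Prelude.Def_Sz
import Cfsg.Agent.H61.Huppert1
import Cfsg.Agent.H82.Higman
import Cfsg.Agent.H3.Cores

/-! Interfaces for transitive linear groups whose vector stabilisers are `p`-groups
(notes: `stubs/notes/h73_gag.md`). -/

set_option autoImplicit false

namespace Cfsg.Agent.H73.Gag

open Subgroup Cfsg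
open scoped MatrixGroups commutatorElement

universe u

/-- The six shapes of `H = G / O_p(G)`. -/
def Shape (p : ℕ) (H : Type u) [Group H] : Prop :=
  (∃ (F : Type) (_ : Field F) (_ : Fintype F), (∃ a : ℕ, Fintype.card F = p ^ a) ∧
      2 < Fintype.card F ∧ ∃ S : Subgroup H, S.Normal ∧
        Nonempty (S ≃* Matrix.SpecialLinearGroup (Fin 2) F) ∧ (∃ k : ℕ, S.index = p ^ k) ∧
        (∃ h : H, S ⊔ Subgroup.zpowers h = ⊤) ∧
        Subgroup.centralizer (S : Set H) = (Subgroup.center S).map S.subtype) ∨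
    (p = 3 ∧ ∃ S : Subgroup H, S.Normal ∧ S.index = 2 ∧
        Nonempty (S ≃* Matrix.SpecialLinearGroup (Fin 2) (ZMod 5)) ∧
        Subgroup.centralizer (S : Set H) = (Subgroup.center S).map S.subtype ∧
        ∀ K : Subgroup H, ¬ Subgroup.IsComplement' S K) ∨
    (p = 3 ∧ Nonempty (H ≃* Matrix.SpecialLinearGroup (Fin 2) (ZMod 13))) ∨
    (p = 11 ∧ Nonempty (H ≃* Matrix.SpecialLinearGroup (Fin 2) (ZMod 5))) ∨
    (p = 29 ∧ Nonempty (H ≃* Matrix.SpecialLinearGroup (Fin 2) (ZMod 5) ×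
      Multiplicative (ZMod 7))) ∨
    (p = 59 ∧ Nonempty (H ≃* Matrix.SpecialLinearGroup (Fin 2) (ZMod 5) ×
      Multiplicative (ZMod 29)))

/-- `V ≠ 0` is a finite elementary abelian `p`-group on which all stabilisers of non-zero vectors
are `p`-groups. -/
structure SRM (p : ℕ) (G V : Type u) [Group G] [AddCommGroup V] [DistribMulAction G V] :
    Prop where
  pp : p.Prime
  fin : Finite V
  nt : Nontrivial V
  pV : ∀ v : V, p • v = 0
  st : ∀ v : V, v ≠ 0 → IsPGroup p (MulAction.stabilizer G v)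

/-- `G` has such a module. -/
def SR (p : ℕ) (G : Type u) [Group G] : Prop :=
  ∃ (V : Type u) (_ : AddCommGroup V) (_ : DistribMulAction G V), SRM p G V

/-- Group-theoretic consequences of `SR p G` (proved below: `SRM.k0`). -/
structure K0 (p : ℕ) (G : Type u) [Group G] : Prop where
  cyc : ∀ r : ℕ, r.Prime → r ≠ p → r ≠ 2 → ∀ R : Subgroup G, IsPGroup r R → IsCyclic R
  com : ∀ c x : G, (orderOf x).Prime → ¬ p ∣ orderOf x → ¬ p ∣ orderOf c →
    x ∈ normalizer (zpowers c : Set G) → Commute x c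
  two : p ≠ 2 → ∀ R : Subgroup G, IsPGroup 2 R →
    IsCyclic R ∨ ∃ n : ℕ, Nonempty (R ≃* QuaternionGroup (2 ^ n))

/-- The setting of the theorem. -/
structure TL (p n : ℕ) (H V : Type u) [Group H] [AddCommGroup V] [DistribMulAction H V] :
    Prop where
  srm : SRM p H V
  tl : H61.IsTL H V
  card : Nat.card V = p ^ n
  core : pCore p H = ⊥
  ns : ¬ Group.IsSolvable H

/-- `G ≅ SL₂(2^a)`, `a ≥ 2`. -/
def IsoE (G : Type u) [Group G] : Prop :=
  ∃ (F : Type) (_ : Field F) (_ : Fintype F) (a : ℕ), Fintype.card F = 2 ^ a ∧ 2 ≤ a ∧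
    Nonempty (G ≃* SL(2, F))

/-- Numerical data of the field `End_L(V)` with `p^f` elements, `d = dim V` over it. -/
structure Num (p n : ℕ) {H : Type u} [Group H] (L : Subgroup H) (d f : ℕ) : Prop where
  n_eq : n = d * f
  two_le : 2 ≤ d
  one_le : 1 ≤ f
  cyc : IsCyclic (centralizer (L : Set H))
  dvd : Nat.card (centralizer (L : Set H)) ∣ p ^ f - 1
  dim : ∀ (s : ℕ) (x : H), s.Prime → s ≠ p → x ∈ L → orderOf x = s →
    (∀ k : ℕ, ¬ s ∣ k → ∃ g ∈ L, g * x * g⁻¹ = x ^ (k ^ 2)) → s ≤ 2 * d + 1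

/-! ### Pieces for the transitive group -/

def CompStmt : Prop := ∀ (p n : ℕ) (H V : Type u) [Group H] [AddCommGroup V]
  [DistribMulAction H V], TL p n H V → ∃ L : Subgroup H, L.Normal ∧ IsQuasisimple L

def FldStmt : Prop := ∀ (p n : ℕ) (H V : Type u) [Group H] [AddCommGroup V]
  [DistribMulAction H V], TL p n H V → ∀ L : Subgroup H, L.Normal → IsQuasisimple L →
    ∃ d f : ℕ, Num p n L d f

def OutStmt : Prop := ∀ (H : Type u) [Group H] [Finite H] (L : Subgroup H), L.Normal →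
  ∀ (F : Type) [Field F] [Fintype F] (s a : ℕ), s.Prime → Fintype.card F = s ^ a → 4 ≤ s ^ a →
    Nonempty (L ≃* SL(2, F)) → ∃ φ : H →* Multiplicative (ZMod a),
      L ⊔ centralizer (L : Set H) ≤ φ.ker ∧
        (L ⊔ centralizer (L : Set H)).relIndex φ.ker ∣ Nat.gcd 2 (s ^ a - 1)

def Odd1Stmt : Prop := ∀ (p n : ℕ) (H V : Type u) [Group H] [AddCommGroup V]
  [DistribMulAction H V], TL p n H V → p ≠ 2 → ∀ L : Subgroup H, L.Normal → IsQuasisimple L →
    (∃ (F : Type) (_ : Field F) (_ : Fintype F), Odd (Fintype.card F) ∧ 3 < Fintype.card F ∧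
      Nonempty (L ≃* SL(2, F))) ∨ IsNonsplitDoubleCover L (alternatingGroup (Fin 7))

def CharPStmt : Prop := ∀ (p n : ℕ) (H V : Type u) [Group H] [AddCommGroup V]
  [DistribMulAction H V], TL p n H V → ∀ L : Subgroup H, L.Normal → ∀ d f : ℕ, Num p n L d f →
    ∀ (F : Type) [Field F] [Fintype F] (a : ℕ), Fintype.card F = p ^ a → 4 ≤ p ^ a →
      Nonempty (L ≃* SL(2, F)) → Shape p H

def ArithStmt : Prop := ∀ p s d f c e i j k : ℕ, p.Prime → s.Prime → p ≠ 2 → p ≠ s → 5 ≤ s →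
  1 ≤ f → s ≤ 2 * d + 1 → s - 1 = 2 ^ i * p ^ j → Odd c → 2 * c ∣ p ^ f - 1 → (e = 1 ∨ e = 2) →
  1 ≤ k → (p ^ (d * f) - 1) * p ^ k = e * c * (s * (s ^ 2 - 1)) →
    p = 3 ∧ c = 1 ∧ ((s = 5 ∧ e = 2) ∨ (s = 13 ∧ e = 1))

def CrossStmt : Prop := ∀ (p n : ℕ) (H V : Type u) [Group H] [AddCommGroup V]
  [DistribMulAction H V], TL p n H V → p ≠ 2 → p ∣ Nat.card H → ∀ L : Subgroup H, L.Normal →
    ∀ d f : ℕ, Num p n L d f → ∀ (F : Type) [Field F] [Fintype F], Odd (Fintype.card F) →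
      3 < Fintype.card F → ¬ p ∣ Fintype.card F → Nonempty (L ≃* SL(2, F)) → Shape p H

def A7Stmt : Prop := ∀ (p n : ℕ) (H V : Type u) [Group H] [AddCommGroup V]
  [DistribMulAction H V], TL p n H V → p ≠ 2 → ∀ L : Subgroup H, L.Normal → IsQuasisimple L →
    ∀ d f : ℕ, Num p n L d f → ¬ IsNonsplitDoubleCover L (alternatingGroup (Fin 7))

def RegStmt : Prop := ∀ (p n : ℕ) (H V : Type u) [Group H] [AddCommGroup V]
  [DistribMulAction H V], TL p n H V → ¬ p ∣ Nat.card H → Shape p H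

def Ev1Stmt : Prop := ∀ (n : ℕ) (H V : Type u) [Group H] [AddCommGroup V]
  [DistribMulAction H V], TL 2 n H V → ∀ L : Subgroup H, L.Normal → IsQuasisimple L →
    IsSimpleGroup L ∧ 3 ∣ Nat.card L

/-! ### Facts on known groups -/

def FslStmt : Prop := ∀ (F : Type) [Field F] [Fintype F] (a : ℕ), Fintype.card F = 2 ^ a →
  2 ≤ a → IsSimpleGroup SL(2, F) ∧ ¬ IsMulCommutative SL(2, F) ∧
    Nat.card SL(2, F) = 2 ^ a * ((2 ^ a) ^ 2 - 1) ∧
    (∀ y l : SL(2, F), orderOf y = 3 → Commute y l → (∃ k : ℕ, l ^ 2 ^ k = 1) → l = 1) ∧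
    (∀ y : SL(2, F), orderOf y = 3 → IsConj y y⁻¹) ∧
    (Even a → ∀ y : SL(2, F), orderOf y = 3 → ∃ Q : Subgroup SL(2, F), IsPGroup 2 Q ∧
      y ∈ normalizer (Q : Set SL(2, F)) ∧ ∃ q ∈ Q, ¬ Commute q y)

def FisoStmt : Prop := ∀ (G : Type u) [Group G],
  ((∃ (F : Type) (_ : Field F) (_ : Fintype F) (a : ℕ), 2 ≤ a ∧ Fintype.card F = 2 ^ a ∧
      Nonempty (G ≃* Matrix.ProjectiveSpecialLinearGroup (Fin 2) F)) ∨
    Nonempty (G ≃* alternatingGroup (Fin 5))) → IsoE G

def Fu3Stmt : Prop := ∀ (F : Type) [Field F] [Fintype F] (a : ℕ), 2 ≤ a →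
  Fintype.card F = (2 ^ a) ^ 2 → ∃ r : ℕ, r.Prime ∧ r ≠ 2 ∧
    ∃ R : Subgroup (PSU 3 F (2 ^ a)), IsPGroup r R ∧ ¬ IsCyclic R

def FszStmt : Prop := ∀ (G : Type u) [Group G] [Finite G], Lie.IsoSuzuki G →
  ¬ 3 ∣ Nat.card G ∧ (∀ P Q : Sylow 2 G, P ≠ Q → (P : Subgroup G) ⊓ Q = ⊥) ∧
    ∃ g : G, orderOf g = 4

/-! ### Characteristic two -/

/-- `A_t = C_G(C_V(t))`. -/
def AA {G : Type u} [Group G] (V : Type u) [AddCommGroup V] [DistribMulAction G V] (t : G) :
    Subgroup G where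
  carrier := {g | ∀ v : V, t • v = v → g • v = v}
  one_mem' := fun v _ => one_smul G v
  mul_mem' := fun {a b} ha hb v hv => by rw [mul_smul, hb v hv, ha v hv]
  inv_mem' := fun {a} ha v hv => by rw [inv_smul_eq_iff, ha v hv]

theorem mem_AA {G V : Type u} [Group G] [AddCommGroup V] [DistribMulAction G V] {t g : G} :
    g ∈ AA V t ↔ ∀ v : V, t • v = v → g • v = v := Iff.rfl

theorem self_mem_AA {G V : Type u} [Group G] [AddCommGroup V] [DistribMulAction G V] (t : G) :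
    t ∈ AA V t := fun _ h => h

theorem conj_mem_AA {G V : Type u} [Group G] [AddCommGroup V] [DistribMulAction G V] {t g a : G} :
    g * a * g⁻¹ ∈ AA V (g * t * g⁻¹) ↔ a ∈ AA V t := by
  constructor
  · intro h v hv
    have := h (g • v) (by rw [mul_smul, mul_smul, inv_smul_smul, hv])
    rwa [mul_smul, mul_smul, inv_smul_smul, smul_left_cancel_iff] at this
  · intro h v hv
    rw [mul_smul, mul_smul, smul_eq_iff_eq_inv_smul] at hv ⊢
    exact h _ hv

theorem AA_conj {G V : Type u} [Group G] [AddCommGroup V] [DistribMulAction G V] (t g : G) :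
    AA V (g * t * g⁻¹) = (AA V t).map (MulAut.conj g).toMonoidHom := by
  ext x
  constructor
  · intro hx
    refine ⟨g⁻¹ * x * g, (conj_mem_AA (g := g)).1 ?_, by simp [mul_assoc]⟩
    rwa [show g * (g⁻¹ * x * g) * g⁻¹ = x by group]
  · rintro ⟨a, ha, rfl⟩
    exact conj_mem_AA.2 ha

/-- Involutions act freely and the groups `A_t` are elementary abelian, quadratic and TI. -/
structure KitA (G V : Type u) [Group G] [AddCommGroup V] [DistribMulAction G V] : Prop where
  faithful : ∀ g : G, (∀ v : V, g • v = v) → g = 1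
  free : ∀ t : G, orderOf t = 2 → ∀ v : V, t • v = v → ∃ w : V, v = t • w + w
  half : ∀ t : G, orderOf t = 2 → Nat.card {v : V // t • v = v} ^ 2 = Nat.card V
  sq : ∀ t : G, orderOf t = 2 → ∀ a ∈ AA V t, a ^ 2 = 1
  comm : ∀ t : G, orderOf t = 2 → ∀ a ∈ AA V t, ∀ b ∈ AA V t, Commute a b
  fix : ∀ t : G, orderOf t = 2 → ∀ a ∈ AA V t, a ≠ 1 → ∀ v : V, a • v = v ↔ t • v = v
  eq : ∀ t : G, orderOf t = 2 → ∀ a ∈ AA V t, a ≠ 1 → AA V a = AA V t
  star : ∀ Q : Subgroup G, IsPGroup 2 Q → ∃ Q' : Subgroup G, IsPGroup 2 Q' ∧ Q ≤ Q' ∧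
    normalizer (Q : Set G) ≤ normalizer (Q' : Set G) ∧ ∀ t ∈ Q, AA V t ≤ Q'

/-- Elements of order three act quadratically on the 2-groups they normalise. -/
def KitB (G V : Type u) [Group G] [AddCommGroup V] [DistribMulAction G V] : Prop :=
  ∀ y : G, orderOf y = 3 → ∀ Q : Subgroup G, IsPGroup 2 Q → y ∈ normalizer (Q : Set G) →
    ∀ q ∈ Q, ¬ Commute q y → orderOf ⁅q, y⁆ = 2 ∧ ⁅Q, zpowers y⁆ ≤ AA V ⁅q, y⁆

def KitAStmt : Prop := ∀ (G V : Type u) [Group G] [Finite G] [AddCommGroup V]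
  [DistribMulAction G V], SRM 2 G V → pCore 2 G = ⊥ → KitA G V

def KitBStmt : Prop := ∀ (G V : Type u) [Group G] [Finite G] [AddCommGroup V]
  [DistribMulAction G V], SRM 2 G V → KitA G V → KitB G V

/-- The normal closure of `x` in `N`. -/
def ncl {G : Type u} [Group G] (N : Subgroup G) (x : G) : Subgroup G :=
  closure {y | ∃ n ∈ N, y = n * x * n⁻¹}

/-- Structure of proper subgroups containing an element of order three. -/
def Loc (G : Type u) [Group G] : Prop := ∀ N : Subgroup G, N ≠ ⊤ → ∀ x ∈ N, orderOf x = 3 →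
  ncl N x ≤ zpowers x ⊔ pCoreOf 2 N ∨
    ∃ (F : Type) (_ : Field F) (_ : Fintype F) (a : ℕ), Fintype.card F = 2 ^ a ∧ 2 ≤ a ∧
      ∃ ρ : ncl N x →* SL(2, F), Function.Surjective ρ ∧
        ρ.ker = (pCoreOf 2 N).subgroupOf (ncl N x)

/-- The induction hypothesis. -/
def IH (m : ℕ) : Prop := ∀ (K : Type u) [Group K] [Finite K], Nat.card K < m → IsSimpleGroup K →
  ¬ IsMulCommutative K → SR 2 K → 3 ∣ Nat.card K → IsoE K

def S1Stmt : Prop := ∀ (X : Type u) [Group X] [Finite X], K0 2 X → pCore 2 X = ⊥ →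
  (∀ K : Subgroup X, IsSimpleGroup K → ¬ IsMulCommutative K → 3 ∣ Nat.card K → IsoE K) →
    ∀ x : X, orderOf x = 3 → (zpowers x).Normal ∨ IsoE (normalClosure ({x} : Set X))

def LocStmt : Prop := ∀ (G : Type u) [Group G] [Finite G], SR 2 G → IH.{u} (Nat.card G) → Loc G

/-- A minimal counterexample. -/
structure Ctx (G V : Type u) [Group G] [AddCommGroup V] [DistribMulAction G V] : Prop where
  simple : IsSimpleGroup G
  nc : ¬ IsMulCommutative G
  three : 3 ∣ Nat.card G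
  srm : SRM 2 G V
  k0 : K0 2 G
  ka : KitA G V
  kb : KitB G V
  loc : Loc G

/-- Some element of order three acts non-trivially on a 2-subgroup. -/
def HypA (G : Type u) [Group G] : Prop := ∃ y : G, orderOf y = 3 ∧ ∃ Q : Subgroup G,
  IsPGroup 2 Q ∧ y ∈ normalizer (Q : Set G) ∧ ∃ q ∈ Q, ¬ Commute q y

/-- `B ≤ K ≤ N(B)` with `K / B ≅ SL₂(2^a)`, `a ≥ 3`, and `y ∈ K`. -/
def Top {G : Type u} [Group G] (B : Subgroup G) (y : G) (K : Subgroup G) : Prop :=
  y ∈ K ∧ B ≤ K ∧ K ≤ normalizer (B : Set G) ∧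
    ∃ (F : Type) (_ : Field F) (_ : Fintype F) (a : ℕ), Fintype.card F = 2 ^ a ∧ 3 ≤ a ∧
      ∃ ρ : K →* SL(2, F), Function.Surjective ρ ∧ ρ.ker = B.subgroupOf K

def AlgStmt : Prop := ∀ (F : Type) [Field F] [Finite F], (2 : F) = 0 → 4 < Nat.card F →
  ∀ (Y R B : Type u) [AddCommGroup Y] [AddCommGroup R] [AddCommGroup B]
    [DistribMulAction SL(2, F) Y] [DistribMulAction SL(2, F) R] [DistribMulAction SL(2, F) B]
    [Finite Y] [Finite R] [Finite B] [Nontrivial R],
    (∀ m : Y, m + m = 0) → (∀ m : R, m + m = 0) → (∀ m : B, m + m = 0) →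
    H82.FPF3 F Y → H82.FPF3 F R → ∀ g : B →+ Y →+ R,
      (∀ (k : SL(2, F)) (b : B) (m : Y), g (k • b) (k • m) = k • g b m) →
      (∀ b : B, b ≠ 0 → Function.Surjective (g b)) → ∀ (k : SL(2, F)) (b : B), k • b = b

def G7aStmt : Prop := ∀ (G V : Type u) [Group G] [Finite G] [AddCommGroup V]
  [DistribMulAction G V], Ctx G V → ∀ t y g : G, orderOf t = 2 → orderOf y = 3 →
    y ∈ normalizer (AA V t : Set G) → (∃ a ∈ AA V t, ¬ Commute a y) →
    AA V (g * t * g⁻¹) ≠ AA V t → (∀ a ∈ AA V t, ∀ b ∈ AA V (g * t * g⁻¹), Commute a b) →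
      ∃ K : Subgroup G, Top (AA V t ⊔ AA V (g * t * g⁻¹)) y K

def G7bStmt : Prop := ∀ (G V : Type u) [Group G] [Finite G] [AddCommGroup V]
  [DistribMulAction G V], SRM 2 G V → KitA G V → ∀ t s y : G, orderOf t = 2 → orderOf s = 2 →
    orderOf y = 3 → AA V s ≠ AA V t → (∀ a ∈ AA V t, ∀ b ∈ AA V s, Commute a b) →
      ∀ K : Subgroup G, Top (AA V t ⊔ AA V s) y K → ∀ a ∈ AA V t, Commute a y

def WcStmt : Prop := ∀ (G V : Type u) [Group G] [Finite G] [AddCommGroup V]
  [DistribMulAction G V], Ctx G V → HypA G → IsoE G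

/-- Local consequences of `¬ HypA`. -/
structure LB (G : Type u) [Group G] : Prop where
  a : ∀ T : Subgroup G, IsPGroup 2 T → ∀ w ∈ normalizer (T : Set G), (∃ k : ℕ, w ^ 3 ^ k = 1) →
    (∃ q ∈ T, ¬ Commute q w) → ∀ x ∈ zpowers w, orderOf x = 3 →
      normalizer (T : Set G) ≤ normalizer (zpowers x : Set G)
  b : ∀ T : Subgroup G, IsPGroup 2 T → T ≠ ⊥ → ∀ s ∈ normalizer (T : Set G),
    ∀ x ∈ normalizer (T : Set G), ∀ x' ∈ normalizer (T : Set G), (∃ k : ℕ, s ^ 2 ^ k = 1) →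
      orderOf x = 3 → orderOf x' = 3 → Commute s x' → s * x * s⁻¹ ≠ x⁻¹
  c : ∀ T : Subgroup G, IsPGroup 2 T → T ≠ ⊥ → ∀ x ∈ normalizer (T : Set G), orderOf x = 3 →
    ∀ S : Sylow 2 G, (S : Subgroup G) ≤ normalizer (T : Set G) →
      (S : Subgroup G) ≤ normalizer (zpowers x : Set G) →
        normalizer (T : Set G) ≤ normalizer (zpowers x : Set G)

/-- Every 3-element centralises the 2-subgroups it normalises. -/
def NoAct (G : Type u) [Group G] : Prop := ∀ T : Subgroup G, IsPGroup 2 T →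
  ∀ w ∈ normalizer (T : Set G), (∃ k : ℕ, w ^ 3 ^ k = 1) → ∀ q ∈ T, Commute q w

def LocBStmt : Prop := ∀ (G : Type u) [Group G] [Finite G], IsSimpleGroup G →
  ¬ IsMulCommutative G → K0 2 G → Loc G → ¬ HypA G → LB G

def MainBStmt : Prop := ∀ (G : Type u) [Group G] [Finite G], IsSimpleGroup G →
  ¬ IsMulCommutative G → K0 2 G → ¬ HypA G → LB G → NoAct G

def GoldStmt : Prop := ∀ (G : Type u) [Group G] [Finite G], IsSimpleGroup G →
  ¬ IsMulCommutative G → K0 2 G → 3 ∣ Nat.card G → NoAct G → IsoE G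

/-! ### Basic lemmas -/

section Basic

variable {p : ℕ} {G V : Type u} [Group G] [AddCommGroup V] [DistribMulAction G V]

theorem SRM.subgroup (h : SRM p G V) (K : Subgroup G) : SRM p K V where
  pp := h.pp
  fin := h.fin
  nt := h.nt
  pV := h.pV
  st := fun v hv g => by
    obtain ⟨k, hk⟩ := h.st v hv ⟨g.1.1, g.2⟩
    exact ⟨k, Subtype.ext (Subtype.ext (by simpa using congrArg Subtype.val hk))⟩

theorem SR.subgroup (h : SR p G) (K : Subgroup G) : SR p K := by
  obtain ⟨V, _, _, h⟩ := h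
  exact ⟨V, _, _, h.subgroup K⟩

/-- Non-trivial elements of order prime to `p` have no non-zero fixed vector. -/
theorem SRM.fpf (h : SRM p G V) {g : G} (hg : g ≠ 1) (hp : ¬ p ∣ orderOf g) {v : V}
    (hv : g • v = v) : v = 0 := by
  by_contra h0
  obtain ⟨k, hk⟩ := h.st v h0 ⟨g, hv⟩
  have h1 : orderOf g ∣ p ^ k := orderOf_dvd_of_pow_eq_one (congrArg Subtype.val hk)
  obtain ⟨j, -, hj⟩ := (Nat.dvd_prime_pow h.pp).1 h1
  rcases j with _ | j
  · exact hg (orderOf_eq_one_iff.1 (by simpa using hj))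
  · exact hp (hj ▸ dvd_pow_self p (Nat.succ_ne_zero j))

theorem SRM.semireg (h : SRM p G V) (R : Subgroup G) (hR : ∀ g ∈ R, ¬ p ∣ orderOf g) :
    @H5.Semireg R (Multiplicative V) _ _ (H61.multAction R V) :=
  H61.semireg_multAction fun g hg _ hv =>
    h.fpf (g := g.1) (fun e => hg (Subtype.ext e)) (hR g.1 g.2) hv

theorem not_dvd_orderOf_of_isPGroup {r : ℕ} (hp : p.Prime) (hr : r.Prime) (hrp : r ≠ p)
    {R : Subgroup G} (hR : IsPGroup r R) {g : G} (hg : g ∈ R) : ¬ p ∣ orderOf g := fun hd => by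
  obtain ⟨k, hk⟩ := hR ⟨g, hg⟩
  exact hrp ((Nat.prime_dvd_prime_iff_eq hp hr).1 (hp.dvd_of_dvd_pow
    (hd.trans (orderOf_dvd_of_pow_eq_one (congrArg Subtype.val hk))))).symm

theorem SRM.k0 [Finite G] (h : SRM p G V) : K0 p G := by
  have := h.fin
  have := h.nt
  have key : ∀ r : ℕ, r.Prime → r ≠ p → ∀ R : Subgroup G, IsPGroup r R →
      IsCyclic R ∨ (r = 2 ∧ ∃ n : ℕ, Nonempty (R ≃* QuaternionGroup (2 ^ n))) := by
    intro r hr hrp R hR
    have := Fact.mk hr
    let _ := H61.multAction R V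
    exact (h.semireg R fun g hg =>
      not_dvd_orderOf_of_isPGroup h.pp hr hrp hR hg).isCyclic_or_quaternion hR
  refine ⟨fun r hr hrp hr2 R hR => (key r hr hrp R hR).resolve_right fun e => hr2 e.1, ?_,
    fun hp R hR => (key 2 Nat.prime_two hp.symm R hR).imp_right fun e => e.2⟩
  · intro c x hx hpx hpc hn
    have := Fact.mk h.pp
    set R : Subgroup G := zpowers c ⊔ zpowers x with hRdef
    have hN : R ≤ normalizer (zpowers c : Set G) :=
      sup_le le_normalizer ((zpowers_le).2 hn)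
    have hcard : ¬ p ∣ Nat.card R := by
      have h1 : ((zpowers c).subgroupOf R).Normal :=
        (normal_subgroupOf_iff_le_normalizer le_sup_left).2 hN
      have h2 : Nat.card R ∣ Nat.card (zpowers c) * Nat.card (zpowers x) := by
        have h3 : (zpowers c).subgroupOf R ⊔ (zpowers x).subgroupOf R = ⊤ := by
          rw [← subgroupOf_sup le_sup_left le_sup_right, subgroupOf_self]
        have h4 := ((zpowers c).subgroupOf R).card_mul_index
        have h5 : ((zpowers c).subgroupOf R).index ∣ Nat.card ((zpowers x).subgroupOf R) := by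
          rw [← relIndex_top_right, ← h3, sup_comm, relIndex_sup_right]
          exact relIndex_dvd_card _ _
        rw [Nat.card_congr (subgroupOfEquivOfLe (le_sup_left : zpowers c ≤ R)).toEquiv] at h4
        rw [Nat.card_congr (subgroupOfEquivOfLe (le_sup_right : zpowers x ≤ R)).toEquiv] at h5
        rw [← h4]
        exact Nat.mul_dvd_mul_left _ h5
      intro hd
      rw [Nat.card_zpowers, Nat.card_zpowers] at h2
      exact ((Nat.Prime.dvd_mul h.pp).1 (hd.trans h2)).elim hpc hpx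
    let _ := H61.multAction R V
    have hs := h.semireg R fun g hg hd => hcard (hd.trans (R.orderOf_dvd_natCard hg))
    have hc : c ∈ R := mem_sup_left (mem_zpowers c)
    have hx' : x ∈ R := mem_sup_right (mem_zpowers x)
    have := hs.commute_of_prime_order (c := ⟨c, hc⟩) (x := ⟨x, hx'⟩)
      (by rwa [← orderOf_coe]) (by
        rw [mem_normalizer_iff] at hn ⊢
        intro y
        have e : ∀ z : R, z ∈ zpowers (⟨c, hc⟩ : R) ↔ (z : G) ∈ zpowers c := fun z => by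
          simp only [mem_zpowers_iff, Subtype.ext_iff, SubgroupClass.coe_zpow]
        exact (e y).trans ((hn y).trans (e (⟨x, hx'⟩ * y * (⟨x, hx'⟩ : R)⁻¹)).symm))
    exact congrArg Subtype.val this

theorem SR.k0 [Finite G] (h : SR p G) : K0 p G := by
  obtain ⟨V, _, _, h⟩ := h
  exact h.k0

theorem SRM.smul_eq_neg (h : SRM p G V) (hp : p ≠ 2) {s : G} (hs : orderOf s = 2) (v : V) :
    s • v = -v := by
  have h1 : s • (s • v + v) = s • v + v := by
    rw [smul_add, ← mul_smul, ← pow_two, ← hs, pow_orderOf_eq_one, one_smul, add_comm]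
  exact eq_neg_of_add_eq_zero_left (h.fpf (g := s) (by rintro rfl; simp at hs) (by
    rw [hs]; exact fun hd => hp ((Nat.prime_dvd_prime_iff_eq h.pp Nat.prime_two).1 hd)) h1)

/-- In characteristic two an element of order three satisfies `y² + y + 1 = 0`. -/
theorem SRM.three (h : SRM 2 G V) {y : G} (hy : orderOf y = 3) (v : V) :
    y • v + y⁻¹ • v = -v := by
  have h3 : y * y = y⁻¹ := by
    rw [eq_inv_iff_mul_eq_one, ← pow_orderOf_eq_one y, hy, pow_succ, pow_two]
  have h1 : y • (y • v + y⁻¹ • v + v) = y • v + y⁻¹ • v + v := by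
    rw [smul_add, smul_add, ← mul_smul, h3, smul_inv_smul]; abel
  exact eq_neg_of_add_eq_zero_left (h.fpf (g := y) (by rintro rfl; simp at hy)
    (by rw [hy]; norm_num) h1)

theorem SRM.add_self (h : SRM 2 G V) (v : V) : v + v = 0 := by rw [← two_nsmul, h.pV]

variable {n : ℕ}

theorem TL.finite (h : TL p n G V) : Finite G := by
  have := h.srm.fin
  exact h.tl.finite

theorem TL.k0 (h : TL p n G V) : K0 p G := by
  have := h.finite
  exact h.srm.k0

/-- For odd `p` there is at most one involution. -/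
theorem TL.inv_unique (h : TL p n G V) (hp : p ≠ 2) {s t : G} (hs : orderOf s = 2)
    (ht : orderOf t = 2) : s = t :=
  h.tl.eq_of_smul_eq fun v => by rw [h.srm.smul_eq_neg hp hs, h.srm.smul_eq_neg hp ht]

theorem TL.index_stabilizer (h : TL p n G V) {v : V} (hv : v ≠ 0) :
    (MulAction.stabilizer G v).index = p ^ n - 1 := by
  have := h.srm.fin
  rw [MulAction.index_stabilizer]
  have : MulAction.orbit G v = {0}ᶜ := by
    ext w
    exact ⟨by rintro ⟨g, rfl⟩; exact H61.smul_ne_zero_of_ne g hv, fun hw => h.tl.trans v w hv hw⟩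
  rw [this, Set.ncard_compl, h.card, Set.ncard_singleton]

theorem TL.card_eq (h : TL p n G V) : ∃ k : ℕ, Nat.card G = (p ^ n - 1) * p ^ k := by
  have := h.finite
  have := h.srm.nt
  have := Fact.mk h.srm.pp
  obtain ⟨v, hv⟩ := exists_ne (0 : V)
  obtain ⟨k, hk⟩ := (h.srm.st v hv).exists_card_eq
  exact ⟨k, by rw [← (MulAction.stabilizer G v).card_mul_index, hk, h.index_stabilizer hv,
    mul_comm]⟩

theorem TL.eq_bot (h : TL p n G V) {R : Subgroup G} (hn : R.Normal) (hR : IsPGroup p R) :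
    R = ⊥ := le_bot_iff.1 (h.core ▸ le_sSup ⟨hn, hR⟩)

theorem pCore_eq_bot_of_simple [Finite G] (hs : IsSimpleGroup G) (h3 : 3 ∣ Nat.card G) :
    pCore 2 G = ⊥ := by
  refine (hs.eq_bot_or_eq_top_of_normal (pCore 2 G) inferInstance).resolve_right fun ht => ?_
  obtain ⟨k, hk⟩ := (H3.pCore_isPGroup 2 G).exists_card_eq
  rw [ht, card_top] at hk
  have := Nat.prime_three.dvd_of_dvd_pow (hk ▸ h3)
  omega

end Basic

/-! ### Assembly -/

theorem main_two (ka : KitAStmt.{u}) (kb : KitBStmt.{u}) (loc : LocStmt.{u}) (wc : WcStmt.{u})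
    (lb : LocBStmt.{u}) (mb : MainBStmt.{u}) (gold : GoldStmt.{u}) (m : ℕ) : IH.{u} m := by
  induction m with
  | zero => intro K _ _ h; exact absurd h (Nat.not_lt_zero _)
  | succ m ih =>
    intro K _ _ hK hs hn hsr h3
    rcases Nat.lt_succ_iff_lt_or_eq.1 hK with hK | rfl
    · exact ih K hK hs hn hsr h3
    have hl := loc K hsr ih
    by_cases hA : HypA K
    · obtain ⟨V, _, _, h⟩ := hsr
      have h1 := ka K V h (pCore_eq_bot_of_simple hs h3)
      exact wc K V ⟨hs, hn, h3, h, h.k0, h1, kb K V h h1, hl⟩ hA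
    · exact gold K hs hn hsr.k0 h3 (mb K hs hn hsr.k0 hA (lb K hs hn hsr.k0 hl hA))

theorem main_of (comp : CompStmt.{u}) (fld : FldStmt.{u}) (odd1 : Odd1Stmt.{u})
    (charP : CharPStmt.{u}) (cross : CrossStmt.{u}) (a7 : A7Stmt.{u}) (reg : RegStmt.{u})
    (ev1 : Ev1Stmt.{u}) (ih : ∀ m, IH.{u} m) (p n : ℕ) (H V : Type u) [Group H]
    [AddCommGroup V] [DistribMulAction H V] (h : TL p n H V) : Shape p H := by
  have := h.finite
  obtain ⟨L, hL, hq⟩ := comp p n H V h
  obtain ⟨d, f, hn⟩ := fld p n H V h L hL hq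
  by_cases hp : p = 2
  · subst hp
    obtain ⟨hs, h3⟩ := ev1 n H V h L hL hq
    have hnc : ¬ IsMulCommutative L := fun hc => by
      have h1 : commutator L = ⊤ := hq.1.commutator_eq_top
      have h2 : commutator L = ⊥ := by
        rw [commutator_def, commutator_eq_bot_iff_le_centralizer]
        exact fun a _ b _ => mul_comm' b a
      exact hs.toNontrivial.exists_pair_ne.elim fun a ⟨b, hab⟩ => hab (by
        have ha : a ∈ (⊥ : Subgroup L) := h2 ▸ h1 ▸ mem_top a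
        have hb : b ∈ (⊥ : Subgroup L) := h2 ▸ h1 ▸ mem_top b
        rw [mem_bot.1 ha, mem_bot.1 hb])
    obtain ⟨F, _, _, a, hF, ha, he⟩ := ih _ L (Nat.lt_succ_self _) hs hnc
      (SR.subgroup ⟨V, _, _, h.srm⟩ L) h3
    exact charP 2 n H V h L hL d f hn F a hF
      ((Nat.pow_le_pow_right (by norm_num) ha).trans' (by norm_num)) he
  by_cases hd : p ∣ Nat.card H
  swap
  · exact reg p n H V h hd
  rcases odd1 p n H V h hp L hL hq with ⟨F, _, _, h1, h2, he⟩ | h7
  · by_cases hF : p ∣ Fintype.card F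
    · obtain ⟨s, _, a, hs, ha⟩ := FiniteField.card' F
      obtain rfl : p = s := (Nat.prime_dvd_prime_iff_eq h.srm.pp hs).1
        (h.srm.pp.dvd_of_dvd_pow (ha ▸ hF))
      exact charP p n H V h L hL d f hn F a ha (by omega) he
    · exact cross p n H V h hp hd L hL d f hn F h1 h2 hF he
  · exact absurd h7 (a7 p n H V h hp L hL hq d f hn)

end Cfsg.Agent.H73.Gag
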