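import Cfsg.Agent.H76.K0Defs

/-! Pieces: the order of a Sylow subgroup is bounded by the size of the principal block. -/

set_option autoImplicit false

namespace Cfsg.Agent.H73.Bd

open Cfsg

universe u

def LatStmt : Prop := ∀ k : ℕ, ∃ Q : ℕ, ∀ (ι : Type u) [Fintype ι], Fintype.card ι ≤ k →
  ∀ (i0 : ι) (d : ι → ℤ) (q : ℕ), 0 < q → d i0 = 1 →
    (∀ (u : ℤ) (n : ι → ℤ), (∀ i, (q : ℤ) ∣ n i - u * d i) → (q : ℤ) * n i0 ≤ ∑ i, n i ^ 2) → q ≤ Q

def ChStmt : Prop := ∀ (G : Type u) [Group G] [Finite G] (p : ℕ) [Fact p.Prime] (M : Ideal AlgInt),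
  IsPModular p M → ∀ (P : Sylow p G), Finite (principalBlock M G) ∧
    ∃ i0 : principalBlock M G, charDegree (i0.1 : G → ℂ) = 1 ∧
      ∀ [Fintype (principalBlock M G)] (u : ℤ) (n : principalBlock M G → ℤ),
        (∀ i, ((Nat.card P : ℕ) : ℤ) ∣ n i - u * (charDegree (i.1 : G → ℂ) : ℤ)) →
        ((Nat.card P : ℕ) : ℤ) * n i0 ≤ ∑ i, n i ^ 2

theorem asm (lat : LatStmt.{u}) (ch : ChStmt.{u}) (p : ℕ) [hp : Fact p.Prime] (k : ℕ) :
    ∃ N : ℕ, ∀ (G : Type u) [Group G] [Finite G] (M : Ideal Cfsg.AlgInt), Cfsg.IsPModular p M →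
      Nat.card (Cfsg.principalBlock M G) ≤ k → (Nat.card G).factorization p ≤ N := by
  obtain ⟨Q, hQ⟩ := lat k
  refine ⟨Q, fun G _ _ M hM hk => ?_⟩
  obtain ⟨P⟩ : Nonempty (Sylow p G) := inferInstance
  obtain ⟨hfin, i0, h1, h⟩ := ch G p M hM P
  have := Fintype.ofFinite (principalBlock M G)
  have hq := hQ (principalBlock M G) (by rw [← Nat.card_eq_fintype_card]; exact hk) i0
    (fun i => (charDegree (i.1 : G → ℂ) : ℤ)) (Nat.card P) Nat.card_pos (by simp [h1]) h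
  rw [P.card_eq_multiplicity] at hq
  exact ((Nat.lt_pow_self hp.out.one_lt).le).trans hq

end Cfsg.Agent.H73.Bd
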