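import Mathlib

/-! Modules of alternating groups with a vector fixed by a non-solvable subgroup: the statement. -/

set_option autoImplicit false

namespace Cfsg.Agent.H73.AS

/-- Every nonzero module of `A_n` over `ZMod p` has a nonzero vector with non-solvable stabiliser. -/
def ModStmt (p n : ℕ) : Prop := ∀ (d : ℕ), 0 < d →
  ∀ ρ : Representation (ZMod p) (alternatingGroup (Fin n)) (Fin d → ZMod p),
    ∃ v ≠ 0, ∃ L : Subgroup (alternatingGroup (Fin n)), ¬ Group.IsSolvable L ∧ ∀ g ∈ L, ρ g v = v

end Cfsg.Agent.H73.AS
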