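import Mathlib

/-! Polytabloids as functions: the combinatorial lemmas. -/

set_option autoImplicit false

namespace Cfsg.Agent.H73.AS

open Finset Equiv

/-- Row or column functions. -/
abbrev Fn (n : ℕ) := Fin n → Fin n

variable {n : ℕ}

/-- The sign of `b - a`. -/
def sg (a b : ℕ) : ℤ := if a < b then 1 else if b < a then -1 else 0

/-- The height of the column of `x`. -/
def ht (c : Fn n) (x : Fin n) : ℕ := #{y | c y = c x}

/-- The factor of the pair `x, y`. -/
def ph (c f : Fn n) (x y : Fin n) : ℤ := if c x = c y then sg (f x) (f y) else sg (c x) (c y)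

/-- The coefficient of the tabloid `f` in the polytabloid with columns `c`. -/
def E (c f : Fn n) : ℤ := if ∀ x, (f x : ℕ) < ht c x then ∏ y, ∏ x ∈ Iio y, ph c f x y else 0

/-- `f` is injective on the columns. -/
def Inj (c f : Fn n) : Prop := ∀ x y, c x = c y → f x = f y → x = y

/-- The weight of a tabloid. -/
def W (f : Fn n) : ℕ := ∑ x, 11 ^ (f x : ℕ)

/-- The weight of a shape. -/
def w (c : Fn n) : ℕ := ∑ j, ∑ i ∈ range #{y | c y = j}, 11 ^ i

theorem sg_swap (a b : ℕ) : sg a b = -sg b a := by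
  unfold sg; split_ifs <;> omega

theorem sg_sq {a b : ℕ} (h : a ≠ b) : sg a b * sg a b = 1 := by
  unfold sg; split_ifs <;> omega

theorem sg_self (a : ℕ) : sg a a = 0 := by simp [sg]

theorem card_comp (c : Fn n) (σ : Perm (Fin n)) (j : Fin n) : #{y | (c ∘ σ) y = j} = #{y | c y = j} :=
  card_equiv σ (by simp)

theorem ht_comp (c : Fn n) (σ : Perm (Fin n)) (x : Fin n) : ht (c ∘ σ) x = ht c (σ x) :=
  card_comp c σ _

theorem W_comp (f : Fn n) (σ : Perm (Fin n)) : W (f ∘ σ) = W f :=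
  Equiv.sum_comp σ fun x => 11 ^ (f x : ℕ)

theorem w_comp (c : Fn n) (σ : Perm (Fin n)) : w (c ∘ σ) = w c := by
  simp only [w, card_comp]

theorem E_comp (c f : Fn n) (σ : Perm (Fin n)) : E (c ∘ σ) (f ∘ σ) = Perm.sign σ * E c f := by
  have h := σ.prod_Iio_comp_eq_sign_mul_prod (f := ph c f) fun x y => by
    unfold ph
    by_cases e : c x = c y
    · rw [if_pos e, if_pos e.symm, sg_swap]
    · rw [if_neg e, if_neg (Ne.symm e), sg_swap]
  unfold E
  simp only [ht_comp, Function.comp, σ.forall_congr_right (q := fun x => (f x : ℕ) < ht c x)]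
  split_ifs
  · exact h
  · simp

theorem E_eq_zero {c f : Fn n} (h : ¬ Inj c f) : E c f = 0 := by
  simp only [Inj, not_forall] at h
  obtain ⟨x, y, h1, h2, h3⟩ := h
  unfold E
  split_ifs
  · wlog hxy : x < y generalizing x y
    · exact this y x h1.symm h2.symm (Ne.symm h3) (lt_of_le_of_ne (not_lt.1 hxy) (Ne.symm h3))
    exact prod_eq_zero (mem_univ y) (prod_eq_zero (mem_Iio.2 hxy) (by simp [ph, h1, h2, sg_self]))
  · rfl

theorem E_sq {c f : Fn n} (h1 : Inj c f) (h2 : ∀ x, (f x : ℕ) < ht c x) : E c f * E c f = 1 := by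
  rw [E, if_pos h2, ← prod_mul_distrib]
  refine prod_eq_one fun y _ => ?_
  rw [← prod_mul_distrib]
  refine prod_eq_one fun x hx => ?_
  unfold ph
  split_ifs with e
  · exact sg_sq fun k => (mem_Iio.1 hx).ne (h1 x y e (Fin.ext k))
  · exact sg_sq fun k => e (Fin.ext k)

theorem of_E_ne {c f : Fn n} (h : E c f ≠ 0) : Inj c f ∧ ∀ x, (f x : ℕ) < ht c x :=
  ⟨by_contra fun k => h (E_eq_zero k), by_contra fun k => h (if_neg k)⟩

theorem sum_pow_le (I : Finset ℕ) : ∑ i ∈ range #I, 11 ^ i + #(I \ range #I) ≤ ∑ i ∈ I, 11 ^ i := by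
  have h1 := card_nsmul_le_sum (I \ range #I) (11 ^ ·) (11 ^ #I) fun i hi =>
    Nat.pow_le_pow_right (by norm_num) (by simpa using (mem_sdiff.1 hi).2)
  have h2 := sum_le_card_nsmul (range #I \ I) (fun i => 11 ^ i + 1) (11 ^ #I) fun i hi =>
    Nat.pow_lt_pow_right (by norm_num) (by simpa using (mem_sdiff.1 hi).1)
  have h3 : #(range #I \ I) = #(I \ range #I) := card_sdiff_comm (by simp)
  rw [sum_add_distrib, h3] at h2
  have h4 := sum_sdiff (f := (11 ^ ·)) (inter_subset_left (s₁ := I) (s₂ := range #I))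
  have h5 := sum_sdiff (f := (11 ^ ·)) (inter_subset_right (s₁ := I) (s₂ := range #I))
  rw [sdiff_inter_self_left] at h4
  rw [sdiff_inter_self_right] at h5
  simp only [sum_const, smul_eq_mul, mul_one, h3] at h1 h2
  omega

theorem W_eq {c f : Fn n} (h : Inj c f) :
    W f = ∑ j, ∑ i ∈ ({y | c y = j} : Finset _).image fun x => (f x : ℕ), 11 ^ i := by
  rw [W, ← sum_fiberwise univ c]
  refine sum_congr rfl fun j _ => (sum_image fun x hx y hy e => h x y ?_ (Fin.ext e)).symm
  simp only [coe_filter, mem_univ, true_and, Set.mem_ofPred_eq] at hx hy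
  rw [hx, hy]

theorem card_img {c f : Fn n} (h : Inj c f) (j : Fin n) :
    #(({y | c y = j} : Finset _).image fun x => (f x : ℕ)) = #{y | c y = j} :=
  card_image_of_injOn fun x hx y hy e => h x y (by
    simp only [coe_filter, mem_univ, true_and, Set.mem_ofPred_eq] at hx hy
    rw [hx, hy]) (Fin.ext e)

theorem lt_of_W_le {c f : Fn n} (h : Inj c f) (h1 : W f ≤ w c) (x : Fin n) : (f x : ℕ) < ht c x := by
  have h2 := sum_le_sum fun j (_ : j ∈ univ) =>
    sum_pow_le (({y | c y = j} : Finset _).image fun x => (f x : ℕ))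
  simp only [card_img h] at h2
  rw [← W_eq h, sum_add_distrib, ← w] at h2
  have h3 := sum_eq_zero_iff.1 (Nat.le_zero.1 (Nat.le_of_add_le_add_left (h2.trans h1))) (c x) (mem_univ _)
  rw [card_eq_zero, sdiff_eq_empty_iff_subset] at h3
  exact mem_range.1 (h3 (mem_image.2 ⟨x, by simp, rfl⟩))

theorem img_eq {c f : Fn n} (h : E c f ≠ 0) (j : Fin n) :
    (({y | c y = j} : Finset _).image fun x => (f x : ℕ)) = range #{y | c y = j} := by
  obtain ⟨h1, h2⟩ := of_E_ne h
  refine eq_of_subset_of_card_le (fun i hi => ?_) (by rw [card_img h1, card_range])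
  obtain ⟨x, hx, rfl⟩ := mem_image.1 hi
  rw [← (mem_filter.1 hx).2]
  exact mem_range.2 (h2 x)

theorem W_of_E {c f : Fn n} (h : E c f ≠ 0) : W f = w c := by
  simp only [W_eq (of_E_ne h).1, img_eq h, w]

theorem exists_perm {c f g : Fn n} (hf : E c f ≠ 0) (hg : E c g ≠ 0) :
    ∃ τ : Perm (Fin n), c ∘ τ = c ∧ g ∘ τ = f := by
  have : ∀ x, ∃ y, c y = c x ∧ g y = f x := fun x => by
    have h : (f x : ℕ) ∈ range #{y | c y = c x} := mem_range.2 ((of_E_ne hf).2 x)
    rw [← img_eq hg] at h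
    obtain ⟨y, h1, h2⟩ := mem_image.1 h
    exact ⟨y, (mem_filter.1 h1).2, Fin.ext h2⟩
  choose t h1 h2 using this
  have ht : Function.Injective t := fun x y e =>
    (of_E_ne hf).1 x y (by rw [← h1, e, h1]) (by rw [← h2, e, h2])
  exact ⟨Equiv.ofBijective t ht.bijective_of_finite, funext h1, funext h2⟩

variable {k : Type*} [CommRing k]

/-- The pairing with a polytabloid. -/
def pair (m : Fn n → k) (c : Fn n) : k := ∑ f, m f * E c f

theorem pair_comp (m : Fn n → k) (c : Fn n) (σ : Perm (Fin n)) :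
    pair (fun f => m (f ∘ σ)) c = (Perm.sign σ : ℤ) * pair m (c ∘ σ) := by
  rw [pair, pair, mul_sum]
  refine Fintype.sum_equiv (arrowCongr σ.symm (Equiv.refl _)) _ _ fun f => ?_
  change _ = _ * (m (f ∘ σ) * (E (c ∘ σ) (f ∘ σ) : ℤ))
  rw [mul_left_comm, ← Int.cast_mul, E_comp, ← mul_assoc (_ : ℤ), ← Units.val_mul, Int.units_mul_self]
  simp

/-- The column group. -/
def col (c : Fn n) : Finset (Perm (Fin n)) := univ.filter fun τ => c ∘ τ = c

theorem mem_col {c : Fn n} {τ : Perm (Fin n)} : τ ∈ col c ↔ c ∘ τ = c := by simp [col]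

theorem kappa_apply {c : Fn n} {m : Fn n → k} (hm : ∀ f, m f ≠ 0 → W f ≤ w c) (g : Fn n) :
    ∑ τ ∈ col c, (Perm.sign τ : ℤ) * m (g ∘ τ) = pair m c * E c g := by
  by_cases h1 : Inj c g
  swap
  · rw [E_eq_zero h1, Int.cast_zero, mul_zero]
    simp only [Inj, not_forall] at h1
    obtain ⟨x, y, h1, h2, h3⟩ := h1
    have e1 : ∀ {u : Fn n}, u x = u y → ∀ τ : Perm (Fin n), u ∘ (swap x y * τ) = u ∘ τ := fun h τ =>
      funext fun z => apply_swap_eq_self h (τ z)
    refine sum_involution (fun τ _ => swap x y * τ) (fun τ _ => ?_) (fun τ _ _ e => ?_)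
      (fun τ hτ => ?_) fun τ _ => swap_mul_self_mul x y τ
    · rw [e1 h2]
      simp [Perm.sign_swap h3]
    · exact h3 (swap_eq_one_iff.1 (mul_eq_right.1 e))
    · rwa [mem_col, e1 h1, ← mem_col]
  by_cases h2 : ∀ x, (g x : ℕ) < ht c x
  swap
  · rw [E, if_neg h2, Int.cast_zero, mul_zero]
    refine sum_eq_zero fun τ _ => ?_
    rw [by_contra fun e => h2 (lt_of_W_le h1 (W_comp g τ ▸ hm _ e)), mul_zero]
  have h3 := E_sq h1 h2
  have h4 : E c g ≠ 0 := fun e => by simp [e] at h3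
  rw [pair, sum_mul, ← sum_filter_of_ne (s := univ) (p := fun f => E c f ≠ 0) fun f _ e k =>
    e (by simp [k])]
  have h5 : ∀ τ : Perm (Fin n), c ∘ τ = c → E c (g ∘ τ) = Perm.sign τ * E c g := fun τ e => by
    rw [← E_comp, e]
  refine sum_bij (fun τ _ => g ∘ τ) (fun τ hτ => ?_) (fun τ hτ τ' hτ' e => ?_) (fun f hf => ?_)
    fun τ hτ => ?_
  · simp [h5 τ (mem_col.1 hτ), h4]
  · exact Perm.ext fun x => h1 _ _
      ((congrFun (mem_col.1 hτ) x).trans (congrFun (mem_col.1 hτ') x).symm) (congrFun e x)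
  · obtain ⟨τ, k1, k2⟩ := exists_perm (mem_filter.1 hf).2 h4
    exact ⟨τ, mem_col.2 k1, k2⟩
  · rw [h5 τ (mem_col.1 hτ), mul_assoc, ← Int.cast_mul, mul_assoc, h3, mul_one, mul_comm]

end Cfsg.Agent.H73.AS
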