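import Mathlib
import Cfsg.Agent.H16.Brauer
import Cfsg.Agent.H19.GaloisNum
import Cfsg.Agent.H57.SpecPerm
import Cfsg.Agent.H73.AS1
import Cfsg.Agent.H73.AS2

/-! Simple modules of symmetric groups as heads of Specht modules. -/

set_option autoImplicit false

namespace Cfsg.Agent.H73.AS

open Finset Equiv H16 H19
open MonoidAlgebra (single)

/-- The group algebra of the symmetric group. -/
abbrev GA (k : Type*) [Semiring k] (n : ℕ) := MonoidAlgebra k (Perm (Fin n))

variable {M : Ideal AlgInt} {p n : ℕ}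

theorem exists_ann {G : Type*} [Group G] [Finite G] (D : Type*) [AddCommGroup D] [Module (MonoidAlgebra (kk M) G) D]
    [IsSimpleModule (MonoidAlgebra (kk M) G) D] : ∃ i : IBr M G, ∀ a : (MonoidAlgebra (kk M) G), (∀ d : D, a • d = 0) ↔ srep i a = 0 := by
  have hJ : ∀ a : (MonoidAlgebra (kk M) G), (∀ i : IBr M G, srep i a = 0) → ∀ d : D, a • d = 0 := fun a h =>
    Module.mem_annihilator.1 (IsSemisimpleModule.jacobson_le_annihilator _ D ((mem_jacobson_iff_srep a).2 h))
  choose ε hε using fun i : IBr M G => exists_srep_eq_single i 1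
  have := IsSimpleModule.nontrivial (MonoidAlgebra (kk M) G) D
  obtain ⟨d, hd⟩ := exists_ne (0 : D)
  obtain ⟨i, hi⟩ : ∃ i, ε i • d ≠ 0 := by
    by_contra! h
    have := hJ (∑ i, ε i - 1) (fun i => by
      rw [srep_apply, map_sub, map_sum, map_one]
      simp [hε]) d
    simp [sub_smul, sum_smul, h, hd] at this
  have h1 : ∀ a, srep i a = 0 → ∀ d : D, a • d = 0 := fun a ha x => by
    let U : Submodule (MonoidAlgebra (kk M) G) D :=
      { carrier := {x | ∀ a, srep i a = 0 → a • x = 0}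
        add_mem' := fun h1 h2 a ha => by rw [smul_add, h1 a ha, h2 a ha, add_zero]
        zero_mem' := fun _ _ => smul_zero _
        smul_mem' := fun b x h a ha => by rw [smul_smul, h _ (by rw [map_mul, ha, zero_mul])] }
    have : ε i • d ∈ U := fun a ha => by
      rw [smul_smul]
      refine hJ _ (fun j => ?_) d
      rw [map_mul, srep_apply j (ε i), hε]
      by_cases e : j = i
      · rw [e, ha, zero_mul]
      · rw [Pi.single_eq_of_ne e, mul_zero]
    exact ((eq_bot_or_eq_top U).resolve_left (fun e => hi (by simpa [e] using this)) ▸ Submodule.mem_top :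
      x ∈ U) a ha
  refine ⟨i, fun a => ⟨fun h => by_contra fun ha => hd ?_, h1 a⟩⟩
  have : Nonempty (Fin (bdim i)) := ⟨⟨0, bdim_pos i⟩⟩
  have := IsSimpleRing.of_ringEquiv
    (Matrix.toLinAlgEquiv' (R := kk M) (n := Fin (bdim i))).toRingEquiv inferInstance
  let I : TwoSidedIdeal (Module.End (kk M) (SMod i)) := TwoSidedIdeal.mk'
    {x | ∃ a, (∀ d : D, a • d = 0) ∧ srep i a = x} ⟨0, zero_smul _, map_zero _⟩
    (by rintro _ _ ⟨a, h1, rfl⟩ ⟨b, h2, rfl⟩; exact ⟨a + b, by simp [add_smul, h1, h2], map_add _ _ _⟩)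
    (by rintro _ ⟨a, h1, rfl⟩; exact ⟨-a, by simp [h1], map_neg _ _⟩)
    (by
      rintro x _ ⟨a, h1, rfl⟩
      obtain ⟨b, rfl⟩ := srep_surjective i x
      exact ⟨b * a, by simp [mul_smul, h1], map_mul _ _ _⟩)
    (by
      rintro _ x ⟨a, h1, rfl⟩
      obtain ⟨b, rfl⟩ := srep_surjective i x
      exact ⟨a * b, by simp [mul_smul, h1], map_mul _ _ _⟩)
  obtain ⟨b, h2, h3⟩ := (TwoSidedIdeal.mem_mk' ..).1 (IsSimpleRing.one_mem_of_ne_zero_mem I ha
    ((TwoSidedIdeal.mem_mk' ..).2 ⟨a, h, rfl⟩))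
  simpa [sub_smul, h2] using h1 (1 - b) (by rw [map_sub, map_one, h3, sub_self]) d

theorem card_le (hM : IsPModular p M) (T : List (Multiset ℕ))
    (hT : ∀ l ∈ H57.comps n n, (∀ x ∈ l, ¬ p ∣ x) → (l : Multiset ℕ) ∈ T) :
    Fintype.card (IBr M (Perm (Fin n))) ≤ T.length := by
  classical
  let g : Fin T.length → Perm (Fin n) := fun j =>
    if h : ∃ σ : Perm (Fin n), σ.cycleType = T[j] then h.choose else 1
  have h := (Fintype.linearIndependent_iff (R := ℂ) (v := fun (i : IBr M (Perm (Fin n))) j =>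
    ibr p i (g j))).2 fun c hc => Fintype.linearIndependent_iff.1 (linearIndependent_ibr hM) c (by
      funext σ
      by_cases h : p ∣ orderOf σ
      · simp [ibr_of_dvd _ h]
      obtain ⟨j, hj⟩ := List.mem_iff_get.1 (hT _ (H57.cycleType_mem_comps σ) fun x hx e =>
        h (e.trans (Perm.dvd_of_mem_cycleType (Multiset.mem_toList.1 hx))))
      rw [Multiset.coe_toList] at hj
      have h1 : ∃ σ : Perm (Fin n), σ.cycleType = T[j] := ⟨σ, hj.symm⟩
      obtain ⟨τ, hτ⟩ := isConj_iff.1 (Perm.isConj_of_cycleType_eq (h1.choose_spec.trans hj))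
      have h2 := congrFun hc j
      simp only [Finset.sum_apply, Pi.smul_apply, g, dif_pos h1] at h2 ⊢
      simpa only [← hτ, isClassFunction_ibr _ _ τ, Pi.zero_apply] using h2)
  simpa using h.fintype_card_le_finrank

variable {k : Type*} [CommRing k]

/-- The permutation representation on tabloids. -/
def rep (k : Type*) [CommRing k] (n : ℕ) : Representation k (Perm (Fin n)) (Fn n → k) where
  toFun σ := LinearMap.funLeft k k (· ∘ σ)
  map_one' := rfl
  map_mul' _ _ := rfl

/-- The polytabloid. -/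
def pt (k : Type*) [CommRing k] (c : Fn n) : Fn n → k := fun f => E c f

/-- The span of the polytabloids of one shape. -/
def Sp (k : Type*) [CommRing k] (c : Fn n) : Submodule k (Fn n → k) :=
  Submodule.span k (Set.range fun τ : Perm (Fin n) => pt k (c ∘ τ))

/-- The signed column sum. -/
noncomputable def kap (k : Type*) [CommRing k] (c : Fn n) : GA k n :=
  ∑ τ ∈ col c, single τ ((Perm.sign τ : ℤ) : k)

theorem rep_pt (c : Fn n) (σ : Perm (Fin n)) :
    rep k n σ (pt k (c ∘ σ)) = ((Perm.sign σ : ℤ) : k) • pt k c := by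
  funext f
  exact (congrArg Int.cast (E_comp c f σ)).trans (Int.cast_mul _ _)

theorem pair_add (m m' : Fn n → k) (c : Fn n) : pair (m + m') c = pair m c + pair m' c := by
  simp [pair, add_mul, sum_add_distrib]

theorem pair_smul (t : k) (m : Fn n → k) (c : Fn n) : pair (t • m) c = t * pair m c := by
  simp [pair, mul_sum, mul_assoc]

theorem kap_act {c : Fn n} {m : Fn n → k} (hm : ∀ f, m f ≠ 0 → W f ≤ w c) :
    (rep k n).asAlgebraHom (kap k c) m = pair m c • pt k c := by
  funext g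
  refine Eq.trans ?_ (kappa_apply hm g)
  simp [kap]
  rfl

theorem closed {P : (Fn n → k) → Prop} (h0 : ∀ m m', P m → P m' → P (m + m'))
    (h1 : ∀ (t : k) m, P m → P (t • m)) (h2 : ∀ σ m, P m → P (rep k n σ m)) (a : GA k n)
    {m : Fn n → k} (h : P m) : P ((rep k n).asAlgebraHom a m) := by
  induction a using MonoidAlgebra.induction_on with
  | of σ => simpa using h2 σ m h
  | add a b ha hb => simpa using h0 _ _ ha hb
  | smul t a ha => simpa using h1 t _ ha

/-- A vector of the Specht module that is nonzero and fixed by `L` in the head. -/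
def Cert (k : Type*) [CommRing k] (c : Fn n) (L : Set (Perm (Fin n))) : Prop :=
  ∃ v ∈ Sp k c, pair v c ≠ 0 ∧ ∀ g ∈ L, ∀ τ : Perm (Fin n), pair (rep k n g v - v) (c ∘ τ) = 0

theorem exists_idx {c : Fn n} {L : Set (Perm (Fin n))} (h : Cert (kk M) c L) :
    ∃ i : IBr M (Perm (Fin n)), srep i (kap _ c) ≠ 0 ∧ (∀ c', srep i (kap _ c') ≠ 0 → w c' ≤ w c) ∧
      ∃ a, srep i a ≠ 0 ∧ ∀ g ∈ L, srep i (single g 1 * a - a) = 0 := by
  obtain ⟨v, hv, h1, h2⟩ := h
  let X := (rep (kk M) n).asAlgebraHom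
  let : Module (GA (kk M) n) (Fn n → kk M) := Module.compHom _ X.toRingHom
  have sm : ∀ (a : (GA (kk M) n)) (m : Fn n → kk M), a • m = X a m := fun _ _ => rfl
  let S := Submodule.span (GA (kk M) n) {pt (kk M) c}
  have he : pt (kk M) c ∈ S := Submodule.mem_span_singleton_self _
  have hs : ∀ (t : kk M) (m : Fn n → kk M), t • m = algebraMap _ (GA (kk M) n) t • m := fun t m => by
    rw [sm, AlgHom.commutes]; rfl
  have hv' : v ∈ S := by
    refine Submodule.span_induction (p := fun v _ => v ∈ S) ?_ S.zero_mem (fun _ _ _ _ => S.add_mem)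
      (fun t m _ h => hs t m ▸ S.smul_mem _ h) hv
    rintro _ ⟨τ, rfl⟩
    have := rep_pt (k := kk M) (c ∘ τ) τ⁻¹
    rw [Function.comp_assoc, ← Perm.coe_mul, mul_inv_cancel, Perm.coe_one, Function.comp_id] at this
    have h3 := S.smul_mem (single τ⁻¹ ((Perm.sign τ⁻¹ : ℤ) : kk M)) he
    rwa [sm, Representation.asAlgebraHom_single, LinearMap.smul_apply, this, smul_smul, ← Int.cast_mul,
      ← Units.val_mul, Int.units_mul_self, Units.val_one, Int.cast_one, one_smul] at h3
  have hW : ∀ m ∈ S, ∀ f, m f ≠ 0 → W f = w c := fun m hm => by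
    obtain ⟨a, rfl⟩ := Submodule.mem_span_singleton.1 hm
    refine closed (P := fun m => ∀ f, m f ≠ 0 → W f = w c) (fun m m' k1 k2 f e => ?_)
      (fun t m k1 f e => k1 f fun e' => e (by simp [e'])) (fun σ m k1 f e => W_comp f σ ▸ k1 _ e) a
      fun f e => W_of_E fun e' => e (by simp [pt, e'])
    by_cases e' : m f = 0
    · exact k2 f (by simpa [e'] using e)
    · exact k1 f e'
  have hk : ∀ m : S, kap (kk M) c • m = algebraMap _ (GA (kk M) n) (pair m.1 c) • ⟨_, he⟩ := fun m =>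
    Subtype.ext ((kap_act fun f e => (hW _ m.2 f e).le).trans (hs _ _))
  let R : Submodule (GA (kk M) n) S :=
    { carrier := {m | ∀ τ : Perm (Fin n), pair m.1 (c ∘ τ) = 0}
      add_mem' := fun h1 h2 τ => by rw [Submodule.coe_add, pair_add, h1, h2, add_zero]
      zero_mem' := fun _ => by simp [pair]
      smul_mem' := fun a m h => closed (P := fun m => ∀ τ : Perm (Fin n), pair m (c ∘ τ) = 0)
        (fun _ _ h1 h2 τ => by rw [pair_add, h1, h2, add_zero])
        (fun _ _ h1 τ => by rw [pair_smul, h1, mul_zero])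
        (fun σ m h1 τ => (pair_comp m _ σ).trans (by rw [show (c ∘ τ) ∘ σ = c ∘ (τ * σ) from rfl, h1,
          mul_zero])) a h }
  have hU : ∀ U : Submodule (GA (kk M) n) S, ∀ t : kk M, t ≠ 0 →
      algebraMap _ (GA (kk M) n) t • (⟨_, he⟩ : S) ∈ U → U = ⊤ := fun U t ht h => by
    have h3 := U.smul_mem (algebraMap _ _ t⁻¹) h
    rw [smul_smul, ← map_mul, inv_mul_cancel₀ ht, map_one, one_smul] at h3
    refine eq_top_iff.2 fun m _ => ?_
    obtain ⟨a, ha⟩ := Submodule.mem_span_singleton.1 m.2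
    exact (Subtype.ext ha : a • (⟨_, he⟩ : S) = m) ▸ U.smul_mem a h3
  have hR : R ≠ ⊤ := fun e => h1 ((e ▸ Submodule.mem_top : (⟨v, hv'⟩ : S) ∈ R) 1)
  have := isSimpleModule_iff_isCoatom.2 (show IsCoatom R from ⟨hR, fun U hlt => by
    obtain ⟨m, k1, k2⟩ := SetLike.exists_of_lt hlt
    obtain ⟨τ, hτ⟩ := not_forall.1 k2
    refine hU U _ ?_ (hk _ ▸ U.smul_mem (kap _ c) (U.smul_mem (single τ 1) k1))
    rw [Submodule.coe_smul, sm, Representation.asAlgebraHom_single, one_smul]
    exact fun e => hτ ((mul_eq_zero.1 ((pair_comp m.1 c τ).symm.trans e)).resolve_left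
      (by rcases Int.units_eq_one_or (Perm.sign τ) with k | k <;> simp [k]))⟩)
  obtain ⟨i, hi⟩ := exists_ann (M := M) (G := Perm (Fin n)) (S ⧸ R)
  have hi' : ∀ a, srep i a = 0 ↔ ∀ m : S, a • m ∈ R := fun a => by
    rw [← hi, (Submodule.mkQ_surjective R).forall]
    exact forall_congr' fun m => by rw [← map_smul]; exact Submodule.Quotient.mk_eq_zero _
  obtain ⟨b, hb⟩ := Submodule.mem_span_singleton.1 hv'
  have h4 : ∀ m : S, ((b * kap _ c) • m : S) = pair m.1 c • v := fun m => by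
    rw [mul_smul, hk, Submodule.coe_smul, Submodule.coe_smul, ← hs, sm, map_smul, ← sm, hb]
  refine ⟨i, fun e => hR (hU R _ h1 (hk ⟨v, hv'⟩ ▸ (hi' _).1 e _)), fun c' e => by_contra fun hlt =>
    e ((hi' _).2 fun m τ => ?_), b * kap _ c, fun e => ?_, fun g hg => (hi' _).2 fun m τ => ?_⟩
  · rw [Submodule.coe_smul, sm, kap_act fun f e => by rw [hW _ m.2 f e]; omega, pair_smul,
      pair.eq_1 m.1, sum_eq_zero fun f _ => ?_, zero_mul]
    by_cases e1 : m.1 f = 0
    · rw [e1, zero_mul]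
    · rw [by_contra fun e2 : ¬ E c' f = 0 => hlt ((W_of_E e2).symm.trans (hW _ m.2 f e1)).le,
        Int.cast_zero, mul_zero]
  · have := (hi' _).1 e ⟨v, hv'⟩ 1
    rw [h4, pair_smul] at this
    exact h1 (mul_self_eq_zero.1 this)
  · have := h4 m
    rw [Submodule.coe_smul] at this ⊢
    rw [sub_smul, mul_smul, this, sm, Representation.asAlgebraHom_single, one_smul, map_smul, ← smul_sub,
      pair_smul, h2 g hg, mul_zero]

theorem exists_fixed {N : ℕ} (hN : Fintype.card (IBr M (Perm (Fin n))) ≤ N) (c : Fin N → Fn n)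
    (hw : Function.Injective fun j => w (c j)) (L : Fin N → Set (Perm (Fin n)))
    (h : ∀ j, Cert (kk M) (c j) (L j)) {V : Type*} [AddCommGroup V] [Module (kk M) V]
    [FiniteDimensional (kk M) V] [Nontrivial V] (ρ : Representation (kk M) (Perm (Fin n)) V) :
    ∃ j, ∃ x ≠ 0, ∀ g ∈ L j, ρ g x = x := by
  choose i h1 h2 h3 using fun j => exists_idx (h j)
  have hi : Function.Injective i := fun j l e =>
    hw (le_antisymm (h2 l _ (e ▸ h1 j)) (h2 j _ (e ▸ h1 l)))
  have hs := ((Fintype.bijective_iff_injective_and_card i).2 ⟨hi, le_antisymm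
    (Fintype.card_le_of_injective i hi) (by simpa using hN)⟩).2
  have : IsArtinian (GA (kk M) n) ρ.asModule := isArtinian_of_tower (kk M) inferInstance
  have : Nontrivial ρ.asModule := ‹_›
  obtain ⟨U, hU, -⟩ := (eq_bot_or_exists_atom_le (⊤ : Submodule (GA (kk M) n) ρ.asModule)).resolve_left
    top_ne_bot
  have := isSimpleModule_iff_isAtom.2 hU
  obtain ⟨l, hl⟩ := exists_ann (M := M) (G := Perm (Fin n)) U
  obtain ⟨j, rfl⟩ := hs l
  obtain ⟨a, k1, k2⟩ := h3 j
  obtain ⟨d, hd⟩ := not_forall.1 fun e => k1 ((hl a).1 e)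
  refine ⟨j, ρ.asModuleEquiv (a • d : U), fun e => hd (Subtype.ext e), fun g hg => ?_⟩
  have := congrArg (fun x : U => ρ.asModuleEquiv x) ((hl _).2 (k2 g hg) d)
  rwa [sub_smul, mul_smul, Submodule.coe_sub, Submodule.coe_smul, map_sub, ρ.asModuleEquiv_map_smul,
    Representation.asAlgebraHom_single, one_smul, Submodule.coe_zero, map_zero, sub_eq_zero] at this

/-- `L` contains generators of a non-solvable subgroup of the alternating group. -/
def NS (L : Set (Perm (Fin n))) : Prop := ∃ x ∈ L, ∃ y ∈ L, ∃ z ∈ L, Perm.sign x = 1 ∧ Perm.sign y = 1 ∧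
  Perm.sign z = 1 ∧ x ≠ 1 ∧ x * (z * x * z⁻¹) * (y * x * y⁻¹) = y * x * y⁻¹ * (z * x * z⁻¹)

theorem not_solvable {G : Type*} [Group G] {L : Subgroup G} {x y z : G} (hx : x ∈ L) (hy : y ∈ L)
    (hz : z ∈ L) (h1 : x ≠ 1) (h : x * (z * x * z⁻¹) * (y * x * y⁻¹) = y * x * y⁻¹ * (z * x * z⁻¹)) :
    ¬ Group.IsSolvable L := by
  refine not_isSolvable_of_mem_derivedSeries (g := ⟨x, hx⟩) (fun e => h1 (congrArg Subtype.val e)) fun m => ?_
  induction m with
  | zero => exact Subgroup.mem_top _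
  | succ m ih =>
    have := Subgroup.commutator_mem_commutator ((derivedSeries_normal _ _).conj_mem _ ih ⟨y, hy⟩)
      ((derivedSeries_normal _ _).conj_mem _ ih ⟨z, hz⟩)
    rw [derivedSeries_succ]
    refine (Subtype.ext ?_ : _ = (⟨x, hx⟩ : L)) ▸ this
    refine Eq.symm ?_
    change x = y * x * y⁻¹ * (z * x * z⁻¹) * (y * x * y⁻¹)⁻¹ * (z * x * z⁻¹)⁻¹
    rw [← h]
    group

theorem modStmt_of [hp : Fact p.Prime] (T : List (Multiset ℕ))
    (hT : ∀ l ∈ H57.comps n n, (∀ x ∈ l, ¬ p ∣ x) → (l : Multiset ℕ) ∈ T) (c : Fin T.length → Fn n)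
    (hw : Function.Injective fun j => w (c j))
    (h : ∀ (k : Type) [Field k] [CharP k p] j, ∃ L, NS L ∧ Cert k (c j) L) : ModStmt p n := by
  intro d hd ρ
  obtain ⟨M, hM⟩ := exists_isPModular hp.out
  have := charP_kk hM
  let := ZMod.algebra (kk M) p
  choose L h1 h2 using h (kk M)
  let σ : Representation (kk M) (alternatingGroup (Fin n)) (Fin d → kk M) :=
    (Matrix.toLinAlgEquiv'.toMonoidHom.comp (algebraMap (ZMod p) (kk M)).mapMatrix.toMonoidHom).comp
      ((LinearMap.toMatrixAlgEquiv' (R := ZMod p)).toMonoidHom.comp ρ)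
  have : Nontrivial (Representation.coindV (alternatingGroup (Fin n)).subtype σ) := by
    classical
    refine ⟨⟨⟨fun τ => if e : τ ∈ alternatingGroup (Fin n) then σ ⟨τ, e⟩ 1 else 0, fun g τ => ?_⟩, 0,
      fun e => ?_⟩⟩
    · by_cases e : τ ∈ alternatingGroup (Fin n)
      · beta_reduce
        rw [dif_pos e, dif_pos (show (alternatingGroup _).subtype g * τ ∈ _ from mul_mem g.2 e)]
        exact DFunLike.congr_fun (map_mul σ g ⟨τ, e⟩) 1
      · beta_reduce
        rw [dif_neg e, map_zero]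
        exact dif_neg fun k => e ((mul_mem_cancel_left g.2).1 k)
    · have := congrFun (congrFun (congrArg Subtype.val e) 1) ⟨0, hd⟩
      simp only [one_mem, dif_pos] at this
      exact one_ne_zero ((congrFun (DFunLike.congr_fun (map_one σ) 1) ⟨0, hd⟩).symm.trans this)
  obtain ⟨j, f, hf, k1⟩ := exists_fixed (card_le hM T hT) c hw L h2
    (Representation.coind (alternatingGroup (Fin n)).subtype σ)
  obtain ⟨τ, hτ⟩ := Function.ne_iff.1 fun e => hf (Subtype.ext e)
  obtain ⟨a, ha⟩ := Function.ne_iff.1 hτ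
  obtain ⟨ψ, hψ⟩ := Module.Projective.exists_dual_ne_zero (ZMod p) ha
  let H : Subgroup (alternatingGroup (Fin n)) :=
    { carrier := {g | ρ g (ψ ∘ f.1 τ) = ψ ∘ f.1 τ}
      one_mem' := by simp
      mul_mem' := fun {a b} h1 h2 => by
        rw [Set.mem_ofPred_eq] at *
        rw [map_mul, Module.End.mul_apply, h2, h1]
      inv_mem' := fun {a} h => by
        rw [Set.mem_ofPred_eq] at *
        rw [← h, ← Module.End.mul_apply, ← map_mul, inv_mul_cancel, map_one, Module.End.one_apply, h] }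
  have k2 : ∀ g ∈ L j, ∀ e : τ * g * τ⁻¹ ∈ alternatingGroup (Fin n),
      (⟨_, e⟩ : alternatingGroup (Fin n)) ∈ H := fun g hg e => by
    have k3 : f.1 (τ * g) = f.1 τ := congrFun (congrArg Subtype.val (k1 g hg)) τ
    have k4 := f.2 ⟨_, e⟩ τ
    rw [Subgroup.coe_subtype, inv_mul_cancel_right, k3] at k4
    change ρ _ _ = _
    conv_rhs => rw [k4]
    rw [← LinearMap.toMatrix'_mulVec]
    funext b
    simp [σ, Matrix.mulVec, dotProduct, ← Algebra.smul_def]
  obtain ⟨x, hx, y, hy, z, hz, s1, s2, s3, k3, k4⟩ := h1 j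
  have e : ∀ g : Perm (Fin n), Perm.sign g = 1 → τ * g * τ⁻¹ ∈ alternatingGroup (Fin n) := fun g hg =>
    (inferInstance : (alternatingGroup (Fin n)).Normal).conj_mem g hg τ
  refine ⟨ψ ∘ f.1 τ, fun e => hψ (congrFun e a), H, not_solvable (k2 x hx (e x s1)) (k2 y hy (e y s2))
    (k2 z hz (e z s3)) (fun k => k3 (conj_eq_one_iff.1 (congrArg Subtype.val k))) (Subtype.ext ?_),
    fun _ h => h⟩
  simpa [mul_assoc] using congrArg (fun t => τ * t * τ⁻¹) k4

end Cfsg.Agent.H73.AS
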