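import Mathlib
import Cfsg.Agent.H73.AS3

/-! Checkable certificates for fixed vectors in the heads of Specht modules. -/

set_option autoImplicit false

namespace Cfsg.Agent.H73.AS

open Finset Equiv

variable {α : Type} {n p : ℕ} {k : Type*} [CommRing k]

/-- The product over the pairs of a list. -/
def prs (ψ : α → α → ℤ) : List α → ℤ
  | [] => 1
  | a :: l => (l.map (ψ a)).prod * prs ψ l

theorem prs_ofFn (ψ : α → α → ℤ) {m : ℕ} (u : Fin m → α) :
    prs ψ (List.ofFn u) = ∏ y, ∏ x ∈ Iio y, ψ (u x) (u y) := by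
  rw [prod_comm' (t' := univ) (s' := Ioi) (by simp)]
  induction m with
  | zero => rfl
  | succ m ih => simp [prs, ih, Fin.prod_univ_succ, List.prod_ofFn, List.map_ofFn, -mem_univ]

/-- The weight of a new entry. -/
def wt (ψ : α → α → ℤ) (a : α) (d : List α) : ℤ := (d.map (ψ · a)).prod

/-- The leaves of the pruned search tree. -/
def lv (ψ : α × ℕ → α × ℕ → ℤ) (b : α → ℕ) : List α → List (α × ℕ) → List (ℤ × List ℕ)
  | [], _ => [(1, [])]
  | a :: r, d => (List.range (b a)).flatMap fun v => if wt ψ (a, v) d = 0 then [] else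
      (lv ψ b r ((a, v) :: d)).map fun q => (wt ψ (a, v) d * q.1, v :: q.2)

/-- The total weight of the leaves. -/
def ls (ψ : α × ℕ → α × ℕ → ℤ) (b : α → ℕ) : List α → List (α × ℕ) → ℤ
  | [], _ => 1
  | a :: r, d => ((List.range (b a)).map fun v => if wt ψ (a, v) d = 0 then 0 else
      wt ψ (a, v) d * ls ψ b r ((a, v) :: d)).sum

theorem ls_eq (ψ : α × ℕ → α × ℕ → ℤ) (b : α → ℕ) (r : List α) (d : List (α × ℕ)) :
    ls ψ b r d = ((lv ψ b r d).map (·.1)).sum := by
  induction r generalizing d with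
  | nil => rfl
  | cons a r ih =>
    rw [ls, lv, List.map_flatMap, List.flatMap_def, List.sum_flatten, List.map_map]
    refine congrArg _ (List.map_congr_left fun v _ => ?_)
    rw [Function.comp_apply]
    split_ifs
    · rfl
    · rw [ih, ← List.sum_map_mul_left, List.map_map]
      rfl

/-- The weight of a branch. -/
def wts (ψ : α → α → ℤ) (d l : List α) : ℤ := (l.map (wt ψ · d)).prod * prs ψ l

theorem wts_cons (ψ : α → α → ℤ) (d l : List α) (a : α) :
    wts ψ d (a :: l) = wt ψ a d * wts ψ (a :: d) l := by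
  simp only [wts, wt, prs, List.map_cons, List.prod_cons, List.prod_map_mul]
  ring

theorem sum_rng {B : ℕ} (h : B ≤ n) (G : ℕ → k) :
    ((List.range B).map G).sum = ∑ v : Fin n, if (v : ℕ) < B then G v else 0 := by
  rw [Fin.sum_univ_eq_sum_range (fun v => if v < B then G v else 0), ← sum_filter,
    ← List.sum_toFinset _ List.nodup_range, List.toFinset_range]
  congr 1
  ext
  simp only [mem_range, mem_filter]
  omega

theorem lv_sum (ψ : α × ℕ → α × ℕ → ℤ) (b : α → ℕ) {m : ℕ} (u : Fin m → α) (hb : ∀ x, b (u x) ≤ n)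
    (d : List (α × ℕ)) (h : List ℕ → k) : ((lv ψ b (List.ofFn u) d).map fun q => q.1 * h q.2).sum =
      ∑ f : Fin m → Fin n, if ∀ x, (f x : ℕ) < b (u x) then
        wts ψ d (List.ofFn fun y => (u y, f y)) * h (List.ofFn fun y => f y) else 0 := by
  induction m generalizing d h with
  | zero => simp [lv, prs, wts]
  | succ m ih =>
    rw [← (Fin.consEquiv fun _ => Fin n).sum_comp, Fintype.sum_prod_type, List.ofFn_succ, lv,
      List.map_flatMap, List.flatMap_def, List.sum_flatten, List.map_map, sum_rng (hb 0)]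
    refine sum_congr rfl fun v _ => ?_
    simp only [Fin.forall_fin_succ, Fin.consEquiv_apply, Fin.cons_zero, Fin.cons_succ, List.ofFn_succ,
      wts_cons, ite_and, Function.comp_apply]
    split_ifs with e1 e2
    · simp [e2]
    · rw [List.map_map]
      refine Eq.trans (congrArg _ (List.map_congr_left fun q _ => ?_)) ((ih (fun i => u i.succ)
        (fun x => hb _) ((u 0, v) :: d) fun l => wt ψ (u 0, v) d * h (v :: l)).trans
          (sum_congr rfl fun f _ => ?_))
      · rw [Function.comp_apply, Int.cast_mul, mul_assoc, mul_left_comm]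
      · rw [Int.cast_mul, mul_assoc, mul_left_comm]
    · simp

/-- The factor of a pair of entries. -/
def ps (q r : (ℕ × ℕ × ℕ) × ℕ) : ℤ := (if q.1.1 = r.1.1 then sg q.2 r.2 else sg q.1.1 r.1.1) *
  if q.1.2.1 = r.1.2.1 then sg q.2 r.2 else sg q.1.2.1 r.1.2.1

/-- The columns and the height bound. -/
def dat (c s : Fn n) : List (ℕ × ℕ × ℕ) := List.ofFn fun x => (c x, s x, min (ht c x) (ht s x))

/-- The common tabloids of two polytabloids. -/
def lv2 (c s : Fn n) : List (ℤ × List ℕ) := lv ps (·.2.2) (dat c s) []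

variable [NeZero n]

/-- The function of a list. -/
def fn (l : List ℕ) : Fn n := fun x => Fin.ofNat n (l.getD x 0)

theorem lv2_sum (c s : Fn n) (m : Fn n → k) :
    ((lv2 c s).map fun q => q.1 * m (fn q.2)).sum = ∑ f, E c f * E s f * m f := by
  rw [lv2, dat, lv_sum (n := n) _ _ _ ?_ [] fun l => m (fn l)]
  swap
  · exact fun x => (min_le_left _ _).trans ((card_le_univ _).trans (by simp))
  refine sum_congr rfl fun f _ => ?_
  rw [show fn (List.ofFn fun y => (f y : ℕ)) = f from funext fun x => by simp [fn]]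
  simp only [wts, wt, ps, prs_ofFn, E, lt_min_iff, forall_and, ite_and, prod_mul_distrib, ph, Fin.val_inj]
  split_ifs <;> simp [List.prod_ofFn]

/-- The key of a signed polytabloid. -/
def key (p : ℕ) (a : ℤ) (c : Fn n) : ℤ × (Fin n → ℕ) :=
  (a * prs (fun i j : Fin n => if i = j then 1 else sg i j) (List.ofFn c) % p,
    fun x => (List.ofFn c).idxOf (c x))

omit [NeZero n] in
theorem exists_key [CharP k p] : ∃ F : ℤ × (Fin n → ℕ) → Fn n → k, ∀ a c,
    F (key p a c) = (a : k) • pt k c := by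
  refine ⟨fun q f => q.1 * ((if ∀ x, (f x : ℕ) < #{y | q.2 y = q.2 x} then
    ∏ y, ∏ x ∈ Iio y, if q.2 x = q.2 y then sg (f x) (f y) else 1 else 0 : ℤ) : k), fun a c => ?_⟩
  funext f
  have h : ∀ x y, (List.ofFn c).idxOf (c x) = (List.ofFn c).idxOf (c y) ↔ c x = c y := fun x y =>
    List.idxOf_inj (by simp)
  simp only [key, h, prs_ofFn, Pi.smul_apply, smul_eq_mul]
  rw [(CharP.intCast_eq_intCast k p).2 (Int.mod_modEq _ _), Int.cast_mul, mul_assoc, ← Int.cast_mul]
  congr 2
  unfold E ht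
  split_ifs
  · simp only [← prod_mul_distrib, ph]
    refine prod_congr rfl fun y _ => prod_congr rfl fun x _ => ?_
    split_ifs <;> simp
  · simp

omit [NeZero n] in
theorem pt_mem {c s : Fn n} (h : (List.ofFn c).Perm (List.ofFn s)) : pt k c ∈ Sp k s := by
  have := List.ofFn_injective ((((Tuple.sort c).ofFn_comp_perm c).trans
    (h.trans ((Tuple.sort s).ofFn_comp_perm s).symm)).eq_of_pairwise'
      (Tuple.monotone_sort c).sortedLE_ofFn.pairwise (Tuple.monotone_sort s).sortedLE_ofFn.pairwise)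
  refine Submodule.subset_span ⟨Tuple.sort s * (Tuple.sort c)⁻¹, congrArg _ (funext fun x => ?_)⟩
  simpa using (congrFun this ((Tuple.sort c)⁻¹ x)).symm

/-- A function from its digits. -/
def dc (m : ℕ) : Fn n := fun x => Fin.ofNat n (m / 10 ^ (x : ℕ) % 10)

/-- The inverse function. -/
def iv (g : Fn n) : Fn n := fun y => Fin.ofNat n ((List.ofFn g).idxOf y)

/-- `g` is an even permutation. -/
def Ev (g : Fn n) : Prop := (∀ x, iv g (g x) = x ∧ g (iv g x) = x) ∧
  prs (fun i j : Fin n => sg i j) (List.ofFn g) = 1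

/-- The permutation. -/
def Ev.pm {g : Fn n} (h : Ev g) : Perm (Fin n) := ⟨g, iv g, fun x => (h.1 x).1, fun x => (h.1 x).2⟩

theorem Ev.sign {g : Fn n} (h : Ev g) : Perm.sign h.pm = 1 := by
  have h1 := h.pm.prod_Iio_comp_eq_sign_mul_prod (f := fun i j => sg i j) fun _ _ => sg_swap _ _
  rw [prod_eq_one (f := fun j : Fin n => ∏ i ∈ Iio j, sg i j) fun j _ => prod_eq_one fun i hi =>
    if_pos (mem_Iio.1 hi), mul_one] at h1
  exact Units.ext (h1.symm.trans ((prs_ofFn _ g).symm.trans h.2))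

/-- The three permutations generate a non-solvable group. -/
def Tri (x y z : Fn n) : Prop := Ev x ∧ Ev y ∧ Ev z ∧ x ≠ id ∧
  x ∘ (z ∘ x ∘ iv z) ∘ y ∘ x ∘ iv y = (y ∘ x ∘ iv y) ∘ z ∘ x ∘ iv z

theorem Tri.ns {x y z : Fn n} (h : Tri x y z) : NS {h.1.pm, h.2.1.pm, h.2.2.1.pm} :=
  ⟨h.1.pm, by simp, h.2.1.pm, by simp, h.2.2.1.pm, by simp, h.1.sign, h.2.1.sign, h.2.2.1.sign,
    fun e => h.2.2.2.1 (congrArg DFunLike.coe e), DFunLike.coe_injective h.2.2.2.2⟩

/-- The first half of a certificate. -/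
def Chk1 (p : ℕ) (s : Fn n) (T : List (ℤ × Fn n)) : Prop :=
  (∀ t ∈ T, (List.ofFn t.2).Perm (List.ofFn s)) ∧
    (T.map fun t => t.1 * ls ps (·.2.2) (dat t.2 s) []).sum % p ≠ 0

theorem Chk1.cert [CharP k p] {s : Fn n} {T : List (ℤ × Fn n)} (h : Chk1 p s T)
    {L : Set (Perm (Fin n))} (h1 : ∀ v, v = (T.map fun t => (t.1 : k) • pt k t.2).sum →
      ∀ g ∈ L, ∀ τ : Perm (Fin n), pair (rep k n g v - v) (s ∘ τ) = 0) : Cert k s L := by
  refine ⟨_, list_sum_mem ?_, fun e => h.2 (Int.emod_eq_zero_of_dvd ((CharP.intCast_eq_zero_iff k p _).1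
    (Eq.trans ?_ e))), h1 _ rfl⟩
  · simp only [List.forall_mem_map]
    exact fun t ht => Submodule.smul_mem _ _ (pt_mem (h.1 t ht))
  · clear h h1 e
    induction T with
    | nil => simp [pair]
    | cons t T ih =>
      have := lv2_sum (k := k) t.2 s fun _ => 1
      simp only [mul_one] at this
      rw [List.map_cons, List.sum_cons, List.map_cons, List.sum_cons, pair_add, pair_smul, Int.cast_add, ih,
        Int.cast_mul, ls_eq, Int.cast_list_sum, List.map_map]
      congr 2

/-- An orbit certificate. -/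
def Chk (p : ℕ) (s : Fn n) (T : List (ℤ × Fn n)) (x y z : Fn n) : Prop :=
  Tri x y z ∧ Chk1 p s T ∧ [x, y, z].Forall fun g =>
    (T.map fun t => key p t.1 (t.2 ∘ g)).Perm (T.map fun t => key p t.1 t.2)

instance (g : Fn n) : Decidable (Ev g) := inferInstanceAs (Decidable (_ ∧ _))
instance (x y z : Fn n) : Decidable (Tri x y z) := inferInstanceAs (Decidable (_ ∧ _))
instance (s : Fn n) (T) : Decidable (Chk1 p s T) := inferInstanceAs (Decidable (_ ∧ _))
instance (s : Fn n) (T x y z) : Decidable (Chk p s T x y z) := inferInstanceAs (Decidable (_ ∧ _))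

theorem Chk.cert [CharP k p] {s x y z : Fn n} {T : List (ℤ × Fn n)} (h : Chk p s T x y z) :
    ∃ L, NS L ∧ Cert k s L := by
  refine ⟨_, h.1.ns, h.2.1.cert fun v hv g hg τ => ?_⟩
  obtain ⟨F, hF⟩ := exists_key (k := k) (p := p) (n := n)
  have h1 : Perm.sign g = 1 ∧ ⇑g ∈ [x, y, z] := by
    rcases hg with rfl | rfl | rfl <;> exact ⟨Ev.sign _, by simp [Ev.pm]⟩
  have h2 := ((List.forall_iff_forall_mem.1 h.2.2 g h1.2).map F).sum_eq
  simp only [List.map_map, Function.comp_def, hF] at h2
  rw [hv, sub_eq_zero.2, pair]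
  · simp
  · conv_lhs => rw [← h2, map_list_sum, List.map_map]
    refine congrArg _ (List.map_congr_left fun t _ => ?_)
    rw [Function.comp_apply, map_smul]
    exact congrArg _ ((rep_pt t.2 g).trans (by simp [h1.1]))

end Cfsg.Agent.H73.AS
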