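import Mathlib
import Cfsg.Agent.H73.AS5

/-! Modules of `A₉` in characteristic two. -/

set_option autoImplicit false

namespace Cfsg.Agent.H73.AS

open Finset Equiv

variable {k : Type*} [CommRing k] [CharP k 2]

theorem pair_eq (m : Fn 9 → k) (c : Fn 9) :
    pair m c = ((lv2 c c).map fun q => q.1 * m (fn q.2)).sum := by
  rw [lv2_sum, pair]
  refine sum_congr rfl fun f _ => ?_
  rw [← sq, mul_comm, ← frobenius_def, map_intCast]

theorem sign_cast (σ : Perm (Fin 9)) : ((Perm.sign σ : ℤ) : k) = 1 := by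
  rcases Int.units_eq_one_or (Perm.sign σ) with h | h <;> simp [h, CharTwo.neg_eq]

theorem cast_xor (a b : Bool) : ((a ^^ b).toNat : k) = a.toNat + b.toNat := by
  cases a <;> cases b <;> simp [CharTwo.add_self_eq_zero]

/-- The ternary code of a tabloid. -/
def cd (f : Fn 9) : ℕ := ∑ x, f x * 3 ^ (x : ℕ)

theorem cd_inj {f g : Fn 9} (hf : ∀ x, (f x : ℕ) < 3) (hg : ∀ x, (g x : ℕ) < 3) (h : cd f = cd g) :
    f = g := by
  have := finFunctionFinEquiv.injective (a₁ := fun x => ⟨f x, hf x⟩) (a₂ := fun x => ⟨g x, hg x⟩)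
    (Fin.ext (by simpa only [finFunctionFinEquiv_apply, cd] using h))
  exact funext fun x => Fin.ext (Fin.mk.inj_iff.1 (congrFun this x))

/-- The bit mask of a list of tabloids. -/
def msk (L : List (ℤ × List ℕ)) : ℕ := L.foldr (fun q N => 2 ^ cd (fn q.2) ^^^ N) 0

theorem msk_sum {f : Fn 9} (hf : ∀ x, (f x : ℕ) < 3) (L : List (ℤ × List ℕ))
    (h : ∀ q ∈ L, q.1 = 1 ∧ ∀ x, (fn (n := 9) q.2 x : ℕ) < 3) :
    (L.map fun q => (q.1 : k) * if fn q.2 = f then 1 else 0).sum = ((msk L).testBit (cd f)).toNat := by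
  induction L with
  | nil => simp [msk]
  | cons q L ih =>
    obtain ⟨⟨h1, h2⟩, h3⟩ := List.forall_mem_cons.1 h
    rw [List.map_cons, List.sum_cons, ih h3, msk, msk, List.foldr_cons, Nat.testBit_xor, cast_xor,
      Nat.testBit_two_pow, h1]
    by_cases e : fn q.2 = f
    · simp [e]
    · simp [e, mt (cd_inj h2 hf) e]

/-- The columns of the exceptional shape. -/
def s0 : Fn 9 := dc 432211000

/-- The polytabloids of the exceptional vector. -/
def T7 : List (ℤ × Fn 9) := [230401021, 43221001, 321024010, 32410021, 30242011, 112020403,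
  41302210].map fun m => (1, dc m)

/-- The support of the exceptional vector. -/
def V0 : ℕ := msk (T7.flatMap fun t => lv2 t.2 t.2)

theorem v_eq {f : Fn 9} (hf : ∀ x, (f x : ℕ) < 3) :
    (T7.map fun t => (t.1 : k) • pt k t.2).sum f = (V0.testBit (cd f)).toNat := by
  rw [V0, ← msk_sum hf _ (by decide +kernel), List.map_flatMap, List.flatMap_def, List.sum_flatten,
    List.map_map, Pi.list_sum_apply, List.map_map]
  refine congrArg _ (List.map_congr_left fun t ht => ?_)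
  have : t.1 = 1 := by
    obtain ⟨m, -, rfl⟩ := List.mem_map.1 ht
    rfl
  refine Eq.trans ?_ (pair_eq (fun g => if g = f then 1 else 0) t.2)
  simp [pair, pt, this]

/-- The tabloids of the standard polytabloid. -/
def L0 : List (List ℕ) :=
  [[0, 1, 2, 0, 1, 0, 1, 0, 0], [0, 1, 2, 0, 1, 1, 0, 0, 0], [0, 1, 2, 1, 0, 0, 1, 0, 0], [0, 1, 2, 1, 0,
    1, 0, 0, 0], [0, 2, 1, 0, 1, 0, 1, 0, 0], [0, 2, 1, 0, 1, 1, 0, 0, 0], [0, 2, 1, 1, 0, 0, 1, 0, 0],
    [0, 2, 1, 1, 0, 1, 0, 0, 0], [1, 0, 2, 0, 1, 0, 1, 0, 0], [1, 0, 2, 0, 1, 1, 0, 0, 0], [1, 0, 2, 1,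
    0, 0, 1, 0, 0], [1, 0, 2, 1, 0, 1, 0, 0, 0], [1, 2, 0, 0, 1, 0, 1, 0, 0], [1, 2, 0, 0, 1, 1, 0, 0,
    0], [1, 2, 0, 1, 0, 0, 1, 0, 0], [1, 2, 0, 1, 0, 1, 0, 0, 0], [2, 0, 1, 0, 1, 0, 1, 0, 0], [2, 0, 1,
    0, 1, 1, 0, 0, 0], [2, 0, 1, 1, 0, 0, 1, 0, 0], [2, 0, 1, 1, 0, 1, 0, 0, 0], [2, 1, 0, 0, 1, 0, 1, 0,
    0], [2, 1, 0, 0, 1, 1, 0, 0, 0], [2, 1, 0, 1, 0, 0, 1, 0, 0], [2, 1, 0, 1, 0, 1, 0, 0, 0]]

/-- The contraction with a column of height three. -/
def n1 (a b c : ℕ) : ℕ := V0 >>> (b + 2 * c) ^^^ V0 >>> (c + 2 * b) ^^^ V0 >>> (a + 2 * c) ^^^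
  V0 >>> (c + 2 * a) ^^^ V0 >>> (a + 2 * b) ^^^ V0 >>> (b + 2 * a)

/-- The contraction with a column of height two. -/
def n2 (N a b : ℕ) : ℕ := N >>> a ^^^ N >>> b

/-- The pairing with a polytabloid. -/
def psi (a b c d e f g : ℕ) : Bool :=
  (n2 (n1 (3 ^ a) (3 ^ b) (3 ^ c)) (3 ^ d) (3 ^ e)).testBit (3 ^ f) ^^
    (n2 (n1 (3 ^ a) (3 ^ b) (3 ^ c)) (3 ^ d) (3 ^ e)).testBit (3 ^ g)

theorem pair_psi (τ : Perm (Fin 9)) : pair (T7.map fun t => (t.1 : k) • pt k t.2).sum (s0 ∘ τ) =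
    (psi (τ⁻¹ 0) (τ⁻¹ 1) (τ⁻¹ 2) (τ⁻¹ 3) (τ⁻¹ 4) (τ⁻¹ 5) (τ⁻¹ 6)).toNat := by
  have h := pair_comp (T7.map fun t => (t.1 : k) • pt k t.2).sum s0 τ
  rw [sign_cast, one_mul, pair_eq, (by decide +kernel : lv2 s0 s0 = L0.map fun l => (1, l)),
    List.map_map] at h
  rw [← h, List.map_congr_left (g := fun l =>
    ((V0.testBit (∑ y, fn (n := 9) l y * 3 ^ (τ⁻¹ y : ℕ))).toNat : k)) fun l hl => ?_]
  · simp [L0, fn, Fin.sum_univ_succ, psi, n1, n2, cast_xor]
    ring_nf
  · rw [Function.comp_apply, v_eq (f := fn l ∘ τ) fun x =>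
      (by decide +kernel : ∀ l ∈ L0, ∀ x, (fn (n := 9) l x : ℕ) < 3) l hl (τ x), cd, ← Equiv.sum_comp τ⁻¹]
    simp

/-- A loop over a list without repetition. -/
def al (m : ℕ) (F : ℕ → List ℕ → Bool) (L : List ℕ) : Bool := L.all fun a => a < m || F a (L.erase a)

theorem al_spec {m : ℕ} {F : ℕ → List ℕ → Bool} {L : List ℕ} (h : al m F L = true) (a : ℕ) (h1 : m ≤ a)
    (h2 : a ∈ L) : F a (L.erase a) = true := by
  simpa [h1.not_gt] using List.all_eq_true.1 h a h2

/-- The invariance check. -/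
def inv (G : ℕ → ℕ) : Bool := al 0 (fun a => al a fun b => al b fun c => al 0 fun d => al d fun e =>
  al 0 fun f => al f fun g _ => psi a b c d e f g == psi (G a) (G b) (G c) (G d) (G e) (G f) (G g))
    (List.range 9)

theorem sort3 {P : Fin 9 → Fin 9 → Fin 9 → Prop} (s1 : ∀ a b c, P a b c → P b a c)
    (s2 : ∀ a b c, P a b c → P a c b) (h : ∀ a b c, a ≤ b → b ≤ c → P a b c) (a b c : Fin 9) :
    P a b c := by
  rcases le_total a b with h1 | h1 <;> rcases le_total b c with h2 | h2 <;>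
    rcases le_total a c with h3 | h3 <;> solve_by_elim (maxDepth := 9)

theorem inv_spec {G : ℕ → ℕ} (h : inv G = true) (a b c d e f g : Fin 9)
    (H : (a ::ₘ b ::ₘ c ::ₘ d ::ₘ e ::ₘ f ::ₘ g ::ₘ 0).Nodup) :
    psi a b c d e f g = psi (G a) (G b) (G c) (G d) (G e) (G f) (G g) := by
  have s1 : ∀ a b c, n1 a b c = n1 b a c := fun a b c => by
    unfold n1
    ac_rfl
  have s2 : ∀ a b c, n1 a b c = n1 a c b := fun a b c => by
    unfold n1
    ac_rfl
  wlog h1 : f ≤ g generalizing f g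
  · have := this g f (by rwa [Multiset.cons_swap g]) (le_of_not_ge h1)
    rwa [psi, psi, Bool.xor_comm, Bool.xor_comm (Nat.testBit _ (3 ^ G g))] at this
  wlog h2 : d ≤ e generalizing d e
  · have := this e d (by rwa [Multiset.cons_swap e]) (le_of_not_ge h2)
    simpa only [psi, n2, Nat.xor_comm] using this
  revert H
  induction a, b, c using sort3 with
  | s1 a b c ih => rwa [Multiset.cons_swap, psi, psi, s1, s1 (3 ^ G b)]
  | s2 a b c ih => rwa [Multiset.cons_swap c, psi, psi, s2, s2 (3 ^ G a)]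
  | h a b c h3 h4 =>
    intro H
    simp only [Multiset.nodup_cons, Multiset.mem_cons, not_or, ← Fin.val_inj] at H
    refine beq_iff_eq.1 (al_spec (al_spec (al_spec (al_spec (al_spec (al_spec (al_spec h a a.1.zero_le
      ?_) b h3 ?_) c h4 ?_) d d.1.zero_le ?_) e h2 ?_) f f.1.zero_le ?_) g h1 ?_)
    all_goals
      repeat rw [List.mem_erase_of_ne (by omega)]
      simp

theorem pair_inv {m : ℕ} (h : inv (fun a => m / 10 ^ a % 10 % 9) = true) {g : Perm (Fin 9)}
    (e : ⇑g = dc m) (τ : Perm (Fin 9)) : pair (T7.map fun t => (t.1 : k) • pt k t.2).sum (s0 ∘ ⇑(τ * g)) =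
      pair (T7.map fun t => (t.1 : k) • pt k t.2).sum (s0 ∘ τ) := by
  obtain ⟨τ, rfl⟩ := (Equiv.mulRight g⁻¹).surjective τ
  rw [coe_mulRight, inv_mul_cancel_right, pair_psi, pair_psi, inv_spec h _ _ _ _ _ _ _ (by simp),
    mul_inv_rev, inv_inv, Perm.coe_mul, e]
  rfl

theorem certE : ∃ L, NS L ∧ Cert k s0 L := by
  have ht : Tri (n := 9) (dc 682714305) (dc 456803721) (dc 670145382) := by decide +kernel
  refine ⟨_, ht.ns, (by decide +kernel : Chk1 2 s0 T7).cert fun v hv g hg τ => ?_⟩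
  have h1 := pair_inv (k := k) (g := ht.2.1.pm) (by decide +kernel) rfl
  have h2 := pair_inv (k := k) (g := ht.2.2.1.pm) (by decide +kernel) rfl
  have h3 : ht.1.pm = ht.2.1.pm * ht.2.1.pm * ht.2.2.1.pm := DFunLike.coe_injective
    (by decide +kernel : dc (n := 9) 682714305 = (dc 456803721 ∘ dc 456803721) ∘ dc 670145382)
  have h4 : pair v (s0 ∘ ⇑(τ * g)) = pair v (s0 ∘ τ) := by
    rcases hg with rfl | rfl | rfl
    · rw [hv, h3, ← mul_assoc, ← mul_assoc, h2, h1, h1]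
    · exact hv ▸ h1 τ
    · exact hv ▸ h2 τ
  have h5 := pair_comp v (s0 ∘ τ) g
  rw [sign_cast, one_mul] at h5
  rw [← add_left_inj (pair v (s0 ∘ τ)), ← pair_add, sub_add_cancel, zero_add]
  exact h5.trans h4

/-- The certificates. -/
def D2 : List Dat := [(432211000, default),
  (130724856, [(1, 680315472)], 528130647, 342180576, 240571836),
  (647035120, [(1, 14072635)], 876531240, 876543021, 876541203),
  (304101562, [(1, 11032465)], 876531240, 876543021, 876541203),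
  (521001432, [(1, 352402011), (1, 350142120), (1, 352011240), (1, 351104202), (1, 354212001), (1,
    352021104), (1, 352110420)], 872564301, 874153062, 876410352),
  (105031240, [(1, 100143052), (1, 100143205), (1, 100130245), (1, 100143520), (1, 100104235)],
    876531240, 876543021, 876541203),
  (301013242, [(1, 431020321), (1, 413102230), (1, 401332120), (1, 431120230), (1, 411033202), (1,
    421021330), (1, 431213200)], 867034125, 836274015, 826045173),
  (110021203, [(1, 310122010), (1, 310102201), (1, 310020211), (1, 310201210), (1, 310110220), (1,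
    310011202), (1, 310012021), (1, 310210012), (1, 310200121), (1, 310002112), (1, 310101022), (1,
    310021120), (1, 310212100), (1, 310120102), (1, 310221001)], 876504321, 876032451, 876405312)]

/-- The `2`-regular cycle types. -/
def T2 : List (Multiset ℕ) := [{9}, {7}, {5, 3}, {5}, {3, 3, 3}, {3, 3}, {3}, 0]

theorem mod2 : ModStmt 2 9 :=
  modStmt_of T2 (by decide +kernel) (fun j => dc (D2.getD j default).1) (by decide +kernel)
    fun _ _ _ j => ((by decide +kernel : ∀ j : Fin T2.length, j.1 = 0 ∨ ChkD 2 9 (D2.getD j default))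
      j).elim (fun e => by rw [e]; exact certE) Chk.cert

end Cfsg.Agent.H73.AS
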