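import Cfsg.Agent.H73.BdDefs

set_option autoImplicit false

namespace Cfsg.Agent.H73.BdLat

open Cfsg.Agent.H73.Bd

universe u

section
variable {ι : Type u} [Fintype ι] (d : ι → ℤ) (q : ℕ)

def InL (n : ι → ℤ) : Prop := ∃ u : ℤ, ∀ i, (q : ℤ) ∣ n i - u * d i

def A (N : ℕ) : Set (ι → ℤ) := {n | InL d q n ∧ ∀ i, (N : ℤ) * |n i| ≤ q}

def V (N : ℕ) : Submodule ℝ (ι → ℝ) :=
  Submodule.span ℝ ((fun (n : ι → ℤ) (i : ι) => (n i : ℝ)) '' A d q N)

theorem V_anti {N N' : ℕ} (h : N ≤ N') : V d q N' ≤ V d q N := by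
  refine Submodule.span_mono (Set.image_mono fun n hn => ⟨hn.1, fun i => le_trans ?_ (hn.2 i)⟩)
  exact mul_le_mul_of_nonneg_right (by exact_mod_cast h) (abs_nonneg _)

variable {d q}

theorem bnd {k : ℕ} (hk : Fintype.card ι ≤ k) {i0 : ι}
    (H : ∀ (u : ℤ) (n : ι → ℤ), (∀ i, (q : ℤ) ∣ n i - u * d i) → (q : ℤ) * n i0 ≤ ∑ i, n i ^ 2)
    {n : ι → ℤ} (hn : InL d q n) {B : ℝ} (hB : ∀ i, |(n i : ℝ)| ≤ B) :
    (q : ℝ) * |(n i0 : ℝ)| ≤ k * B ^ 2 := by
  obtain ⟨u, hu⟩ := hn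
  have h1 := H u n hu
  have h2 := H (-u) (-n) (fun i => by
    have e : (-n) i - -u * d i = -(n i - u * d i) := by rw [Pi.neg_apply]; ring
    rw [e]; exact (hu i).neg_right)
  simp only [Pi.neg_apply, even_two, Even.neg_pow] at h2
  have h3 : (q : ℤ) * |n i0| ≤ ∑ i, n i ^ 2 := by
    rcases abs_choice (n i0) with h | h <;> rw [h] <;> assumption
  have h4 : (q : ℝ) * |(n i0 : ℝ)| ≤ ∑ i, (n i : ℝ) ^ 2 := by exact_mod_cast h3
  refine h4.trans ((Finset.sum_le_card_nsmul _ _ (B ^ 2) fun i _ => ?_).trans ?_)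
  · rw [← sq_abs]; exact pow_le_pow_left₀ (abs_nonneg _) (hB i) 2
  · rw [nsmul_eq_mul, Finset.card_univ]
    exact mul_le_mul_of_nonneg_right (by exact_mod_cast hk) (sq_nonneg _)

theorem step {k : ℕ} (hk : Fintype.card ι ≤ k) {i0 : ι} (hq : 0 < q)
    (H : ∀ (u : ℤ) (n : ι → ℤ), (∀ i, (q : ℤ) ∣ n i - u * d i) → (q : ℤ) * n i0 ≤ ∑ i, n i ^ 2)
    {N N' : ℕ} (hN : 0 < N) (hN' : 0 < N') (hV : V d q N ≤ V d q N') {y : ι → ℤ}
    (hy : y ∈ A d q N) :
    (N : ℝ) * N' * |(y i0 : ℝ)| ≤ (k * (k + 1) ^ 2 + k ^ 2) * q := by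
  classical
  obtain ⟨b, hb, hsp, hli⟩ := exists_linearIndependent ℝ
    ((fun (n : ι → ℤ) (i : ι) => (n i : ℝ)) '' A d q N')
  have hfin : Finite b := hli.finite
  have := Fintype.ofFinite b
  have hcard : (Fintype.card b : ℝ) ≤ k := by
    have h1 := hli.fintype_card_le_finrank
    rw [Module.finrank_fintype_fun_eq_card] at h1
    exact_mod_cast h1.trans hk
  choose w hw hwx using fun x : b => hb x.2
  have hyV : (fun i => (y i : ℝ)) ∈ Submodule.span ℝ (Set.range (Subtype.val : b → ι → ℝ)) := by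
    rw [Subtype.range_coe, hsp]
    exact hV (Submodule.subset_span ⟨y, hy, rfl⟩)
  obtain ⟨c, hc⟩ := (Submodule.mem_span_range_iff_exists_fun ℝ).mp hyV
  have hqr : (0 : ℝ) < q := by exact_mod_cast hq
  have hNr : (0 : ℝ) < N := by exact_mod_cast hN
  have hNr' : (0 : ℝ) < N' := by exact_mod_cast hN'
  set s : ℝ := N / N' with hs
  set t : ℝ := q / N' with ht
  have ht0 : 0 ≤ t := by positivity
  have hwt : ∀ x i, |(w x i : ℝ)| ≤ t := by
    intro x i
    have h1 : (N' : ℝ) * |(w x i : ℝ)| ≤ q := by exact_mod_cast (hw x).2 i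
    rw [ht, le_div_iff₀ hNr']; linarith
  have hyi : ∀ i, (y i : ℝ) = ∑ x : b, c x * (w x i : ℝ) := by
    intro i
    have := congrFun hc i
    simp only [Finset.sum_apply, Pi.smul_apply, smul_eq_mul] at this
    rw [← this]
    exact Finset.sum_congr rfl fun x _ => by rw [← hwx x]
  let z : ι → ℤ := fun i => ∑ x : b, ⌊s * c x⌋ * w x i
  have hzL : InL d q z := by
    choose u hu using fun x : b => (hw x).1
    refine ⟨∑ x : b, ⌊s * c x⌋ * u x, fun i => ?_⟩
    simp only [z, Finset.sum_mul, ← Finset.sum_sub_distrib]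
    refine Finset.dvd_sum fun x _ => ?_
    have := (hu x i).mul_left ⌊s * c x⌋
    convert this using 1
    ring
  have herr : ∀ (i : ι) (B : ℝ), 0 ≤ B → (∀ x, |(w x i : ℝ)| ≤ B) →
      |s * (y i : ℝ) - (z i : ℝ)| ≤ k * B := by
    intro i B hB0 hB
    have : s * (y i : ℝ) - (z i : ℝ) = ∑ x : b, Int.fract (s * c x) * (w x i : ℝ) := by
      rw [hyi i, Finset.mul_sum]
      simp only [z, Int.cast_sum, Int.cast_mul, ← Finset.sum_sub_distrib]
      exact Finset.sum_congr rfl fun x _ => by rw [Int.fract]; ring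
    rw [this]
    refine (Finset.abs_sum_le_sum_abs _ _).trans
      ((Finset.sum_le_card_nsmul _ _ B fun x _ => ?_).trans ?_)
    · rw [abs_mul, abs_of_nonneg (Int.fract_nonneg _)]
      exact (mul_le_of_le_one_left (abs_nonneg _) (Int.fract_lt_one _).le).trans (hB x)
    · rw [nsmul_eq_mul, Finset.card_univ]
      exact mul_le_mul_of_nonneg_right hcard hB0
  have hs0 : 0 < s := by positivity
  have hzt : ∀ i, |(z i : ℝ)| ≤ (k + 1) * t := by
    intro i
    have h1 := herr i t ht0 (fun x => hwt x i)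
    have h2 : (N : ℝ) * |(y i : ℝ)| ≤ q := by exact_mod_cast hy.2 i
    have h3 : |s * (y i : ℝ)| ≤ t := by
      rw [abs_mul, abs_of_pos hs0, hs, ht, div_mul_eq_mul_div]
      exact div_le_div_of_nonneg_right h2 hNr'.le
    have h4 := abs_sub_abs_le_abs_sub (z i : ℝ) (s * (y i : ℝ))
    rw [abs_sub_comm] at h4
    linarith
  have h1 := bnd hk H hzL hzt
  have h2 := herr i0 (k * t ^ 2 / q) (by positivity) (fun x => by
    rw [le_div_iff₀ hqr, mul_comm]
    exact bnd hk H (hw x).1 (hwt x))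
  have h3 := abs_sub_abs_le_abs_sub (s * (y i0 : ℝ)) (z i0 : ℝ)
  rw [abs_mul, abs_of_pos hs0] at h3
  have h4 : |(z i0 : ℝ)| ≤ k * ((k + 1) * t) ^ 2 / q := by
    rw [le_div_iff₀ hqr, mul_comm]; exact h1
  have h5 : s * |(y i0 : ℝ)| ≤ k * ((k + 1) * t) ^ 2 / q + k * (k * t ^ 2 / q) := by linarith
  have h6 := mul_le_mul_of_nonneg_left h5 (sq_nonneg (N' : ℝ))
  have e1 : (N' : ℝ) ^ 2 * (s * |(y i0 : ℝ)|) = N * N' * |(y i0 : ℝ)| := by
    rw [hs]; field_simp
  have e2 : (N' : ℝ) ^ 2 * (k * ((k + 1) * t) ^ 2 / q + k * (k * t ^ 2 / q)) =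
      (k * (k + 1) ^ 2 + k ^ 2) * q := by
    rw [ht]; field_simp
  rw [e1, e2] at h6
  exact h6

theorem box {k : ℕ} (hk : Fintype.card ι ≤ k) {i0 : ι} (hq : 0 < q) (hd : d i0 = 1) {N : ℕ}
    (hN : 0 < N) : ∃ y ∈ A d q N, ((q / (N ^ k + 1) : ℕ) : ℤ) ≤ |y i0| := by
  classical
  set L : ℕ := q / (N ^ k + 1) with hL
  have hqz : (0 : ℤ) < q := by exact_mod_cast hq
  let a : ℕ → ι → ℤ := fun j i => ((j * L : ℕ) * d i) % q
  have ha0 : ∀ j i, 0 ≤ a j i := fun j i => Int.emod_nonneg _ hqz.ne'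
  have ha1 : ∀ j i, a j i < q := fun j i => Int.emod_lt_of_pos _ hqz
  obtain ⟨j, hj, j', hj', hne, heq⟩ := Finset.exists_ne_map_eq_of_card_lt_of_maps_to
    (s := Finset.range (N ^ k + 1)) (t := Fintype.piFinset fun _ : ι => Finset.Ico (0 : ℤ) N)
    (f := fun j i => (N * a j i) / q)
    (by
      rw [Fintype.card_piFinset, Finset.prod_const, Finset.card_univ, Finset.card_range]
      simp only [Int.card_Ico, sub_zero, Int.toNat_natCast]
      exact Nat.lt_succ_of_le (Nat.pow_le_pow_right hN hk))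
    (by
      intro j _
      simp only [Finset.mem_coe, Fintype.mem_piFinset, Finset.mem_Ico]
      intro i
      refine ⟨Int.ediv_nonneg (mul_nonneg (by positivity) (ha0 j i)) hqz.le, ?_⟩
      rw [Int.ediv_lt_iff_lt_mul hqz]
      exact mul_lt_mul_of_pos_left (ha1 j i) (by exact_mod_cast hN))
  have hlt : ∀ j ∈ Finset.range (N ^ k + 1), a j i0 = (j * L : ℕ) := by
    intro j hj
    have hj1 := Finset.mem_range.mp hj
    have h1 : j * L < q := by
      rcases Nat.eq_zero_or_pos L with h | h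
      · rw [h, mul_zero]; exact hq
      · exact lt_of_lt_of_le (Nat.mul_lt_mul_of_pos_right hj1 h) (Nat.mul_div_le q _)
    simp only [a, hd, mul_one]
    exact Int.emod_eq_of_lt (by positivity) (by exact_mod_cast h1)
  refine ⟨a j - a j', ⟨⟨(j * L : ℕ) - (j' * L : ℕ), fun i => ?_⟩, fun i => ?_⟩, ?_⟩
  · have h1 := Int.mul_ediv_add_emod (((j * L : ℕ) : ℤ) * d i) q
    have h2 := Int.mul_ediv_add_emod (((j' * L : ℕ) : ℤ) * d i) q
    refine ⟨((j' * L : ℕ) : ℤ) * d i / q - ((j * L : ℕ) : ℤ) * d i / q, ?_⟩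
    simp only [Pi.sub_apply, a]
    linear_combination h1 - h2
  · have h0 : (N * a j i) / q = (N * a j' i) / q := congrFun heq i
    have h1 := Int.mul_ediv_add_emod (N * a j i) q
    have h2 := Int.mul_ediv_add_emod (N * a j' i) q
    have h3 := Int.emod_nonneg (N * a j i) hqz.ne'
    have h4 := Int.emod_nonneg (N * a j' i) hqz.ne'
    have h5 := Int.emod_lt_of_pos (N * a j i) hqz
    have h6 := Int.emod_lt_of_pos (N * a j' i) hqz
    rw [h0] at h1
    rw [Pi.sub_apply, ← abs_of_nonneg (Int.natCast_nonneg N), ← abs_mul, mul_sub, abs_le]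
    constructor <;> linarith
  · rw [Pi.sub_apply, hlt j hj, hlt j' hj']
    push_cast
    rw [← sub_mul, abs_mul, abs_of_nonneg (Int.natCast_nonneg L)]
    have : (1 : ℤ) ≤ |(j : ℤ) - j'| := Int.one_le_abs (sub_ne_zero.mpr (by exact_mod_cast hne))
    exact le_mul_of_one_le_left (Int.natCast_nonneg L) this

end

def sc (k : ℕ) : ℕ → ℕ
  | 0 => 1
  | j + 1 => 2 * (k * (k + 1) ^ 2 + k ^ 2) * (sc k j ^ k + 1) + sc k j

theorem sc_pos (k j : ℕ) : 0 < sc k j := by
  induction j with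
  | zero => exact one_pos
  | succ j ih => exact Nat.add_pos_right _ ih

theorem lat : LatStmt.{u} := by
  intro k
  refine ⟨∑ j ∈ Finset.range (k + 1), sc k j ^ k, fun ι _ hk i0 d q hq hd H => ?_⟩
  have hex : ∃ j < k + 1, V d q (sc k j) ≤ V d q (sc k (j + 1)) := by
    by_contra hcon
    push Not at hcon
    have : ∀ j ≤ k + 1, Module.finrank ℝ (V d q (sc k j)) + j ≤ k := by
      intro j
      induction j with
      | zero =>
        intro _
        have := Submodule.finrank_le (V d q (sc k 0))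
        rw [Module.finrank_fintype_fun_eq_card] at this
        omega
      | succ j ih =>
        intro hj
        have h1 : V d q (sc k (j + 1)) < V d q (sc k j) :=
          lt_of_le_not_ge (V_anti d q (Nat.le_add_left _ _)) (hcon j hj)
        have h2 := Submodule.finrank_lt_finrank_of_lt h1
        have := ih (by omega)
        omega
    have := this (k + 1) le_rfl
    omega
  obtain ⟨j, hj, hV⟩ := hex
  refine le_trans ?_ (Finset.single_le_sum (f := fun j => sc k j ^ k) (fun _ _ => Nat.zero_le _)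
    (Finset.mem_range.mpr hj))
  obtain ⟨y, hy, hyL⟩ := box hk hq hd (sc_pos k j)
  have hs := step hk hq H (sc_pos k j) (sc_pos k (j + 1)) hV hy
  have hN := sc_pos k j
  set N := sc k j with hNd
  set C := k * (k + 1) ^ 2 + k ^ 2 with hC
  set L := q / (N ^ k + 1) with hL
  have hN' : sc k (j + 1) = 2 * C * (N ^ k + 1) + N := rfl
  by_contra hcon
  have hL1 : 0 < L := Nat.div_pos (by omega) (Nat.succ_pos _)
  have hq2 : q < (N ^ k + 1) * (L + 1) := Nat.lt_mul_div_succ q (Nat.succ_pos _)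
  have h1 : N * sc k (j + 1) * L ≤ C * q := by
    have h2 : (L : ℝ) ≤ |(y i0 : ℝ)| := by exact_mod_cast hyL
    have h3 : (N : ℝ) * (sc k (j + 1) : ℕ) * L ≤ (k * (k + 1) ^ 2 + k ^ 2) * q :=
      (mul_le_mul_of_nonneg_left h2 (by positivity)).trans hs
    exact_mod_cast h3
  rw [hN'] at h1
  have h4 : C * q ≤ 2 * C * (N ^ k + 1) * L := by
    have : q ≤ (N ^ k + 1) * (2 * L) := hq2.le.trans (Nat.mul_le_mul_left _ (by omega))
    calc C * q ≤ C * ((N ^ k + 1) * (2 * L)) := Nat.mul_le_mul_left _ this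
      _ = _ := by ring
  have h5 : (2 * C * (N ^ k + 1) + N) * L ≤ N * (2 * C * (N ^ k + 1) + N) * L :=
    Nat.mul_le_mul_right _ (Nat.le_mul_of_pos_left _ hN)
  have h6 : 0 < N * L := Nat.mul_pos hN hL1
  rw [add_mul] at h5
  omega

end Cfsg.Agent.H73.BdLat
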