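import Cfsg.Agent.H73.GagDefs

/-! Elements of order three act quadratically on the 2-groups they normalise. -/

set_option autoImplicit false

namespace Cfsg.Agent.H73.GagK

open Subgroup Cfsg Gag
open scoped commutatorElement

universe u

section Ring

variable {R : Type*} [Ring R]

theorem add_self' (h2 : (2 : R) = 0) (x : R) : x + x = 0 := by rw [← two_mul, h2, zero_mul]

theorem pow_two_pow (h2 : (2 : R) = 0) {A τ : R} (hc : Commute τ A) (h : A ^ 2 = 1 + τ * A)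
    (i : ℕ) : A ^ (2 * 2 ^ i) = 1 + τ ^ 2 ^ i * A ^ 2 ^ i := by
  rw [pow_mul, h, ← hc.mul_pow]
  generalize τ * A = x
  induction i with
  | zero => simp
  | succ i ih =>
    rw [pow_succ, pow_mul, pow_mul, ih]
    generalize x ^ 2 ^ i = z
    have := add_self' h2 z
    rw [pow_two, pow_two, add_mul, mul_add, mul_add, one_mul, one_mul, mul_one, add_assoc,
      ← add_assoc z, this, zero_add]

theorem pow_add_pow (h2 : (2 : R) = 0) {A B τ : R} (hA : Commute τ A) (hB : Commute τ B)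
    (h : A ^ 2 = 1 + τ * A) (h' : B ^ 2 = 1 + τ * B) (i : ℕ) :
    A ^ 2 ^ i + B ^ 2 ^ i = τ ^ (2 ^ i - 1) * (A + B) := by
  induction i with
  | zero => simp
  | succ i ih =>
    have h1 : 0 < 2 ^ i := Nat.pos_of_ne_zero (by simp)
    rw [pow_succ', pow_two_pow h2 hA h, pow_two_pow h2 hB h',
      show 2 * 2 ^ i - 1 = 2 ^ i + (2 ^ i - 1) by omega, pow_add, mul_assoc, ← ih, mul_add,
      add_add_add_comm, add_self' h2, zero_add]

end Ring

variable {G V : Type u} [Group G] [Finite G] [AddCommGroup V] [DistribMulAction G V]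

local notation "ρ" => DistribMulAction.toAddMonoidEnd G V

omit [Finite G] in
theorem two_eq (h : SRM 2 G V) : (2 : AddMonoid.End V) = 0 := by
  rw [← one_add_one_eq_two]
  exact AddMonoidHom.ext h.add_self

omit [Finite G] in
theorem inv_three (h : SRM 2 G V) {y : G} (hy : orderOf y = 3) : ρ y⁻¹ = ρ y + 1 := by
  refine AddMonoidHom.ext fun v => ?_
  have h1 := h.three hy v
  have h2 := h.add_self (y • v)
  have h3 := h.add_self v
  change y⁻¹ • v = y • v + v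
  rw [← sub_eq_zero, ← h2, ← zero_add (y • v + y • v), ← h3, eq_neg_add_iff_add_eq.2
    (show y • v + y⁻¹ • v = -v from h1)]
  have h4 : ∀ a b : V, -a + -b - (a + b) = -(b + b + (a + a)) := fun a b => by abel
  rw [h4, h2, h3]; simp

omit [Finite G] in
theorem rho_inj (k : KitA G V) {a b : G} (hab : ρ a = ρ b) : a = b :=
  (inv_mul_eq_one.1 (k.faithful (b⁻¹ * a) fun v => by
    rw [mul_smul, show a • v = b • v from DFunLike.congr_fun hab v, inv_smul_smul])).symm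

theorem sq_eq_one (h : SRM 2 G V) (k : KitA G V) {y y' : G} (hy : orderOf y = 3)
    (hy' : orderOf y' = 3) {Q : Subgroup G} (hQ : IsPGroup 2 Q) (ha : y' * y⁻¹ ∈ Q)
    (hb : y * (y' * y⁻¹) * y⁻¹ ∈ Q) : (y' * y⁻¹) ^ 2 = 1 := by
  have := h.fin
  have h2 := two_eq h
  have hs := add_self' h2
  obtain ⟨a, hadef⟩ : ∃ a, a = y' * y⁻¹ := ⟨_, rfl⟩
  obtain ⟨b, hbdef⟩ : ∃ b, b = y * a * y⁻¹ := ⟨_, rfl⟩
  rw [← hadef] at ha hb ⊢
  rw [← hbdef] at hb
  have hY := inv_three h hy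
  have hY' := inv_three h hy'
  have hYY : ρ y * (ρ y + 1) = 1 := by rw [← hY, ← map_mul, mul_inv_cancel, map_one]
  have hYY' : ρ y' * (ρ y' + 1) = 1 := by rw [← hY', ← map_mul, mul_inv_cancel, map_one]
  obtain ⟨τ, hτ⟩ : ∃ τ, τ = ρ a + ρ a⁻¹ := ⟨_, rfl⟩
  have hτ' : τ = ρ y' * (ρ y + 1) + ρ y * (ρ y' + 1) := by
    rw [hτ, hadef, mul_inv_rev, inv_inv, map_mul, map_mul, hY, hY']
  have cY : Commute τ (ρ y) := by
    rw [hτ']
    generalize ρ y = Y at hYY ⊢
    generalize ρ y' = Z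
    have e : Y * Y = 1 - Y := by rw [← hYY]; noncomm_ring
    have e1 : (Z * (Y + 1) + Y * (Z + 1)) * Y = Z * (Y * Y) + Z * Y + Y * Z * Y + Y * Y := by
      noncomm_ring
    have e2 : Y * (Z * (Y + 1) + Y * (Z + 1)) = Y * Z * Y + Y * Z + Y * Y * Z + Y * Y := by
      noncomm_ring
    rw [Commute, SemiconjBy, e1, e2, e]
    noncomm_ring
  have cY' : Commute τ (ρ y') := by
    rw [hτ']
    generalize ρ y' = Y at hYY' ⊢
    generalize ρ y = Z
    have e : Y * Y = 1 - Y := by rw [← hYY']; noncomm_ring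
    have e1 : (Y * (Z + 1) + Z * (Y + 1)) * Y = Z * (Y * Y) + Z * Y + Y * Z * Y + Y * Y := by
      noncomm_ring
    have e2 : Y * (Y * (Z + 1) + Z * (Y + 1)) = Y * Z * Y + Y * Z + Y * Y * Z + Y * Y := by
      noncomm_ring
    rw [Commute, SemiconjBy, e1, e2, e]
    noncomm_ring
  have cYi : Commute τ (ρ y⁻¹) := by rw [hY]; exact cY.add_right (Commute.one_right _)
  have cA : Commute τ (ρ a) := by rw [hadef, map_mul]; exact cY'.mul_right cYi
  have cB : Commute τ (ρ b) := by rw [hbdef, map_mul, map_mul]; exact (cY.mul_right cA).mul_right cYi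
  have hA : ρ a ^ 2 = 1 + τ * ρ a := by
    rw [hτ, add_mul, ← map_mul _ a⁻¹, inv_mul_cancel, map_one, add_comm (ρ a * ρ a), ← add_assoc,
      hs, zero_add, pow_two]
  have hB : ρ b ^ 2 = 1 + τ * ρ b := by
    have e : b ^ 2 = y * a ^ 2 * y⁻¹ := by rw [hbdef, conj_pow]
    rw [← map_pow, e, map_mul, map_mul, map_pow, hA, mul_add, add_mul, mul_one, ← map_mul,
      mul_inv_cancel, map_one, ← mul_assoc, ← cY.eq, hbdef, map_mul, map_mul, mul_assoc τ,
      mul_assoc τ]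
  by_contra hne
  obtain ⟨m, hm⟩ : ∃ m, orderOf a = 2 ^ m := by
    obtain ⟨m, hm⟩ := hQ ⟨a, ha⟩
    obtain ⟨j, -, hj⟩ := (Nat.dvd_prime_pow Nat.prime_two).1
      (orderOf_dvd_of_pow_eq_one (show a ^ 2 ^ m = 1 from congrArg Subtype.val hm))
    exact ⟨j, hj⟩
  obtain ⟨i, rfl⟩ : ∃ i, m = i + 2 := by
    refine ⟨m - 2, ?_⟩
    by_contra hlt
    refine hne (orderOf_dvd_iff_pow_eq_one.1 ?_)
    have : m = 0 ∨ m = 1 := by omega
    rcases this with rfl | rfl <;> simp [hm]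
  obtain ⟨σ, hσ⟩ : ∃ σ, σ = τ ^ 2 ^ i := ⟨_, rfl⟩
  have sA : Commute σ (ρ a) := hσ ▸ cA.pow_left _
  have sB : Commute σ (ρ b) := hσ ▸ cB.pow_left _
  have hz : orderOf (a ^ (2 * 2 ^ i)) = 2 := by
    rw [orderOf_pow' a (by simp), hm, pow_add, Nat.gcd_eq_right ⟨2, by ring⟩]
    exact Nat.div_eq_of_eq_mul_left (by simp) (by ring)
  have hza : ρ (a ^ (2 * 2 ^ i)) = 1 + σ * ρ a ^ 2 ^ i := by
    rw [map_pow, pow_two_pow h2 cA hA, hσ]
  have hzb : ρ (b ^ (2 * 2 ^ i)) = 1 + σ * ρ b ^ 2 ^ i := by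
    rw [map_pow, pow_two_pow h2 cB hB, hσ]
  have hσσ : σ * σ = 0 := by
    have e := pow_two_pow h2 cA hA (i + 1)
    rw [← map_pow, show 2 * 2 ^ (i + 1) = orderOf a by rw [hm]; ring, pow_orderOf_eq_one, map_one,
      left_eq_add, ← map_pow] at e
    have e1 := congrArg (· * ρ (a ^ 2 ^ (i + 1))⁻¹) e
    simp only [mul_assoc, ← map_mul, mul_inv_cancel, map_one, mul_one, zero_mul] at e1
    rw [hσ, ← pow_add, ← two_mul, ← pow_succ', e1]
  have hfz : ∀ v : V, a ^ (2 * 2 ^ i) • v = v ↔ σ v = 0 := fun v => by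
    have e : a ^ (2 * 2 ^ i) • v = v + a ^ 2 ^ i • σ v := by
      have := DFunLike.congr_fun hza v
      rw [(sA.pow_right _).eq, ← map_pow] at this
      exact this
    rw [e, add_eq_left, smul_eq_zero_iff_eq]
  have hker : ∀ v : V, σ v = 0 → ∃ w, v = σ w := fun v hv => by
    obtain ⟨w, hw⟩ := k.free _ hz v ((hfz v).2 hv)
    refine ⟨a ^ 2 ^ i • w, ?_⟩
    have := DFunLike.congr_fun hza w
    rw [← map_pow] at this
    rw [hw, show a ^ (2 * 2 ^ i) • w = w + σ (a ^ 2 ^ i • w) from this, add_right_comm,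
      h.add_self, zero_add]
  have hw : ρ (a ^ (2 * 2 ^ i) * b ^ (2 * 2 ^ i)) = 1 + σ * (ρ a ^ 2 ^ i + ρ b ^ 2 ^ i) := by
    rw [map_mul, hza, hzb, add_mul, mul_add, mul_add, one_mul, one_mul, mul_one, mul_assoc,
      ← mul_assoc _ σ, ← (sA.pow_right _).eq, ← mul_assoc, ← mul_assoc, hσσ, zero_mul, zero_mul,
      add_zero, mul_add, add_assoc, add_comm (σ * _)]
  have hw1 : a ^ (2 * 2 ^ i) * b ^ (2 * 2 ^ i) = 1 := by
    by_contra hw1
    generalize a ^ (2 * 2 ^ i) * b ^ (2 * 2 ^ i) = w at hw hw1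
    have cS : Commute σ (ρ a ^ 2 ^ i + ρ b ^ 2 ^ i) := (sA.pow_right _).add_right (sB.pow_right _)
    have hw2 : orderOf w = 2 := orderOf_eq_prime (rho_inj k (by
      generalize ρ a ^ 2 ^ i + ρ b ^ 2 ^ i = S at hw cS
      rw [map_pow, hw, map_one, pow_two, add_mul, mul_add, mul_add, one_mul, one_mul, mul_one,
        mul_assoc, ← mul_assoc _ σ, ← cS.eq, ← mul_assoc, ← mul_assoc, hσσ, zero_mul, zero_mul,
        add_zero, add_assoc, hs, add_zero])) hw1
    have hfw : ∀ v : V, (ρ a ^ 2 ^ i + ρ b ^ 2 ^ i) (σ v) = 0 → w • v = v := fun v hv => by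
      have := DFunLike.congr_fun hw v
      rw [cS.eq] at this
      exact this.trans (add_eq_left.2 hv)
    have hc : Nat.card {v : V // w • v = v} = Nat.card {v : V // a ^ (2 * 2 ^ i) • v = v} :=
      Nat.pow_left_injective two_ne_zero ((k.half _ hw2).trans (k.half _ hz).symm)
    have hbij := (Nat.bijective_iff_injective_and_card
      (fun v : {v : V // a ^ (2 * 2 ^ i) • v = v} => (⟨v.1, hfw _ (by
        rw [(hfz _).1 v.2, map_zero])⟩ : {v : V // w • v = v}))).2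
      ⟨fun v w e => Subtype.ext (by simpa using e), hc.symm⟩
    have hV : IsPGroup 2 (Multiplicative V) := fun v => ⟨1, by
      rw [pow_one, pow_two]; exact h.add_self v.toAdd⟩
    have hQ0 : IsPGroup 2 (closure {a, b} : Subgroup G) :=
      hQ.to_le ((closure_le _).2 (by rintro _ (rfl | rfl) <;> assumption))
    have hinv : ∀ g ∈ (closure {a, b} : Subgroup G), Commute σ (ρ g) := fun g hg => by
      induction hg using closure_induction with
      | mem x hx => rcases hx with rfl | rfl <;> assumption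
      | one => rw [map_one]; exact Commute.one_right _
      | mul x y _ _ hx hy => rw [map_mul]; exact hx.mul_right hy
      | inv x _ hx =>
        have e := congrArg (fun z => ρ x⁻¹ * z * ρ x⁻¹) hx.eq
        simp only [mul_assoc, ← map_mul, mul_inv_cancel, map_one, mul_one] at e
        rw [← mul_assoc, ← map_mul, inv_mul_cancel, map_one, one_mul] at e
        exact e.symm
    have hinv' : ∀ g ∈ (closure {a, b} : Subgroup G), ∀ v : V, σ (g • v) = g • σ v :=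
      fun g hg v => DFunLike.congr_fun (hinv g hg).eq v
    obtain ⟨v, hv, hv'⟩ := H82.exists_not_mem_smul_sub_mem hQ0 hV (AddMonoidHom.ker σ)
      (fun g hg v hv => (hinv' g hg v).trans (by rw [show σ v = 0 from hv, smul_zero]))
      (fun ht => by
        have : a ^ (2 * 2 ^ i) = 1 := k.faithful _ fun v => (hfz v).2
          (AddMonoidHom.mem_ker.1 (ht ▸ AddSubgroup.mem_top v : v ∈ AddMonoidHom.ker σ))
        simp [this] at hz)
    have hfix : ∀ g ∈ (closure {a, b} : Subgroup G), g • σ v = σ v := fun g hg => by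
      have e : σ (g • v - v) = 0 := AddMonoidHom.mem_ker.1 (hv' g hg)
      rwa [map_sub, hinv' g hg, sub_eq_zero] at e
    have hwv : w • v = v := hfw v (by
      rw [← map_pow, ← map_pow]
      change a ^ 2 ^ i • σ v + b ^ 2 ^ i • σ v = 0
      rw [hfix _ (pow_mem (subset_closure (by simp)) _),
        hfix _ (pow_mem (subset_closure (by simp)) _), h.add_self])
    obtain ⟨u, hu⟩ := hbij.2 ⟨v, hwv⟩
    exact hv (AddMonoidHom.mem_ker.2 ((hfz v).1 (by
      rw [← show u.1 = v from Subtype.ext_iff.1 hu]; exact u.2)))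
  rw [hw1, map_one, left_eq_add, pow_add_pow h2 cA cB hA hB] at hw
  have h1 : 0 < 2 ^ i := Nat.pos_of_ne_zero (by simp)
  have hσ1 : σ = τ * τ ^ (2 ^ i - 1) := by rw [hσ, ← pow_succ']; congr 1; omega
  have hσ2 : σ = τ ^ (2 ^ i - 1) * τ := by rw [hσ, ← pow_succ]; congr 1; omega
  have hAB : ∀ v : V, ∃ w, (ρ a + ρ b) v = τ w := fun v => by
    obtain ⟨w, e⟩ := hker ((τ ^ (2 ^ i - 1)) ((ρ a + ρ b) v)) (DFunLike.congr_fun hw v)
    generalize (ρ a + ρ b) v = x at e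
    have e1 : (τ ^ (2 ^ i - 1)) (x + τ w) = 0 := by
      rw [map_add, e, hσ2]; exact h.add_self _
    obtain ⟨w', e2⟩ := hker (x + τ w) (by
      rw [hσ1]; exact (congrArg τ e1).trans (map_zero τ))
    refine ⟨(τ ^ (2 ^ i - 1)) w' + w, ?_⟩
    rw [map_add, show τ ((τ ^ (2 ^ i - 1)) w') = σ w' from by rw [hσ1]; rfl, ← e2, add_assoc,
      h.add_self, add_zero]
  have hy3 : y * y * y = 1 := by rw [← pow_orderOf_eq_one y, hy, pow_succ, pow_two]
  have hy3' : y' * y' * y' = 1 := by rw [← pow_orderOf_eq_one y', hy', pow_succ, pow_two]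
  have habc : a * (b * (y * b * y⁻¹)) = 1 := by
    rw [hbdef, hadef, ← hy3']
    calc _ = y' * y' * (y⁻¹ * y⁻¹ * (y * y * y)⁻¹ * y * y * y * y * y) * y' * (y * y * y)⁻¹ := by
          group
      _ = _ := by rw [hy3]; group; rw [show (3 : ℤ) = (3 : ℕ) from rfl, zpow_natCast, ← hy,
          pow_orderOf_eq_one, mul_one, mul_assoc]
  have hA1 : ∀ v : V, ∃ w, (1 + ρ a) v = τ w := fun v => by
    have e : 1 + ρ a = ρ a * (ρ b * (ρ y * (ρ a + ρ b) * ρ y⁻¹) + τ * ρ b) := by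
      have e1 : ρ y * ρ a * ρ y⁻¹ = ρ b := by rw [hbdef, map_mul, map_mul]
      have e2 : ρ a * (ρ b * (ρ y * ρ b * ρ y⁻¹)) = 1 := by
        rw [← map_mul, ← map_mul, ← map_mul, ← map_mul, habc, map_one]
      rw [mul_add (ρ y), add_mul, e1, mul_add (ρ b), ← pow_two, hB, add_right_comm, add_assoc 1,
        hs, add_zero, mul_add, e2, mul_one, add_comm]
    obtain ⟨w, hw⟩ := hAB (y⁻¹ • v)
    refine ⟨a • (b • y • w + b • v), ?_⟩
    have c : ∀ g : G, Commute τ (ρ g) → ∀ x : V, τ (g • x) = g • τ x :=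
      fun g hg x => DFunLike.congr_fun hg.eq x
    rw [e, c a cA, map_add, c b cB, c y cY, ← hw]
    rfl
  have hττ : ∀ v : V, ∃ w, τ v = τ (τ w) := fun v => by
    obtain ⟨w, hw⟩ := hA1 (a⁻¹ • v)
    obtain ⟨w', hw'⟩ := hA1 w
    refine ⟨w', ?_⟩
    have e : τ * ρ a = (1 + ρ a) * (1 + ρ a) := by
      rw [add_mul, mul_add, mul_add, one_mul, one_mul, mul_one, ← pow_two, hA, add_assoc,
        ← add_assoc (ρ a), hs, zero_add, ← add_assoc, hs, zero_add]
    have e1 := DFunLike.congr_fun e (a⁻¹ • v)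
    have e2 := DFunLike.congr_fun ((Commute.one_right τ).add_right cA).eq w
    calc τ v = (τ * ρ a) (a⁻¹ • v) := congrArg τ (smul_inv_smul a v).symm
      _ = (1 + ρ a) (τ w) := e1.trans (congrArg (1 + ρ a : AddMonoid.End V) hw)
      _ = τ (τ w') := e2.symm.trans (congrArg τ hw')
  have hτn : ∀ (n : ℕ) (v : V), ∃ w, τ v = (τ ^ n) (τ w) := fun n => by
    induction n with
    | zero => exact fun v => ⟨v, rfl⟩
    | succ n ih =>
      intro v
      obtain ⟨w, hw⟩ := ih v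
      obtain ⟨w', hw'⟩ := hττ w
      exact ⟨w', by rw [hw, hw', pow_succ]; rfl⟩
  have hτ0 : τ = 0 := AddMonoidHom.ext fun v => by
    obtain ⟨w, hw⟩ := hτn (2 ^ i + 2 ^ i) v
    rw [pow_add, ← hσ, hσσ] at hw
    exact hw
  exact hne (rho_inj k (by rw [map_pow, hA, hτ0, zero_mul, add_zero, map_one]))

omit [Finite G] in
theorem anti (h : SRM 2 G V) {y e : G} (hy : orderOf y = 3) (he : e ^ 2 = 1)
    (h3 : (e * y) ^ 3 = 1) : (1 + ρ e) * ρ y = (ρ y + 1) * (1 + ρ e) := by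
  have hs := add_self' (two_eq h)
  have : Fact (Nat.Prime 3) := ⟨Nat.prime_three⟩
  have ho : orderOf (e * y) = 3 := orderOf_eq_prime h3 fun e1 => by
    have : y ^ 2 = 1 := by rw [eq_inv_of_mul_eq_one_right e1, inv_pow, he, inv_one]
    have := orderOf_dvd_of_pow_eq_one this
    rw [hy] at this
    omega
  have h1 := inv_three h ho
  rw [mul_inv_rev, show e⁻¹ = e from inv_eq_of_mul_eq_one_right (by rw [← pow_two, he]), map_mul,
    map_mul, inv_three h hy] at h1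
  rw [mul_add, h1, mul_one, add_mul, one_mul, add_add_add_comm, hs, add_zero]

theorem kitB : KitBStmt.{u} := by
  intro G V _ _ _ _ h k y hy Q hQ hn q hq hqy
  have hs := add_self' (two_eq h)
  have hcj : ∀ x ∈ Q, y * x * y⁻¹ ∈ Q := fun x hx => (mem_normalizer_iff.1 hn x).1 hx
  have hcj' : ∀ (n : ℕ), ∀ x ∈ Q, y ^ n * x * (y ^ n)⁻¹ ∈ Q := fun n x hx =>
    (mem_normalizer_iff.1 (pow_mem hn n) x).1 hx
  have hmem : ∀ x ∈ Q, ⁅x, y⁆ ∈ Q := fun x hx => by
    rw [commutatorElement_def, mul_assoc, mul_assoc, ← mul_assoc y]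
    exact mul_mem hx (hcj _ (inv_mem hx))
  have hsq : ∀ x ∈ Q, ⁅x, y⁆ ^ 2 = 1 := fun x hx =>
    sq_eq_one h k hy (y' := x * y * x⁻¹) (by rw [← hy, ← MulAut.conj_apply, MulEquiv.orderOf_eq])
      hQ (hmem x hx) (hcj _ (hmem x hx))
  have hinv : ∀ x ∈ Q, ⁅x, y⁆⁻¹ = ⁅x, y⁆ := fun x hx =>
    inv_eq_of_mul_eq_one_right (by rw [← pow_two, hsq x hx])
  have hsq2 : ∀ x ∈ Q, ∀ z ∈ Q, (⁅x, y⁆ * ⁅z, y⁆) ^ 2 = 1 := fun x hx z hz => by
    rw [← hinv z hz, show ⁅x, y⁆ * ⁅z, y⁆⁻¹ = z * ⁅z⁻¹ * x, y⁆ * z⁻¹ by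
      simp only [commutatorElement_def]; group, conj_pow, hsq _ (mul_mem (inv_mem hz) hx)]
    group
  have hcom : ∀ x ∈ Q, ∀ z ∈ Q, Commute ⁅x, y⁆ ⁅z, y⁆ := fun x hx z hz => by
    have e := inv_eq_of_mul_eq_one_right ((pow_two _).symm.trans (hsq2 x hx z hz))
    rw [mul_inv_rev, hinv x hx, hinv z hz] at e
    exact e.symm
  have hy3 : y ^ 3 = 1 := by rw [← hy, pow_orderOf_eq_one]
  have hcube : ∀ x : G, (⁅x, y⁆ * y) ^ 3 = 1 := fun x => by
    rw [commutatorElement_def, inv_mul_cancel_right, conj_pow, hy3]; group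
  have hexp : ∀ e : G, (e * y) ^ 3 = e * (y * e * y⁻¹) * (y ^ 2 * e * (y ^ 2)⁻¹) := fun e => by
    rw [← mul_one (e * _ * _), ← hy3]; simp only [pow_succ]; group
  have hcy : ∀ (n : ℕ) (x : G), y ^ n * ⁅x, y⁆ * (y ^ n)⁻¹ = ⁅y ^ n * x * (y ^ n)⁻¹, y⁆ :=
    fun n x => by simp only [commutatorElement_def]; group
  have hcube2 : ∀ x ∈ Q, ∀ z ∈ Q, (⁅x, y⁆ * ⁅z, y⁆ * y) ^ 3 = 1 := fun x hx z hz => by
    have e1 := hcube x
    have e2 := hcube z
    rw [hexp] at e1 e2 ⊢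
    have s1 : ∀ g u v : G, g * (u * v) * g⁻¹ = g * u * g⁻¹ * (g * v * g⁻¹) := fun g u v => by group
    have t1 := hcy 1
    simp only [pow_one] at t1
    rw [s1, s1]
    rw [t1, hcy] at e1 e2
    rw [t1, t1, hcy, hcy]
    have c1 := hcom z hz _ (hcj x hx)
    have c2 := hcom z hz _ (hcj' 2 x hx)
    have c3 := hcom _ (hcj z hz) _ (hcj' 2 x hx)
    generalize ⁅x, y⁆ = u0 at *
    generalize ⁅z, y⁆ = v0 at *
    generalize ⁅y * x * y⁻¹, y⁆ = u1 at *
    generalize ⁅y * z * y⁻¹, y⁆ = v1 at *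
    generalize ⁅y ^ 2 * x * (y ^ 2)⁻¹, y⁆ = u2 at *
    generalize ⁅y ^ 2 * z * (y ^ 2)⁻¹, y⁆ = v2 at *
    calc u0 * v0 * (u1 * v1) * (u2 * v2) = u0 * (v0 * u1) * (v1 * u2) * v2 := by group
      _ = u0 * u1 * (v0 * u2) * (v1 * v2) := by rw [c1.eq, c3.eq]; group
      _ = u0 * u1 * u2 * (v0 * v1 * v2) := by rw [c2.eq]; group
      _ = 1 := by rw [e1, e2, one_mul]
  have hquad : ∀ x ∈ Q, ∀ z ∈ Q, (1 + DistribMulAction.toAddMonoidEnd G V ⁅x, y⁆) *
      (1 + DistribMulAction.toAddMonoidEnd G V ⁅z, y⁆) = 0 := fun x hx z hz => by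
    have a1 := anti h hy (hsq x hx) (hcube x)
    have a2 := anti h hy (hsq z hz) (hcube z)
    have a3 := anti h hy (hsq2 x hx z hz) (hcube2 x hx z hz)
    rw [map_mul] at a3
    generalize DistribMulAction.toAddMonoidEnd G V ⁅x, y⁆ = E at a1 a3 ⊢
    generalize DistribMulAction.toAddMonoidEnd G V ⁅z, y⁆ = E' at a2 a3 ⊢
    generalize DistribMulAction.toAddMonoidEnd G V y = Y at a1 a2 a3
    have e : 1 + E * E' = (1 + E) + (1 + E') + (1 + E) * (1 + E') := by
      have : (1 + E) + (1 + E') + (1 + E) * (1 + E') =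
          1 + E * E' + (1 + 1) + (E + E) + (E' + E') := by noncomm_ring
      rw [this, hs, hs, hs, add_zero, add_zero, add_zero]
    rw [e] at a3
    generalize 1 + E = N at a1 a3 ⊢
    generalize 1 + E' = N' at a2 a3 ⊢
    rw [add_mul, add_mul, a1, a2, mul_add (Y + 1), mul_add (Y + 1), add_right_inj, mul_assoc, a2,
      ← mul_assoc, mul_add N, a1, mul_one, add_mul (_ * N), mul_assoc, add_eq_left] at a3
    exact a3
  have ht : orderOf ⁅q, y⁆ = 2 :=
    orderOf_eq_prime (hsq q hq) fun e => hqy (commutatorElement_eq_one_iff_commute.1 e)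
  have hA : ∀ x ∈ Q, ⁅x, y⁆ ∈ AA V ⁅q, y⁆ := fun x hx v hv => by
    obtain ⟨w, hw⟩ := k.free _ ht v hv
    have e := DFunLike.congr_fun (hquad x hx q hq) w
    change (w + ⁅q, y⁆ • w) + ⁅x, y⁆ • (w + ⁅q, y⁆ • w) = 0 at e
    rw [add_comm w, ← hw] at e
    rw [← add_right_inj v, e, h.add_self]
  refine ⟨ht, commutator_le.2 fun x hx z hz => ?_⟩
  obtain ⟨n, rfl⟩ := mem_powers_iff_mem_zpowers.2 hz
  clear hz
  induction n with
  | zero => simp
  | succ n ih =>
    have e : ⁅x, y ^ (n + 1)⁆ = ⁅x, y ^ n⁆ * (y ^ n * ⁅x, y⁆ * (y ^ n)⁻¹) := by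
      simp only [commutatorElement_def, pow_succ]; group
    simp only at ih ⊢
    rw [e, hcy]
    exact mul_mem ih (hA _ (hcj' n x hx))

end Cfsg.Agent.H73.GagK
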