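import Cfsg.Agent.H73.GagDefs
import Cfsg.Agent.H36.ConjMod
import Cfsg.Agent.H23.Gagola

/-! Reduction of the two-class character hypothesis to a transitive linear group. -/

set_option autoImplicit false

namespace Cfsg.Agent.H73.Gag

open Subgroup Cfsg

universe u

theorem red {G : Type u} [Group G] [Finite G] (hns : ¬ Group.IsSolvable G) (χ : IrrCharacter G)
    (hχ : Nat.card {C : ConjClasses G // ∃ g ∈ C.carrier, (χ : G → ℂ) g ≠ 0} = 2) :
    ∃ p : ℕ, p.Prime ∧ (∀ q : ℕ, q.Prime → (pCore q G ≠ ⊥ ↔ q = p)) ∧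
      ∃ (n : ℕ) (V : Type u) (_ : AddCommGroup V) (_ : DistribMulAction (G ⧸ pCore p G) V),
        TL p n (G ⧸ pCore p G) V := by
  have hG : 2 < Nat.card G := by
    by_contra hle
    have h0 : 0 < Nat.card G := Nat.card_pos
    have : IsCyclic G := isCyclic_of_card_dvd_prime (p := 2) (by
      have : Nat.card G = 1 ∨ Nat.card G = 2 := by omega
      rcases this with h | h <;> simp [h])
    exact hns (Group.isSolvable_of_comm fun a b => (IsCyclic.commGroup (α := G)).mul_comm a b)
  obtain ⟨N, h⟩ := H23.exists_gag hG χ.2 hχ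
  obtain ⟨p, hp, hpow⟩ := h.exists_prime
  have := Fact.mk hp
  have := h.normal
  have hNp : IsPGroup p N := fun a => ⟨1, Subtype.ext (by simpa using hpow a a.2)⟩
  have hNO : N ≤ pCore p G := le_sSup ⟨h.normal, hNp⟩
  have hOn : (pCore p G).Normal := inferInstance
  have hOp := H3.pCore_isPGroup p G
  obtain ⟨x, hx, hx1⟩ := h.exists_ne_one
  have hcent : ∀ y ∈ N, y ≠ 1 → pCore p G ≤ centralizer {y} := fun y hy hy1 => by
    obtain ⟨P, hP⟩ := h.exists_sylow_centralizer hNp hy hy1
    rw [hP]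
    exact hOp.le_sylow_of_normal P
  have hC : pCore p G ≤ centralizer (N : Set G) := fun g hg y hy => by
    by_cases hy1 : y = 1
    · simp [hy1]
    · exact hcent y hy hy1 hg y rfl
  refine ⟨p, hp, fun q hq => ⟨fun hne => ?_, ?_⟩, ?_⟩
  · have := Fact.mk hq
    by_contra hqp
    exact h.ne_bot (disjoint_self.1 ((IsPGroup.disjoint_of_ne q p hqp _ _ (H3.pCore_isPGroup q G)
      hNp).mono_left (h.le_of_normal _ hne)))
  · rintro rfl hb
    exact h.ne_bot (le_bot_iff.1 (hb ▸ hNO))
  obtain ⟨M, _, _, θ, hθ, hmem, hcard, hadd, h0, hsm⟩ :=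
    H36.CM.exists_module N (pCore p G) h.comm hC
  have hne : ∀ v : M, v ≠ 0 ↔ θ v ≠ 1 := fun v => by rw [← h0, hθ.ne_iff]
  have hin : ∀ v, θ v ∈ N := fun v => (hmem _).2 ⟨v, rfl⟩
  have hfin : Finite M := Finite.of_injective θ hθ
  have hnt : Nontrivial M := by
    obtain ⟨v, rfl⟩ := (hmem x).1 hx
    exact ⟨v, 0, (hne v).2 hx1⟩
  have hTL : H61.IsTL (G ⧸ pCore p G) M := by
    constructor
    · intro g hg
      obtain ⟨g, rfl⟩ := QuotientGroup.mk_surjective g
      have h1 : g ∈ centralizer (N : Set G) := fun y hy => by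
        obtain ⟨v, rfl⟩ := (hmem y).1 hy
        have := hsm g v
        rw [hg, eq_mul_inv_iff_mul_eq] at this
        exact this
      have h2 : IsPGroup p (centralizer (N : Set G)) :=
        (h.isPGroup_centralizer hNp hx hx1).to_le (centralizer_le (by simpa using hx))
      exact (QuotientGroup.eq_one_iff _).2 (H3.le_pCore h2 h1)
    · intro v w hv hw
      obtain ⟨g, hg⟩ := isConj_iff.1 (h.isConj _ (hin v) _ (hin w) ((hne v).1 hv) ((hne w).1 hw))
      exact ⟨g, hθ (by rw [hsm, hg])⟩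
  obtain ⟨n, hn⟩ := hNp.exists_card_eq
  have hnsmul : ∀ (k : ℕ) (v : M), θ (k • v) = θ v ^ k := fun k v => by
    induction k with
    | zero => rw [zero_nsmul, h0, pow_zero]
    | succ k ih => rw [succ_nsmul, hadd, ih, pow_succ]
  refine ⟨n, M, inferInstance, inferInstance, ⟨hp, hfin, hnt, fun v => hθ (by
    rw [hnsmul, h0, hpow _ (hin v)]), fun v hv => ?_⟩, hTL, hcard.trans hn,
    H3.pCore_quotient_pCore p G, fun hs => hns ?_⟩
  · refine ((h.isPGroup_centralizer hNp (hin v) ((hne v).1 hv)).map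
      (QuotientGroup.mk' (pCore p G))).to_le fun g hg => ?_
    obtain ⟨g, rfl⟩ := QuotientGroup.mk_surjective g
    refine ⟨g, mem_centralizer_singleton_iff.2 ?_, rfl⟩
    have := hsm g v
    rw [MulAction.mem_stabilizer_iff.1 hg, eq_mul_inv_iff_mul_eq] at this
    exact this.symm
  · have := hOp.isNilpotent
    exact Group.isSolvable_of_ker_le_range (pCore p G).subtype (QuotientGroup.mk' (pCore p G))
      (by rw [QuotientGroup.ker_mk', range_subtype])

end Cfsg.Agent.H73.Gag
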