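import Cfsg.Agent.H98.GbL
import Cfsg.Agent.H77.CharAux

/-! Project GB (S4536): completeness of Green's characters. -/

set_option autoImplicit false
open Cfsg Finset
open scoped MatrixGroups

namespace Cfsg.Agent.H73.GbCompl
open Cfsg.Agent.H98.GB

universe u

theorem compl (hL : LABStmt.{u}) (hI : IRRStmt.{u}) (hC : CNTStmt.{u}) : COMPLStmt.{u} := by
  intro F _ _ _ C n hn χ
  classical
  have hfin := (hL F C).fin n
  have hinj : Set.InjOn (fun Λ => C.sC Λ n) (hfin.toFinset : Set C.Lb) := by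
    intro Λ hΛ Λ' hΛ' h
    have h1 : C.IsLab n Λ := by simpa using hΛ
    have h2 : C.IsLab n Λ' := by simpa using hΛ'
    exact (hI F C n hn Λ h1).2.2 Λ' h2 h
  have hmem := H77.irr_mem_of_card (G := GL (Fin n) F)
    (hfin.toFinset.image fun Λ => C.sC Λ n) (by
      intro ψ hψ
      obtain ⟨Λ, hΛ, rfl⟩ := Finset.mem_image.mp hψ
      exact (hI F C n hn Λ (by simpa using hΛ)).2.1) (by
      rw [Finset.card_image_of_injOn hinj, ← Set.ncard_eq_toFinset_card _ hfin]
      exact hC F C n hn) χ.2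
  obtain ⟨Λ, hΛ, h⟩ := Finset.mem_image.mp hmem
  exact ⟨Λ, by simpa using hΛ, h.symm⟩

end Cfsg.Agent.H73.GbCompl
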