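import Cfsg.Agent.Lead.KRDefs

/-!
Project KR, piece SYMP-4.
-/

set_option autoImplicit false

namespace Cfsg.Agent.H73.KrS4

open MulAction Cfsg.Agent.H12.RO Cfsg.Agent.H53.MW Cfsg.Agent.Lead.KR

universe u

theorem card_comm_sum (X : Type*) [Group X] [Fintype X] :
    Nat.card (ConjClasses X) * Nat.card X =
      ∑ x : X, Nat.card (Subgroup.centralizer ({x} : Set X)) := by
  rw [← card_comm_eq_card_conjClasses_mul_card]
  have e : {p : X × X // Commute p.1 p.2} ≃ Σ x : X, Subgroup.centralizer ({x} : Set X) :=
    { toFun := fun p => ⟨p.1.1, ⟨p.1.2, Subgroup.mem_centralizer_singleton_iff.2 p.2.symm⟩⟩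
      invFun := fun p => ⟨(p.1, p.2.1), (Subgroup.mem_centralizer_singleton_iff.1 p.2.2).symm⟩
      left_inv := fun _ => rfl
      right_inv := fun _ => rfl }
  rw [Nat.card_congr e, Nat.card_sigma]

/-- counting classes by sizes one, two and at least three -/
theorem six_k {X : Type*} [Group X] [Finite X] (A : Subgroup X)
    (hA : ∀ x : X, (Subgroup.centralizer ({x} : Set X)).index ≤ 2 → x ∈ A) :
    6 * Nat.card (ConjClasses X) ≤
      2 * Nat.card X + 3 * Nat.card (Subgroup.center X) + Nat.card A := by
  classical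
  have := Fintype.ofFinite X
  have hpos : 0 < Nat.card X := Nat.card_pos
  have key : ∀ x : X, 6 * Nat.card (Subgroup.centralizer ({x} : Set X)) ≤
      Nat.card X * (2 + 3 * (if x ∈ Subgroup.center X then 1 else 0) + (if x ∈ A then 1 else 0)) := by
    intro x
    have h1 := (Subgroup.centralizer ({x} : Set X)).card_mul_index
    have h0 : (Subgroup.centralizer ({x} : Set X)).index ≠ 0 := Subgroup.index_ne_zero_of_finite
    set c := Nat.card (Subgroup.centralizer ({x} : Set X))
    by_cases hz : x ∈ Subgroup.center X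
    · have ht : Subgroup.centralizer ({x} : Set X) = ⊤ := by
        rw [eq_top_iff]; intro y _
        exact Subgroup.mem_centralizer_singleton_iff.2 (Subgroup.mem_center_iff.1 hz y)
      have hi : (Subgroup.centralizer ({x} : Set X)).index = 1 := by rw [ht, Subgroup.index_top]
      rw [if_pos hz, if_pos (hA x (by omega))]
      rw [hi] at h1; omega
    · have hi : (Subgroup.centralizer ({x} : Set X)).index ≠ 1 := by
        intro hi
        apply hz
        rw [Subgroup.index_eq_one] at hi
        rw [Subgroup.mem_center_iff]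
        intro y
        exact Subgroup.mem_centralizer_singleton_iff.1 (hi ▸ Subgroup.mem_top y)
      rw [if_neg hz]
      by_cases ha : x ∈ A
      · rw [if_pos ha, ← h1]
        have : 2 ≤ (Subgroup.centralizer ({x} : Set X)).index := by omega
        nlinarith
      · rw [if_neg ha, ← h1]
        have : 3 ≤ (Subgroup.centralizer ({x} : Set X)).index := by
          by_contra hlt; exact ha (hA x (by omega))
        nlinarith
  have hs := Finset.sum_le_sum (fun x (_ : x ∈ (Finset.univ : Finset X)) => key x)
  rw [← Finset.mul_sum, ← card_comm_sum, ← Finset.mul_sum, Finset.sum_add_distrib,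
    Finset.sum_add_distrib, ← Finset.mul_sum] at hs
  have c1 : ∀ (B : Subgroup X) [DecidablePred (· ∈ B)],
      ∑ x : X, (if x ∈ B then 1 else 0) = Nat.card B := by
    intro B _
    rw [Finset.sum_boole, Nat.card_eq_fintype_card, Fintype.card_subtype]; simp
  rw [c1, c1, Finset.sum_const, Finset.card_univ, ← Nat.card_eq_fintype_card, smul_eq_mul] at hs
  have : Nat.card X * (6 * Nat.card (ConjClasses X)) ≤
      Nat.card X * (2 * Nat.card X + 3 * Nat.card (Subgroup.center X) + Nat.card A) := by
    calc _ = 6 * (Nat.card (ConjClasses X) * Nat.card X) := by ring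
      _ ≤ _ := hs
      _ = _ := by ring
  exact Nat.le_of_mul_le_mul_left this hpos

/-- the preimage of a normal cyclic subgroup of the central quotient -/
theorem cyc_bound {X : Type*} [Group X] [Finite X]
    (hab : ∀ B : Subgroup X, B.Normal → IsMulCommutative B → Nat.card B ≤ 15)
    (y : X ⧸ Subgroup.center X) (hn : (Subgroup.zpowers y).Normal) :
    Nat.card (Subgroup.center X) * orderOf y ≤ 15 := by
  set C := Subgroup.zpowers y
  set B := C.comap (QuotientGroup.mk' (Subgroup.center X))
  have hB : IsMulCommutative B := by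
    refine MonoidHom.isMulCommutative_of_isCyclic_of_ker_le_center
      ((QuotientGroup.mk' (Subgroup.center X)).subgroupComap C) ?_
    intro g hg
    rw [MonoidHom.mem_ker] at hg
    have h1 : (g : X) ∈ Subgroup.center X :=
      (QuotientGroup.eq_one_iff _).1 (congrArg Subtype.val hg)
    rw [Subgroup.mem_center_iff]
    intro b
    exact Subtype.ext (Subgroup.mem_center_iff.1 h1 b)
  have h1 := hab B (hn.comap _) hB
  have h2 : B.index = C.index :=
    Subgroup.index_comap_of_surjective _ (QuotientGroup.mk'_surjective _)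
  have h3 := B.card_mul_index
  have h4 := C.card_mul_index
  have h5 := (Subgroup.center X).card_mul_index
  have h6 : Nat.card C = orderOf y := Nat.card_zpowers y
  have h0 : C.index ≠ 0 := Subgroup.index_ne_zero_of_finite
  have h7 : (Subgroup.center X).index = Nat.card (X ⧸ Subgroup.center X) := rfl
  have : Nat.card B * C.index = Nat.card (Subgroup.center X) * orderOf y * C.index := by
    rw [← h2, h3, h2, mul_assoc, ← h6, h4, ← h7, h5]
  rwa [Nat.eq_of_mul_eq_mul_right (Nat.pos_of_ne_zero h0) this] at h1

theorem k_le {X : Type*} [Group X] [Finite X] (h72 : Nat.card X ≤ 72)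
    (hab : ∀ B : Subgroup X, B.Normal → IsMulCommutative B → Nat.card B ≤ 15)
    (h2 : ∀ B : Subgroup X, B.Normal → (∀ x ∈ B, x * x = 1) → B = ⊥) :
    Nat.card (ConjClasses X) ≤ 27 := by
  let A : Subgroup X := Subgroup.centralizer (Set.range fun y : X => y * y)
  have memA : ∀ a : X, a ∈ A ↔ ∀ y : X, y * y * a = a * (y * y) := fun a => by
    simp [A, Subgroup.mem_centralizer_iff]
  have hAn : A.Normal := ⟨fun a ha g => by
    rw [memA] at ha ⊢
    intro y
    have := ha (g⁻¹ * y * g)
    calc y * y * (g * a * g⁻¹) = g * ((g⁻¹ * y * g) * (g⁻¹ * y * g) * a) * g⁻¹ := by group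
      _ = g * (a * ((g⁻¹ * y * g) * (g⁻¹ * y * g))) * g⁻¹ := by rw [this]
      _ = _ := by group⟩
  have hA : ∀ x : X, (Subgroup.centralizer ({x} : Set X)).index ≤ 2 → x ∈ A := by
    intro x hx
    rw [memA]
    intro y
    have h0 : (Subgroup.centralizer ({x} : Set X)).index ≠ 0 := Subgroup.index_ne_zero_of_finite
    apply Subgroup.mem_centralizer_singleton_iff.1
    rcases (by omega : (Subgroup.centralizer ({x} : Set X)).index = 1 ∨
      (Subgroup.centralizer ({x} : Set X)).index = 2) with h | h
    · rw [Subgroup.index_eq_one.1 h]; trivial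
    · exact Subgroup.mul_self_mem_of_index_two h y
  -- the involutions of the centre of `A`
  let T : Subgroup X :=
    { carrier := {c | c ∈ A ∧ (∀ a ∈ A, c * a = a * c) ∧ c * c = 1}
      one_mem' := ⟨A.one_mem, by simp, by simp⟩
      mul_mem' := by
        rintro c d ⟨hc, hc1, hc2⟩ ⟨hd, hd1, hd2⟩
        refine ⟨A.mul_mem hc hd, fun a ha => ?_, ?_⟩
        · rw [mul_assoc, hd1 a ha, ← mul_assoc, hc1 a ha, mul_assoc]
        · calc c * d * (c * d) = c * (d * c) * d := by group
            _ = c * (c * d) * d := by rw [hc1 d hd]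
            _ = (c * c) * (d * d) := by group
            _ = 1 := by rw [hc2, hd2, one_mul]
      inv_mem' := by
        rintro c ⟨hc, hc1, hc2⟩
        have : c⁻¹ = c := inv_eq_of_mul_eq_one_right hc2
        rw [this]; exact ⟨hc, hc1, hc2⟩ }
  have hTn : T.Normal := ⟨by
    rintro c ⟨hc, hc1, hc2⟩ g
    refine ⟨hAn.conj_mem c hc g, fun a ha => ?_, ?_⟩
    · have := hc1 _ (hAn.conj_mem' a ha g)
      calc g * c * g⁻¹ * a = g * (c * (g⁻¹ * a * g)) * g⁻¹ := by group
        _ = g * ((g⁻¹ * a * g) * c) * g⁻¹ := by rw [this]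
        _ = _ := by group
    · calc g * c * g⁻¹ * (g * c * g⁻¹) = g * (c * c) * g⁻¹ := by group
        _ = 1 := by rw [hc2]; group⟩
  have hT : T = ⊥ := h2 T hTn (fun x hx => hx.2.2)
  have hT' : ∀ c ∈ A, (∀ a ∈ A, c * a = a * c) → c * c = 1 → c = 1 := fun c h1 h3 h4 => by
    have : c ∈ T := ⟨h1, h3, h4⟩
    rwa [hT, Subgroup.mem_bot] at this
  have hAc : ∀ a ∈ A, ∀ b ∈ A, a * b = b * a := by
    intro a ha b hb
    set c := a * b * a⁻¹ * b⁻¹ with hc
    have hcA : c ∈ A := A.mul_mem (A.mul_mem (A.mul_mem ha hb) (A.inv_mem ha)) (A.inv_mem hb)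
    have hcc : ∀ d ∈ A, c * d = d * c := by
      intro d hd
      rw [memA] at hd
      have e : c = (a * b * (a * b)) * ((b⁻¹ * a⁻¹ * b) * (b⁻¹ * a⁻¹ * b)) * (b⁻¹ * b⁻¹) := by
        rw [hc]; group
      have c1 : Commute (a * b * (a * b)) d := hd _
      have c2 : Commute ((b⁻¹ * a⁻¹ * b) * (b⁻¹ * a⁻¹ * b)) d := hd _
      have c3 : Commute (b⁻¹ * b⁻¹) d := hd _
      rw [e]
      exact (c1.mul_left c2).mul_left c3
    have h1 : a * b = c * b * a := by rw [hc]; group
    have h3 : a * a * b = b * (a * a) := (memA b).1 hb a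
    have hc2 : c * c = 1 := by
      have e1 : a * a * b = c * c * (b * (a * a)) := by
        calc a * a * b = a * (a * b) := by group
          _ = a * (c * b * a) := by rw [← h1]
          _ = (a * c) * b * a := by group
          _ = (c * a) * b * a := by rw [hcc a ha]
          _ = c * (a * b) * a := by group
          _ = c * (c * b * a) * a := by rw [← h1]
          _ = _ := by group
      rw [h3] at e1
      exact (mul_eq_right.1 e1.symm)
    rw [h1, hT' c hcA hcc hc2, one_mul]
  have hAab : IsMulCommutative A := ⟨⟨fun a b => Subtype.ext (hAc a a.2 b b.2)⟩⟩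
  have ha15 := hab A hAn hAab
  have hodd : ¬ 2 ∣ Nat.card A := by
    intro hd
    obtain ⟨c, hc⟩ := exists_prime_orderOf_dvd_card' 2 hd
    have h1 : (c : X) * c = 1 := by
      have := pow_orderOf_eq_one c
      rw [hc, pow_two] at this
      exact congrArg Subtype.val this
    have h3 := hT' c c.2 (fun a ha => hAc _ c.2 a ha) h1
    have : c = 1 := Subtype.ext h3
    rw [this, orderOf_one] at hc
    omega
  have hZA : Subgroup.center X ≤ A := fun z hz => by
    rw [memA]; intro y; exact Subgroup.mem_center_iff.1 hz _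
  have hza : Nat.card (Subgroup.center X) ∣ Nat.card A := Subgroup.card_dvd_of_le hZA
  have hah : Nat.card A ∣ Nat.card X := A.card_subgroup_dvd_card
  have h6 := six_k A hA
  have hcyc := cyc_bound hab
  have h5 := (Subgroup.center X).card_mul_index
  have h7 : (Subgroup.center X).index = Nat.card (X ⧸ Subgroup.center X) := rfl
  rw [h7] at h5
  -- prime power quotients
  have hpp : ∀ p n : ℕ, p.Prime → Nat.card (X ⧸ Subgroup.center X) = p ^ (n + 1) →
      Nat.card (Subgroup.center X) * 2 ≤ 15 := by
    intro p n hp hq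
    have : Fact p.Prime := ⟨hp⟩
    have hnt : Nontrivial (X ⧸ Subgroup.center X) := by
      rw [← Finite.one_lt_card_iff_nontrivial, hq]
      exact Nat.one_lt_pow (by omega) hp.one_lt
    have hc := (IsPGroup.of_card hq).center_nontrivial
    obtain ⟨y, hy⟩ := exists_ne (1 : Subgroup.center (X ⧸ Subgroup.center X))
    have hn : (Subgroup.zpowers (y : X ⧸ Subgroup.center X)).Normal := ⟨fun n hn g => by
      have : n ∈ Subgroup.center _ := (Subgroup.zpowers_le.2 y.2) hn
      rw [Subgroup.mem_center_iff.1 this g, mul_inv_cancel_right]; exact hn⟩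
    have h1 := hcyc _ hn
    have h3 : orderOf (y : X ⧸ Subgroup.center X) ≠ 1 := fun e =>
      hy (Subtype.ext (orderOf_eq_one_iff.1 e))
    have h4 := orderOf_pos (y : X ⧸ Subgroup.center X)
    exact le_trans (Nat.mul_le_mul_left _ (by omega)) h1
  have h2p : ∀ p : ℕ, p.Prime → Nat.card (X ⧸ Subgroup.center X) = p * 2 →
      Nat.card (Subgroup.center X) * p ≤ 15 := by
    intro p hp hq
    have : Fact p.Prime := ⟨hp⟩
    obtain ⟨y, hy⟩ := exists_prime_orderOf_dvd_card' (G := X ⧸ Subgroup.center X) p
      (hq ▸ dvd_mul_right _ _)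
    have h1 := (Subgroup.zpowers y).card_mul_index
    rw [Nat.card_zpowers, hy, hq] at h1
    have h3 := hcyc y (Subgroup.normal_of_index_eq_two (Nat.eq_of_mul_eq_mul_left hp.pos h1))
    rwa [hy] at h3
  have e8 := hpp 2 2 (by norm_num)
  have e5 := hpp 5 0 (by norm_num)
  have e4 := hpp 2 1 (by norm_num)
  have e10 := h2p 5 (by norm_num)
  have e6 := h2p 3 (by norm_num)
  have hzpos : 0 < Nat.card (Subgroup.center X) := Nat.card_pos
  generalize Nat.card (Subgroup.center X) = z at *
  generalize Nat.card A = a at *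
  generalize Nat.card (X ⧸ Subgroup.center X) = m at *
  generalize Nat.card X = h at *
  generalize Nat.card (ConjClasses X) = k at *
  have hz15 : z ≤ a := Nat.le_of_dvd (by omega) hza
  interval_cases a <;> interval_cases z <;> omega

theorem card_img_comap {G W : Type u} [Group G] [MulAction G W] (Y : Subgroup (img G W)) :
    img (Y.comap (toPermHom G W).rangeRestrict) W = Y.map (img G W).subtype := by
  ext s
  constructor
  · rintro ⟨g, rfl⟩
    exact ⟨_, g.2, rfl⟩
  · rintro ⟨y, hy, rfl⟩
    obtain ⟨g, rfl⟩ := (toPermHom G W).rangeRestrict_surjective y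
    exact ⟨⟨g, hy⟩, rfl⟩

/-- the group induced by the preimage of `Y` is `Y` -/
noncomputable def imgEquiv {G W : Type u} [Group G] [MulAction G W] (Y : Subgroup (img G W)) :
    Y ≃* img (Y.comap (toPermHom G W).rangeRestrict) W :=
  (Y.equivMapOfInjective _ (img G W).subtype_injective).trans
    (MulEquiv.subgroupCongr (card_img_comap Y).symm)

theorem k_img (O : OrdKit.{u}) (o16 : OrdStmt.{u}) (ab : AbStmt.{u}) (G W : Type u) [Group G]
    [Finite G] [Group.IsSolvable G] [AddCommGroup W] [Finite W] [DistribMulAction G W]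
    (hcr : CR G W) (hW : Nat.card W = 16) : Nat.card (ConjClasses (img G W)) ≤ 27 := by
  have : Finite (img G W) := Finite.of_surjective _ (toPermHom G W).rangeRestrict_surjective
  have hnt : Nontrivial W := by rw [← Finite.one_lt_card_iff_nontrivial, hW]; norm_num
  refine k_le (o16 G W hcr hW) (fun B hB hc => ?_) (fun B hB hsq => ?_)
  · have := hB.comap (toPermHom G W).rangeRestrict
    have h1 := ab _ W (O.clifford G W hcr (B.comap (toPermHom G W).rangeRestrict))
      ⟨⟨fun a b => by
        obtain ⟨a, rfl⟩ := (imgEquiv B).surjective a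
        obtain ⟨b, rfl⟩ := (imgEquiv B).surjective b
        rw [← map_mul, ← map_mul, hc.is_comm.comm]⟩⟩
    rw [← Nat.card_congr (imgEquiv B).toEquiv, hW] at h1
    omega
  · have := hB.comap (toPermHom G W).rangeRestrict
    set B' := B.comap (toPermHom G W).rangeRestrict with hB'
    have h1 := O.clifford G W hcr B'
    let W0 : AddSubgroup W :=
      { carrier := {w | ∀ g : B', g • w = w}
        zero_mem' := fun g => smul_zero g
        add_mem' := fun {a b} ha hb g => by rw [smul_add, ha g, hb g]
        neg_mem' := fun {a} ha g => by rw [smul_neg, ha g] }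
    obtain ⟨W1, hW1, hinf, hsup⟩ := h1 W0 (fun g v hv => by rw [hv g]; exact hv)
    have hact : ∀ s : B, ∃ g : B', ∀ w : W, s • w = g • w := by
      intro s
      obtain ⟨g, hg⟩ := (toPermHom G W).rangeRestrict_surjective s.1
      refine ⟨⟨g, by rw [hB', Subgroup.mem_comap, hg]; exact s.2⟩, fun w => ?_⟩
      change ((s.1 : img G W) : Equiv.Perm W) w = g • w
      rw [← hg]; rfl
    have hW1b : W1 = ⊥ := by
      by_contra hne
      let D : SubMulAction B W :=
        { carrier := W1
          smul_mem' := fun s w hw => by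
            obtain ⟨g, hg⟩ := hact s
            rw [hg]; exact hW1 g w hw }
      have hP : IsPGroup 2 B := fun s => ⟨1, by
        rw [pow_one, pow_two]; exact Subtype.ext (hsq s s.2)⟩
      have hd : 2 ∣ Nat.card D := by
        have e1 : Nat.card D = Nat.card W1 := rfl
        have e2 : Nat.card W1 ∣ 2 ^ 4 := by
          have := W1.card_addSubgroup_dvd_card
          rwa [hW] at this
        obtain ⟨n, -, hn⟩ := (Nat.dvd_prime_pow Nat.prime_two).1 e2
        rw [e1, hn]
        refine dvd_pow_self _ fun h0 => hne ?_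
        rw [h0, pow_zero] at hn
        exact AddSubgroup.card_eq_one.1 hn
      have h0 : (⟨0, W1.zero_mem⟩ : D) ∈ fixedPoints B D := fun s => by
        obtain ⟨g, hg⟩ := hact s
        apply Subtype.ext
        change s • (0 : W) = 0
        rw [hg, smul_zero]
      obtain ⟨b, hb, hb0⟩ := hP.exists_fixed_point_of_prime_dvd_card_of_fixed_point D hd h0
      apply hb0
      have hbW : (b : W) ∈ W0 ⊓ W1 := by
        refine ⟨fun g => ?_, b.2⟩
        exact congrArg Subtype.val (hb ⟨_, g.2⟩)
      rw [hinf, AddSubgroup.mem_bot] at hbW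
      exact Subtype.ext hbW.symm
    rw [hW1b, sup_bot_eq] at hsup
    rw [eq_bot_iff]
    intro s hs
    obtain ⟨g, hg⟩ := hact ⟨s, hs⟩
    rw [Subgroup.mem_bot]
    apply Subtype.ext
    ext w
    have hw : w ∈ W0 := hsup ▸ AddSubgroup.mem_top w
    exact (hg w).trans (hw g)

theorem symp4 (O : OrdKit.{u}) (o16 : OrdStmt.{u}) (ab : AbStmt.{u}) :
    SympP.{u} (fun e => e = 4) := by
  intro G W A _ _ _ _ _ _ _ b e he hcr hW _ _ _ _ _ Y
  subst he
  have : Finite (img G W) := Finite.of_surjective _ (toPermHom G W).rangeRestrict_surjective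
  have h72 := o16 G W hcr hW
  by_cases hY : Nat.card Y ≤ 27
  · exact (k_le_card Y).trans hY
  have h1 := Y.card_mul_index
  have h0 : Y.index ≠ 0 := Subgroup.index_ne_zero_of_finite
  have h2 : Y.index ≤ 2 := by
    by_contra h
    have : 28 * 3 ≤ Nat.card Y * Y.index := Nat.mul_le_mul (by omega) (by omega)
    omega
  have hn : Y.Normal := by
    rcases (by omega : Y.index = 1 ∨ Y.index = 2) with h | h
    · rw [Subgroup.index_eq_one.1 h]; infer_instance
    · exact Subgroup.normal_of_index_eq_two h
  have := hn.comap (toPermHom G W).rangeRestrict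
  have h3 := k_img O o16 ab _ W (O.clifford G W hcr (Y.comap (toPermHom G W).rangeRestrict)) hW
  exact (k_le_of_surj (imgEquiv Y).symm.toMonoidHom (MulEquiv.surjective _)).trans h3

end Cfsg.Agent.H73.KrS4
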