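import Cfsg.Agent.H50.L81Defs

/-! The action of the generators of `SL₂(81)` on the monomials. -/

set_option autoImplicit false

namespace Cfsg.Agent.H73.L81Mona

open Cfsg.Agent.H50.L81 Cfsg.Agent.H50.E83 Cfsg.Agent.H82 Cfsg.Agent.H50.SL2S Finset
open scoped MatrixGroups

theorem pow80 {s : F} (hs : s ≠ 0) : s ^ 80 = 1 := by
  have := FiniteField.pow_card_sub_one_eq_one s hs
  rwa [card_F] at this

theorem sum_pow {k : ℕ} (hk : k < 160) : ∑ t : F, t ^ k = if k = 80 then -1 else 0 := by
  have lt : ∀ k < 80, ∑ t : F, t ^ k = 0 := fun k hk =>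
    FiniteField.sum_pow_lt_card_sub_one F k (by rw [card_F]; omega)
  rcases lt_trichotomy k 80 with h | rfl | h
  · rw [lt k h, if_neg h.ne]
  · have e : ∀ t : F, t ^ 80 = 1 - if t = 0 then 1 else 0 := fun t => by
      split_ifs with h
      · simp [h]
      · simp [pow80 h]
    simp only [e, sum_sub_distrib, sum_const, card_univ, nsmul_eq_mul, FiniteField.cast_card_eq_zero]
    simp
  · rw [if_neg h.ne', ← lt (k - 80) (by omega)]
    refine sum_congr rfl fun t _ => ?_
    have := FiniteField.pow_card t
    rw [card_F] at this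
    rw [show k = k - 81 + 81 by omega, pow_add, this, ← pow_succ]
    congr 1

theorem reg_mono (p : H50.L81.Par) (g : SL) (r j : ℕ) (x : SL) : reg g (mono p r j) x =
    p.κ ((x * g) 1 0) ^ (r - j) * p.κ ((x * g) 1 1) ^ j := rfl

theorem mono_apply (p : H50.L81.Par) (r j : ℕ) (x : SL) : mono p r j x =
    p.κ (x 1 0) ^ (r - j) * p.κ (x 1 1) ^ j := rfl

theorem mona : MonaStmt := by
  intro p r hr j hj
  have hu : ∀ t, reg (uu t) (mono p r j) =
      ∑ i ∈ range (j + 1), ((j.choose i : K) * p.κ t ^ (j - i)) • mono p r i := fun t => funext fun x => by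
    rw [reg_mono, Finset.sum_apply]
    simp only [Pi.smul_apply, mono_apply, smul_eq_mul, ent, map_add, map_mul]
    rw [add_comm, add_pow, mul_sum]
    refine sum_congr rfl fun i hi => ?_
    have hi' := mem_range.1 hi
    rw [show r - i = (r - j) + (j - i) by omega]
    ring
  have hd : ∀ s hs, reg (hh s hs) (mono p r j) = p.κ s ^ (r + 78 * j) • mono p r j := fun s hs => funext fun x => by
    rw [reg_mono, Pi.smul_apply, mono_apply]
    simp only [smul_eq_mul, ent, map_mul]
    have h1 : p.κ s ^ 80 = 1 := by rw [← map_pow, pow80 hs, map_one]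
    have h3 : p.κ s⁻¹ = p.κ s ^ 79 := by
      rw [map_inv₀]
      exact inv_eq_of_mul_eq_one_right (by rw [← pow_succ', h1])
    rw [h3, show r + 78 * j = (r - j) + 79 * j by omega]
    ring
  refine ⟨hu, hd, funext fun x => ?_, fun c hc => ?_, fun he => ?_⟩
  · rw [reg_mono, Pi.smul_apply, mono_apply]
    simp only [ent, ent2, smul_eq_mul, mul_neg, map_neg]
    rw [show r - (r - j) = j by omega, neg_pow (p.κ _)]
    ring
  · rw [Aop]
    split_ifs with h0
    · simp [h0]
    have e : ∀ i ∈ range (j + 1), ∑ t : F, (p.κ t ^ (80 - c) * ((j.choose i : K) * p.κ t ^ (j - i))) • mono p r i =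
        if i + c = j then -((j.choose c : K) • mono p r (j - c)) else 0 := fun i hi => by
      have hi' := mem_range.1 hi
      have : ∑ t : F, p.κ t ^ (80 - c) * ((j.choose i : K) * p.κ t ^ (j - i)) =
          (j.choose i : K) * p.κ (∑ t : F, t ^ (80 - c + (j - i))) := by
        rw [map_sum, mul_sum]
        exact sum_congr rfl fun t _ => by rw [map_pow]; ring
      rw [← sum_smul, this, sum_pow (by omega)]
      by_cases k : i + c = j
      · rw [if_pos k, if_pos (by omega), ← k, Nat.choose_symm_add]
        simp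
      · rw [if_neg k, if_neg (by omega)]
        simp
    simp only [LinearMap.neg_apply, LinearMap.sum_apply, LinearMap.smul_apply, hu, smul_sum, smul_smul]
    rw [sum_comm, sum_congr rfl e]
    by_cases k : c ≤ j
    · rw [sum_eq_single (j - c) (fun i _ h => if_neg (by omega)) (fun h => absurd (mem_range.2 (by omega)) h),
        if_pos (by omega), neg_neg]
    · rw [sum_eq_zero fun i _ => if_neg (by omega), Nat.choose_eq_zero_of_lt (by omega)]
      simp
  · rw [Wt, Module.End.mem_eigenspace_iff, t0, hd]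
    congr 1
    obtain ⟨m, rfl⟩ := he
    have h1 : p.κ p.l ^ 80 = 1 := by rw [← map_pow, pow80 p.l.ne_zero, map_one]
    change _ = (p.κ p.l ^ 2) ^ _
    rw [← pow_mul, pow_eq_pow_mod _ h1]
    congr 1
    omega

end Cfsg.Agent.H73.L81Mona
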