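import Cfsg.Agent.H78.McDefs

set_option autoImplicit false

namespace Cfsg.Agent.H73.McInd

open Subgroup Cfsg.Agent.H78.Mc

universe u

theorem cen {G : Type u} [Group G] [Finite G] {p : ℕ} [Fact p.Prime] (U Z : Subgroup G)
    (pU : IsPGroup p U) (le : Z ≤ U) (ne : Z ≠ ⊥) (hZ : ∀ a ∈ U, ∀ x ∈ Z, a * x * a⁻¹ ∈ Z) :
    ∃ x ∈ Z, x ≠ 1 ∧ ∀ a ∈ U, a * x = x * a := by
  have pZ : IsPGroup p Z := pU.to_le le
  let act : MulAction U Z :=
    { smul := fun a x => ⟨(a : G) * x * (a : G)⁻¹, hZ _ a.2 _ x.2⟩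
      one_smul := fun x => Subtype.ext (by
        show ((1 : U) : G) * x * ((1 : U) : G)⁻¹ = x
        simp)
      mul_smul := fun a b x => Subtype.ext (by
        show ((a * b : U) : G) * x * ((a * b : U) : G)⁻¹ =
          (a : G) * ((b : G) * x * (b : G)⁻¹) * (a : G)⁻¹
        simp [mul_assoc]) }
  have hs : ∀ (a : U) (x : Z), ((a • x : Z) : G) = (a : G) * x * (a : G)⁻¹ := fun _ _ => rfl
  have hdvd : p ∣ Nat.card Z := by
    obtain ⟨k, hk⟩ := IsPGroup.iff_card.mp pZ
    rcases k with _ | k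
    · exact absurd (Subgroup.card_eq_one.mp (by simpa using hk)) ne
    · rw [hk]; exact dvd_pow_self p (Nat.succ_ne_zero k)
  have h1 : (1 : Z) ∈ MulAction.fixedPoints U Z := by
    intro a
    exact Subtype.ext (by rw [hs]; simp)
  obtain ⟨b, hb, hne⟩ := pU.exists_fixed_point_of_prime_dvd_card_of_fixed_point Z hdvd h1
  refine ⟨b, b.2, fun h => hne (Subtype.ext h.symm), fun a ha => ?_⟩
  have := congrArg Subtype.val (hb ⟨a, ha⟩)
  rw [hs, mul_inv_eq_iff_eq_mul] at this
  exact this

theorem eq_zp {G : Type u} [Group G] [Finite G] {p : ℕ} [hp : Fact p.Prime] (Z : Subgroup G)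
    (hZ : Nat.card Z = p) {z : G} (hz : z ∈ Z) (h1 : z ≠ 1) : zpowers z = Z := by
  have hle : zpowers z ≤ Z := (zpowers_le).mpr hz
  have hd := card_dvd_of_le hle
  rw [hZ] at hd
  rcases (Nat.dvd_prime hp.out).mp hd with h | h
  · exact absurd (zpowers_eq_bot.mp (Subgroup.card_eq_one.mp h)) h1
  · exact eq_of_le_of_card_ge hle (by rw [hZ, h])

theorem big {G : Type u} [Group G] [Finite G] {p : ℕ} [hp : Fact p.Prime] (P : Subgroup G)
    (pP : IsPGroup p P) (h2 : p ^ 2 ∣ Nat.card P) {x : G} (hx : x ∈ P) :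
    p ^ 2 ∣ Nat.card (P ⊓ centralizer ({x} : Set G) : Subgroup G) := by
  have hp1 := hp.out.one_lt
  have hne : P ≠ ⊥ := by
    rintro rfl
    rw [Subgroup.card_bot, Nat.dvd_one] at h2
    exact absurd h2 (Nat.one_lt_pow (by norm_num) hp1).ne'
  obtain ⟨z, hz, hz1, hzc⟩ := cen P P pP le_rfl hne
    (fun a ha y hy => P.mul_mem (P.mul_mem ha hy) (P.inv_mem ha))
  have hzE : z ∈ P ⊓ centralizer ({x} : Set G) :=
    mem_inf.mpr ⟨hz, mem_centralizer_singleton_iff.mpr (hzc x hx).symm⟩
  have hxE : x ∈ P ⊓ centralizer ({x} : Set G) :=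
    mem_inf.mpr ⟨hx, mem_centralizer_singleton_iff.mpr rfl⟩
  obtain ⟨k, hk⟩ := IsPGroup.iff_card.mp (pP.to_inf_left (K := centralizer ({x} : Set G)))
  rcases k with _ | _ | k
  · exfalso
    rw [pow_zero, Subgroup.card_eq_one] at hk
    rw [hk, Subgroup.mem_bot] at hzE
    exact hz1 hzE
  · have hzp := eq_zp (p := p) _ (by simpa using hk) hzE hz1
    have : P ⊓ centralizer ({x} : Set G) = P := by
      refine inf_eq_left.mpr fun a ha => ?_
      rw [← hzp] at hxE
      obtain ⟨j, rfl⟩ := mem_zpowers_iff.mp hxE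
      exact mem_centralizer_singleton_iff.mpr (Commute.zpow_right (hzc a ha) j)
    rw [this]; exact h2
  · rw [hk]; exact pow_dvd_pow p (by omega)

theorem idx {G : Type u} [Group G] [Finite G] (Z L : Subgroup G) (x : G)
    (h : ∀ g ∈ L, x⁻¹ * (g * x * g⁻¹) ∈ Z) :
    (centralizer ({x} : Set G)).relIndex L ≤ Nat.card Z := by
  unfold Subgroup.relIndex
  rw [Subgroup.index]
  let f : L ⧸ (centralizer ({x} : Set G)).subgroupOf L → Z := fun q =>
    ⟨x⁻¹ * ((q.out : G) * x * (q.out : G)⁻¹), h _ q.out.2⟩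
  refine Nat.card_le_card_of_injective f fun a b hab => ?_
  have h1 : x⁻¹ * ((a.out : G) * x * (a.out : G)⁻¹) = x⁻¹ * ((b.out : G) * x * (b.out : G)⁻¹) :=
    congrArg Subtype.val hab
  have h2 := mul_left_cancel h1
  rw [← QuotientGroup.out_eq' a, ← QuotientGroup.out_eq' b, QuotientGroup.eq, mem_subgroupOf,
    mem_centralizer_singleton_iff]
  simp only [Subgroup.coe_mul, Subgroup.coe_inv]
  calc (a.out : G)⁻¹ * b.out * x = (a.out : G)⁻¹ * ((b.out : G) * x * (b.out : G)⁻¹) * b.out := by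
        group
    _ = x * ((a.out : G)⁻¹ * b.out) := by rw [← h2]; group

theorem crd {G : Type u} [Group G] [Finite G] (H K : Subgroup G) :
    Nat.card K = H.relIndex K * Nat.card (H ⊓ K : Subgroup G) := by
  rw [Subgroup.relIndex, ← (H.subgroupOf K).card_mul_index, mul_comm,
    ← inf_subgroupOf_right, Nat.card_congr (subgroupOfEquivOfLe inf_le_right).toEquiv]

theorem cmp {G : Type u} [Group G] [Finite G] (Z : Subgroup G) [Z.Normal] (K : Subgroup (G ⧸ Z)) :
    Nat.card (K.comap (QuotientGroup.mk' Z)) = Nat.card Z * Nat.card K := by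
  have := QuotientGroup.card_preimage_mk Z (K : Set (G ⧸ Z))
  exact this

theorem main (p : ℕ) [hp : Fact p.Prime] (n : ℕ) : ∀ (G : Type u) [Group G] [Finite G],
    Nat.card G = n → ∀ (P N : Subgroup G), IsPGroup p P → ¬ p ∣ P.index → N.Normal →
    N.relIndex P = p → ∀ x ∈ P, x ∉ N →
    Nat.card (P ⊓ centralizer ({x} : Set G) : Subgroup G) = p ^ 2 →
    ¬ p ^ 3 ∣ Nat.card (centralizer ({x} : Set G)) := by
  induction n using Nat.strong_induction_on with
  | _ n ih =>
  intro G _ _ hn P N pP hPi hN hNP x hx hxN hE h3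
  have hp1 := hp.out.one_lt
  have hp0 := hp.out.pos
  set C := centralizer ({x} : Set G) with hC
  have hP3 : p ^ 3 ∣ Nat.card P := by
    have h1 : p ^ 3 ∣ Nat.card P * P.index := by
      rw [P.card_mul_index]; exact h3.trans (card_subgroup_dvd_card C)
    exact (Nat.Coprime.pow_left 3 ((Nat.Prime.coprime_iff_not_dvd hp.out).mpr hPi)).dvd_of_dvd_mul_right h1
  have hM : N ⊓ P ≠ ⊥ := by
    intro h
    rw [crd N P, h, hNP, Subgroup.card_bot, mul_one] at hP3
    have := Nat.le_of_dvd hp0 hP3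
    have h' : p ^ 1 < p ^ 3 := Nat.pow_lt_pow_right hp1 (by norm_num)
    rw [pow_one] at h'
    omega
  obtain ⟨z, hz, hz1, hzc⟩ := cen P (N ⊓ P) pP inf_le_right hM
    (fun a ha y hy => mem_inf.mpr ⟨hN.conj_mem y hy.1 a,
      P.mul_mem (P.mul_mem ha hy.2) (P.inv_mem ha)⟩)
  set E := P ⊓ C with hEd
  set Z := E ⊓ N with hZd
  have hxE : x ∈ E := mem_inf.mpr ⟨hx, mem_centralizer_singleton_iff.mpr rfl⟩
  have hzZ : z ∈ Z := mem_inf.mpr
    ⟨mem_inf.mpr ⟨hz.2, mem_centralizer_singleton_iff.mpr (hzc x hx).symm⟩, hz.1⟩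
  have hZc : Nat.card Z = p := by
    have hd : Nat.card Z ∣ p ^ 2 := hE ▸ card_dvd_of_le (inf_le_left : Z ≤ E)
    obtain ⟨k, hk, hk'⟩ := (Nat.dvd_prime_pow hp.out).mp hd
    interval_cases k
    · exfalso
      rw [pow_zero, Subgroup.card_eq_one] at hk'
      rw [hk', Subgroup.mem_bot] at hzZ
      exact hz1 hzZ
    · simpa using hk'
    · exfalso
      have : Z = E := eq_of_le_of_card_ge inf_le_left (by rw [hE, hk'])
      rw [← this] at hxE
      exact hxN hxE.2
  have hzp := eq_zp Z hZc hzZ hz1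
  have hPZ : P ≤ normalizer (Z : Set G) := by
    intro a ha
    rw [mem_normalizer_iff]
    have key : ∀ w ∈ Z, a * w * a⁻¹ = w := by
      intro w hw
      rw [← hzp] at hw
      obtain ⟨j, rfl⟩ := mem_zpowers_iff.mp hw
      rw [mul_inv_eq_iff_eq_mul]
      exact Commute.zpow_right (hzc a ha) j
    intro h
    refine ⟨fun hh => by rw [key h hh]; exact hh, fun hh => ?_⟩
    have h1 := key _ hh
    have h2 : a * h * a⁻¹ = h := by
      have : a * (a * h * a⁻¹) * a⁻¹ = a * h * a⁻¹ := h1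
      rw [mul_left_inj, mul_right_inj] at this
      exact this
    rw [← h2]; exact hh
  by_cases htop : normalizer (Z : Set G) = ⊤
  · have hZn : Z.Normal := normalizer_eq_top_iff.mp htop
    have hZP : Z ≤ P := fun w hw => hw.1.1
    have hZN : Z ≤ N := inf_le_right
    have hs := QuotientGroup.mk'_surjective Z
    set f := QuotientGroup.mk' Z with hf
    have hker : f.ker = Z := QuotientGroup.ker_mk' Z
    have hPc : (P.map f).comap f = P := by rw [comap_map_eq, hker, sup_eq_left.mpr hZP]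
    have hNc : (N.map f).comap f = N := by rw [comap_map_eq, hker, sup_eq_left.mpr hZN]
    set Cb := centralizer ({f x} : Set (G ⧸ Z)) with hCb
    set L := Cb.comap f with hL
    have hLm : ∀ g ∈ L, x⁻¹ * (g * x * g⁻¹) ∈ Z := by
      intro g hg
      have h1 : f g * f x = f x * f g := mem_centralizer_singleton_iff.mp hg
      rw [← hker, MonoidHom.mem_ker]
      simp only [map_mul, map_inv]
      rw [h1]; group
    have hCL : C ≤ L := by
      intro g hg
      have h1 : g * x = x * g := mem_centralizer_singleton_iff.mp hg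
      exact mem_centralizer_singleton_iff.mpr (by rw [← map_mul, h1, map_mul])
    have hb2 : p ^ 2 ∣ Nat.card (P.map f) := by
      have := cmp Z (P.map f)
      rw [hPc, hZc] at this
      rw [this, pow_succ'] at hP3
      exact Nat.dvd_of_mul_dvd_mul_left hp0 hP3
    have hbig := big (P.map f) (pP.map f) hb2 (mem_map_of_mem f hx)
    have hPL : Nat.card (P ⊓ L : Subgroup G) = p * Nat.card (P.map f ⊓ Cb : Subgroup (G ⧸ Z)) := by
      have := cmp Z (P.map f ⊓ Cb)
      rw [comap_inf, hPc, hZc] at this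
      exact this
    have hPL2 := crd C (P ⊓ L)
    have hinf : C ⊓ (P ⊓ L) = E := by
      rw [← inf_assoc, inf_comm C P]
      exact inf_eq_left.mpr (inf_le_right.trans hCL)
    rw [hinf, hE] at hPL2
    have hi1 := idx Z L x hLm
    rw [hZc] at hi1
    have hi0 : C.relIndex L ≠ 0 := Subgroup.FiniteIndex.index_ne_zero
    have hi2 : C.relIndex (P ⊓ L) ≤ C.relIndex L := relIndex_le_of_le_right inf_le_right hi0
    obtain ⟨c, hc⟩ := hbig
    have hcpos : 0 < c := by
      rcases Nat.eq_zero_or_pos c with h | h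
      · rw [h, mul_zero] at hc
        exact absurd hc Nat.card_pos.ne'
      · exact h
    have heq : C.relIndex (P ⊓ L) = p * c := by
      have : C.relIndex (P ⊓ L) * p ^ 2 = (p * c) * p ^ 2 := by
        rw [← hPL2, hPL, hc]; ring
      exact Nat.eq_of_mul_eq_mul_right (pow_pos hp0 2) this
    have hc1 : c = 1 := by
      have : p * c ≤ p * 1 := by rw [mul_one, ← heq]; exact hi2.trans hi1
      have := Nat.le_of_mul_le_mul_left this hp0
      omega
    have hiL : C.relIndex L = p := le_antisymm hi1 (by rw [heq, hc1, mul_one] at hi2; exact hi2)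
    have hcard : Nat.card Cb = Nat.card C := by
      have h1 := crd C L
      rw [hiL, inf_eq_left.mpr hCL] at h1
      have h2 := cmp Z Cb
      rw [hZc] at h2
      exact Nat.eq_of_mul_eq_mul_left hp0 (h2.symm.trans h1)
    refine ih (Nat.card (G ⧸ Z)) ?_ (G ⧸ Z) rfl (P.map f) (N.map f) (pP.map f) ?_ (hN.map f hs)
      ?_ (f x) (mem_map_of_mem f hx) ?_ (by rw [hc, hc1, mul_one]) (hcard ▸ h3)
    · rw [← hn, Subgroup.card_eq_card_quotient_mul_card_subgroup Z, hZc]
      exact (Nat.lt_mul_iff_one_lt_right Nat.card_pos).mpr hp1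
    · rw [← index_comap_of_surjective _ hs, hPc]; exact hPi
    · rw [← hNP]
      conv_rhs => rw [← hNc]
      rw [relIndex_comap]
    · intro h
      apply hxN
      rw [← hNc]; exact h
  · set G1 := normalizer (Z : Set G) with hG1
    have hEC : E ≤ C := inf_le_right
    have hcE : Nat.card (E.subgroupOf C) = p ^ 2 := by
      rw [Nat.card_congr (subgroupOfEquivOfLe hEC).toEquiv, hE]
    have hnorm := Sylow.prime_pow_dvd_card_normalizer (G := C) (n := 2) h3 hcE
    have hD : (normalizer ((E.subgroupOf C : Subgroup C) : Set C)).map C.subtype ≤ C ⊓ G1 := by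
      rintro _ ⟨d, hd, rfl⟩
      refine mem_inf.mpr ⟨d.2, ?_⟩
      have hd' := mem_normalizer_iff.mp hd
      rw [hG1, mem_normalizer_iff]
      intro h
      constructor
      · intro hh
        exact mem_inf.mpr ⟨(hd' ⟨h, hEC hh.1⟩).mp hh.1, hN.conj_mem h hh.2 _⟩
      · intro hh
        have hhC : h ∈ C := by
          have : h = (d : G)⁻¹ * (C.subtype d * h * (C.subtype d)⁻¹) * d := by
            simp [mul_assoc]
          rw [this]
          exact C.mul_mem (C.mul_mem (C.inv_mem d.2) (hEC hh.1)) d.2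
        refine mem_inf.mpr ⟨(hd' ⟨h, hhC⟩).mpr hh.1, ?_⟩
        have := hN.conj_mem _ hh.2 (C.subtype d)⁻¹
        simpa [mul_assoc] using this
    have h3' : p ^ 3 ∣ Nat.card (C ⊓ G1 : Subgroup G) := by
      refine Dvd.dvd.trans ?_ (card_dvd_of_le hD)
      rw [Subgroup.card_map_of_injective C.subtype_injective]
      exact hnorm
    have hC1 : centralizer ({(⟨x, hPZ hx⟩ : G1)} : Set G1) = C.subgroupOf G1 := by
      ext g
      rw [mem_subgroupOf, hC, mem_centralizer_singleton_iff, mem_centralizer_singleton_iff,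
        Subtype.ext_iff]
      rfl
    refine ih (Nat.card G1) ?_ G1 rfl (P.subgroupOf G1) (N.subgroupOf G1)
      (pP.comap_of_injective G1.subtype G1.subtype_injective) ?_ (hN.subgroupOf G1) ?_
      ⟨x, hPZ hx⟩ hx hxN ?_ ?_
    · rw [← hn]
      have h1 := G1.card_mul_index
      have h2 : 1 < G1.index := one_lt_index_of_ne_top htop
      rw [← h1]
      exact (Nat.lt_mul_iff_one_lt_right Nat.card_pos).mpr h2
    · exact fun h => hPi (h.trans (relIndex_dvd_index_of_le hPZ))
    · rw [relIndex_subgroupOf hPZ, hNP]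
    · rw [hC1, ← hE]
      have : P.subgroupOf G1 ⊓ C.subgroupOf G1 = E.subgroupOf G1 := rfl
      rw [this]
      exact Nat.card_congr (subgroupOfEquivOfLe (inf_le_left.trans hPZ)).toEquiv
    · rw [hC1, ← inf_subgroupOf_right,
        Nat.card_congr (subgroupOfEquivOfLe inf_le_right).toEquiv]
      exact h3'

theorem ind : IndStmt.{u} := by
  intro G _ _ p hp P N hN hNP x hx hxN hE
  have h3 := main p _ G rfl P N P.isPGroup' P.not_dvd_index hN hNP x hx hxN hE
  have h2 : p ^ 2 ∣ Nat.card (centralizer ({x} : Set G)) := hE ▸ card_dvd_of_le inf_le_right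
  have hne : Nat.card (centralizer ({x} : Set G)) ≠ 0 := Nat.card_pos.ne'
  have a := (hp.out.pow_dvd_iff_le_factorization hne).mp h2
  have b := mt (hp.out.pow_dvd_iff_le_factorization hne).mpr h3
  omega

end Cfsg.Agent.H73.McInd
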