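import Mathlib
import Cfsg.Agent.S3993

/-! Counting elements by their order. -/

set_option autoImplicit false
set_option linter.style.haveILetI false
set_option linter.unusedSectionVars false

namespace Cfsg.Agent.H73.Nse

universe u

open Subgroup MulAction

/-- the number of elements of order `n`. -/
noncomputable def cnt (G : Type u) [Group G] (n : ℕ) : ℕ := Nat.card {g : G // orderOf g = n}

variable {G : Type u} [Group G] [Finite G]

theorem card_eq_sum (S : ℕ → Prop) [DecidablePred S] :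
    Nat.card {g : G // S (orderOf g)} = ∑ n ∈ (Nat.card G).divisors.filter S, cnt G n := by
  classical
  letI := Fintype.ofFinite G
  rw [Nat.card_eq_fintype_card, Fintype.card_subtype,
    Finset.card_eq_sum_card_fiberwise (f := fun g : G => orderOf g)
      (t := (Nat.card G).divisors.filter S)]
  · refine Finset.sum_congr rfl fun n hn => ?_
    rw [cnt, Nat.card_eq_fintype_card, Fintype.card_subtype]
    congr 1
    ext g
    simp only [Finset.mem_filter, Finset.mem_univ, true_and]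
    exact ⟨fun h => h.2, fun h => ⟨h ▸ (Finset.mem_filter.1 hn).2, h⟩⟩
  · intro g hg
    simp only [Finset.coe_filter, Finset.mem_univ, true_and, Set.mem_ofPred_eq] at hg
    simp only [Finset.coe_filter, Nat.mem_divisors, Set.mem_ofPred_eq]
    exact ⟨⟨orderOf_dvd_natCard g, Nat.card_pos.ne'⟩, hg⟩

theorem card_eq_sum_all : Nat.card G = ∑ n ∈ (Nat.card G).divisors, cnt G n := by
  have := card_eq_sum (G := G) (fun _ => True)
  rw [Finset.filter_true, Nat.card_congr (Equiv.subtypeUnivEquiv fun _ => trivial)] at this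
  exact this

theorem cnt_one : cnt G 1 = 1 := by
  rw [cnt, Nat.card_eq_one_iff_exists]
  exact ⟨⟨1, orderOf_one⟩, fun y => Subtype.ext (orderOf_eq_one_iff.1 y.2)⟩

theorem cnt_zero : cnt G 0 = 0 := by
  haveI : IsEmpty {g : G // orderOf g = 0} := ⟨fun g => (orderOf_pos g.1).ne' g.2⟩
  exact Nat.card_of_isEmpty

theorem dvd_cnt_add_one {r : ℕ} (hr : r.Prime) (h : r ∣ Nat.card G) : r ∣ 1 + cnt G r := by
  have h1 := S3993.result r h
  have h2 := card_eq_sum (G := G) (fun n => n ∣ r)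
  have h3 : (Nat.card G).divisors.filter (fun n => n ∣ r) = {1, r} := by
    ext n
    simp only [Finset.mem_filter, Nat.mem_divisors, Finset.mem_insert, Finset.mem_singleton]
    constructor
    · exact fun hn => (Nat.dvd_prime hr).1 hn.2
    · rintro (rfl | rfl)
      · exact ⟨⟨one_dvd _, Nat.card_pos.ne'⟩, one_dvd _⟩
      · exact ⟨⟨h, Nat.card_pos.ne'⟩, dvd_refl _⟩
  rw [h3, Finset.sum_pair hr.one_lt.ne, cnt_one] at h2
  rw [← h2]
  simpa only [orderOf_dvd_iff_pow_eq_one] using h1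

theorem even_cnt {n : ℕ} (hn : 3 ≤ n) : Even (cnt G n) := by
  classical
  letI := Fintype.ofFinite {g : G // orderOf g = n}
  let f : Function.End {g : G // orderOf g = n} := fun g => ⟨g.1⁻¹, by rw [orderOf_inv, g.2]⟩
  have hf : f ^ 2 ^ 1 = 1 := by
    funext g
    exact Subtype.ext (inv_inv g.1)
  have h1 := Equiv.Perm.card_fixedPoints_modEq (p := 2) hf
  have h2 : Fintype.card (Function.fixedPoints f) = 0 := by
    rw [Fintype.card_eq_zero_iff]
    refine ⟨fun g => ?_⟩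
    have h3 : g.1.1⁻¹ = g.1.1 := congrArg Subtype.val g.2
    have h4 : g.1.1 ^ 2 = 1 := by rw [sq, ← eq_inv_iff_mul_eq_one, h3]
    have h5 := Nat.le_of_dvd two_pos (orderOf_dvd_of_pow_eq_one h4)
    rw [g.1.2] at h5
    omega
  rw [h2] at h1
  rw [cnt, Nat.card_eq_fintype_card, even_iff_two_dvd]
  exact (Nat.modEq_zero_iff_dvd).1 h1

section main

variable {p f q : ℕ} [hp : Fact p.Prime]

theorem coprime_sq_sub_one (hq : 1 ≤ q) : Nat.Coprime q (q ^ 2 - 1) := by
  have h1 : 1 ≤ q ^ 2 := Nat.one_le_pow _ _ hq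
  have h2 : Nat.Coprime (q ^ 2) (q ^ 2 - 1) := by
    obtain ⟨k, hk⟩ : ∃ k, q ^ 2 = k + 1 := ⟨q ^ 2 - 1, by omega⟩
    rw [hk]; simp
  exact Nat.Coprime.coprime_dvd_left (dvd_pow_self q two_ne_zero) h2

/-- the number of `p`-singular elements is a multiple `k (q² - 1)` with `k < q`. -/
theorem card_sing (hq : q = p ^ f) (hf : f ≠ 0) (hG : Nat.card G = q * (q ^ 2 - 1)) :
    ∃ k, k < q ∧ Nat.card {g : G // p ∣ orderOf g} = (q ^ 2 - 1) * k := by
  classical
  have hq1 : 1 ≤ q := hq ▸ Nat.one_le_pow _ _ hp.out.pos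
  have hpq : p ∣ q := hq ▸ dvd_pow_self p hf
  have hcop := coprime_sq_sub_one hq1
  have h1 := S3993.result (G := G) (q ^ 2 - 1) (hG ▸ Dvd.intro_left _ rfl)
  have h2 : Nat.card {g : G // g ^ (q ^ 2 - 1) = 1} = Nat.card {g : G // ¬ p ∣ orderOf g} := by
    refine Nat.card_congr (Equiv.subtypeEquivRight fun g => ?_)
    rw [← orderOf_dvd_iff_pow_eq_one]
    constructor
    · intro h hd
      exact hp.out.one_lt.ne' (Nat.eq_one_of_dvd_coprimes hcop hpq (hd.trans h))
    · intro h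
      refine Nat.Coprime.dvd_of_dvd_mul_left ?_ (hG ▸ orderOf_dvd_natCard g)
      rw [hq]
      exact Nat.Coprime.pow_right _ ((Nat.Prime.coprime_iff_not_dvd hp.out).2 h).symm
  letI := Fintype.ofFinite G
  have h3 : Nat.card {g : G // ¬ p ∣ orderOf g} + Nat.card {g : G // p ∣ orderOf g} =
      Nat.card G := by
    simp only [Nat.card_eq_fintype_card]
    rw [Fintype.card_subtype_compl]
    have := Fintype.card_subtype_le (fun g : G => p ∣ orderOf g)
    omega
  have h4 : 0 < Nat.card {g : G // ¬ p ∣ orderOf g} := by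
    haveI : Nonempty {g : G // ¬ p ∣ orderOf g} :=
      ⟨⟨1, by rw [orderOf_one]; exact hp.out.not_dvd_one⟩⟩
    exact Nat.card_pos
  rw [h2] at h1
  obtain ⟨k, hk⟩ : q ^ 2 - 1 ∣ Nat.card {g : G // p ∣ orderOf g} :=
    (Nat.dvd_add_right h1).1 (h3 ▸ hG ▸ Dvd.intro_left _ rfl)
  refine ⟨k, ?_, hk⟩
  have h5 : (q ^ 2 - 1) * k < (q ^ 2 - 1) * q := by rw [← hk, mul_comm, ← hG]; omega
  exact Nat.lt_of_mul_lt_mul_left h5

theorem eq_one_of_modEq {k : ℕ} (hq : 2 ≤ q) (hk : k < q)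
    (h : (q ^ 2 - 1) * k ≡ q ^ 2 - 1 [MOD q]) : k = 1 := by
  have h1 : (q ^ 2 - 1) * k ≡ (q ^ 2 - 1) * 1 [MOD q] := by rwa [mul_one]
  have h2 := Nat.ModEq.cancel_left_of_coprime (coprime_sq_sub_one (by omega)) h1
  exact Nat.ModEq.eq_of_lt_of_lt h2 hk (by omega)

theorem sum_modEq {s : Finset ℕ} {c : ℕ → ℕ} {a : ℕ} (ha : a ∈ s)
    (h : ∀ n ∈ s, n ≠ a → q ∣ c n) : ∑ n ∈ s, c n ≡ c a [MOD q] := by
  rw [← Finset.add_sum_erase s c ha]
  have : q ∣ ∑ n ∈ s.erase a, c n :=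
    Finset.dvd_sum fun n hn => h n (Finset.mem_of_mem_erase hn) (Finset.ne_of_mem_erase hn)
  simpa using (Nat.ModEq.refl (c a)).add ((Nat.modEq_zero_iff_dvd).2 this)

/-- if the only `p`-singular elements have order `p`, the counts are those of `PGL₂(q)`. -/
theorem cnt_of_sing (hq : q = p ^ f) (hf : f ≠ 0) (hG : Nat.card G = q * (q ^ 2 - 1))
    (hX : ∀ g : G, p ∣ orderOf g → orderOf g = p) :
    cnt G p = q ^ 2 - 1 ∧ ∀ n, n ≠ 1 → n ≠ p → q ∣ cnt G n := by
  have hq2 : 2 ≤ q := hq ▸ hp.out.two_le.trans (Nat.le_self_pow hf p)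
  have hpq : p ∣ q := hq ▸ dvd_pow_self p hf
  have h2 : ∀ n, n ≠ 1 → n ≠ p → q ∣ cnt G n := by
    intro n hn1 hnp
    obtain ⟨P, hP⟩ := Sylow.exists_subgroup_card_pow_prime (G := G) p (n := f)
      (hq ▸ hG ▸ Dvd.intro _ rfl)
    letI : MulAction P {g : G // orderOf g = n} :=
      { smul := fun u g => ⟨u * g * (u : G)⁻¹,
          ((MulAut.conj (u : G)).orderOf_eq g.1).trans g.2⟩
        one_smul := fun g => Subtype.ext (by
          change ((1 : P) : G) * g * ((1 : P) : G)⁻¹ = g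
          simp)
        mul_smul := fun x y g => Subtype.ext (by
          change ((x * y : P) : G) * g * ((x * y : P) : G)⁻¹ = x * (y * g * (y : G)⁻¹) * (x : G)⁻¹
          simp [mul_assoc]) }
    have h1 : ∀ b : {g : G // orderOf g = n}, stabilizer P b = ⊥ := by
      intro b
      rw [eq_bot_iff]
      intro u hu
      have e : (u : G) * b * (u : G)⁻¹ = b := congrArg Subtype.val hu
      rw [mul_inv_eq_iff_eq_mul] at e
      by_contra hu1
      have hu2 : (u : G) ≠ 1 := fun e => hu1 (mem_bot.2 (Subtype.ext e))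
      have h3 : orderOf (u : G) = p := by
        apply hX
        obtain ⟨i, -, hi⟩ := (Nat.dvd_prime_pow hp.out).1 (hP ▸ P.orderOf_dvd_natCard u.2)
        rcases i with _ | i
        · exact absurd (orderOf_eq_one_iff.1 (by simpa using hi)) hu2
        · rw [hi]; exact dvd_pow_self p (by omega)
      have h4 : ¬ p ∣ n := fun hd => hnp (b.2 ▸ hX _ (b.2.symm ▸ hd))
      have h5 := Commute.orderOf_mul_eq_mul_orderOf_of_coprime (show Commute (u : G) b from e)
        (by rw [h3, b.2]; exact (Nat.Prime.coprime_iff_not_dvd hp.out).2 h4)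
      rw [h3, b.2] at h5
      have h6 := hX _ (h5 ▸ Dvd.intro _ rfl)
      rw [h5] at h6
      exact hn1 (Nat.eq_of_mul_eq_mul_left hp.out.pos (by rw [h6, mul_one]))
    have h3 := Nat.card_congr (selfEquivOrbitsQuotientProd h1)
    rw [Nat.card_prod, hP, ← hq] at h3
    exact ⟨_, by rw [cnt, h3, mul_comm]⟩
  refine ⟨?_, h2⟩
  obtain ⟨k, hk, e⟩ := card_sing hq hf hG
  have e1 : cnt G p = (q ^ 2 - 1) * k := by
    rw [← e, cnt]
    exact Nat.card_congr (Equiv.subtypeEquivRight fun g => ⟨fun h => h ▸ dvd_refl _, hX g⟩)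
  have h3 := card_eq_sum_all (G := G)
  have h1m : 1 ∈ (Nat.card G).divisors := Nat.one_mem_divisors.2 Nat.card_pos.ne'
  have hpm : p ∈ ((Nat.card G).divisors).erase 1 :=
    Finset.mem_erase.2 ⟨hp.out.one_lt.ne', Nat.mem_divisors.2
      ⟨hG ▸ hpq.mul_right _, Nat.card_pos.ne'⟩⟩
  rw [← Finset.add_sum_erase _ _ h1m, cnt_one] at h3
  have h4 := sum_modEq (q := q) (c := cnt G) hpm
    fun n hn hnp => h2 n (Finset.ne_of_mem_erase hn) hnp
  have h5 : 1 + cnt G p ≡ 1 + (q ^ 2 - 1) [MOD q] := by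
    have a1 : 1 + cnt G p ≡ 0 [MOD q] := by
      refine ((Nat.ModEq.refl 1).add h4).symm.trans ?_
      rw [← h3, hG]
      exact (Nat.modEq_zero_iff_dvd).2 (Dvd.intro _ rfl)
    have a2 : 1 + (q ^ 2 - 1) = q * q := by
      have : 1 ≤ q ^ 2 := Nat.one_le_pow _ _ (by omega)
      rw [← sq]; omega
    rw [a2]
    exact a1.trans ((Nat.modEq_zero_iff_dvd).2 (Dvd.intro _ rfl)).symm
  have h6 := Nat.ModEq.add_left_cancel' 1 h5
  rw [e1] at h6 ⊢
  rw [eq_one_of_modEq hq2 hk h6, mul_one]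

/-- the converse. -/
theorem sing_of_cnt (hq : q = p ^ f) (hf : f ≠ 0) (hG : Nat.card G = q * (q ^ 2 - 1))
    (h : ∀ n, n ≠ 1 → cnt G n = q ^ 2 - 1 ∨ q ∣ cnt G n) (g : G) (hg : p ∣ orderOf g) :
    orderOf g = p := by
  classical
  have hq2 : 2 ≤ q := hq ▸ hp.out.two_le.trans (Nat.le_self_pow hf p)
  have hpq : p ∣ q := hq ▸ dvd_pow_self p hf
  have hpG : p ∣ Nat.card G := hG ▸ hpq.mul_right _
  have hsq : 4 ≤ q ^ 2 := by nlinarith
  have hnp : ¬ q ∣ cnt G p := fun hd =>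
    hp.out.not_dvd_one ((Nat.dvd_add_left (hpq.trans hd)).1 (dvd_cnt_add_one hp.out hpG))
  have hcp : cnt G p = q ^ 2 - 1 := (h p hp.out.one_lt.ne').resolve_right hnp
  set D := ((Nat.card G).divisors).erase 1 with hD
  set J := D.filter (fun n => ¬ q ∣ cnt G n) with hJ
  have hpJ : p ∈ J := Finset.mem_filter.2 ⟨Finset.mem_erase.2 ⟨hp.out.one_lt.ne',
    Nat.mem_divisors.2 ⟨hpG, Nat.card_pos.ne'⟩⟩, hnp⟩
  have h3 := card_eq_sum_all (G := G)
  rw [← Finset.add_sum_erase _ _ (Nat.one_mem_divisors.2 Nat.card_pos.ne'), cnt_one, ← hD,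
    ← Finset.sum_filter_add_sum_filter_not D (fun n => q ∣ cnt G n), ← hJ] at h3
  have h4 : ∑ n ∈ J, cnt G n = (q ^ 2 - 1) * J.card := by
    rw [Finset.sum_congr rfl (g := fun _ => q ^ 2 - 1), Finset.sum_const, smul_eq_mul, mul_comm]
    intro n hn
    exact (h n (Finset.ne_of_mem_erase (Finset.mem_filter.1 hn).1)).resolve_right
      (Finset.mem_filter.1 hn).2
  obtain ⟨c, hc⟩ : q ∣ ∑ n ∈ D.filter (fun n => q ∣ cnt G n), cnt G n :=
    Finset.dvd_sum fun n hn => (Finset.mem_filter.1 hn).2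
  rw [h4, hc, hG] at h3
  have h5 : J.card < q := by
    have : (q ^ 2 - 1) * J.card < (q ^ 2 - 1) * q := by rw [mul_comm _ q]; omega
    exact Nat.lt_of_mul_lt_mul_left this
  have h6 : J.card = 1 := by
    refine eq_one_of_modEq hq2 h5 (Nat.ModEq.add_left_cancel' (1 + q * c) ?_)
    have a1 : 1 + q * c + (q ^ 2 - 1) * J.card = q * (q ^ 2 - 1) := by omega
    have a2 : 1 + q * c + (q ^ 2 - 1) = q * (c + q) := by
      rw [mul_add, ← sq]; omega
    rw [a1, a2]
    exact ((Nat.modEq_zero_iff_dvd).2 (Dvd.intro _ rfl)).trans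
      ((Nat.modEq_zero_iff_dvd).2 (Dvd.intro _ rfl)).symm
  have h7 : ∀ n ∈ (Nat.card G).divisors.filter (fun n => p ∣ n), n ≠ p → q ∣ cnt G n := by
    intro n hn hne
    by_contra hd
    have hn1 : n ≠ 1 := by
      rintro rfl
      exact hp.out.not_dvd_one (Finset.mem_filter.1 hn).2
    exact hne (Finset.card_le_one.1 h6.le n (Finset.mem_filter.2
      ⟨Finset.mem_erase.2 ⟨hn1, (Finset.mem_filter.1 hn).1⟩, hd⟩) p hpJ)
  have h8 := sum_modEq (q := q) (c := cnt G) (Finset.mem_filter.2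
    ⟨Nat.mem_divisors.2 ⟨hpG, Nat.card_pos.ne'⟩, dvd_refl p⟩) h7
  obtain ⟨k, hk, e⟩ := card_sing hq hf hG
  rw [← card_eq_sum (G := G) (fun n => p ∣ n), e, hcp] at h8
  rw [eq_one_of_modEq hq2 hk h8, mul_one, ← hcp] at e
  have h9 : {g : G | orderOf g = p} = {g : G | p ∣ orderOf g} :=
    Set.eq_of_subset_of_ncard_le (fun g (h : orderOf g = p) => (h ▸ dvd_refl _ : p ∣ orderOf g))
      (by rw [← Nat.card_coe_set_eq, ← Nat.card_coe_set_eq]; exact e.le)
  exact (h9 ▸ hg : g ∈ {g : G | orderOf g = p})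

end main

end Cfsg.Agent.H73.Nse
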