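import Cfsg.Agent.H87.PWDefs

/-!
Project PW (row S5767), piece EL.
-/

set_option autoImplicit false
open Equiv

namespace Cfsg.Agent.H73.PwEl
open Cfsg.Agent.H87.PW

section
variable {ι α : Type} [DecidableEq ι] [DecidableEq α]

theorem ais {β : Type} (f : Perm β) (x : β) : f (f⁻¹ x) = x := by simp

theorem c3_fix_iff {p q r : α} (hpq : p ≠ q) (hpr : p ≠ r) (hqr : q ≠ r) (a : α) :
    c3 p q r a = a ↔ (a ≠ p ∧ a ≠ q ∧ a ≠ r) := by
  constructor
  · intro h
    refine ⟨?_, ?_, ?_⟩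
    · rintro rfl; rw [c3_1 hpq hqr] at h; exact hpq h.symm
    · rintro rfl; rw [c3_2] at h; exact hqr h.symm
    · rintro rfl; rw [c3_3 hpr hqr] at h; exact hpr h
  · rintro ⟨h1, h2, h3⟩; exact c3_of_ne h1 h2 h3

theorem c3_cube {p q r : α} (hpq : p ≠ q) (hpr : p ≠ r) (hqr : q ≠ r) :
    c3 p q r * c3 p q r * c3 p q r = 1 := by
  ext a
  simp only [Perm.mul_apply, Perm.one_apply]
  by_cases h1 : a = p
  · subst h1; rw [c3_1 hpq hqr, c3_2, c3_3 hpr hqr]
  by_cases h2 : a = q
  · subst h2; rw [c3_2, c3_3 hpr hqr, c3_1 hpq hqr]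
  by_cases h3 : a = r
  · subst h3; rw [c3_3 hpr hqr, c3_1 hpq hqr, c3_2]
  rw [c3_of_ne h1 h2 h3, c3_of_ne h1 h2 h3, c3_of_ne h1 h2 h3]

/-- a permutation acting like `swap p q` on `p, q, r` and keeping the other values outside
inverts the 3-cycle -/
theorem c3_conj {p q r : α} (hpq : p ≠ q) (hpr : p ≠ r) (hqr : q ≠ r) (σ : Perm α)
    (h1 : σ p = q) (h2 : σ q = p) (h3 : σ r = r) :
    σ * c3 p q r * σ⁻¹ = (c3 p q r)⁻¹ := by
  rw [eq_inv_iff_mul_eq_one]
  ext a
  simp only [Perm.mul_apply, Perm.one_apply]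
  have i1 : σ⁻¹ q = p := by rw [← h1]; simp
  have i2 : σ⁻¹ p = q := by rw [← h2]; simp
  have i3 : σ⁻¹ r = r := by conv_lhs => rw [← h3]; simp
  by_cases e1 : a = p
  · subst e1; rw [c3_1 hpq hqr, i1, c3_1 hpq hqr, h2]
  by_cases e2 : a = q
  · subst e2; rw [c3_2, i3, c3_3 hpr hqr, h1]
  by_cases e3 : a = r
  · subst e3; rw [c3_3 hpr hqr, i2, c3_2, h3]
  rw [c3_of_ne e1 e2 e3, c3_of_ne, ais]
  · intro e; apply e2; rw [← h1, ← e]; simp
  · intro e; apply e1; rw [← h2, ← e]; simp
  · intro e; apply e3; rw [← h3, ← e]; simp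

theorem fix_comm {β : Type} {e u : Perm β} (h : e * u = u * e) (x : β) :
    u (e x) = e x ↔ u x = x := by
  have : u (e x) = e (u x) := by
    rw [← Perm.mul_apply, ← h, Perm.mul_apply]
  rw [this]; exact e.injective.eq_iff

/-- the group `E` -/
def EE (H : Subgroup (Perm (ι → α))) (i : ι) (u : Perm (ι → α)) : Subgroup (Perm (ι → α)) where
  carrier := {e | e ∈ H ∧ e * u = u * e ∧ ∀ x, u x ≠ x → res i (e x) = res i x}
  one_mem' := ⟨H.one_mem, by simp, fun _ _ => rfl⟩
  mul_mem' := by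
    rintro a b ⟨ha, ha1, ha2⟩ ⟨hb, hb1, hb2⟩
    refine ⟨H.mul_mem ha hb, ?_, fun x hx => ?_⟩
    · rw [mul_assoc, hb1, ← mul_assoc, ha1, mul_assoc]
    · rw [Perm.mul_apply, ha2 _ (fun e => hx ((fix_comm hb1 x).1 e)), hb2 x hx]
  inv_mem' := by
    rintro a ⟨ha, ha1, ha2⟩
    have h1 : a⁻¹ * u = u * a⁻¹ := by
      have : Commute a u := ha1
      exact this.inv_left
    refine ⟨H.inv_mem ha, h1, fun x hx => ?_⟩
    have := ha2 (a⁻¹ x) (fun e => hx ((fix_comm h1 x).1 e))
    rw [ais] at this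
    exact this.symm

theorem conj_mem {H : Subgroup (Perm (ι → α))} {i : ι} {t : Perm α} {π : Perm ι} {τ : ι → Perm α}
    (hg : wr π τ ∈ H) (hπ : π i = i) (ht : τ i * t * (τ i)⁻¹ = t ∨ τ i * t * (τ i)⁻¹ = t⁻¹)
    {e : Perm (ι → α)} (he : e ∈ EE H i (co i t)) :
    wr π τ * e * (wr π τ)⁻¹ ∈ EE H i (co i t) := by
  obtain ⟨he0, he1, he2⟩ := he
  set g := wr π τ with hgdef
  have hc := wr_conj_co π τ i t
  rw [hπ, ← hgdef] at hc
  have hce : Commute e (co i t) := he1
  have key : g * co i t * g⁻¹ = co i t ∨ g * co i t * g⁻¹ = (co i t)⁻¹ := by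
    rcases ht with h | h
    · left; rw [hc, h]
    · right; rw [hc, h, co_inv]
  have hcomm : Commute (g * e * g⁻¹) (g * co i t * g⁻¹) := by
    have := hce.map (MulAut.conj g)
    simpa [MulAut.conj_apply] using this
  refine ⟨H.mul_mem (H.mul_mem hg he0) (H.inv_mem hg), ?_, fun x hx => ?_⟩
  · rcases key with h | h
    · rw [h] at hcomm; exact hcomm
    · rw [h] at hcomm; exact Commute.inv_right_iff.1 hcomm
  · have hy : co i t (g⁻¹ x) ≠ g⁻¹ x := by
      intro e'
      apply hx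
      have h1 : (g * co i t * g⁻¹) x = x := by
        rw [Perm.mul_apply, Perm.mul_apply, e', ais]
      rcases key with h | h
      · rwa [h] at h1
      · rw [h] at h1
        conv_lhs => rw [← h1]
        simp
    have h2 := (res_eq_iff _ _ _).1 (he2 _ hy)
    rw [res_eq_iff]
    intro j hj
    have hj' : π.symm j ≠ i := fun e' => hj (by rw [← hπ, ← e']; simp)
    have h3 : x j = g (g⁻¹ x) j := by rw [ais]
    rw [h3, Perm.mul_apply, Perm.mul_apply, hgdef, wr_apply, wr_apply, ← hgdef, h2 _ hj']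

/-- the cube of an element of `E` fixes the three hyperplanes pointwise -/
theorem cube_fix {H : Subgroup (Perm (ι → α))} {i : ι} {p q r : α} (hpq : p ≠ q) (hpr : p ≠ r)
    (hqr : q ≠ r) {e : Perm (ι → α)} (he : e ∈ EE H i (co i (c3 p q r))) (x : ι → α)
    (hx : co i (c3 p q r) x ≠ x) : (e ^ 3) x = x := by
  obtain ⟨-, he1, he2⟩ := he
  set t := c3 p q r with ht
  have hc : Commute e (co i t) := he1
  have ht3 : t ^ 3 = 1 := by rw [pow_succ, pow_two]; exact c3_cube hpq hpr hqr
  have hex : co i t (e x) ≠ e x := fun h => hx ((fix_comm he1 x).1 h)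
  have key : ∃ z : ℕ, e x = (co i t ^ z) x := by
    have a1 : ¬ (x i ≠ p ∧ x i ≠ q ∧ x i ≠ r) := fun h =>
      hx ((co_fix_iff _ _ _).2 ((c3_fix_iff hpq hpr hqr _).2 h))
    have a2 : ¬ (e x i ≠ p ∧ e x i ≠ q ∧ e x i ≠ r) := fun h =>
      hex ((co_fix_iff _ _ _).2 ((c3_fix_iff hpq hpr hqr _).2 h))
    have t1 : t p = q := c3_1 hpq hqr
    have t2 : t q = r := c3_2 _ _ _
    have t3 : t r = p := c3_3 hpr hqr
    have hz : ∃ z : ℕ, e x i = (t ^ z) (x i) := by
      have b1 : x i = p ∨ x i = q ∨ x i = r := by tauto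
      have b2 : e x i = p ∨ e x i = q ∨ e x i = r := by tauto
      rcases b1 with b1 | b1 | b1 <;> rcases b2 with b2 | b2 | b2 <;> rw [b1, b2]
      · exact ⟨0, rfl⟩
      · exact ⟨1, by simp [t1]⟩
      · exact ⟨2, by simp [pow_two, t1, t2]⟩
      · exact ⟨2, by simp [pow_two, t2, t3]⟩
      · exact ⟨0, rfl⟩
      · exact ⟨1, by simp [t2]⟩
      · exact ⟨1, by simp [t3]⟩
      · exact ⟨2, by simp [pow_two, t3, t1]⟩
      · exact ⟨0, rfl⟩
    obtain ⟨z, hz⟩ := hz
    refine ⟨z, ext_res (i := i) ?_ ?_⟩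
    · rw [← co_pow, co_self, hz]
    · rw [← co_pow, res_co, he2 x hx]
  obtain ⟨z, hz⟩ := key
  set v := co i t ^ z with hv
  have hcv : e * v = v * e := (hc.pow_right z)
  have hev : ∀ y, e (v y) = v (e y) := fun y => by
    rw [← Perm.mul_apply, hcv, Perm.mul_apply]
  have hv3 : v ^ 3 = 1 := by
    rw [hv, ← pow_mul, mul_comm, pow_mul, ← co_pow, ht3, co_one, one_pow]
  have : (e ^ 3) x = (v ^ 3) x := by
    simp only [pow_succ, pow_zero, one_mul, Perm.mul_apply]
    rw [hz, hev, hz, hev, hev, hz]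
  rw [this, hv3, Perm.one_apply]

end

theorem el (hp : PrimStmt) : ELStmt := by
  intro ι α _ _ _ _ H hH hm6 hS hR c hc i p q r hpq hpr hqr hcu hcp
  classical
  have hm := hH.hm
  set t := c3 p q r with ht
  set u := co i t with hu
  have ht3 : t * t * t = 1 := c3_cube hpq hpr hqr
  have t1 : t p = q := c3_1 hpq hqr
  have t2 : t q = r := c3_2 _ _ _
  have t3 : t r = p := c3_3 hpr hqr
  have hfix : ∀ x : ι → α, u x = x ↔ (x i ≠ p ∧ x i ≠ q ∧ x i ≠ r) := fun x => by
    rw [hu, co_fix_iff, c3_fix_iff hpq hpr hqr]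
  set E := EE H i u with hE
  have hcE : c ∈ E := by
    refine ⟨hc, hcu, fun x hx => ?_⟩
    have hcu' : ∀ y, c (u y) = u (c y) := fun y => by
      rw [← Perm.mul_apply, hcu, Perm.mul_apply]
    have hres : ∀ y, res i (c (u y)) = res i (u y) → res i (c y) = res i y := fun y h => by
      rw [hcu', hu, res_co, res_co] at h; exact h
    have b1 : x i = p ∨ x i = q ∨ x i = r := by
      have := (hfix x).not.1 hx; tauto
    rcases b1 with b1 | b1 | b1
    · exact hcp x b1
    · apply hres; apply hres; apply hcp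
      rw [hu, co_self, co_self, b1, t2, t3]
    · apply hres; apply hcp
      rw [hu, co_self, b1, t3]
  -- invariance of the orbit relation
  let rel : (ι → α) → (ι → α) → Prop := fun x y => ∃ e ∈ E, e x = y
  have hequiv : Equivalence rel := by
    refine ⟨fun x => ⟨1, E.one_mem, rfl⟩, ?_, ?_⟩
    · rintro x y ⟨e, he, rfl⟩
      exact ⟨e⁻¹, E.inv_mem he, by simp⟩
    · rintro x y z ⟨e, he, rfl⟩ ⟨e', he', rfl⟩
      exact ⟨e' * e, E.mul_mem he' he, rfl⟩
  have hinv : ∀ (π : Perm ι) (τ : ι → Perm α), wr π τ ∈ H → π i = i →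
      (τ i * t * (τ i)⁻¹ = t ∨ τ i * t * (τ i)⁻¹ = t⁻¹) →
      ∀ x y, rel x y → rel (wr π τ x) (wr π τ y) := by
    rintro π τ hg hπ hτ x y ⟨e, he, rfl⟩
    exact ⟨_, conj_mem hg hπ hτ he, by simp [Perm.mul_apply]⟩
  have hinvco : ∀ j, j ≠ i → ∀ τ : Perm α, Perm.sign τ = 1 → ∀ x y, rel x y →
      rel (co j τ x) (co j τ y) := by
    intro j hj τ hτ
    refine hinv 1 _ (hH.hyp.co_mem j τ hτ) rfl (Or.inl ?_)
    simp [Function.update_of_ne hj.symm]
  have hswap : swap p q * t * (swap p q)⁻¹ = t⁻¹ :=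
    c3_conj hpq hpr hqr _ (swap_apply_left _ _) (swap_apply_right _ _)
      (swap_apply_of_ne_of_ne hpr.symm hqr.symm)
  have hprim : ∀ a, a ≠ p → a ≠ q →
      (∀ x y : ι → α, x i = a → y i = a → rel x y → x = y) ∨
        (∀ x y : ι → α, x i = a → y i = a → rel x y) := by
    intro a hap haq
    have := hp ι α hm {j | j ≠ i} (fun _ => a) rel hequiv (fun j hj => hinvco j hj) (by
      intro j hj j' hj'
      obtain ⟨τ, hτ, hτ'⟩ := hH.hyp.top' (swap j j') (fun _ => p) (fun _ => q) (fun _ => hpq)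
      have hπ : swap j j' i = i := swap_apply_of_ne_of_ne (Ne.symm hj) (Ne.symm hj')
      refine ⟨swap j j', τ, swap_apply_left _ _, fun l hl => ?_, hinv _ _ hτ hπ ?_⟩
      · have hl' : l = i := by simpa using hl
        subst hl'
        refine ⟨hπ, ?_⟩
        rcases hτ' l with h | h <;> rw [h]
        · rfl
        · exact swap_apply_of_ne_of_ne hap haq
      · rcases hτ' i with h | h <;> rw [h]
        · left; simp
        · right; exact hswap)
    have hs : ∀ x : ι → α, x i = a → ∀ l, l ∉ {j | j ≠ i} → x l = a := by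
      intro x hx l hl
      have hl' : l = i := by simpa using hl
      rw [hl', hx]
    rcases this with h | h
    · left; intro x y hx hy; exact h x y (hs x hx) (hs y hy)
    · right; intro x y hx hy; exact h x y (hs x hx) (hs y hy)
  by_cases htriv : ∀ a, a ≠ p → a ≠ q → a ≠ r →
      ∀ x y : ι → α, x i = a → y i = a → rel x y → x = y
  · -- trivial case
    apply hR c hc i
    intro x
    by_cases hx : u x = x
    · have hy : u (c x) = c x := (fix_comm hcu x).2 hx
      obtain ⟨y1, y2, y3⟩ := (hfix _).1 hy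
      rw [res_eq_iff]
      intro j hj
      by_contra hne
      obtain ⟨d, hd1, hd2, -⟩ := exists_new hm (x j) (c x j) (x j) (x j)
      obtain ⟨d', hd1', hd2', hd3', -⟩ := exists_new hm (x j) (c x j) d d
      have hsg : Perm.sign (c3 (c x j) d d') = 1 := c3_sign hd2.symm hd2'.symm
      have hvx : co j (c3 (c x j) d d') x = x :=
        (co_fix_iff _ _ _).2 (c3_of_ne (Ne.symm hne) hd1.symm hd1'.symm)
      have h1 := hinvco j hj _ hsg x (c x) ⟨c, hcE, rfl⟩
      rw [hvx] at h1
      have h2 : rel (c x) (co j (c3 (c x j) d d') (c x)) :=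
        hequiv.trans (hequiv.symm ⟨c, hcE, rfl⟩) h1
      have h3 := htriv (c x i) y1 y2 y3 _ _ rfl (co_ne (Ne.symm hj) _ _) h2
      have h4 := congrFun h3 j
      rw [co_self, c3_1 hd2.symm hd3'.symm] at h4
      exact hd2 h4.symm
    · exact hcE.2.2 x hx
  · -- total case
    exfalso
    have htot0 : ∃ a, a ≠ p ∧ a ≠ q ∧ a ≠ r ∧ ∀ x y : ι → α, x i = a → y i = a → rel x y := by
      by_contra hno
      apply htriv
      intro a h1 h2 h3
      rcases hprim a h1 h2 with h | h
      · exact h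
      · exact absurd ⟨a, h1, h2, h3, h⟩ hno
    obtain ⟨a0, a1, a2, a3, htot0⟩ := htot0
    have htot : ∀ a, a ≠ p → a ≠ q → a ≠ r → ∀ x y : ι → α, x i = a → y i = a → rel x y := by
      intro a h1 h2 h3 x y hx hy
      by_cases haa : a = a0
      · subst haa; exact htot0 x y hx hy
      let σ : Perm α := swap a0 a * swap p q
      have hσ : Perm.sign σ = 1 := by simp [σ, hpq, Ne.symm haa]
      have s1 : σ p = q := by
        simp only [σ, Perm.mul_apply, swap_apply_left]
        exact swap_apply_of_ne_of_ne a2.symm h2.symm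
      have s2 : σ q = p := by
        simp only [σ, Perm.mul_apply, swap_apply_right]
        exact swap_apply_of_ne_of_ne a1.symm h1.symm
      have s3 : σ r = r := by
        simp only [σ, Perm.mul_apply]
        rw [swap_apply_of_ne_of_ne hpr.symm hqr.symm]
        exact swap_apply_of_ne_of_ne a3.symm h3.symm
      have s4 : σ a0 = a := by
        simp only [σ, Perm.mul_apply]
        rw [swap_apply_of_ne_of_ne a1 a2, swap_apply_left]
      have s5 : σ⁻¹ a = a0 := by rw [← s4]; simp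
      have h4 := hinv 1 _ (hH.hyp.co_mem i σ hσ) rfl (Or.inr (by
        simpa using c3_conj hpq hpr hqr σ s1 s2 s3)) (co i σ⁻¹ x) (co i σ⁻¹ y)
        (htot0 _ _ (by rw [co_self, hx, s5]) (by rw [co_self, hy, s5]))
      have h5 : ∀ z : ι → α, co i σ (co i σ⁻¹ z) = z := fun z => by rw [co_inv, ais]
      change rel (co i σ _) (co i σ _) at h4
      rwa [h5, h5] at h4
    -- the prime
    obtain ⟨l, hl, hl3, hlm, hlm3⟩ : ∃ l : ℕ, l.Prime ∧ l ≠ 3 ∧ l ∣ Fintype.card α ∧
        ¬ l ∣ Fintype.card α - 3 := by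
      rcases (by omega : Fintype.card α = 5 ∨ Fintype.card α = 6) with h | h
      · exact ⟨5, by norm_num, by norm_num, by rw [h], by rw [h]; norm_num⟩
      · exact ⟨2, by norm_num, by norm_num, by rw [h]; norm_num, by rw [h]; norm_num⟩
    haveI : Fact l.Prime := ⟨hl⟩
    obtain ⟨P⟩ : Nonempty (Sylow l E) := inferInstance
    have hP : ∀ g : E, g ∈ (P : Subgroup E) → ∃ τ : Perm α, (g : Perm (ι → α)) = co i τ := by
      intro g hg
      obtain ⟨n, hn⟩ := P.isPGroup' ⟨g, hg⟩
      have hn' : (g : Perm (ι → α)) ^ l ^ n = 1 := by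
        have := congrArg (fun z : (P : Subgroup E) => ((z : E) : Perm (ι → α))) hn
        simpa using this
      obtain ⟨τ, hτ⟩ := hS i p ((g : Perm (ι → α)) ^ 3) (H.pow_mem g.2.1 3) (fun z hz =>
        cube_fix hpq hpr hqr g.2 z (fun e => ((hfix z).1 e).1 hz))
      have hcop : (3 : ℕ).Coprime (orderOf (g : Perm (ι → α))) := by
        have h1 : orderOf (g : Perm (ι → α)) ∣ l ^ n := orderOf_dvd_of_pow_eq_one hn'
        refine Nat.Coprime.coprime_dvd_right h1 (Nat.Coprime.pow_right _ ?_)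
        exact (Nat.coprime_primes (by norm_num) hl).2 hl3.symm
      obtain ⟨s, hs⟩ := exists_pow_eq_self_of_coprime hcop
      exact ⟨τ ^ s, by rw [co_pow, ← hτ, hs]⟩
    let x1 : ι → α := fun _ => p
    let D : SubMulAction (P : Subgroup E) (ι → α) :=
      { carrier := {x | u x = x ∧ res i x = res i x1}
        smul_mem' := by
          rintro g x ⟨hx1, hx2⟩
          obtain ⟨τ, hτ⟩ := hP g.1 g.2
          have e1 : g • x = (g.1 : Perm (ι → α)) x := rfl
          refine ⟨?_, ?_⟩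
          · rw [e1]; exact (fix_comm g.1.2.2.1 x).2 hx1
          · rw [e1, hτ, res_co, hx2] }
    have hD : Nat.card D = Fintype.card α - 3 := by
      have h3 : ({p, q, r} : Finset α).card = 3 := Finset.card_eq_three.2 ⟨p, q, r, hpq, hpr, hqr, rfl⟩
      rw [← h3, ← Finset.card_compl, ← Fintype.card_coe, ← Nat.card_eq_fintype_card]
      refine Nat.card_congr
        { toFun := fun x => ⟨x.1 i, by simpa using (hfix _).1 x.2.1⟩
          invFun := fun a => ⟨ins i a.1 (res i x1), (hfix _).2 (by simpa using a.2), by simp⟩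
          left_inv := fun x => Subtype.ext (ext_res (i := i) (by simp) (by simp [x.2.2]))
          right_inv := fun a => Subtype.ext (by simp) }
    obtain ⟨x0, hx0⟩ := P.isPGroup'.nonempty_fixed_point_of_prime_not_dvd_card D (by rwa [hD])
    have hle : (P : Subgroup E) ≤ MulAction.stabilizer E (x0 : ι → α) := by
      intro g hg
      have := hx0 ⟨g, hg⟩
      exact congrArg Subtype.val this
    have hnd : ¬ l ∣ (MulAction.stabilizer E (x0 : ι → α)).index := fun h =>
      P.not_dvd_index (h.trans (Subgroup.index_dvd_of_le hle))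
    apply hnd
    rw [MulAction.index_stabilizer]
    let A : Finset α := Finset.univ.filter (fun a => ∃ y, rel x0 y ∧ y i = a)
    have horb : MulAction.orbit E (x0 : ι → α) =
        ↑(Finset.univ.filter (fun x : ι → α => x i ∈ A)) := by
      ext y
      simp only [A, Finset.coe_filter, Finset.mem_univ, true_and, Set.mem_setOf_eq,
        Finset.mem_filter]
      constructor
      · rintro ⟨e, rfl⟩
        exact ⟨_, ⟨e.1, e.2, rfl⟩, rfl⟩
      · rintro ⟨z, ⟨e, he, rfl⟩, hz⟩
        have h1 : u (e x0) = e x0 := (fix_comm he.2.1 _).2 x0.2.1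
        obtain ⟨b1, b2, b3⟩ := (hfix _).1 h1
        obtain ⟨e', he', h2⟩ := htot _ b1 b2 b3 (e x0) y rfl hz.symm
        exact ⟨⟨e' * e, E.mul_mem he' he⟩, h2⟩
    rw [horb, Set.ncard_coe_finset, card_slice]
    have hk := hH.hk
    exact Dvd.dvd.mul_left (hlm.trans (dvd_pow_self _ (by omega))) _

end Cfsg.Agent.H73.PwEl
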