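import Mathlib
import Cfsg.Agent.H73.Sub1
import Cfsg.Agent.H82.SPE
import Cfsg.Agent.H37.Frob

/-!
Finite overgroups of the fixed points of a field endomorphism: the strongly `p`-embedded case.
-/

set_option autoImplicit false

namespace Cfsg.Agent.H73

open Equiv H34 H34.Split H75 H40 H82

theorem isConj_of_invol {G : Type*} [Group G] {s t : G} (hs : s * s = 1) (ht : t * t = 1) {k : ℕ}
    (h : (s * t) ^ (2 * k + 1) = 1) : (s * t) ^ (k + 1) * t * ((s * t) ^ (k + 1))⁻¹ = s := by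
  have h1 : t * (s * t)⁻¹ = (s * t) * t := by
    rw [mul_inv_rev, inv_eq_of_mul_eq_one_right hs, inv_eq_of_mul_eq_one_right ht, ← mul_assoc, ht,
      mul_assoc, ht, one_mul, mul_one]
  have h2 : ∀ n : ℕ, t * ((s * t) ^ n)⁻¹ = (s * t) ^ n * t := fun n => by
    induction n with
    | zero => simp
    | succ n ih => rw [pow_succ', mul_inv_rev, ← mul_assoc, ih, mul_assoc, h1, ← mul_assoc,
        ← pow_succ, pow_succ']
  rw [mul_assoc, h2, ← mul_assoc, ← pow_add, show k + 1 + (k + 1) = 2 * k + 1 + 1 by ring, pow_succ,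
    h, one_mul, mul_assoc, ht, mul_one]

theorem SPE_conj {G : Type*} [Group G] [Finite G] {M : Subgroup G} (h : SPEElt 2 M) {s t : G}
    (hs : s ∈ M) (hs2 : orderOf s = 2) (ht : t ∉ M) (ht2 : t * t = 1) : ∃ g, g * t * g⁻¹ = s := by
  have hs' : s * s = 1 := by rw [← sq, ← hs2, pow_orderOf_eq_one]
  rcases Nat.even_or_odd' (orderOf (s * t)) with ⟨k, e | e⟩
  · exfalso
    have hk : 0 < k := by have := orderOf_pos (s * t); omega
    have h1 : orderOf ((s * t) ^ k) = 2 := by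
      rw [orderOf_pow_of_dvd hk.ne' (e ▸ Dvd.intro_left 2 rfl), e, Nat.mul_div_cancel _ hk]
    have h2 : ((s * t) ^ k)⁻¹ = (s * t) ^ k := by
      rw [inv_eq_iff_mul_eq_one, ← sq, ← h1, pow_orderOf_eq_one]
    have h3 : s * (s * t) * s⁻¹ = (s * t)⁻¹ := by
      rw [mul_inv_rev, ← mul_assoc, hs', one_mul, inv_eq_of_mul_eq_one_right ht2]
    have h4 : t * (s * t) * t⁻¹ = (s * t)⁻¹ := by
      rw [mul_inv_rev, inv_eq_of_mul_eq_one_right hs', inv_eq_of_mul_eq_one_right ht2, mul_assoc,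
        mul_assoc, ht2, mul_one]
    have h5 : ∀ u : G, u * (s * t) * u⁻¹ = (s * t)⁻¹ → Commute u ((s * t) ^ k) := fun u hu => by
      rw [commute_iff_eq, ← mul_inv_eq_iff_eq_mul, ← conj_pow, hu, inv_pow, h2]
    exact ht (h.mem_of_commute (h.mem_of_commute hs (by rw [hs2]) (h5 s h3).symm) (by rw [h1])
      (h5 t h4))
  · exact ⟨_, isConj_of_invol hs' ht2 (e ▸ pow_orderOf_eq_one _)⟩

variable {ι Φ : Type*} [Fintype ι] [DecidableEq ι] [Finite Φ] {S : SignedSys ι Φ} {G : Type*}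
  [Group G] {P : Split S G}

omit [Fintype ι] [DecidableEq ι] [Finite Φ] in
theorem mem_Up_of_pow {p : ℕ} (hH : ∀ h ∈ P.H, h ^ p = 1 → h = 1) {b : G} (hb : b ∈ P.B) {k : ℕ}
    (e : b ^ p ^ k = 1) : b ∈ P.Up := by
  obtain ⟨u, hu, h, hh, rfl⟩ := mem_B.1 hb
  have h1 : ∀ n : ℕ, ∃ v ∈ P.Up, (u * h) ^ n = v * h ^ n := fun n => by
    induction n with
    | zero => exact ⟨1, one_mem _, by simp⟩
    | succ n ih =>
      obtain ⟨v, hv, e⟩ := ih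
      exact ⟨v * (h ^ n * u * (h ^ n)⁻¹), mul_mem hv (conj_U_H (pow_mem hh n) hu), by
        rw [pow_succ, e, pow_succ]; group⟩
  obtain ⟨v, hv, e'⟩ := h1 (p ^ k)
  have h2 := (U_H_unique hv (pow_mem hh _) (one_mem _) (one_mem _) (by rw [← e', e, one_mul])).2
  have h3 : ∀ k : ℕ, ∀ h ∈ P.H, h ^ p ^ k = 1 → h = 1 := fun k => by
    induction k with
    | zero => exact fun h _ e => by simpa using e
    | succ k ih => exact fun h hh e => hH h hh (ih _ (pow_mem hh p) (by rw [← pow_mul, ← pow_succ', e]))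
  rwa [h3 k h hh h2, mul_one]

omit [Fintype ι] [DecidableEq ι] [Finite Φ] in
theorem comm_mem_ne' (i : ι) {u v : G} (hu : u ∈ P.Up) (hv : v ∈ P.Up) [Finite Φ] :
    u * v * u⁻¹ * v⁻¹ ∈ P.U {r | S.pos r ∧ r ≠ S.α i} := by
  obtain ⟨x, hx, z, hz, rfl⟩ := collect S.cl_pos {S.α i} {r | r ≠ S.α i} (fun r _ => em _) hv
  have h1 := H37.comm_mem_ne i hu (U_le_X (fun _ h => h.2) hx)
  have hx' : x ∈ P.Up := U_sub hx fun _ h => h.1
  have h2 := conj_mem_U_ne i hx' (mul_mem (conj_mem_U_ne i hu hz) (inv_mem hz))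
  convert mul_mem h1 h2 using 1
  group

namespace Two

variable {T : Two P} {L : Lin P} (hG : T.Good L) (hU : ∀ u ∈ P.Up, u ∈ T.M → u ∈ T.μ.fix)

omit [Fintype ι] [DecidableEq ι] in
theorem mem_B_of_norm {x : G} (hx : x ∈ T.M) (hx' : x ∈ T.μ.fix)
    (h : ∀ z ∈ P.Up, z ∈ T.M → x * z * x⁻¹ ∈ P.Up) : x ∈ P.B := by
  obtain ⟨a, ha, n, hn, u, hu, rfl⟩ := T.τ.bruhat_R T.τ.G1_le_fix le_rfl (T.le hx)
  obtain ⟨fa, fn, fu⟩ := T.μ.fix_bruhat ha.1 hn.1 hu.1 hx'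
  have hu' := Uinv_le_Up hu.1
  suffices P.ν n = 1 from
    mul_mem (mul_mem (Up_le_B ha.1) (H_le_B (mem_H_of hn.1 this))) (Up_le_B hu')
  by_contra h1
  obtain ⟨i, hi⟩ := S.exists_descent (P.ν_mem n hn.1) h1
  obtain ⟨z, hz, hz1, hz2⟩ := T.exists_UJ i
  have hz' : z ∈ P.Up := U_sub hz.1 fun _ h => h.2
  have h2 := h _ (cj2 _ hu' hz') (cj2 _ (T.U0 u hu' hu.2 fu) (T.U0 z hz' hz.2 hz1))
  have h3 : n * z * n⁻¹ = 1 := eq_one_of_U_V (by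
    convert cj2 _ ha.1 h2 using 1
    group) (conj_U (A' := {r | ¬ S.pos r}) hn.1 (fun r hr h => hi
      ((pos_class_iff T.τ.T (T.τ.ν_mem_fixJ hn.1 hn.2) hr.1 hr.2).1 h)) hz.1)
  exact hz2 (by simpa using h3)

variable {p : ℕ} [Fact p.Prime] [Finite T.M] (hUp : IsPGroup p P.Up)
  (hHp : ∀ h ∈ P.H, h ^ p = 1 → h = 1)
include hG hU hUp hHp

theorem spe [Nonempty ι] : SPENorm p (T.μ.fix.subgroupOf T.M) := by
  have hn : ∀ Q : Subgroup T.M, Q ≤ P.Up.subgroupOf T.M → Q ≠ ⊥ →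
      Subgroup.normalizer (Q : Set T.M) ≤ T.μ.fix.subgroupOf T.M := by
    intro Q hQ hQ1 x hx
    obtain ⟨d, hd⟩ := Subgroup.ne_bot_iff_exists_ne_one.1 hQ1
    refine norm_fix hG hU (Subtype.val '' (Q : Set T.M)) ⟨d, ⟨d, d.2, rfl⟩, fun h => hd
      (Subtype.ext (Subtype.ext h))⟩ ?_ x.2 ?_
    · rintro _ ⟨d, hd, rfl⟩
      exact ⟨hQ hd, d.2⟩
    · rintro _ ⟨d, hd, rfl⟩
      exact ⟨x⁻¹ * d * x, by
        simpa using (Subgroup.mem_normalizer_iff.1 (inv_mem hx) d).1 hd, rfl⟩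
  have hS : IsPGroup p (P.Up.subgroupOf T.M) := hUp.comap_of_injective _ T.M.subtype_injective
  have hS1 : P.Up.subgroupOf T.M ≠ ⊥ := by
    obtain ⟨z, hz, hz1, hz2⟩ := T.exists_UJ (Classical.arbitrary ι)
    have hz' : z ∈ P.Up := U_sub hz.1 fun _ h => h.2
    exact Subgroup.ne_bot_iff_exists_ne_one.2 ⟨⟨⟨z, T.U0 z hz' hz.2 hz1⟩, hz'⟩, fun h =>
      hz2 (congrArg (fun x => ((x : P.Up.subgroupOf T.M) : T.M).1) h)⟩
  let Sy : Sylow p T.M := ⟨P.Up.subgroupOf T.M, hS, fun {Q} hQ hle => by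
    by_contra hne
    obtain ⟨y, hyQ, hy, hy'⟩ := exists_mem_normalizer_of_lt hQ (lt_of_le_of_ne hle (Ne.symm hne))
    obtain ⟨k, hk⟩ := hQ ⟨y, hyQ⟩
    refine hy' (mem_Up_of_pow hHp (mem_B_of_norm y.2 (hn _ le_rfl hS1 hy) fun z hz hz' =>
      (Subgroup.mem_normalizer_iff.1 hy ⟨z, hz'⟩).1 hz) (k := k) ?_)
    exact congrArg (fun x => ((x : Q) : T.M).1) hk⟩
  exact speNorm_of_sylow Sy hn

variable {θ : Φ} (hθ : S.pos θ) (hcen : ∀ u ∈ P.Up, ∀ x ∈ P.X θ, u * x = x * u) {x₀ : G}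
  (hx : x₀ ∈ P.X θ) (hx1 : x₀ ≠ 1) (hxM : x₀ ∈ T.M) (hxp : x₀ ^ p = 1)
include hθ hcen hx hx1 hxM hxp

theorem le_fix_of_two [Nonempty ι] (hp : p = 2) {y : G} (hy : y ∈ P.Up) (hyM : y ∈ T.M)
    (hy2 : y * y = 1)
    (hyθ : ∀ w ∈ S.W, ∃ j, w θ ≠ S.α j ∧ y ∉ P.U {r | S.pos r ∧ r ≠ S.α j}) :
    T.M ≤ T.μ.fix := by
  subst hp
  have h := (spe hG hU hUp hHp).elt
  intro g hg
  by_contra hg'
  have ho : orderOf (⟨x₀, hxM⟩ : T.M) = 2 :=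
    orderOf_eq_prime (Subtype.ext hxp) fun h => hx1 (congrArg Subtype.val h)
  have hy1 : y ≠ 1 := by
    rintro rfl
    obtain ⟨j, -, h⟩ := hyθ 1 (one_mem _)
    exact h (one_mem _)
  obtain ⟨k, hk⟩ := SPE_conj h (s := ⟨y, hyM⟩) (t := ⟨g, hg⟩ * ⟨x₀, hxM⟩ * ⟨g, hg⟩⁻¹)
    (hU y hy hyM) (orderOf_eq_prime (Subtype.ext (by simpa [sq] using hy2))
      fun h => hy1 (congrArg Subtype.val h))
    (fun h' => hg' (h _ _ (hU x₀ (mem_U hθ hx) hxM) ho h'))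
    (by rw [conj_mul, ← sq, ← ho, pow_orderOf_eq_one]; simp)
  have e : (k : G) * g * x₀ * ((k : G) * g)⁻¹ = y := by
    have := congrArg Subtype.val hk
    simp only [Subgroup.coe_mul, Subgroup.coe_inv] at this
    rw [← this]; group
  obtain ⟨a, ha, n, hn, u, hu, e'⟩ := P.bruhat ((k : G) * g)
  have e2 : n * x₀ * n⁻¹ = a⁻¹ * y * a := by
    rw [← e, e', show a⁻¹ * (a * n * u * x₀ * (a * n * u)⁻¹) * a = n * (u * x₀) * u⁻¹ * n⁻¹ by group,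
      hcen u (Uinv_le_Up hu) x₀ hx]
    group
  have h1 := P.conj n hn θ x₀ hx
  have h2 : S.pos (P.ν n θ) := by
    by_contra h2
    exact hx1 (by simpa using eq_one_of_U_V (e2 ▸ cj2 _ ha hy) (mem_U (A := {r | ¬ S.pos r}) h2 h1))
  obtain ⟨j, hj, hj'⟩ := hyθ _ (P.ν_mem n hn)
  refine hj' ?_
  have h3 := mul_mem (inv_mem (comm_mem_ne' j (inv_mem ha) hy))
    (mem_U (A := {r | S.pos r ∧ r ≠ S.α j}) ⟨h2, hj⟩ h1)
  convert h3 using 1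
  rw [e2]; group

theorem le_fix_of_odd {J : Set ι} (hJ : T.τ.T.Stable J) {i : ι} (hi : i ∈ J)
    (hJθ : ∀ r ∈ S.Phi J, S.pos r → ∀ x ∈ P.X r, ∀ y ∈ P.X (S.neg θ), x * y = y * x)
    {h₀ : G} (hh : h₀ ∈ P.H) (hhμ : h₀ ∈ T.μ.fix) (hhx : h₀ * x₀ = x₀ * h₀)
    (hh' : ∀ r, S.pos r → r ∉ S.Phi J → r ≠ θ → ∀ x ∈ P.X r, h₀ * x = x * h₀ → x = 1)
    (hfin : ∀ y ∈ P.X (S.neg θ), y ≠ 1 → Finite (Subgroup.closure {x₀, y}) →
      h₀ ∈ Subgroup.closure {x₀, y}) : T.M ≤ T.μ.fix := by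
  have : Nonempty ι := ⟨i⟩
  have hN := spe hG hU hUp hHp
  have h := hN.elt
  intro g hg
  by_contra hg'
  have ho : orderOf (⟨x₀, hxM⟩ : T.M) = p :=
    orderOf_eq_prime (Subtype.ext hxp) fun h => hx1 (congrArg Subtype.val h)
  have hxμ := hU x₀ (mem_U hθ hx) hxM
  have hy : g * x₀ * g⁻¹ ∉ T.μ.fix := fun h' => hg' (h ⟨x₀, hxM⟩ ⟨g, hg⟩ hxμ ho h')
  have hyM := cj1 _ hg hxM
  obtain ⟨a, ha, n, hn, u, hu, e'⟩ := T.τ.bruhat_R T.τ.G1_le_fix le_rfl (T.le hg)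
  have e2 : g * x₀ * g⁻¹ = a * (n * x₀ * n⁻¹) * a⁻¹ := by
    rw [e', show a * n * u * x₀ * (a * n * u)⁻¹ = a * (n * (u * x₀) * u⁻¹ * n⁻¹) * a⁻¹ by group,
      hcen u (Uinv_le_Up hu.1) x₀ hx]
    group
  have h1 := P.conj n hn.1 θ x₀ hx
  by_cases hw : P.ν n θ = S.neg θ
  · rw [hw] at h1
    obtain ⟨c, hc, b, hb, rfl⟩ := dec S.cl_pos (S.wJ J) ha.1
    obtain ⟨fc, -⟩ := T.τ.fix_dec (T.τ.T.fixJ_mono (Set.subset_univ J) (T.τ.T.wJ_mem_fixJ hJ))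
      (U_sub hc fun _ h => h.2) (U_sub hb fun _ h => h.2.2) ha.2
    have hc' : c ∈ Rad P J := U_sub hc fun r hr => pos_not_mem_iff.2 hr
    have hcU := Rad_le_Up J hc'
    have hcomm : ∀ b ∈ P.U {r | r ∈ S.Phi J ∧ S.pos r}, b * (n * x₀ * n⁻¹) = (n * x₀ * n⁻¹) * b :=
      fun b hb => ((U_le (K := Subgroup.centralizer {n * x₀ * n⁻¹}) fun r hr x hx =>
        Subgroup.mem_centralizer_singleton_iff.2 (hJθ r hr.1 hr.2 x hx _ h1)) hb _ rfl).symm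
    have e3 : g * x₀ * g⁻¹ = c * (n * x₀ * n⁻¹) * c⁻¹ := by
      rw [e2, show c * b * (n * x₀ * n⁻¹) * (c * b)⁻¹ = c * (b * (n * x₀ * n⁻¹)) * b⁻¹ * c⁻¹ by group,
        hcomm b (U_sub hb fun r hr => ⟨S.inv_subset_Phi (S.wJ_mem J) hr.2, hr.1⟩)]
      group
    have e4 : c * x₀ * c⁻¹ = x₀ := by rw [hcen c hcU x₀ hx, mul_inv_cancel_right]
    have hle : Subgroup.closure {x₀, n * x₀ * n⁻¹} ≤ T.M.comap (MulAut.conj c).toMonoidHom := by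
      rw [Subgroup.closure_le]
      rintro _ (rfl | rfl)
      · show c * _ * c⁻¹ ∈ T.M
        rwa [e4]
      · show c * _ * c⁻¹ ∈ T.M
        rwa [← e3]
    have hz : c * h₀ * c⁻¹ ∈ T.M := hle (hfin _ h1 (by simpa using hx1) (by
      refine Finite.of_injective (fun x => (⟨_, hle x.2⟩ : T.M)) fun x y e => Subtype.ext ?_
      exact (MulAut.conj c).injective (congrArg Subtype.val e)))
    have hz' : c * h₀ * c⁻¹ ∈ T.μ.fix := h.mem_of_commute (x := ⟨x₀, hxM⟩) (g := ⟨_, hz⟩) hxμ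
      (by rw [ho]) (Subtype.ext (by
        show c * h₀ * c⁻¹ * x₀ = x₀ * (c * h₀ * c⁻¹)
        conv_lhs => rw [← e4]
        conv_rhs => rw [← e4]
        rw [conj_mul, conj_mul, hhx]))
    rw [Twist.mem_fix, map_mul, map_mul, map_inv, T.μ.mem_fix.1 hhμ] at hz'
    have h2 := mem_U_of_comm (CC.of_cl (cl_rad J)) hh (mul_mem (inv_mem hc') (T.μU hc')) (by
      calc _ = c⁻¹ * (c * h₀ * c⁻¹) * T.μ.σ c := by group
        _ = _ := by rw [← hz']; group)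
    have h3 : c⁻¹ * T.μ.σ c ∈ P.X θ := U_le_X (fun r hr => by
      by_contra hne
      obtain ⟨x, hx, hx1, e⟩ := hr.2
      exact hx1 (hh' r hr.1.1 hr.1.2 hne x hx e)) h2
    obtain ⟨v, hv, hvμ, hv1⟩ := T.exists_UJ i
    have hvJ : v ∈ P.U {r | r ∈ S.Phi J ∧ S.pos r} :=
      U_sub hv.1 fun r hr => ⟨S.Phi_mono (hJ.orb_subset _ hi) hr.1, hr.2⟩
    have hvU : v ∈ P.Up := U_sub hv.1 fun _ h => h.2
    have h4 : c * v * c⁻¹ ∈ T.μ.fix := by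
      rw [Twist.mem_fix, map_mul, map_mul, map_inv, T.μ.mem_fix.1 hvμ,
        show T.μ.σ c * v * (T.μ.σ c)⁻¹ = c * (c⁻¹ * T.μ.σ c * v) * (T.μ.σ c)⁻¹ by group,
        ← hcen v hvU _ h3]
      group
    have h5 := T.U0 _ (cj1 _ hcU hvU) (cj1 _ fc hv.2) h4
    obtain ⟨k, hk⟩ := IsPGroup.iff_orderOf.1 (hUp.comap_of_injective _ T.M.subtype_injective)
      ⟨⟨_, h5⟩, cj1 _ hcU hvU⟩
    refine hy (h.mem_of_commute (x := ⟨_, h5⟩) (g := ⟨_, hyM⟩) h4 ?_ (Subtype.ext ?_))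
    · rw [← Subgroup.orderOf_coe] at hk
      rw [hk]
      refine dvd_pow_self p fun h0 => hv1 ?_
      rw [h0, pow_zero, orderOf_eq_one_iff] at hk
      simpa using congrArg Subtype.val hk
    · show g * x₀ * g⁻¹ * (c * v * c⁻¹) = c * v * c⁻¹ * (g * x₀ * g⁻¹)
      rw [e3, conj_mul, conj_mul, hcomm v hvJ]
  · obtain ⟨w, hw', h2, h3⟩ := exists_sep (J := Set.univ) (r := θ) (t := S.neg (P.ν n θ))
      (P.phi_univ ▸ Set.mem_univ _) (P.phi_univ ▸ Set.mem_univ _)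
      (fun e => hw (by rw [e, S.neg_neg, ← e]))
    rw [S.WJ_univ] at hw'
    rw [S.map_neg hw', S.not_pos_neg] at h3
    obtain ⟨m, hm, rfl⟩ := P.exists_lift hw'
    let E : Subgroup T.M := (P.Up.comap (MulAut.conj (m * a⁻¹)).toMonoidHom).subgroupOf T.M
    have hE : IsPGroup p E := (hUp.comap_of_injective _ (MulAut.conj _).injective).comap_of_injective
      _ T.M.subtype_injective
    have h4 : (⟨x₀, hxM⟩ : T.M) ∈ E := by
      show m * a⁻¹ * x₀ * (m * a⁻¹)⁻¹ ∈ P.Up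
      rw [mul_assoc m, hcen _ (inv_mem ha.1) x₀ hx]
      simpa [mul_assoc, Up] using mem_U (A := {r | S.pos r}) h2 (P.conj m hm θ x₀ hx)
    refine hy (hN.le_of_inf_ne_bot hE (Subgroup.ne_bot_iff_exists_ne_one.2
      ⟨⟨⟨x₀, hxM⟩, h4, hxμ⟩, fun h => hx1 (congrArg (fun x => ((x : ↥(E ⊓ _)) : T.M).1) h)⟩)
      (x := ⟨_, hyM⟩) ?_)
    show m * a⁻¹ * (g * x₀ * g⁻¹) * (m * a⁻¹)⁻¹ ∈ P.Up
    rw [e2]
    simpa [mul_assoc, Up] using mem_U (A := {r | S.pos r}) h3 (P.conj m hm _ _ h1)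

end Two

end Cfsg.Agent.H73
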