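import Mathlib
import Cfsg.Agent.H29.DicksonCore
import Cfsg.Agent.H37.SL2Pres

/-! A finite subgroup of `SL₂` in odd characteristic generated by two opposite transvections
contains `-1`. -/

set_option autoImplicit false

namespace Cfsg.Agent.H73

open scoped MatrixGroups
open Matrix H29 H37

theorem sl2_eq_neg_one {F : Type*} [Field F] (h2 : (2 : F) ≠ 0) {g : SL(2, F)} (h : g * g = 1)
    (h1 : g ≠ 1) : g = -1 := by
  have hd : g 0 0 * g 1 1 - g 0 1 * g 1 0 = 1 := by rw [← det_fin_two]; exact g.2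
  have e : ∀ i j, (g * g) i j = (1 : SL(2, F)) i j := fun i j => by rw [h]
  have e00 := e 0 0
  have e01 := e 0 1
  have e10 := e 1 0
  have e11 := e 1 1
  simp [Matrix.mul_apply, Fin.sum_univ_two] at e00 e01 e10 e11
  have ht : g 0 0 + g 1 1 ≠ 0 := fun h0 => h2 (by linear_combination -e00 - hd + g 0 0 * h0)
  have b0 : g 0 1 = 0 := (mul_eq_zero.1 (show g 0 1 * (g 0 0 + g 1 1) = 0 by
    linear_combination e01)).resolve_right ht
  have c0 : g 1 0 = 0 := (mul_eq_zero.1 (show g 1 0 * (g 0 0 + g 1 1) = 0 by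
    linear_combination e10)).resolve_right ht
  have ad : g 0 0 = g 1 1 := by
    have : (g 0 0 - g 1 1) * (g 0 0 + g 1 1) = 0 := by linear_combination e00 - e11
    exact sub_eq_zero.1 ((mul_eq_zero.1 this).resolve_right ht)
  have : (g 0 0 - 1) * (g 0 0 + 1) = 0 := by rw [b0] at e00; linear_combination e00
  rcases mul_eq_zero.1 this with h | h
  · refine absurd ?_ h1
    ext i j; fin_cases i <;> fin_cases j <;> simp [b0, c0, ← ad, sub_eq_zero.1 h]
  · ext i j; fin_cases i <;> fin_cases j <;> simp [b0, c0, ← ad, eq_neg_of_add_eq_zero_left h]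

theorem neg_one_mem_closure {F : Type*} [Field F] (h2 : (2 : F) ≠ 0) {a b : F} (ha : a ≠ 0)
    (hb : b ≠ 0) [Finite (Subgroup.closure {slX a, slY b} : Subgroup SL(2, F))] :
    (-1 : SL(2, F)) ∈ Subgroup.closure {slX a, slY b} := by
  set Γ : Subgroup SL(2, F) := Subgroup.closure {slX a, slY b} with hΓ
  let K := AlgebraicClosure F
  let f : SL(2, F) →* PGL(2, K) :=
    pmk.comp ((GeneralLinearGroup.map (algebraMap F K)).comp SpecialLinearGroup.toGL)
  have hX : ∀ c : F, c ≠ 0 → ∀ x : P1 K, f (slX c) • x = x → x = inf := fun c hc x hx => by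
    rcases P1_cases x with rfl | ⟨t, rfl⟩
    · rfl
    · have := (pmk_smul_pt_eq_pt _ t t).1 hx
      simp [coe_slX, hc] at this
  have hY : f (slY b) • (inf : P1 K) ≠ inf := fun h => by
    have := (pmk_smul_inf_eq_inf _).1 h
    simp [coe_slY, hb] at this
  have hx : f (slX a) ∈ Γ.map f := ⟨_, Subgroup.subset_closure (by simp), rfl⟩
  have hy : f (slY b) ∈ Γ.map f := ⟨_, Subgroup.subset_closure (by simp), rfl⟩
  have : Finite (Γ.map f) := Finite.of_surjective _ (f.subgroupMap_surjective Γ)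
  have he : 2 ∣ Nat.card (Γ.map f) := by
    rcases dickson_core (Γ.map f) (fun g _ => exists_fixed_of_isAlgClosed g) with
      ⟨x, h⟩ | ⟨x, y, hxy, -, h⟩ | ⟨-, h⟩ | ⟨-, ⟨e⟩⟩ | ⟨x, q, hq, hU, -, hn⟩
    · exact absurd (hX a ha x (h _ hx) ▸ h _ hy) hY
    · have e : f (slX (2 * a)) = f (slX a) * f (slX a) := by
        rw [← map_mul]; congr 1
        ext i j; fin_cases i <;> fin_cases j <;>
          simp [coe_slX, Matrix.mul_apply, Fin.sum_univ_two, two_mul]
      have h3 := hX _ (mul_ne_zero h2 ha)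
      rcases h _ hx with h | h
      · exact absurd ((hX a ha x h.1).trans (hX a ha y h.2).symm) hxy
      · exact absurd ((h3 x (by rw [e, mul_smul, h.1, h.2])).trans
          (h3 y (by rw [e, mul_smul, h.2, h.1])).symm) hxy
    · rcases h with ⟨⟨e⟩⟩ | ⟨⟨e⟩⟩ | ⟨⟨e⟩⟩ <;> rw [Nat.card_congr e.toEquiv]
      · rw [nat_card_alternatingGroup]; simp; decide
      · rw [Nat.card_perm]; simp; decide
      · rw [nat_card_alternatingGroup]; simp; decide
    · rw [Nat.card_congr e.toEquiv, nat_card_alternatingGroup]; simp; decide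
    · rcases Nat.even_or_odd' q with ⟨k, rfl | rfl⟩
      · exact (Dvd.intro k hU.symm).trans (Subgroup.card_subgroup_dvd_card _)
      · rcases hn with hn | hn
        · rw [hn]; exact Dvd.dvd.mul_right ⟨k + 1, by ring⟩ _
        · refine ⟨(k + 1) * (2 * k + 1) * k, ?_⟩
          rw [Nat.add_sub_cancel] at hn
          nlinarith
  have : Fact (Nat.Prime 2) := ⟨Nat.prime_two⟩
  obtain ⟨g, hg⟩ := exists_prime_orderOf_dvd_card' 2 (he.trans (Subgroup.card_map_dvd Γ f))
  have h3 : g * g = 1 := by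
    have := pow_orderOf_eq_one g
    rwa [hg, sq] at this
  rw [← sl2_eq_neg_one h2 (g := g) (congrArg Subtype.val h3)
    (fun h => by rw [show g = 1 from Subtype.ext h, orderOf_one] at hg; omega)]
  exact g.2

end Cfsg.Agent.H73
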