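import Mathlib
import Cfsg.Agent.H73.Sub2
import Cfsg.Agent.H73.SubSL2
import Cfsg.Agent.H75.ChevLin
import Cfsg.Agent.H40.RootSL2

/-!
Finite overgroups of the fixed points of a field endomorphism in a (twisted) Chevalley group.
-/

set_option autoImplicit false

namespace Cfsg.Agent.H73

open Equiv H34 H34.Split H75 H40 H37 Cfsg.Lie

/-- The root `r` is a combination of the simple roots orthogonal to `θ`. -/
def InJ (D : ChevalleyDatum) (θ r : ℕ) : Prop := ∀ k < D.rank, D.cartan k θ = 0 ∨ co D r k = 0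

instance (D : ChevalleyDatum) (θ r : ℕ) : Decidable (InJ D θ r) := by
  unfold InJ; infer_instance

/-- Table facts about the highest root. -/
def TopData (D : ChevalleyDatum) (θ : ℕ) : Prop :=
  D.IsPosRoot θ ∧ (∀ r < D.nroots, D.IsPosRoot r → r ≠ θ → D.commTerms r θ = [] ∧
    (InJ D θ r → D.commTerms r (D.neg θ) = []) ∧ (InJ D θ r ∨ D.pairing θ r = 1)) ∧
  ¬ InJ D θ θ ∧
  (∃ i < D.rank, D.cartan i θ = 0) ∧ ∃ s < D.nroots, D.pairing θ s = 1

instance (D : ChevalleyDatum) (θ : ℕ) : Decidable (TopData D θ) := by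
  unfold TopData; infer_instance

theorem topData {D : ChevalleyDatum}
    (hD : D ∈ [chevG2, chevB2, chevD4, chevF4, chevE6, chevE7, chevE8]) :
    TopData D (D.nroots - 1) := by
  simp only [List.mem_cons, List.not_mem_nil, or_false] at hD
  rcases hD with rfl | rfl | rfl | rfl | rfl | rfl | rfl <;> decide +kernel

/-- The simple root `j` and `θ` have different lengths. -/
def ShortData (D : ChevalleyDatum) (θ j : ℕ) : Prop :=
  ∃ u < D.nroots, D.pairing θ u = D.pairing u θ ∧ D.pairing θ u ≠ 0 ∧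
    D.pairing (D.simple j) u ≠ D.pairing u (D.simple j)

instance (D : ChevalleyDatum) (θ j : ℕ) : Decidable (ShortData D θ j) := by
  unfold ShortData; infer_instance

variable {D : ChevalleyDatum} {C : Cert D} {F : Type*} [Field F]

theorem ShortData.ne {θ : Fin D.nroots} {j : Fin D.rank} (h : ShortData D θ j)
    {w : Perm (Fin D.nroots)} (hw : w ∈ C.S.W) : w θ ≠ C.S.α j := by
  obtain ⟨u, hu, h1, h2, h3⟩ := h
  intro e
  have e1 : C.R.len θ = C.R.len (C.R.simple j) := by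
    rw [← C.R.W_len hw θ, e]; rfl
  have e2 := C.R.len_mul_pair θ ⟨u, hu⟩
  have e3 := C.R.len_mul_pair (C.R.simple j) ⟨u, hu⟩
  rw [pair_eq C, pair_eq C] at e2 e3
  rw [C.simple_val] at e3
  simp only at e2 e3
  rw [← h1] at e2
  rw [← e1, mul_right_cancel₀ h2 e2] at e3
  exact h3 (mul_left_cancel₀ (C.R.len_ne_zero _) e3)

theorem wg_not_mem {w : List (ℕ × F)} (hn : (w.map Prod.fst).Nodup)
    (hp : ∀ r ∈ w.map Prod.fst, D.IsPosRoot r) {j : Fin D.rank} {t : F} (ht : t ≠ 0)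
    (hj : (D.simple j, t) ∈ w) :
    C.wg F w ∉ (C.split F).U {r | C.S.pos r ∧ r ≠ C.S.α j} := by
  obtain ⟨w1, w2, rfl⟩ := List.append_of_mem hj
  have key : ∀ w' : List (ℕ × F), (∀ p ∈ w', p ∈ w1 ∨ p ∈ w2) →
      C.wg F w' ∈ (C.split F).U {r | C.S.pos r ∧ r ≠ C.S.α j} := fun w' h =>
    Cert.wg_mem_U fun p hp' => by
      have h1 : D.IsPosRoot p.1 := hp _ (List.mem_map_of_mem (by
        rcases h p hp' with h | h <;> simp [h]))
      refine ⟨h1.1, (C.pos_iff ⟨_, h1.1⟩).2 h1, fun e => ?_⟩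
      have e' : p.1 = D.simple j := (congrArg Fin.val e).trans (C.simple_val j)
      rw [List.map_append, List.map_cons, List.nodup_middle, List.nodup_cons, ← List.map_append] at hn
      exact hn.1 (List.mem_map.2 ⟨p, List.mem_append.2 (h p hp'), e'⟩)
  intro h
  rw [Cert.wg_append, Cert.wg_cons] at h
  have h1 := mul_mem (mul_mem (inv_mem (key w1 fun _ => Or.inl)) h) (inv_mem (key w2 fun _ => Or.inr))
  have h2 := eq_one_of_mem_ne (i := j) (x := C.xg F (D.simple j) t) ((mem_X_α C).2 ⟨t, rfl⟩)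
    (by simpa [mul_assoc] using h1)
  exact ht ((Cert.xg_eq_one_iff (C.V.basic.simple_lt j j.2)).1 h2)

theorem wg_mem_endFix (σ : F →+* F) {w : List (ℕ × F)} (h : ∀ p ∈ w, σ p.2 = p.2) :
    C.wg F w ∈ (endTwist C σ).fix :=
  Cert.wg_mem fun p hp => by
    rw [mem_endTwist_fix]
    exact (C.V.fieldHom_xE σ p.1 p.2).trans (by rw [h p hp]; rfl)

/-- Words representing the orbits of simple roots. -/
def OrbW (τ : (C.split F).Twist) : Prop :=
  ∀ i, ∃ w : List (ℕ × F), (w.map Prod.fst).Nodup ∧ (∀ r ∈ w.map Prod.fst, D.IsPosRoot r) ∧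
    C.wg F w ∈ τ.UJ i ∧ (∀ p ∈ w, p.2 = 1) ∧ ∀ t ∈ C.S.Phi (τ.T.orb i), C.S.pos t →
      ((t : ℕ), (1 : F)) ∈ w ∧ ∃ j, t = C.S.α j

theorem good_of_orbW (hD : D ∈ [chevG2, chevB2, chevD4, chevF4, chevE6, chevE7, chevE8])
    (T : Two (C.split F)) (σ : F →+* F) (hμ : T.μ = endTwist C σ)
    (hc : (chevLin C F).Compat T.τ.T) (hW : OrbW T.τ) (horb : ∀ i, T.τ.T.orb i ≠ Set.univ) :
    T.Good (chevLin C F) where
  compat := hc
  conn := rsCoord_conn C.R (fun _ => 1) (fun _ _ => one_pos) (chev_conn hD _)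
  hz i := by
    obtain ⟨w, h1, h2, h3, h4, h5⟩ := hW i
    refine ⟨_, h3, hμ ▸ wg_mem_endFix σ fun p hp => by rw [h4 p hp, map_one], fun h hh e t ht hp x hx => ?_⟩
    obtain ⟨c, rfl⟩ := Cert.mem_H_iff.1 hh
    have e1 := Cert.tg_conj_wg (C := C) c fun p hp => (h2 _ (List.mem_map_of_mem hp)).1
    rw [e, mul_inv_cancel_right] at e1
    have e' := Cert.wg_inj (by simp [List.map_map, Function.comp_def]) h1 h2 e1
    have e2 := congrArg Prod.snd ((List.map_inj_left.1 ((List.map_id w).trans e')) _ (h5 t ht hp).1)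
    obtain ⟨u, rfl⟩ := Cert.mem_X.1 hx
    rw [← mul_inv_eq_iff_eq_mul, Cert.tg_conj c t.2]
    simp only [id, mul_one] at e2
    rw [← e2, one_mul]
  hht v hv i t ht hp := by
    obtain ⟨w, -, -, -, -, h5⟩ := hW i
    obtain ⟨j, rfl⟩ := (h5 t ht hp).2
    have h1 := hc.y_class (l := 1) (fun _ => rfl) hv ht
    rw [Coord.y_one, Coord.y_one, ← Coord.y_one _ (C.S.α j), Coord.y_α, Pi.one_apply, one_mul] at h1
    have h2 : ∀ r, (chevLin C F).h r = C.R.ht r := fun r => by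
      simp only [Coord.h, RS.ht_def, Int.cast_sum]
      exact Finset.sum_congr rfl fun k _ => rsCoord1_c C.R r k
    rw [h2, h2, Int.cast_inj] at h1
    exact congrArg Int.toNat h1
  hH h hh hc := eq_one_of_mem_H_of_comm hh fun i => ⟨1, one_ne_zero, by
    rw [hc _ (mem_U (Set.mem_univ _) ((mem_X_α C).2 ⟨1, rfl⟩)), mul_inv_cancel_right]⟩
  orb := horb

theorem chev_le_fix (T : Two (C.split F)) (σ : F →+* F) (hμ : T.μ = endTwist C σ)
    (hG : T.Good (chevLin C F)) (hU : ∀ u ∈ (C.split F).Up, u ∈ T.M → u ∈ T.μ.fix)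
    (p : ℕ) [Fact p.Prime] [CharP F p] [Finite T.M] {θ : Fin D.nroots} (hθ : TopData D θ)
    (hx : C.xg F θ 1 ∈ T.M) (hJ : T.τ.T.Stable {i | D.cartan i θ = 0})
    (hy : p = 2 → ∃ y ∈ (C.split F).Up, y ∈ T.M ∧ y * y = 1 ∧
      ∀ w ∈ C.S.W, ∃ j, w θ ≠ C.S.α j ∧ y ∉ (C.split F).U {r | C.S.pos r ∧ r ≠ C.S.α j}) :
    T.M ≤ T.μ.fix := by
  obtain ⟨h1, h2, h3, ⟨i, hi, hi'⟩, s, hs, hs'⟩ := hθ
  have hθp := (C.pos_iff θ).2 h1
  have hHp : ∀ h ∈ (C.split F).H, h ^ p = 1 → h = 1 := fun h hh e =>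
    eq_one_of_mem_H_of_pow p (k := 1) hh (by rwa [pow_one])
  have hcen : ∀ u ∈ (C.split F).Up, ∀ x ∈ (C.split F).X θ, u * x = x * u := fun u hu x hx => by
    refine ((U_le (K := Subgroup.centralizer {x}) fun r hr y hy => ?_) hu x rfl).symm
    refine Subgroup.mem_centralizer_singleton_iff.2 ?_
    by_cases e : r = θ
    · exact X_comm θ (e ▸ hy) hx
    obtain ⟨t, rfl⟩ := Cert.mem_X.1 hx
    obtain ⟨u, rfl⟩ := Cert.mem_X.1 hy
    exact (Cert.commute_xg ⟨r.2, θ.2, fun h => e (Fin.ext h.symm),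
      fun h => RS.Pos.ne_neg hr hθp (Fin.ext (h.trans (C.neg_val r).symm)),
      (h2 r r.2 ((C.pos_iff r).1 hr) fun h => e (Fin.ext h)).1⟩ _ _).eq
  have hx1 : C.xg F θ 1 ≠ 1 := mt (Cert.xg_eq_one_iff θ.2).1 one_ne_zero
  have hxp : C.xg F θ 1 ^ p = 1 := by
    have : ∀ n : ℕ, C.xg F θ 1 ^ n = C.xg F θ n := fun n => by
      induction n with
      | zero => simp [Cert.xg_zero]
      | succ n ih => rw [pow_succ, ih, ← Cert.xg_add, Nat.cast_succ]
    rw [this, CharP.cast_eq_zero, Cert.xg_zero]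
  by_cases hp : p = 2
  · obtain ⟨y, hy1, hy2, hy3, hy4⟩ := hy hp
    have : Nonempty (Fin D.rank) := ⟨⟨i, hi⟩⟩
    exact Two.le_fix_of_two hG hU (isPGroup_Up p) hHp hθp hcen (Cert.xg_mem_X θ 1) hx1 hx hxp hp
      hy1 hy2 hy3 hy4
  have h2F : (2 : F) ≠ 0 := fun h => hp ((Nat.prime_dvd_prime_iff_eq Fact.out Nat.prime_two).1
    ((CharP.cast_eq_zero_iff F p 2).1 (by exact_mod_cast h)))
  have hΦ : ∀ r : Fin D.nroots, r ∈ C.S.Phi {i | D.cartan i θ = 0} ↔ InJ D θ r := fun r => by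
    rw [mem_Phi_iff_co]
    simp only [C.co_eq]
    exact ⟨fun h k hk => or_iff_not_imp_left.2 (h ⟨k, hk⟩), fun h k hk => (h k k.2).resolve_left hk⟩
  have hm1 : (-1 : F) ≠ 0 := neg_ne_zero.2 one_ne_zero
  refine Two.le_fix_of_odd hG hU (isPGroup_Up p) hHp hθp hcen (Cert.xg_mem_X θ 1) hx1 hx hxp hJ
    (i := ⟨i, hi⟩) hi' (fun r hr hr' x hx y hy => ?_) (h₀ := C.hg F θ (-1))
    (Cert.hg_mem_H θ.2 hm1) ?_ ?_ (fun r hr hr' hne x hx e => ?_) (fun y hy hy1 hf => ?_)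
  · obtain ⟨t, rfl⟩ := Cert.mem_X.1 hx
    obtain ⟨u, rfl⟩ := Cert.mem_X.1 hy
    have hne : (r : ℕ) ≠ θ := fun e => h3 (e ▸ (hΦ r).1 hr)
    refine (Cert.commute_xg ⟨r.2, (C.S.neg θ).2,
      fun h => RS.Pos.ne_neg hθp hr' (Fin.ext h.symm), fun h => hne ?_, ?_⟩ _ _).eq
    · rw [← C.neg_val] at h
      exact congrArg Fin.val (C.S.neg_inj (Fin.ext h)).symm
    · rw [sgn_neg, C.neg_val]
      exact (h2 r r.2 ((C.pos_iff r).1 hr') hne).2.1 ((hΦ r).1 hr)
  · have : ∀ r, ∀ t, σ t = t → C.xg F r t ∈ T.μ.fix := fun r t ht => by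
      simpa [hμ] using wg_mem_endFix (C := C) σ (w := [(r, t)]) (by simpa using ht)
    rw [Cert.hg_eq, Cert.ng_eq]
    exact mul_mem (mul_mem (mul_mem (this _ _ (by simp)) (this _ _ (by simp))) (this _ _ (by simp)))
      (mul_mem (mul_mem (this _ _ (by simp)) (this _ _ (by simp))) (this _ _ (by simp)))
  · rw [← mul_inv_eq_iff_eq_mul, Cert.hg_conj θ.2 θ.2 hm1, C.V.pairing_self θ.2]
    simp [zpow_ofNat]
  · obtain ⟨t, rfl⟩ := Cert.mem_X.1 hx
    rw [← mul_inv_eq_iff_eq_mul, Cert.hg_conj θ.2 r.2 hm1, (h2 r r.2 ((C.pos_iff r).1 hr)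
      fun h => hne (Fin.ext h)).2.2.resolve_left fun h => hr' ((hΦ r).2 h)] at e
    have e1 := Cert.xg_injective r.2 e
    rw [(Cert.xg_eq_one_iff r.2).2 ((mul_eq_zero.1 (show 2 * t = 0 by
      rw [zpow_one] at e1; linear_combination -e1)).resolve_left h2F)]
  · obtain ⟨b, rfl⟩ := Cert.mem_X.1 hy
    have hb : b ≠ 0 := fun h => hy1 (by rw [h, Cert.xg_zero])
    have e : (Subgroup.closure {slX 1, slY b}).map (rk C F θ.2).hom =
        Subgroup.closure {C.xg F θ 1, C.xg F (C.S.neg θ) b} := by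
      rw [MonoidHom.map_closure, Set.image_pair, RankOneRel.hom_X, RankOneRel.hom_Y, sgn_neg,
        C.neg_val]
    rw [← e] at hf ⊢
    have := Finite.of_equiv _ (Subgroup.equivMapOfInjective (Subgroup.closure {slX 1, slY b}) _
      (rk_injective (C := C) (F := F) h1 hs hs')).toEquiv.symm
    exact ⟨-1, neg_one_mem_closure h2F one_ne_zero hb, rk_neg_one θ.2⟩

end Cfsg.Agent.H73
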