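import Mathlib
import Cfsg.Agent.H73.Sub3

/-!
Leading coefficients of commutators in the unipotent subgroup of a Chevalley group.
-/

set_option autoImplicit false

namespace Cfsg.Agent.H73

open Equiv H34 H34.Split H75 H40 H37 Cfsg.Lie

section Gp

variable {G : Type*} [Group G] {K N : Subgroup G} (hN : ∀ k ∈ K, ∀ n ∈ N, k * n * k⁻¹ ∈ N)
include hN

theorem cm_closure {s : Set G} (hs : s ⊆ K) {y : G} (h : ∀ x ∈ s, x * y * x⁻¹ * y⁻¹ ∈ N) {g : G}
    (hg : g ∈ Subgroup.closure s) : g * y * g⁻¹ * y⁻¹ ∈ N := by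
  induction hg using Subgroup.closure_induction with
  | mem x hx => exact h x hx
  | one => simp
  | mul a b ha _ iha ihb =>
    convert mul_mem (hN a ((Subgroup.closure_le K).2 hs ha) _ ihb) iha using 1
    group
  | inv a ha ih =>
    convert hN _ (inv_mem ((Subgroup.closure_le K).2 hs ha)) _ (inv_mem ih) using 1
    group

theorem cm_lead {a s b y : G} (ha : a ∈ K) (hb : b ∈ K) (h1 : s * b * s⁻¹ * b⁻¹ ∈ N)
    (h2 : s * y * s⁻¹ * y⁻¹ ∈ N) (h3 : a * y * a⁻¹ * y⁻¹ ∈ N) :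
    (a * b * a⁻¹ * b⁻¹)⁻¹ * (a * s * (b * y) * (a * s)⁻¹ * (b * y)⁻¹) ∈ N := by
  have hc : (a * b * a⁻¹ * b⁻¹)⁻¹ * a ∈ K :=
    mul_mem (inv_mem (mul_mem (mul_mem (mul_mem ha hb) (inv_mem ha)) (inv_mem hb))) ha
  convert mul_mem (hN _ hc _ (mul_mem h1 (hN b hb _ h2))) (hN b hb _ h3) using 1
  group

theorem prod_filter {α : Type*} (g : α → G) (p : α → Bool) (L : List α) (h1 : ∀ c ∈ L, g c ∈ K)
    (h2 : ∀ c ∈ L, p c = false → g c ∈ N) :
    ((L.filter p).map g).prod⁻¹ * (L.map g).prod ∈ N := by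
  induction L with
  | nil => simp
  | cons c L ih =>
    have ih' := ih (fun d hd => h1 d (List.mem_cons_of_mem _ hd))
      fun d hd => h2 d (List.mem_cons_of_mem _ hd)
    cases hc : p c
    · have h3 : ((L.filter p).map g).prod ∈ K := Subgroup.list_prod_mem _ fun x hx => by
        obtain ⟨d, hd, rfl⟩ := List.mem_map.1 hx
        exact h1 d (List.mem_cons_of_mem _ (List.mem_of_mem_filter hd))
      rw [List.filter_cons_of_neg (by simp [hc]), List.map_cons, List.prod_cons]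
      convert mul_mem (hN _ (inv_mem h3) _ (h2 c List.mem_cons_self hc)) ih' using 1
      group
    · rw [List.filter_cons_of_pos hc, List.map_cons, List.map_cons, List.prod_cons, List.prod_cons]
      convert ih' using 1
      group

end Gp

theorem mem_of_int_mul {F : Type*} [Field F] (p : ℕ) [Fact p.Prime] [CharP F p] {A : AddSubgroup F}
    {N : ℤ} (hN : (N : F) ≠ 0) {t : F} (h : N * t ∈ A) : t ∈ A := by
  have h1 : IsCoprime (p : ℤ) N := (Nat.prime_iff_prime_int.1 Fact.out).irreducible.coprime_iff_not_dvd.2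
    fun h => hN ((CharP.intCast_eq_zero_iff F p N).2 h)
  obtain ⟨a, b, e⟩ := h1
  have h2 : (b : F) * N = 1 := by
    have := congrArg (Int.cast : ℤ → F) e
    simpa using this
  have := zsmul_mem h b
  rwa [zsmul_eq_mul, ← mul_assoc, h2, one_mul] at this

variable {D : ChevalleyDatum} {C : Cert D} {F : Type*} [Field F]

variable (C F) in
/-- The product of the root subgroups over a set of indices. -/
noncomputable abbrev UU (A : ℕ → Prop) : Subgroup (D.group F) := (C.split F).U {r | A r}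

theorem xg_mem_UU {A : ℕ → Prop} {r : ℕ} (hr : r < D.nroots) (h : A r) (t : F) :
    C.xg F r t ∈ UU C F A := Cert.xg_mem_U hr h t

theorem xg_mem_Up {r : ℕ} (hr : D.IsPosRoot r) (t : F) : C.xg F r t ∈ (C.split F).Up :=
  Cert.xg_mem_U hr.1 ((C.pos_iff ⟨r, hr.1⟩).2 hr) t

theorem UU_le_Up {A : ℕ → Prop} (h : ∀ r < D.nroots, A r → D.IsPosRoot r) :
    UU C F A ≤ (C.split F).Up := U_mono fun r hr => (C.pos_iff r).2 (h r r.2 hr)

theorem UU_mono {A B : ℕ → Prop} (h : ∀ r < D.nroots, A r → B r) : UU C F A ≤ UU C F B :=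
  U_mono fun r hr => h r r.2 hr

theorem comm_eq {r s : ℕ} (hr : r < D.nroots) (hs : s < D.nroots) (h1 : r ≠ s) (h2 : r ≠ D.neg s)
    (t u : F) : C.xg F r t * C.xg F s u * (C.xg F r t)⁻¹ * (C.xg F s u)⁻¹ =
      ((D.commTerms s r).map fun c => C.xg F c.1 (c.2.1 * u ^ c.2.2.1 * (-t) ^ c.2.2.2)).prod := by
  have h := Cert.xg_comm (C := C) (F := F) hs hr h1 h2 (-u) (-t)
  rw [Cert.xg_neg, Cert.xg_neg] at h
  rw [mul_assoc, h, show ∀ a b c : D.group F, a * b * (b⁻¹ * a⁻¹ * c) = c by intros; group,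
    ChevalleyDatum.commWord, List.map_map, neg_neg]
  rfl

variable (D) in
/-- The commutators of the root subgroups of `r` and `s` lie in `U B`. -/
def CT (z : ℤ → Prop) (r s : ℕ) (B : ℕ → Prop) : Prop :=
  r = s ∨ r ≠ D.neg s ∧ ∀ c ∈ D.commTerms s r, z c.2.1 ∨ B c.1

instance (z : ℤ → Prop) [DecidablePred z] (r s : ℕ) (B : ℕ → Prop) [DecidablePred B] :
    Decidable (CT D z r s B) := by unfold CT; infer_instance

variable (D) in
/-- The commutator of the root subgroups of `r` and `s` has a single term modulo `U B`. -/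
def Sgl (z : ℤ → Prop) [DecidablePred z] (r s k : ℕ) (N : ℤ) (B : ℕ → Prop) [DecidablePred B] : Prop :=
  r < D.nroots ∧ s < D.nroots ∧ r ≠ s ∧ r ≠ D.neg s ∧
    (D.commTerms s r).filter (fun c => ¬ (z c.2.1 ∨ B c.1)) = [(k, N, 1, 1)]

instance (z : ℤ → Prop) [DecidablePred z] (r s k : ℕ) (N : ℤ) (B : ℕ → Prop) [DecidablePred B] :
    Decidable (Sgl D z r s k N B) := by unfold Sgl; infer_instance

variable (C F) in
/-- `U B` is normalised by `U`. -/
def Nrm (B : ℕ → Prop) : Prop :=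
  ∀ u ∈ (C.split F).Up, ∀ g ∈ UU C F B, u * g * u⁻¹ ∈ UU C F B

variable {z : ℤ → Prop} (hz : ∀ n, z n → (n : F) = 0)
include hz

theorem CT.mem {r s : ℕ} (hr : r < D.nroots) (hs : s < D.nroots) {B : ℕ → Prop}
    (h : CT D z r s B) (t u : F) :
    C.xg F r t * C.xg F s u * (C.xg F r t)⁻¹ * (C.xg F s u)⁻¹ ∈ UU C F B := by
  by_cases e : r = s
  · subst e
    rw [← Cert.xg_neg, ← Cert.xg_neg, ← Cert.xg_add, ← Cert.xg_add, ← Cert.xg_add,
      show t + u + -t + -u = 0 by ring, Cert.xg_zero]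
    exact one_mem _
  obtain ⟨h1, h2⟩ := h.resolve_left e
  rw [comm_eq hr hs e h1]
  refine Subgroup.list_prod_mem _ fun x hx => ?_
  obtain ⟨c, hc, rfl⟩ := List.mem_map.1 hx
  rcases h2 c hc with h | h
  · rw [hz _ h, zero_mul, zero_mul, Cert.xg_zero]; exact one_mem _
  · exact xg_mem_UU (C.commTerms_spec hs hr c hc).1 h _

theorem nrm_of {B : ℕ → Prop}
    (h : ∀ r < D.nroots, B r → ∀ s < D.nroots, D.IsPosRoot s → CT D z s r B) : Nrm C F B := by
  intro u hu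
  refine U_ind_left (p := fun u => ∀ g ∈ UU C F B, u * g * u⁻¹ ∈ UU C F B) (by simp)
    (fun s hs x hx v _ ih g hg => ?_) u hu
  obtain ⟨t, rfl⟩ := Cert.mem_X.1 hx
  have : ∀ g ∈ UU C F B, C.xg F s t * g * (C.xg F s t)⁻¹ ∈ UU C F B := fun g hg =>
    (U_le (K := (UU C F B).comap (MulAut.conj (C.xg F s t)).toMonoidHom) fun r hr y hy => by
      obtain ⟨u, rfl⟩ := Cert.mem_X.1 hy
      have := mul_mem ((h r r.2 hr s s.2 ((C.pos_iff s).1 hs)).mem (C := C) hz s.2 r.2 t u)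
        (xg_mem_UU r.2 hr u)
      rwa [inv_mul_cancel_right] at this) hg
  convert this _ (ih g hg) using 1
  group

theorem cm_UU {A A' B : ℕ → Prop} (hB : Nrm C F B) (hA : ∀ r < D.nroots, A r → D.IsPosRoot r)
    (hA' : ∀ r < D.nroots, A' r → D.IsPosRoot r)
    (h : ∀ r < D.nroots, A r → ∀ s < D.nroots, A' s → CT D z r s B) {g g' : D.group F}
    (hg : g ∈ UU C F A) (hg' : g' ∈ UU C F A') : g * g' * g⁻¹ * g'⁻¹ ∈ UU C F B := by
  refine cm_closure hB ?_ ?_ hg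
  · rintro _ ⟨r, hr, hx⟩
    exact mem_U ((C.pos_iff r).2 (hA r r.2 hr)) hx
  rintro x ⟨r, hr, hx⟩
  obtain ⟨t, rfl⟩ := Cert.mem_X.1 hx
  rw [← inv_mem_iff, show ∀ a b : D.group F, (a * b * a⁻¹ * b⁻¹)⁻¹ = b * a * b⁻¹ * a⁻¹ by
    intros; group]
  refine cm_closure hB ?_ ?_ hg'
  · rintro _ ⟨r, hr, hx⟩
    exact mem_U ((C.pos_iff r).2 (hA' r r.2 hr)) hx
  rintro x ⟨s, hs, hx⟩
  obtain ⟨u, rfl⟩ := Cert.mem_X.1 hx
  rw [← inv_mem_iff, show ∀ a b : D.group F, (a * b * a⁻¹ * b⁻¹)⁻¹ = b * a * b⁻¹ * a⁻¹ by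
    intros; group]
  exact (h r r.2 hr s s.2 hs).mem hz r.2 s.2 t u

variable [DecidablePred z]

theorem Sgl.mem {r s k : ℕ} {N : ℤ} {B : ℕ → Prop} [DecidablePred B] (h : Sgl D z r s k N B)
    {K : Subgroup (D.group F)} (hK : ∀ k ∈ K, ∀ n ∈ UU C F B, k * n * k⁻¹ ∈ UU C F B)
    (hp : ∀ c ∈ D.commTerms s r, ∀ t, C.xg F c.1 t ∈ K) (t u : F) :
    (C.xg F k (N * u * -t))⁻¹ * (C.xg F r t * C.xg F s u * (C.xg F r t)⁻¹ * (C.xg F s u)⁻¹) ∈
      UU C F B := by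
  obtain ⟨hr, hs, h1, h2, h3⟩ := h
  have := prod_filter hK (fun c => C.xg F c.1 (c.2.1 * u ^ c.2.2.1 * (-t) ^ c.2.2.2))
    (fun c => decide ¬ (z c.2.1 ∨ B c.1)) (D.commTerms s r) (fun c hc => hp c hc _) fun c hc h => by
      rcases (by simpa [imp_iff_not_or] using h : z c.2.1 ∨ B c.1) with h | h
      · rw [hz _ h, zero_mul, zero_mul, Cert.xg_zero]; exact one_mem _
      · exact xg_mem_UU (C.commTerms_spec hs hr c hc).1 h _
  rw [h3] at this
  simpa [comm_eq hr hs h1 h2] using this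

theorem Sgl.eq {r s k : ℕ} {N : ℤ} (h : Sgl D z r s k N fun _ => False) (t u : F) :
    C.xg F r t * C.xg F s u * (C.xg F r t)⁻¹ * (C.xg F s u)⁻¹ = C.xg F k (N * u * -t) := by
  have e : ∀ g ∈ UU C F fun _ => False, g = 1 := fun g hg => eq_one_of_mem_U (by simp) hg
  exact (inv_mul_eq_one.1 (e _ (h.mem hz (K := ⊤) (fun k _ n hn => by simp [e n hn])
    (fun _ _ _ => trivial) t u))).symm

omit hz [DecidablePred z]

variable (C) in
/-- The leading coefficients at `γ` modulo `U B` of the elements of `M`. -/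
def Ld (M : Subgroup (D.group F)) (γ : ℕ) (B : ℕ → Prop) (t : F) : Prop :=
  ∃ u ∈ M, (C.xg F γ t)⁻¹ * u ∈ UU C F B

variable {M : Subgroup (D.group F)}

theorem Ld.mono {γ : ℕ} {A B : ℕ → Prop} {t : F} (h : Ld C M γ A t)
    (hAB : ∀ r < D.nroots, A r → B r) : Ld C M γ B t :=
  h.imp fun _ h => ⟨h.1, UU_mono hAB h.2⟩

theorem Ld.of_mem {γ : ℕ} {B : ℕ → Prop} {t : F} (h : C.xg F γ t ∈ M) : Ld C M γ B t :=
  ⟨_, h, by simp⟩

theorem Ld.mem {γ : ℕ} {B : ℕ → Prop} {t : F} (h : Ld C M γ B t) (hB : ∀ r < D.nroots, ¬ B r) :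
    C.xg F γ t ∈ M := by
  obtain ⟨u, hu, h⟩ := h
  rwa [inv_mul_eq_one.1 (eq_one_of_mem_U (fun r : Fin D.nroots => hB r r.2) h)]

variable (M) in
/-- The leading coefficients form an additive subgroup. -/
def LdG {γ : ℕ} (hγ : D.IsPosRoot γ) {B : ℕ → Prop} (hB : Nrm C F B) : AddSubgroup F where
  carrier := {t | Ld C M γ B t}
  zero_mem' := ⟨1, one_mem _, by simp [Cert.xg_zero]⟩
  add_mem' := by
    rintro t t' ⟨u, hu, h⟩ ⟨u', hu', h'⟩
    refine ⟨_, mul_mem hu hu', ?_⟩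
    convert mul_mem (hB _ (inv_mem (xg_mem_Up hγ t')) _ h) h' using 1
    rw [Cert.xg_add]; group
  neg_mem' := by
    rintro t ⟨u, hu, h⟩
    refine ⟨_, inv_mem hu, ?_⟩
    convert hB _ (xg_mem_Up hγ t) _ (inv_mem h) using 1
    rw [Cert.xg_neg]; group

variable (C M) in
/-- The parameters of the root elements in `M`. -/
def AS (r : ℕ) : AddSubgroup F where
  carrier := {t | C.xg F r t ∈ M}
  zero_mem' := by simp [Cert.xg_zero]
  add_mem' h h' := by simpa [Cert.xg_add] using mul_mem h h'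
  neg_mem' h := by simpa [Cert.xg_neg] using h

theorem mem_AS {r : ℕ} {t : F} : t ∈ AS C M r ↔ C.xg F r t ∈ M := Iff.rfl

include hz in
theorem Ld.comm {γ β : ℕ} {A A' B : ℕ → Prop}
    (hB : Nrm C F B) (hγ : D.IsPosRoot γ) (hβ : D.IsPosRoot β)
    (hA : ∀ r < D.nroots, A r → D.IsPosRoot r ∧ CT D z r β B ∧ ∀ s < D.nroots, A' s → CT D z r s B)
    (hA' : ∀ s < D.nroots, A' s → D.IsPosRoot s ∧ CT D z γ s B) {t u : F}
    (ht : Ld C M γ A t) (hu : Ld C M β A' u) : ∃ g ∈ M,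
      (C.xg F γ t * C.xg F β u * (C.xg F γ t)⁻¹ * (C.xg F β u)⁻¹)⁻¹ * g ∈ UU C F B := by
  obtain ⟨g, hg, h1⟩ := ht
  obtain ⟨g', hg', h2⟩ := hu
  refine ⟨_, mul_mem (mul_mem (mul_mem hg hg') (inv_mem hg)) (inv_mem hg'), ?_⟩
  have a1 := cm_UU hz (A' := fun s => s = β) hB (fun r hr h => (hA r hr h).1)
    (fun r _ h => by rw [h]; exact hβ)
    (fun r hr h s _ e => by rw [e]; exact (hA r hr h).2.1) h1
    (xg_mem_UU (A := fun s => s = β) hβ.1 rfl u)
  have a2 := cm_UU hz hB (fun r hr h => (hA r hr h).1) (fun r hr h => (hA' r hr h).1)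
      (fun r hr h => (hA r hr h).2.2) h1 h2
  have a3 := cm_UU hz (A := fun s => s = γ) hB (fun r _ h => by rw [h]; exact hγ)
    (fun r hr h => (hA' r hr h).1)
    (fun r _ e s hs h => by rw [e]; exact (hA' s hs h).2)
    (xg_mem_UU (A := fun s => s = γ) hγ.1 rfl t) h2
  have h3 := cm_lead (K := (C.split F).Up) (N := UU C F B) hB (xg_mem_Up hγ t) (xg_mem_Up hβ u)
    a1 a2 a3
  rwa [mul_inv_cancel_left, mul_inv_cancel_left] at h3

include hz in
theorem Ld.step [DecidablePred z] {γ β δ : ℕ} {N : ℤ} {A A' B : ℕ → Prop} [DecidablePred B]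
    (hB : Nrm C F B) (hγ : D.IsPosRoot γ) (hβ : D.IsPosRoot β)
    (hA : ∀ r < D.nroots, A r → D.IsPosRoot r ∧ CT D z r β B ∧ ∀ s < D.nroots, A' s → CT D z r s B)
    (hA' : ∀ s < D.nroots, A' s → D.IsPosRoot s ∧ CT D z γ s B)
    (h : Sgl D z γ β δ N B) (hp : ∀ c ∈ D.commTerms β γ, D.IsPosRoot c.1) {t u : F}
    (ht : Ld C M γ A t) (hu : Ld C M β A' u) : Ld C M δ B (N * u * -t) := by
  obtain ⟨g, hg, h3⟩ := ht.comm hz hB hγ hβ hA hA' hu
  have h4 := mul_mem (h.mem hz (K := (C.split F).Up) hB (fun c hc t => xg_mem_Up (hp c hc) t) t u) h3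
  rw [mul_assoc (C.xg F δ _)⁻¹, mul_inv_cancel_left] at h4
  exact ⟨g, hg, h4⟩

theorem nrm_false : Nrm C F fun _ => False := fun u _ g hg => by
  simp [eq_one_of_mem_U (by simp) hg]

include hz in
theorem Ld.comm_mem {γ β : ℕ} {A A' : ℕ → Prop} (hγ : D.IsPosRoot γ) (hβ : D.IsPosRoot β)
    (hA : ∀ r < D.nroots, A r → D.IsPosRoot r ∧ CT D z r β (fun _ => False) ∧
      ∀ s < D.nroots, A' s → CT D z r s fun _ => False)
    (hA' : ∀ s < D.nroots, A' s → D.IsPosRoot s ∧ CT D z γ s fun _ => False) {t u : F}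
    (ht : Ld C M γ A t) (hu : Ld C M β A' u) :
    C.xg F γ t * C.xg F β u * (C.xg F γ t)⁻¹ * (C.xg F β u)⁻¹ ∈ M := by
  obtain ⟨g, hg, h⟩ := ht.comm hz nrm_false hγ hβ hA hA' hu
  rwa [inv_mul_eq_one.1 (eq_one_of_mem_U (by simp) h)]

end Cfsg.Agent.H73
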