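import Mathlib
import Cfsg.Agent.H73.Sub4

/-!
Finite subgroups of a Chevalley group containing all `x_r(1)`: the field of leading coefficients.
-/

set_option autoImplicit false

namespace Cfsg.Agent.H73

open Equiv H34 H34.Split H75 H40 H37 Cfsg.Lie

theorem exists_subfield {F : Type*} [Field F] (A : AddSubgroup F) [Finite A] (h1 : (1 : F) ∈ A)
    (hm : ∀ x ∈ A, ∀ y ∈ A, x * y ∈ A) : ∃ K : Subfield F, ∀ x, x ∈ K ↔ x ∈ A := by
  refine ⟨{ carrier := A, mul_mem' := fun {a b} ha hb => hm a ha b hb, one_mem' := h1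
            add_mem' := A.add_mem, zero_mem' := A.zero_mem, neg_mem' := A.neg_mem
            inv_mem' := fun x hx => ?_ }, fun _ => Iff.rfl⟩
  by_cases h0 : x = 0
  · rw [h0, inv_zero]; exact A.zero_mem
  obtain ⟨y, e⟩ := Finite.surjective_of_injective (f := fun y : A => (⟨x * y, hm x hx y y.2⟩ : A))
    (fun a b e => Subtype.ext (mul_left_cancel₀ h0 (congrArg Subtype.val e))) ⟨1, h1⟩
  rw [inv_eq_of_mul_eq_one_right (congrArg Subtype.val e)]
  exact y.2

theorem subset_of_pow {F : Type*} [Field F] (p : ℕ) [Fact p.Prime] [CharP F p] {A B : Set F}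
    (hA : A.Finite) (h1 : B ⊆ A) (h2 : ∀ x ∈ A, x ^ p ∈ B) : A ⊆ B := by
  have := hA.to_subtype
  intro x hx
  obtain ⟨y, e⟩ := Finite.surjective_of_injective (f := fun y : A => (⟨y ^ p, h1 (h2 y y.2)⟩ : A))
    (fun a b e => Subtype.ext (frobenius_inj F p (congrArg Subtype.val e))) ⟨x, hx⟩
  have e' : (y : F) ^ p = x := congrArg Subtype.val e
  exact e' ▸ h2 y y.2

variable {D : ChevalleyDatum} {C : Cert D} {F : Type*} [Field F]

variable (D) in
/-- `f` is a weight for the non-vanishing terms of the commutator formula. -/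
def Wt (z : ℤ → Prop) (f : ℕ → ℤ) : Prop :=
  ∀ r < D.nroots, D.IsPosRoot r → 0 < f r ∧ ∀ s < D.nroots, D.IsPosRoot s →
    ∀ c ∈ D.commTerms r s, z c.2.1 ∨ D.IsPosRoot c.1 ∧ f r + f s ≤ f c.1

set_option synthInstance.maxSize 512 in
instance (z : ℤ → Prop) [DecidablePred z] (f : ℕ → ℤ) : Decidable (Wt D z f) := by
  unfold Wt; infer_instance

variable (D) in
/-- The positive roots other than `γ` of weight at least that of `γ`. -/
def Bf (f : ℕ → ℤ) (γ r : ℕ) : Prop := D.IsPosRoot r ∧ f γ ≤ f r ∧ r ≠ γ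

instance (f : ℕ → ℤ) (γ : ℕ) : DecidablePred (Bf D f γ) := fun _ => by unfold Bf; infer_instance

variable (D) in
/-- A linear weight. -/
def lw (c : List ℤ) (r : ℕ) : ℤ := ((List.range D.rank).map fun k => c.getD k 0 * D.cartan k r).sum

variable (D) in
/-- The height of the coroot. -/
def dw (r : ℕ) : ℤ := ((List.range D.rank).map (co D r)).sum

theorem lw_eq (c : List ℤ) {k r s : ℕ} {a b : ℤ}
    (h : ∀ j < D.rank, D.cartan j k = a * D.cartan j r + b * D.cartan j s) :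
    lw D c k = a * lw D c r + b * lw D c s := by
  simp only [lw, ← List.sum_map_mul_left, ← List.sum_map_add]
  exact congrArg List.sum (List.map_congr_left fun j hj => by
    rw [h j (List.mem_range.1 hj)]; ring)

variable (D) in
/-- The list of the values of a linear weight. -/
def lwL (c : List ℤ) (l : List ℕ) : List ℤ :=
  l.foldr (fun k acc => List.zipWith (fun a b => c.getD k 0 * a + b) (D.cartanSR.getD k #[]).toList acc)
    (List.replicate D.nroots 0)

theorem lwL_spec (c : List ℤ) {l : List ℕ} (h : ∀ k ∈ l, (D.cartanSR.getD k #[]).size = D.nroots)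
    {r : ℕ} (hr : r < D.nroots) :
    (lwL D c l)[r]? = some (l.map fun k => c.getD k 0 * D.cartan k r).sum := by
  induction l with
  | nil => simp [lwL, hr]
  | cons k l ih =>
    have h1 := h k List.mem_cons_self
    have h2 : (D.cartanSR.getD k #[]).toList[r]? = some (D.cartan k r) := by
      rw [ChevalleyDatum.cartan]
      generalize D.cartanSR.getD k #[] = A at h1
      rw [Array.getElem?_toList, Array.getD_eq_getD_getElem?, Array.getElem?_eq_getElem (h1 ▸ hr)]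
      rfl
    rw [lwL, List.foldr_cons, List.getElem?_zipWith, h2]
    erw [ih fun j hj => h j (List.mem_cons_of_mem _ hj)]
    simp

variable (D) in
/-- The linear weight is a multiple of the height, with the last root of maximal height. -/
def LwOK (c : List ℤ) (d m : ℤ) : Prop :=
  (∀ k ∈ List.range D.rank, (D.cartanSR.getD k #[]).size = D.nroots ∧ lw D c (D.simple k) = d) ∧
    0 < d ∧ lw D c (D.simple 0) = d ∧ lw D c (D.nroots - 1) = m ∧
    ∀ x ∈ (lwL D c (List.range D.rank)).take (D.nroots - 1), x < m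

instance (c : List ℤ) (d m : ℤ) : Decidable (LwOK D c d m) := by unfold LwOK; infer_instance

theorem LwOK.eq {c : List ℤ} {d m : ℤ} (h : LwOK D c d m) (r : Fin D.nroots) :
    lw D c r = d * C.R.ht r := by
  have e : ∀ s, lw D c s = ∑ k : Fin D.rank, c.getD k 0 * D.cartan k s := fun s => by
    rw [lw, ← Finset.sum_range (fun k => c.getD k 0 * D.cartan k s)]; rfl
  rw [e, RS.ht_def, Finset.mul_sum]
  simp only [← C.wt_eq, RS.wt_def, Finset.mul_sum]
  rw [Finset.sum_comm]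
  refine Finset.sum_congr rfl fun j _ => ?_
  rw [← (h.1 j (List.mem_range.2 j.2)).2, e, Finset.sum_mul]
  exact Finset.sum_congr rfl fun k _ => by rw [C.A_eq]; ring

include C in
theorem LwOK.pos {c : List ℤ} {d m : ℤ} (h : LwOK D c d m) :
    ∀ r < D.nroots, D.IsPosRoot r ↔ 0 < lw D c r := fun r hr => by
  rw [h.eq (C := C) ⟨r, hr⟩, mul_pos_iff_of_pos_left h.2.1, C.R.ht_pos_iff, C.pos_iff]

include C in
theorem LwOK.top {c : List ℤ} {d m : ℤ} (h : LwOK D c d m) : ∀ r < D.nroots, D.IsPosRoot r →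
    lw D c (D.simple 0) ≤ lw D c r ∧ (lw D c (D.nroots - 1) ≤ lw D c r → r = D.nroots - 1) := by
  refine fun r hr hp => ⟨?_, fun h1 => by_contra fun h2 => h1.not_gt ?_⟩
  · rw [h.2.2.1, h.eq (C := C) ⟨r, hr⟩]
    exact le_mul_of_one_le_right h.2.1.le ((C.R.ht_pos_iff _).2 ((C.pos_iff ⟨r, hr⟩).2 hp))
  · rw [h.2.2.2.1]
    refine h.2.2.2.2 _ (List.mem_of_getElem? (i := r) ?_)
    rw [List.getElem?_take_of_lt (by omega)]
    exact lwL_spec c (fun k hk => (h.1 k hk).1) hr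

include C in
theorem wt_lw (z : ℤ → Prop) {c : List ℤ} (h : ∀ r < D.nroots, D.IsPosRoot r ↔ 0 < lw D c r) :
    Wt D z (lw D c) := by
  refine fun r hr hp => ⟨(h r hr).1 hp, fun s hs hp' k hk => Or.inr ?_⟩
  obtain ⟨h1, h2, h3, h4⟩ := C.commTerms_spec hr hs k hk
  have e := lw_eq c h4
  have h5 := (h r hr).1 hp
  have h6 := (h s hs).1 hp'
  have h7 : lw D c r + lw D c s ≤ lw D c k.1 := by rw [e]; nlinarith
  exact ⟨(h _ h1).2 (by omega), h7⟩

include C in
theorem pos_ne_neg {r s : ℕ} (hr : D.IsPosRoot r) (hs : D.IsPosRoot s) : r ≠ D.neg s := fun h =>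
  RS.Pos.ne_neg ((C.pos_iff ⟨s, hs.1⟩).2 hs) ((C.pos_iff ⟨r, hr.1⟩).2 hr)
    (Fin.ext (h.trans (C.neg_val ⟨s, hs.1⟩).symm))

variable (D) in
/-- The roots above `γ` do not contribute to the coefficient at `δ`. -/
def Hv (z : ℤ → Prop) (f : ℕ → ℤ) (γ β δ : ℕ) : Prop :=
  ∀ r < D.nroots, Bf D f γ r → CT D z r β (Bf D f δ)

instance (z : ℤ → Prop) [DecidablePred z] (f : ℕ → ℤ) (γ β δ : ℕ) : Decidable (Hv D z f γ β δ) := by
  unfold Hv; infer_instance

include C in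
theorem hv_lw (z : ℤ → Prop) {c : List ℤ} (h : ∀ r < D.nroots, D.IsPosRoot r ↔ 0 < lw D c r)
    {γ β δ : ℕ} {N : ℤ} (hγ : D.IsPosRoot γ) (hβ : D.IsPosRoot β)
    (hδ : (δ, N, 1, 1) ∈ D.commTerms β γ) : Hv D z (lw D c) γ β δ := by
  refine fun r hr hB => Or.inr ⟨pos_ne_neg (C := C) hB.1 hβ, fun k hk => Or.inr ?_⟩
  obtain ⟨h1, h2, h3, h4⟩ := C.commTerms_spec hβ.1 hr k hk
  obtain ⟨-, -, -, h5⟩ := C.commTerms_spec hβ.1 hγ.1 _ hδ
  have e := lw_eq c h4
  have e' := lw_eq c h5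
  have h6 := (h _ hβ.1).1 hβ
  have h7 := (h _ hγ.1).1 hγ
  have h8 := hB.2.1
  simp only [Nat.cast_one, one_mul] at e' h5
  have h9 : lw D c β ≤ k.2.2.1 * lw D c β := le_mul_of_one_le_left h6.le (by omega)
  have h10 : lw D c r ≤ k.2.2.2 * lw D c r := le_mul_of_one_le_left (by omega) (by omega)
  refine ⟨(h _ h1).2 (by omega), by omega, fun e1 => hB.2.2 ?_⟩
  rw [e1] at e h4
  have h11 : (k.2.2.1 : ℤ) = 1 := mul_right_cancel₀ h6.ne' (by omega)
  have h12 : (k.2.2.2 : ℤ) = 1 := mul_right_cancel₀ (b := lw D c r) (by omega) (by omega)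
  have := C.rc_of_cartan (k := ⟨r, hr⟩) (r := ⟨γ, hγ.1⟩) (s := ⟨γ, hγ.1⟩) (a := 1) (b := 0)
    fun j hj => by
      have := (h4 j hj).symm.trans (h5 j hj)
      rw [h11, h12] at this
      simpa using this
  exact congrArg Fin.val (C.R.rc_inj (by simpa using this) : (⟨r, hr⟩ : Fin _) = ⟨γ, hγ.1⟩)

variable (D) in
/-- A single non-vanishing term. -/
def Sg (z nz : ℤ → Prop) [DecidablePred z] (r s k : ℕ) (B : ℕ → Prop) [DecidablePred B] : Prop :=
  ∃ N ∈ [(1 : ℤ), -1, 2, -2, 3, -3], nz N ∧ Sgl D z r s k N B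

instance (z nz : ℤ → Prop) [DecidablePred z] [DecidablePred nz] (r s k : ℕ) (B : ℕ → Prop)
    [DecidablePred B] : Decidable (Sg D z nz r s k B) := by unfold Sg; infer_instance

variable (D) in
/-- A path of commutators from `γ` to `ψ`. -/
def PathOK (z nz : ℤ → Prop) [DecidablePred z] (f : ℕ → ℤ) (b : Bool) (ψ : ℕ) :
    List (ℕ × ℕ) → ℕ → Prop
  | [], γ => γ = ψ
  | (β, δ) :: l, γ => D.IsPosRoot β ∧ D.IsPosRoot δ ∧ Sg D z nz γ β δ (Bf D f δ) ∧
    (∀ c ∈ D.commTerms β γ, D.IsPosRoot c.1) ∧ (b → Hv D z f γ β δ) ∧ PathOK z nz f b ψ l δ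

instance decPathOK (z nz : ℤ → Prop) [DecidablePred z] [DecidablePred nz] (f : ℕ → ℤ) (b : Bool)
    (ψ : ℕ) : ∀ l γ, Decidable (PathOK D z nz f b ψ l γ)
  | [], γ => inferInstanceAs (Decidable (γ = ψ))
  | (_, δ) :: l, _ => by
    have := decPathOK z nz f b ψ l δ
    unfold PathOK; infer_instance

variable (D) in
/-- A subsystem of type `A₂` with highest root `ψ`. -/
def A2OK (z nz : ℤ → Prop) [DecidablePred z] (ψ r s : ℕ) : Prop :=
  Sg D z nz r s ψ (fun _ => False) ∧ Sg D z nz ψ (D.neg s) r (fun _ => False) ∧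
    Sg D z nz ψ (D.neg r) s (fun _ => False)

instance (z nz : ℤ → Prop) [DecidablePred z] [DecidablePred nz] (ψ r s : ℕ) :
    Decidable (A2OK D z nz ψ r s) := by unfold A2OK; infer_instance

variable (D) in
/-- A chain of roots, each obtained from an earlier one by a reflection or the torus. -/
def Chain : List ℕ → List ℕ → Prop
  | [], _ => True
  | s :: L, K => s < D.nroots ∧ (∃ r ∈ K, (∃ i < D.rank, D.reflectRoot i r = s) ∨
      D.pairing r s = 1 ∨ D.pairing r s = -1) ∧ Chain L (s :: K)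

instance decChain : ∀ L K, Decidable (Chain D L K)
  | [], _ => inferInstanceAs (Decidable True)
  | s :: L, K => by
    have := decChain L (s :: K)
    unfold Chain; infer_instance

variable (D) in
/-- The positive roots other than the `i`-th simple root. -/
def Ns (i r : ℕ) : Prop := D.IsPosRoot r ∧ r ≠ D.simple i

variable (D) in
/-- Paths from the simple roots in `I` to the root `ψ` of maximal weight. -/
def TopOK (z nz : ℤ → Prop) [DecidablePred z] (f : ℕ → ℤ) (b : Bool) (ψ : ℕ)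
    (I : List (ℕ × List (ℕ × ℕ))) : Prop :=
  D.IsPosRoot ψ ∧
    (b → ∀ r < D.nroots, D.IsPosRoot r → f (D.simple 0) ≤ f r ∧ (f ψ ≤ f r → r = ψ)) ∧ ∀ e ∈ I, e.1 < D.rank ∧ f (D.simple e.1) = f (D.simple 0) ∧
      PathOK D z nz f b ψ e.2 (D.simple e.1)

instance (z nz : ℤ → Prop) [DecidablePred z] [DecidablePred nz] (f : ℕ → ℤ) (b : Bool) (ψ : ℕ)
    (I : List (ℕ × List (ℕ × ℕ))) : Decidable (TopOK D z nz f b ψ I) := by
  unfold TopOK; infer_instance

include C in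
theorem simple_pos {i : ℕ} (hi : i < D.rank) : D.IsPosRoot (D.simple i) := by
  have := (C.pos_iff _).1 (C.S.pos_α ⟨i, hi⟩)
  rwa [sgn_α, C.simple_val] at this

theorem ng_conj {i r : ℕ} (hi : i < D.rank) (hr : r < D.nroots) : ∃ ε : F, (ε = 1 ∨ ε = -1) ∧
    ∀ t, C.ng F (D.simple i) 1 * C.xg F r t * (C.ng F (D.simple i) 1)⁻¹ =
      C.xg F (D.reflectRoot i r) (ε * t) := by
  refine ⟨C.V.η i r, mul_self_eq_one_iff.1 ((C.V.aut i hi).sqF hr), fun t => ?_⟩
  rw [mul_inv_eq_iff_eq_mul]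
  have := C.V.nG_conj (C.V.nForm_simple (F := F) hi) one_ne_zero hr t
  rw [one_zpow, mul_one] at this
  exact Subtype.ext this

variable {M : Subgroup (D.group F)}

theorem finite_AS [Finite M] {r : ℕ} (hr : r < D.nroots) : Finite (AS C M r) :=
  Finite.of_injective (fun t => (⟨_, t.2⟩ : M)) fun _ _ e =>
    Subtype.ext (Cert.xg_injective (C := C) hr (congrArg Subtype.val e))

section
variable {z nz : ℤ → Prop} (hz : ∀ n, z n → (n : F) = 0) (hnz : ∀ n, nz n → (n : F) ≠ 0)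
  (p : ℕ) [Fact p.Prime] [CharP F p]
include hz

theorem Wt.nrm {f : ℕ → ℤ} (h : Wt D z f) (γ : ℕ) : Nrm C F (Bf D f γ) :=
  nrm_of hz fun r hr hB s hs hp => Or.inr ⟨pos_ne_neg (C := C) hp hB.1, fun c hc =>
    ((h r hr hB.1).2 s hs hp c hc).imp_right fun h1 => by
      have h2 := (h s hs hp).1
      have h3 := hB.2.1
      refine ⟨h1.1, by omega, fun e => ?_⟩
      rw [e] at h1
      omega⟩

variable [DecidablePred z]
include hnz p

theorem Sg.mul {r s k : ℕ} (h : Sg D z nz r s k fun _ => False) {t u : F} (ht : t ∈ AS C M r)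
    (hu : u ∈ AS C M s) : u * t ∈ AS C M k := by
  obtain ⟨N, -, h1, h2⟩ := h
  have h3 : N * u * -t ∈ AS C M k := by
    rw [mem_AS, ← h2.eq hz]
    exact mul_mem (mul_mem (mul_mem ht hu) (inv_mem ht)) (inv_mem hu)
  exact mem_of_int_mul p (hnz N h1) (by simpa [mul_assoc] using neg_mem h3)

variable (h1 : ∀ r, C.xg F r 1 ∈ M)
include h1

theorem PathOK.ld {f : ℕ → ℤ} (hf : Wt D z f) {b : Bool} (hb : b = false → ∀ {γ β δ : ℕ} {N : ℤ},
    D.IsPosRoot γ → D.IsPosRoot β → (δ, N, 1, 1) ∈ D.commTerms β γ → Hv D z f γ β δ)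
    {ψ : ℕ} {l : List (ℕ × ℕ)} {γ : ℕ} (h : PathOK D z nz f b ψ l γ) (hγ : D.IsPosRoot γ) {t : F} (ht : Ld C M γ (Bf D f γ) t) :
    Ld C M ψ (Bf D f ψ) t := by
  induction l generalizing γ with
  | nil => exact h ▸ ht
  | cons e l ih =>
    obtain ⟨β, δ⟩ := e
    obtain ⟨h2, h3, ⟨N, -, h4, h5⟩, h6, h7, h8⟩ := h
    refine ih h8 h3 ?_
    replace h7 : Hv D z f γ β δ := by
      cases b
      · exact hb rfl hγ h2 (List.mem_of_mem_filter (h5.2.2.2.2 ▸ List.mem_singleton_self _))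
      · exact h7 rfl
    have := Ld.step hz (A' := fun _ => False) (hf.nrm hz δ) hγ h2
      (fun r hr h => ⟨h.1, h7 r hr h, fun _ _ h => h.elim⟩) (fun _ _ h => h.elim) h5 h6 ht
      (Ld.of_mem (h1 β))
    exact mem_of_int_mul p (A := LdG M h3 (hf.nrm hz δ)) (hnz N h4) (by
      simpa using (LdG M h3 (hf.nrm hz δ)).neg_mem this)

theorem TopOK.mem {f : ℕ → ℤ} (hf : Wt D z f) {b : Bool} (hb : b = false → ∀ {γ β δ : ℕ} {N : ℤ},
    D.IsPosRoot γ → D.IsPosRoot β → (δ, N, 1, 1) ∈ D.commTerms β γ → Hv D z f γ β δ)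
    {ψ : ℕ} (hb' : b = false →
      ∀ r < D.nroots, D.IsPosRoot r → f (D.simple 0) ≤ f r ∧ (f ψ ≤ f r → r = ψ))
    {I : List (ℕ × List (ℕ × ℕ))} (h : TopOK D z nz f b ψ I) {i : ℕ} (hi : i ∈ I.map Prod.fst) {t : F}
    (ht : Ld C M (D.simple i) (Ns D i) t) : t ∈ AS C M ψ := by
  obtain ⟨e, he, rfl⟩ := List.mem_map.1 hi
  obtain ⟨h2, h3, h4⟩ := h.2.2 e he
  have h5 : ∀ r < D.nroots, D.IsPosRoot r → f (D.simple 0) ≤ f r ∧ (f ψ ≤ f r → r = ψ) := by
    cases b
    exacts [hb' rfl, h.2.1 rfl]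
  exact (h4.ld hz hnz p h1 hf hb (simple_pos (C := C) h2)
    (ht.mono fun r hr h' => ⟨h'.1, h3 ▸ (h5 r hr h'.1).1, h'.2⟩)).mem
    fun r hr h' => h'.2.2 ((h5 r hr h'.1).2 h'.2.1)

theorem A2OK.field [Finite M] {ψ r s : ℕ} (hψ : ψ < D.nroots) (h : A2OK D z nz ψ r s) :
    ∃ K : Subfield F, ∀ x, x ∈ K ↔ x ∈ AS C M ψ :=
  have := finite_AS (C := C) (M := M) hψ
  exists_subfield _ (h1 ψ) fun x hx y hy => h.1.mul hz hnz p
    (one_mul y ▸ h.2.1.mul hz hnz p hy (h1 _)) (one_mul x ▸ h.2.2.mul hz hnz p hx (h1 _))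

end

variable (h1 : ∀ r, C.xg F r 1 ∈ M)
include h1

theorem ng_one_mem (r : ℕ) : C.ng F r 1 ∈ M := by
  rw [Cert.ng_eq, inv_one, Cert.xg_neg]
  exact mul_mem (mul_mem (h1 _) (inv_mem (h1 _))) (h1 _)

theorem AS_refl {i r : ℕ} (hi : i < D.rank) (hr : r < D.nroots) {t : F} (ht : t ∈ AS C M r) :
    t ∈ AS C M (D.reflectRoot i r) := by
  obtain ⟨ε, h, e⟩ := ng_conj (C := C) (F := F) hi hr
  have h2 : ε * t ∈ AS C M (D.reflectRoot i r) := by
    rw [mem_AS, ← e]
    exact cj1 _ (ng_one_mem h1 _) ht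
  rcases h with rfl | rfl
  · rwa [one_mul] at h2
  · simpa using h2

theorem AS_s (i : Fin D.rank) (r : Fin D.nroots) : AS C M (C.S.s i r) = AS C M r := by
  have key : ∀ r : Fin D.nroots, AS C M r ≤ AS C M (C.S.s i r) := fun r t ht => by
    rw [sgn_s, RS.σ_apply, C.refl_val]
    exact AS_refl h1 i.2 r.2 ht
  have := key (C.S.s i r)
  rw [C.S.s_s] at this
  exact le_antisymm this (key r)

theorem AS_neg {r : ℕ} (hr : r < D.nroots) : AS C M (D.neg r) = AS C M r := by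
  have : ∀ r : Fin D.nroots, AS C M (C.S.neg r) = AS C M r := C.R.root_induction
    (fun i => by rw [← AS_s h1 i (C.R.simple i)]; exact congrArg _ (congrArg _ (C.S.s_α i).symm))
    fun r i ih => by
      have e := AS_s h1 i (C.S.neg r)
      rw [C.S.map_neg (C.S.s_mem_W i), ih, ← AS_s h1 i r] at e
      exact e
  simpa [C.neg_val] using this ⟨r, hr⟩

theorem AS_tor {K : Subfield F} {r s : ℕ} (hr : r < D.nroots) (hs : s < D.nroots)
    (h : ∀ x ∈ K, x ∈ AS C M r) {x : F} (hx : x ∈ K) (h0 : x ≠ 0) :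
    x ^ D.pairing r s ∈ AS C M s := by
  have h2 : ∀ x ∈ K, C.ng F r x ∈ M := fun x hx => by
    rw [Cert.ng_eq]
    exact mul_mem (mul_mem (h x hx) ((AS_neg h1 hr).ge (h _ (neg_mem (inv_mem hx))))) (h x hx)
  rw [mem_AS, ← mul_one (x ^ _), ← Cert.hg_conj hr hs h0, Cert.hg_eq]
  exact cj1 _ (mul_mem (h2 x hx) (h2 _ (neg_mem (one_mem _)))) (h1 s)

theorem Chain.le {K : Subfield F} {L Kn : List ℕ} (h : Chain D L Kn)
    (hK : ∀ r ∈ Kn, r < D.nroots ∧ ∀ x ∈ K, x ∈ AS C M r) : ∀ r ∈ L, ∀ x ∈ K, x ∈ AS C M r := by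
  induction L generalizing Kn with
  | nil => simp
  | cons s L ih =>
    obtain ⟨hs, ⟨r, hr, h2⟩, h3⟩ := h
    have h4 : ∀ x ∈ K, x ∈ AS C M s := fun x hx => by
      by_cases h0 : x = 0
      · rw [h0]; exact zero_mem _
      rcases h2 with ⟨i, hi, rfl⟩ | e | e
      · exact AS_refl h1 hi (hK r hr).1 ((hK r hr).2 x hx)
      · simpa [e] using AS_tor h1 (hK r hr).1 hs (hK r hr).2 hx h0
      · simpa [e] using AS_tor h1 (hK r hr).1 hs (hK r hr).2 (inv_mem hx) (inv_ne_zero h0)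
    exact List.forall_mem_cons.2 ⟨h4, ih h3 (List.forall_mem_cons.2 ⟨⟨hs, h4⟩, hK⟩)⟩

theorem Chain.all {K : Subfield F} {L : List ℕ} {θ : ℕ} (hθ : θ < D.nroots) (h : Chain D L [θ])
    (hL : ∀ i < D.rank, D.simple i ∈ L) (hK : ∀ x ∈ K, x ∈ AS C M θ) (r : ℕ) {x : F} (hx : x ∈ K) :
    C.xg F r x ∈ M := by
  by_cases hr : r < D.nroots
  · exact C.V.root_induction (Q := fun r => x ∈ AS C M r)
      (fun i hi => h.le h1 (by simpa using ⟨hθ, hK⟩) _ (hL i hi) x hx)
      (fun i hi r hr h => AS_refl h1 hi hr h) r hr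
  · have : C.xg F r x = 1 :=
      Subtype.ext (Units.ext ((C.V.coe_xG r x).trans (x_oob (Nat.le_of_not_lt hr) x)))
    rw [this]; exact one_mem _

end Cfsg.Agent.H73
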