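import Mathlib
import Cfsg.Agent.H73.Sub5

/-!
Finite subgroups of a Chevalley group containing all `x_r(1)`: the type by type analysis.
-/

set_option autoImplicit false

namespace Cfsg.Agent.H73

open Equiv H34 H34.Split H75 H40 H37 Cfsg.Lie

variable {D : ChevalleyDatum} {C : Cert D} {F : Type*} [Field F] {M : Subgroup (D.group F)}

instance (i : ℕ) : DecidablePred (Ns D i) := fun _ => by unfold Ns; infer_instance

theorem UU_Ns (i : Fin D.rank) :
    UU C F (Ns D i) = (C.split F).U {r | C.S.pos r ∧ r ≠ C.S.α i} := by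
  refine congrArg (C.split F).U (Set.ext fun r => ?_)
  exact and_congr (C.pos_iff r).symm (by rw [← C.simple_val, Ne, Fin.val_inj]; rfl)

theorem finite_Ld [Finite M] {i : ℕ} (hi : i < D.rank) :
    {t | Ld C M (D.simple i) (Ns D i) t}.Finite := by
  choose f hf hf' using fun t : {t | Ld C M (D.simple i) (Ns D i) t} => t.2
  refine Finite.of_injective (fun t => (⟨f t, hf t⟩ : M)) fun a b e => Subtype.ext ?_
  have h1 := mul_mem (hf' a) (inv_mem (hf' b))
  rw [show f a = f b from congrArg Subtype.val e, mul_inv_rev, inv_inv, mul_assoc,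
    mul_inv_cancel_left, ← Cert.xg_neg, ← Cert.xg_add, UU_Ns ⟨i, hi⟩] at h1
  have h2 := eq_one_of_mem_ne ((mem_X_α C).2 ⟨_, rfl⟩) h1
  exact neg_add_eq_zero.1 ((Cert.xg_eq_one_iff (C := C) (C.V.basic.simple_lt i hi)).1 h2)

variable (C M) in
/-- The leading coefficients of `M ∩ U` lie in a subfield `K` with `x_r(K) ≤ M`. -/
def Concl : Prop := ∃ K : Subfield F, (∀ r, ∀ x ∈ K, C.xg F r x ∈ M) ∧
  ∀ i < D.rank, ∀ t, Ld C M (D.simple i) (Ns D i) t → t ∈ K

variable (D) in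
/-- Chains reaching all simple roots. -/
def ChainOK (L : List ℕ) : Prop :=
  0 < D.nroots ∧ Chain D L [D.nroots - 1] ∧ ∀ i < D.rank, D.simple i ∈ L

instance (L : List ℕ) : Decidable (ChainOK D L) := by unfold ChainOK; infer_instance

variable (D) in
/-- The data in good characteristic. -/
def GenOK (b d m : ℤ) (c : List ℤ) (I : List (ℕ × List (ℕ × ℕ))) (L : List ℕ) : Prop :=
  LwOK D c d m ∧
    TopOK D (fun _ => False) (· ∈ [1, -1, b, -b]) (lw D c) false (D.nroots - 1) I ∧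
    (∀ i < D.rank, i ∈ I.map Prod.fst) ∧ ChainOK D L

instance (b d m : ℤ) (c : List ℤ) (I : List (ℕ × List (ℕ × ℕ))) (L : List ℕ) :
    Decidable (GenOK D b d m c I L) := by unfold GenOK; infer_instance

variable (D) in
/-- The data in bad characteristic. -/
def SpOK (p : ℕ) (d m : ℤ) (c : List ℤ) (I J : List (ℕ × List (ℕ × ℕ))) (L : List ℕ)
    (ψ r s r' s' : ℕ) : Prop :=
  LwOK D c d m ∧
    TopOK D ((p : ℤ) ∣ ·) (¬ (p : ℤ) ∣ ·) (lw D c) false (D.nroots - 1) I ∧
    Wt D ((p : ℤ) ∣ ·) (dw D) ∧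
    TopOK D ((p : ℤ) ∣ ·) (¬ (p : ℤ) ∣ ·) (dw D) true ψ J ∧
    (∀ i < D.rank, i ∈ I.map Prod.fst ∨ i ∈ J.map Prod.fst) ∧ ChainOK D L ∧
    A2OK D ((p : ℤ) ∣ ·) (¬ (p : ℤ) ∣ ·) (D.nroots - 1) r s ∧
    A2OK D ((p : ℤ) ∣ ·) (¬ (p : ℤ) ∣ ·) ψ r' s' ∧ D.pairing ψ (D.nroots - 1) = p

set_option synthInstance.maxSize 512 in
instance (p : ℕ) (d m : ℤ) (c : List ℤ) (I J : List (ℕ × List (ℕ × ℕ))) (L : List ℕ)
    (ψ r s r' s' : ℕ) : Decidable (SpOK D p d m c I J L ψ r s r' s') := by unfold SpOK; infer_instance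

variable (p : ℕ) [Fact p.Prime] [CharP F p]

section
variable (h1 : ∀ r, C.xg F r 1 ∈ M)
include p h1

theorem GenOK.concl {b d m : ℤ} {c : List ℤ} {I : List (ℕ × List (ℕ × ℕ))} {L : List ℕ}
    (h : GenOK D b d m c I L) (hb : (b : F) ≠ 0)
    (hK : ∃ K : Subfield F, ∀ x, x ∈ K ↔ x ∈ AS C M (D.nroots - 1)) : Concl C M := by
  obtain ⟨K, hK⟩ := hK
  obtain ⟨h2, h3, h4, h5, h6, h7⟩ := h
  exact ⟨K, fun r x hx => h6.all h1 (by omega) h7 (fun x => (hK x).1) r hx, fun i hi t ht =>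
    (hK t).2 (h3.mem (by simp) (by simpa using hb) p h1 (wt_lw (C := C) _ (h2.pos (C := C)))
      (fun _ => hv_lw (C := C) _ (h2.pos (C := C))) (fun _ => h2.top (C := C)) (h4 i hi) ht)⟩

theorem GenOK.concl' [Finite M] {b d m : ℤ} {c : List ℤ} {I : List (ℕ × List (ℕ × ℕ))} {L : List ℕ}
    (h : GenOK D b d m c I L) (hb : (b : F) ≠ 0) {r s : ℕ}
    (h2 : A2OK D (fun _ => False) (· ∈ [1, -1]) (D.nroots - 1) r s) : Concl C M :=
  h.concl p h1 hb (h2.field (by simp) (by simp) p h1 (by have := h.2.2.2.1; omega))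

theorem SpOK.concl [Finite M] {d m : ℤ} {c : List ℤ} {I J : List (ℕ × List (ℕ × ℕ))} {L : List ℕ}
    {ψ r s r' s' : ℕ} (h : SpOK D p d m c I J L ψ r s r' s') : Concl C M := by
  obtain ⟨h2, h3, h4, h5, h6, ⟨h7, h8, h9⟩, h10, h11, h12⟩ := h
  have hz : ∀ n : ℤ, (p : ℤ) ∣ n → (n : F) = 0 := fun n => (CharP.intCast_eq_zero_iff F p n).2
  have hnz : ∀ n : ℤ, ¬ (p : ℤ) ∣ n → (n : F) ≠ 0 := fun n =>
    mt (CharP.intCast_eq_zero_iff F p n).1
  have hθ : D.nroots - 1 < D.nroots := by omega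
  obtain ⟨K, hK⟩ := h10.field hz hnz p h1 hθ
  obtain ⟨K', hK'⟩ := h11.field hz hnz p h1 h5.1.1
  have h13 := fun r x => h8.all h1 hθ h9 (fun x => (hK x).1) r (x := x)
  have := finite_AS (C := C) (M := M) h5.1.1
  have h14 := subset_of_pow p (A := (AS C M ψ : Set F)) (B := (K : Set F)) (Set.toFinite _)
    (h13 ψ) fun x hx => by
    by_cases h0 : x = 0
    · rw [h0, zero_pow (Fact.out : p.Prime).ne_zero]; exact zero_mem K
    · have := AS_tor h1 h5.1.1 hθ (fun x => (hK' x).1) ((hK' x).2 hx) h0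
      rw [h12, zpow_natCast] at this
      exact (hK _).2 this
  exact ⟨K, h13, fun i hi t ht => (h6 i hi).elim
    (fun h => (hK t).2 (h3.mem hz hnz p h1 (wt_lw (C := C) _ (h2.pos (C := C)))
      (fun _ => hv_lw (C := C) _ (h2.pos (C := C))) (fun _ => h2.top (C := C)) h ht))
    fun h => h14 (h5.mem hz hnz p h1 h4 (by simp) (by simp) h ht)⟩

end

section B2

variable {C : Cert chevB2} {M : Subgroup (chevB2.group F)} [Finite M] (h1 : ∀ r, C.xg F r 1 ∈ M)

theorem B2_comm (t u : F) : C.xg F 5 t * C.xg F 4 u * (C.xg F 5 t)⁻¹ * (C.xg F 4 u)⁻¹ =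
    C.xg F 6 (-(t * u)) * C.xg F 7 (-(t ^ 2 * u)) := by
  rw [comm_eq (by decide +kernel) (by decide +kernel) (by decide) (by decide +kernel),
    show chevB2.commTerms 4 5 = [(6, 1, 1, 1), (7, -1, 1, 2)] by decide +kernel]
  simp [mul_comm]

include h1 p

theorem B2_odd (h2 : (2 : F) ≠ 0) : Concl C M := by
  refine GenOK.concl p h1 (b := 2) (d := 2) (m := 6) (c := [3, 4]) (I := [(0, [(6, 7)]), (1, [(5, 6), (5, 7)])])
    (L := [4, 5]) (by decide +kernel) (by simpa using h2) ?_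
  have := finite_AS (C := C) (M := M) (r := chevB2.nroots - 1) (by decide +kernel)
  have h3 : ∀ t ∈ AS C M 7, t ∈ AS C M 6 := fun t ht => by
    have h4 : t ∈ AS C M 4 := AS_refl h1 (i := 0) (by decide) (by decide +kernel) ht
    have h5 := mul_mem (mul_mem (mul_mem (h1 5) h4) (inv_mem (h1 5))) (inv_mem h4)
    rw [B2_comm, one_mul, one_pow, one_mul, Cert.xg_neg, Cert.xg_neg] at h5
    simpa [mem_AS] using mul_mem h5 ht
  exact exists_subfield _ (h1 _) fun x hx y hy => Sg.mul (z := fun _ => False) (nz := (· = -2))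
    (by simp) (by simpa using h2) p (r := 5) (s := 6) (by decide +kernel)
    (AS_refl h1 (i := 1) (r := 6) (by decide) (by decide +kernel) (h3 y hy)) (h3 x hx)

omit p in
set_option synthInstance.maxSize 512 in
theorem B2_two [CharP F 2] : Concl C M := by
  have : Fact (Nat.Prime 2) := ⟨Nat.prime_two⟩
  have hz : ∀ n : ℤ, 2 ∣ n → (n : F) = 0 := fun n => (CharP.intCast_eq_zero_iff F 2 n).2
  have hn : ∀ {i r : ℕ}, i < chevB2.rank → r < chevB2.nroots → ∀ t, C.ng F (chevB2.simple i) 1 *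
      C.xg F r t * (C.ng F (chevB2.simple i) 1)⁻¹ = C.xg F (chevB2.reflectRoot i r) t :=
    fun hi hr t => by
      obtain ⟨ε, h, e⟩ := ng_conj (C := C) (F := F) hi hr
      rw [e, h.elim id fun h => h.trans (CharTwo.neg_eq 1), one_mul]
  have a1 : ∀ {t s : F}, Ld C M 5 (Ns chevB2 0) t → Ld C M 4 (· ∈ [6, 7]) s →
      C.xg F 6 (t * s) * C.xg F 7 (t ^ 2 * s) ∈ M := fun ht hs => by
    simpa [B2_comm, CharTwo.neg_eq] using ht.comm_mem hz (by decide +kernel) (by decide +kernel)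
      (by decide +kernel) (by decide +kernel) hs
  have a2 : ∀ {s : F}, Ld C M 4 (Ns chevB2 1) s → C.xg F 6 s * C.xg F 7 s ∈ M := fun hs => by
    simpa [B2_comm, CharTwo.neg_eq] using (Ld.of_mem (B := fun _ => False) (h1 5)).comm_mem hz
      (by decide +kernel) (by decide +kernel) (by decide +kernel) (by decide +kernel) hs
  have a3 : ∀ {x y : F}, C.xg F 6 x * C.xg F 7 y ∈ M → Ld C M 4 (· ∈ [6, 7]) y := fun {x y} h => by
    refine ⟨_, cj1 _ (ng_one_mem h1 (chevB2.simple 0)) h, ?_⟩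
    rw [← conj_mul, hn (by decide) (by decide +kernel), hn (by decide) (by decide +kernel),
      show chevB2.reflectRoot 0 6 = 6 by decide +kernel,
      show chevB2.reflectRoot 0 7 = 4 by decide +kernel,
      (Cert.commute_xg (r := 6) (s := 4) (by decide +kernel) x y).eq, inv_mul_cancel_left]
    exact xg_mem_UU (by decide +kernel) (by simp) _
  have a4 : ∀ {x y : F}, C.xg F 6 x * C.xg F 7 y ∈ M → Ld C M 5 (Ns chevB2 0) x := fun {x y} h => by
    refine ⟨_, cj1 _ (ng_one_mem h1 (chevB2.simple 1)) h, ?_⟩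
    rw [← conj_mul, hn (by decide) (by decide +kernel), hn (by decide) (by decide +kernel),
      show chevB2.reflectRoot 1 6 = 5 by decide +kernel, inv_mul_cancel_left]
    exact xg_mem_UU (by decide +kernel) (by decide +kernel) _
  have a5 : ∀ {s : F}, Ld C M 4 (· ∈ [6, 7]) s → Ld C M 5 (Ns chevB2 0) s := fun hs =>
    a4 (a2 (hs.mono (by decide +kernel)))
  have hfin := finite_Ld (C := C) (M := M) (i := 0) (by decide)
  have a6 := subset_of_pow 2 (B := {s | Ld C M 4 (· ∈ [6, 7]) s}) hfin (fun _ => a5)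
    fun t ht => by simpa using a3 (a1 ht (Ld.of_mem (h1 4)))
  let A := LdG M (γ := 5) (by decide +kernel)
    (nrm_of (C := C) (B := Ns chevB2 0) hz (by decide +kernel))
  have : Finite A := hfin
  obtain ⟨K, hK⟩ := exists_subfield A (Ld.of_mem (h1 5)) fun x hx y hy => a4 (a1 hx (a6 hy))
  refine ⟨K, fun r x hx => Chain.all h1 (θ := 7) (L := [4, 5]) (by decide +kernel)
    (by decide +kernel) (by decide +kernel) (fun c hc => ?_) r hx, fun i hi t ht => (hK t).2 ?_⟩
  · by_cases h0 : c = 0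
    · rw [h0]; exact zero_mem _
    have h2 := a1 ((hK c).1 hc) (a6 ((hK _).1 (inv_mem hc)))
    rw [mul_inv_cancel₀ h0, sq, mul_inv_cancel_right₀ h0] at h2
    simpa [mem_AS] using mul_mem (inv_mem (h1 6)) h2
  · obtain rfl | rfl : i = 0 ∨ i = 1 := by change i < 2 at hi; omega
    exacts [ht, a4 (a2 ht)]

end B2

end Cfsg.Agent.H73
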