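import Mathlib
import Cfsg.Agent.H73.Sub6

/-! Table data for the finite overgroups of Chevalley groups over subfields. -/

set_option autoImplicit false

namespace Cfsg.Agent.H73

open Cfsg.Lie

theorem genG2 : GenOK chevG2 3 1 5 [3, 5] [(0, [(6, 8), (9, 11)]), (1, [(10, 11)])] [6, 7] ∧
    A2OK chevG2 (fun _ => False) (· ∈ [1, -1]) (chevG2.nroots - 1) 6 10 := by decide +kernel

theorem genD4 : GenOK chevD4 1 1 5 [3, 5, 3, 3] [(0, [(14, 19), (17, 23)]), (1, [(22, 23)]),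
    (2, [(14, 16), (20, 23)]), (3, [(14, 15), (21, 23)])] [14, 12, 13, 18] ∧
    A2OK chevD4 (fun _ => False) (· ∈ [1, -1]) (chevD4.nroots - 1) 14 22 := by decide +kernel

theorem genF4 : GenOK chevF4 2 1 11 [8, 15, 21, 11] [(0, [(29, 36), (40, 47)]), (1, [(26, 29), (44, 47)]),
    (2, [(24, 26), (45, 47)]), (3, [(46, 47)])] [24, 25, 27, 33] ∧
    A2OK chevF4 (fun _ => False) (· ∈ [1, -1]) (chevF4.nroots - 1) 24 46 := by decide +kernel

theorem genE6 : GenOK chevE6 1 1 11 [8, 11, 15, 21, 15, 8] [(0, [(50, 61), (55, 71)]), (1, [(70, 71)]),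
    (2, [(47, 50), (66, 71)]), (3, [(46, 47), (69, 71)]), (4, [(47, 48), (68, 71)]),
    (5, [(48, 49), (67, 71)])] [46, 39, 37, 36, 42, 56] ∧
    A2OK chevE6 (fun _ => False) (· ∈ [1, -1]) (chevE6.nroots - 1) 46 70 := by decide +kernel

theorem genE7 : GenOK chevE7 1 2 34 [34, 49, 66, 96, 75, 52, 27] [(0, [(124, 125)]),
    (1, [(95, 99), (118, 125)]), (2, [(93, 94), (123, 125)]), (3, [(94, 95), (122, 125)]),
    (4, [(95, 96), (121, 125)]), (5, [(96, 97), (120, 125)]), (6, [(97, 98), (119, 125)])]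
    [93, 73, 69, 66, 64, 63, 78] ∧
    A2OK chevE7 (fun _ => False) (· ∈ [1, -1]) (chevE7.nroots - 1) 93 124 := by decide +kernel

theorem genE8 : GenOK chevE8 1 1 29 [46, 68, 91, 135, 110, 84, 57, 29] [(0, [(140, 168), (225, 239)]),
    (1, [(134, 146), (232, 239)]), (2, [(134, 140), (233, 239)]), (3, [(129, 134), (234, 239)]),
    (4, [(125, 129), (235, 239)]), (5, [(122, 125), (236, 239)]), (6, [(120, 122), (237, 239)]),
    (7, [(238, 239)])] [120, 121, 123, 126, 130, 135, 141, 162] ∧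
    A2OK chevE8 (fun _ => False) (· ∈ [1, -1]) (chevE8.nroots - 1) 120 238 := by decide +kernel

theorem spG2 : SpOK chevG2 3 1 5 [3, 5] [(1, [(10, 11)])] [(0, [(8, 9)])] [6, 7] 9 6 10 7 8 := by
  decide +kernel

theorem spF4 : SpOK chevF4 2 1 11 [8, 15, 21, 11] [(2, [(24, 26), (45, 47)]), (3, [(46, 47)])]
    [(0, [(40, 44)]), (1, [(33, 34), (39, 44)])] [24, 25, 27, 33] 44 24 46 33 40 := by
  decide +kernel

end Cfsg.Agent.H73
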