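import Mathlib
import Cfsg.Agent.H73.Sub6T

/-!
Finite overgroups of a Chevalley group over a subfield.
-/

set_option autoImplicit false

namespace Cfsg.Agent.H73

open Equiv H34 H34.Split H75 H40 H37 Cfsg.Lie

variable {D : ChevalleyDatum} {C : Cert D} {F : Type*} [Field F] {M : Subgroup (D.group F)}
  (p : ℕ) [Fact p.Prime] [CharP F p]

include p in
theorem concl (hD : D ∈ [chevG2, chevB2, chevD4, chevF4, chevE6, chevE7, chevE8]) [Finite M]
    (h1 : ∀ r, C.xg F r 1 ∈ M) : Concl C M := by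
  have hb : ∀ b : ℕ, b.Prime → p ≠ b → ((b : ℤ) : F) ≠ 0 := fun b hb h e => h
    ((Nat.prime_dvd_prime_iff_eq Fact.out hb).1 ((CharP.cast_eq_zero_iff F p b).1 (by simpa using e)))
  simp only [List.mem_cons, List.not_mem_nil, or_false] at hD
  rcases hD with rfl | rfl | rfl | rfl | rfl | rfl | rfl
  · by_cases hp : p = 3
    · subst hp; exact spG2.concl 3 h1
    · exact genG2.1.concl' p h1 (hb 3 Nat.prime_three hp) genG2.2
  · by_cases hp : p = 2
    · subst hp; exact B2_two h1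
    · exact B2_odd p h1 (by simpa using hb 2 Nat.prime_two hp)
  · exact genD4.1.concl' p h1 (by simp) genD4.2
  · by_cases hp : p = 2
    · subst hp; exact spF4.concl 2 h1
    · exact genF4.1.concl' p h1 (hb 2 Nat.prime_two hp) genF4.2
  · exact genE6.1.concl' p h1 (by simp) genE6.2
  · exact genE7.1.concl' p h1 (by simp) genE7.2
  · exact genE8.1.concl' p h1 (by simp) genE8.2

theorem ld_of_rad {J : Set (Fin D.rank)} {j : Fin D.rank} (hj : j ∈ J) {c a : D.group F}
    (hc : c ∈ Rad (C.split F) J) {t : F} (ha : (C.xg F (D.simple j) t)⁻¹ * a ∈ UU C F (Ns D j))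
    (hM : c * a ∈ M) : Ld C M (D.simple j) (Ns D j) t := by
  refine ⟨_, hM, ?_⟩
  rw [UU_Ns] at ha ⊢
  have := mul_mem (conj_mem_U_ne j (inv_mem (xg_mem_Up (simple_pos (C := C) j.2) t))
    (U_sub hc fun r hr => ⟨hr.1, fun e => hr.2 (e ▸ C.S.α_mem_Phi hj)⟩)) ha
  simpa [mul_assoc] using this

theorem xg_mul_self [CharP F 2] (r : ℕ) (t : F) : C.xg F r t * C.xg F r t = 1 := by
  rw [← Cert.xg_add, CharTwo.add_self_eq_zero, Cert.xg_zero]

theorem two_simple {w : List (ℕ × F)} (hn : (w.map Prod.fst).Nodup)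
    (hp : ∀ r ∈ w.map Prod.fst, D.IsPosRoot r) {i j : Fin D.rank} (hij : i ≠ j)
    (hi : (D.simple i, 1) ∈ w) (hj : (D.simple j, 1) ∈ w) (r : Fin D.nroots) :
    ∃ k, r ≠ C.S.α k ∧ C.wg F w ∉ (C.split F).U {r | C.S.pos r ∧ r ≠ C.S.α k} := by
  by_cases h : r = C.S.α i
  · exact ⟨j, fun e => hij (C.S.α_inj (h.symm.trans e)), wg_not_mem hn hp one_ne_zero hj⟩
  · exact ⟨i, h, wg_not_mem hn hp one_ne_zero hi⟩

variable (D) in
/-- A short simple root or two orthogonal simple roots. -/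
def TwoData : Prop := 1 < D.rank ∧ ((∃ i < D.rank, ∃ j < D.rank, D.simple j ≠ D.simple i ∧
  D.simple j ≠ D.neg (D.simple i) ∧ D.commTerms (D.simple i) (D.simple j) = []) ∨
    ∃ j < D.rank, ShortData D (D.nroots - 1) j)

theorem twoData (hD : D ∈ [chevG2, chevB2, chevD4, chevF4, chevE6, chevE7, chevE8]) :
    TwoData D := by
  simp only [List.mem_cons, List.not_mem_nil, or_false] at hD
  unfold TwoData
  rcases hD with rfl | rfl | rfl | rfl | rfl | rfl | rfl <;> decide +kernel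

include p in
theorem untw_le_fix (hD : D ∈ [chevG2, chevB2, chevD4, chevF4, chevE6, chevE7, chevE8]) [Finite M]
    (σ : F →+* F) (h0 : ∀ r t, σ t = t → C.xg F r t ∈ M)
    (h : ∀ i < D.rank, ∀ t, Ld C M (D.simple i) (Ns D i) t → σ t = t) :
    M ≤ (endTwist C σ).fix := by
  have hf : ∀ r t, σ t = t → C.xg F r t ∈ (endTwist C σ).fix := fun r t ht =>
    (C.V.fieldHom_xE σ r t).trans (by rw [ht]; rfl)
  have hΦ : ∀ i, ∀ t ∈ C.S.Phi ((Twist.one (C.split F)).T.orb i), C.S.pos t → t = C.S.α i :=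
    fun i t ht hp => by
      have : t ∈ C.S.inv (C.S.wJ ((Twist.one (C.split F)).T.orb i)) := by
        rw [C.S.inv_wJ]; exact ⟨ht, hp⟩
      rwa [H37.one_wJ, C.S.inv_s] at this
  let T : Two (C.split F) :=
    { τ := Twist.one _, μ := endTwist C σ, hρ := rfl, comm := fun _ => rfl, M := M
      le := fun _ _ => rfl
      U0 := fun u hu _ h => (endTwist_G1_le (K := M ⊓ (endTwist C σ).fix)
        (fun r t ht => ⟨h0 r t ht, hf r t ht⟩) inf_le_right (Twist.Up_le_G1 _ ⟨hu, h⟩)).1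
      V0 := fun i => ⟨C.xg F (D.neg (D.simple i)) 1, ⟨mem_U (r := C.S.neg (C.S.α i)) (And.intro
        (C.S.neg_mem_Phi (C.S.α_mem_Phi (SignedSys.Sym.mem_orb_self _ i)))
        (C.S.not_pos_neg.2 (C.S.pos_α i))) ((mem_X_neg_α C).2 ⟨1, rfl⟩), rfl⟩,
        hf _ _ (map_one σ), h0 _ _ (map_one σ), mt (Cert.xg_eq_one_iff (C := C)
          (C.V.basic.neg_lt _ (C.V.basic.simple_lt i i.2))).1 one_ne_zero⟩ }
  obtain ⟨h2, h3⟩ := twoData hD
  have hG : T.Good (chevLin C F) := good_of_orbW hD T σ rfl (Coord.compat_one _)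
    (fun i => ⟨[(D.simple i, 1)], by simp, by simpa using simple_pos (C := C) i.2,
      (one_UJ C i).2 ((mem_X_α C).2 ⟨1, (mul_one _).symm⟩), by simp, fun t ht hp => by
        rw [hΦ i t ht hp]
        exact ⟨by simp [C.simple_val], i, rfl⟩⟩) fun i e => by
      have : Nontrivial (Fin D.rank) := Fin.nontrivial_iff_two_le.2 h2
      obtain ⟨j, hj⟩ := exists_ne i
      exact hj ((SignedSys.Sym.one_orb i).le (e.ge (Set.mem_univ j)))
  have hθ := topData hD
  have : Finite T.M := ‹Finite M›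
  refine chev_le_fix T σ rfl hG (fun u hu hM => T.U_fix (fun i c hc a ha hM => ?_) hu hM) p
    (θ := ⟨D.nroots - 1, hθ.1.1⟩) hθ (h0 _ _ (map_one σ)) (SignedSys.Sym.one_stable _) fun hp => ?_
  · obtain ⟨t, rfl⟩ := (mem_X_α C).1 ((one_UJ C i).1 ha)
    exact hf _ t (h i i.2 t (ld_of_rad (SignedSys.Sym.mem_orb_self _ i) hc
      (by rw [show C.V.xE F _ t = C.xg F _ t from rfl, inv_mul_cancel]; exact one_mem _) hM))
  subst hp
  rcases h3.symm with ⟨j, hj, h3⟩ | ⟨i, hi, j, hj, h3⟩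
  · refine ⟨_, xg_mem_Up (simple_pos (C := C) hj) 1, h0 _ _ (map_one σ), xg_mul_self _ _,
      fun w hw => ⟨⟨j, hj⟩, ShortData.ne h3 hw, ?_⟩⟩
    simpa using wg_not_mem (C := C) (w := [(D.simple j, (1 : F))]) (by simp)
      (by simpa using simple_pos (C := C) hj) (j := ⟨j, hj⟩) one_ne_zero (by simp)
  · have hp : ∀ r ∈ [(D.simple i, (1 : F)), (D.simple j, 1)].map Prod.fst, D.IsPosRoot r := by
      simpa using ⟨simple_pos (C := C) hi, simple_pos (C := C) hj⟩
    refine ⟨_, Cert.wg_mem_Up hp, Cert.wg_mem (by simp [T, h0]), ?_, fun w _ =>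
      two_simple (by simpa using h3.1.symm) hp (i := ⟨i, hi⟩) (j := ⟨j, hj⟩)
        (fun e => h3.1 (by rw [Fin.mk.inj e])) (by simp) (by simp) _⟩
    simp only [Cert.wg_cons, Cert.wg_nil, mul_one]
    rw [(Cert.commute_xg ⟨C.V.basic.simple_lt i hi, C.V.basic.simple_lt j hj, h3⟩ 1 1).symm.mul_mul_mul_comm,
      xg_mul_self, xg_mul_self, mul_one]

open Polynomial in
theorem mem_iff_pow_card {F : Type*} [Field F] (K : Subfield F) [Finite K] {x : F} :
    x ∈ K ↔ x ^ Nat.card K = x := by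
  have := Fintype.ofFinite K
  have h1 : 1 < Fintype.card K := Fintype.one_lt_card
  have h2 := FiniteField.roots_X_pow_card_sub_X K
  have h3 : Splits (Polynomial.X ^ Fintype.card K - Polynomial.X : K[X]) := by
    rw [splits_iff_card_roots, h2, ← Finset.card_def, Finset.card_univ,
      FiniteField.X_pow_card_sub_X_natDegree_eq _ h1]
  have := h2 ▸ h3.roots_map (Subfield.subtype _) ▸ Multiset.mem_map (b := x)
  simpa [sub_eq_zero, iff_comm, FiniteField.X_pow_card_sub_X_ne_zero F h1]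

theorem card_eq_pow {E K : Type*} [Field E] [Field K] [Finite K] (f : E →+* K) :
    ∃ r, 1 ≤ r ∧ Nat.card K = Nat.card E ^ r := by
  let _ := f.toAlgebra
  exact ⟨_, Module.finrank_pos, Module.natCard_eq_pow_finrank⟩

theorem finite_of_le [Finite M] {K : Subfield F} {r : ℕ} (hr : r < D.nroots)
    (h : ∀ x ∈ K, C.xg F r x ∈ M) : Finite K :=
  (Set.Finite.subset (s := (AS C M r : Set F)) (finite_AS hr) h).to_subtype

end Cfsg.Agent.H73
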