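import Mathlib
import Cfsg.Agent.H73.Sub7
import Cfsg.Agent.H34.Twist3

/-!
Overgroups of the subfield points in a twisted Chevalley group: generalities.
-/

set_option autoImplicit false

namespace Cfsg.Agent.H73

open Equiv H34 H34.Split H75 H40 H37 Cfsg.Lie

variable {D : ChevalleyDatum} {C : Cert D} {F : Type*} [Field F]

variable (D) in
/-- The action of a word in the simple reflections on the indices of the roots. -/
def rw (l : List ℕ) (r : ℕ) : ℕ := l.foldr D.reflectRoot r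

theorem word_val (l : List (Fin D.rank)) (r : Fin D.nroots) :
    (C.S.word l r : ℕ) = rw D (l.map Fin.val) r := by
  induction l with
  | nil => rfl
  | cons i l ih => rw [C.S.word_cons, Perm.mul_apply, sgn_s, RS.σ_apply, C.refl_val, ih]; rfl

theorem Sgl.conj {r s k : ℕ} {N : ℤ} (h : Sgl D (fun _ => False) r s k N fun _ => False) (t u : F) :
    C.xg F r t * C.xg F s u * (C.xg F r t)⁻¹ = C.xg F k (N * u * -t) * C.xg F s u := by
  rw [← h.eq (by simp), inv_mul_cancel_right]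

theorem comm_two {G : Type*} [Group G] {a a' b b' c c' : G} (h : a * b * a⁻¹ * b⁻¹ = c)
    (h' : a' * b' * a'⁻¹ * b'⁻¹ = c') (h1 : Commute a' b) (h2 : Commute a b') (h3 : Commute c' a)
    (h4 : Commute c' b) : a * a' * (b * b') * (a * a')⁻¹ * (b * b')⁻¹ = c * c' := by
  have e : a' * b' * a'⁻¹ = c' * b' := by rw [← h', inv_mul_cancel_right]
  calc _ = a * (a' * b) * b' * a'⁻¹ * (b' * a)⁻¹ * b⁻¹ := by group
    _ = a * b * (a' * b' * a'⁻¹) * (a * b')⁻¹ * b⁻¹ := by rw [h1.eq, h2.eq]; group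
    _ = a * b * (c' * a⁻¹ * b⁻¹) := by rw [e]; group
    _ = _ := by rw [h3.inv_right.eq, mul_assoc a⁻¹, h4.inv_right.eq, ← h]; group

theorem clo_of_comm {A : ℕ → Prop} (hA : ∀ r < D.nroots, A r → D.IsPosRoot r ∧
    ∀ s < D.nroots, A s → CT D (fun _ => False) r s fun _ => False) :
    Clo (C.split F) {r | A r} fun _ => 0 := fun r hr s hs x hx y hy => by
  obtain ⟨t, rfl⟩ := Cert.mem_X.1 hx
  obtain ⟨u, rfl⟩ := Cert.mem_X.1 hy
  exact U_sub (((hA r r.2 hr).2 s s.2 hs).mem (by simp) r.2 s.2 t u) (by simp)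

theorem ld_of_rad' {M : Subgroup (D.group F)} {J : Set (Fin D.rank)} {j : Fin D.rank} (hj : j ∈ J)
    {r k : ℕ} (e : D.simple j = r ∧ j = k) {c a : D.group F} (hc : c ∈ Rad (C.split F) J) {t : F}
    (ha : (C.xg F r t)⁻¹ * a ∈ UU C F (Ns D k)) (hM : c * a ∈ M) : Ld C M r (Ns D k) t := by
  obtain ⟨rfl, rfl⟩ := e
  exact ld_of_rad hj hc ha hM

theorem wg_mul_self [CharP F 2] {w : List (ℕ × F)} (h : (w.map Prod.fst).Pairwise fun r s =>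
    r < D.nroots ∧ s < D.nroots ∧ s ≠ r ∧ s ≠ D.neg r ∧ D.commTerms r s = []) :
    C.wg F w * C.wg F w = 1 := by
  induction w with
  | nil => simp
  | cons a w ih =>
    rw [List.map_cons, List.pairwise_cons] at h
    have : Commute (C.wg F w) (C.xg F a.1 a.2) := Commute.list_prod_left _ _ fun x hx => by
      obtain ⟨b, hb, rfl⟩ := List.mem_map.1 hx
      exact (Cert.commute_xg (h.1 _ (List.mem_map_of_mem hb)) _ _).symm
    rw [Cert.wg_cons, this.mul_mul_mul_comm, xg_mul_self, ih h.2, one_mul]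

variable (C F) in
/-- A subgroup `M` of the fixed points of a twisting map containing the subfield points. -/
structure TwSet where
  τ : (C.split F).Twist
  φ : F →+* F
  π : ℕ → ℕ
  η : ℕ → ℤ
  map : ∀ r < D.nroots, ∀ t, τ.σ (C.xg F r t) = C.xg F (π r) (η r * φ t)
  ρ_val : ∀ r : Fin D.nroots, (τ.T.ρ r : ℕ) = π r
  ω : IsAut D negP D.neg fun _ => -1
  σω : ∀ g, τ.σ (C.opp F ω g) = C.opp F ω (τ.σ g)
  hW : OrbW τ
  pl : List ℕ
  gw : List (List ℕ)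
  words : IsOrbWords τ.T pl gw
  M : Subgroup (D.group F)
  le : M ≤ τ.fix
  h0 : ∀ g ∈ τ.G1, g ∈ (endTwist C φ).fix → g ∈ M

theorem endTwist_xg (φ : F →+* F) (r : ℕ) (t : F) :
    (endTwist C φ).σ (C.xg F r t) = C.xg F r (φ t) := C.V.fieldHom_xE φ r t

namespace TwSet

variable (T : TwSet C F)

theorem exists_UJ (i : Fin D.rank) : ∃ w : List (ℕ × F), (∀ p ∈ w, p.1 < D.nroots ∧ p.2 = 1) ∧
    C.wg F w ∈ T.τ.UJ i ∧ C.wg F w ≠ 1 := by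
  obtain ⟨w, h1, h2, h3, h4, h5⟩ := T.hW i
  refine ⟨w, fun p hp => ⟨(h2 _ (List.mem_map_of_mem hp)).1, h4 p hp⟩, h3, fun e => ?_⟩
  have := (h5 _ (C.S.α_mem_Phi (SignedSys.Sym.mem_orb_self _ i)) (C.S.pos_α i)).1
  rw [sgn_α, C.simple_val] at this
  exact wg_not_mem (C := C) h1 h2 one_ne_zero this (e ▸ one_mem _)

/-- The pair of twists. -/
noncomputable def two : Two (C.split F) where
  τ := T.τ
  μ := endTwist C T.φ
  hρ := rfl
  comm g := DFunLike.congr_fun (C.V.hom_ext (φ := T.τ.σ.comp (endTwist C T.φ).σ)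
    (ψ := (endTwist C T.φ).σ.comp T.τ.σ) fun r hr t => by
      show T.τ.σ ((endTwist C T.φ).σ (C.xg F r t)) = (endTwist C T.φ).σ (T.τ.σ (C.xg F r t))
      rw [endTwist_xg, T.map r hr, T.map r hr, endTwist_xg, map_mul, map_intCast]) g
  M := T.M
  le := T.le
  U0 u hu h1 h2 := T.h0 u (T.τ.Up_le_G1 ⟨hu, h1⟩) h2
  V0 i := by
    obtain ⟨w, h1, h2, h3⟩ := T.exists_UJ i
    have h4 := T.τ.opp_mem_VJ _ (Cert.opp_mem_X T.ω) T.σω h2
    have h5 : C.opp F T.ω (C.wg F w) ∈ (endTwist C T.φ).fix := by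
      rw [Cert.opp_wg T.ω fun p hp => (h1 p hp).1]
      refine wg_mem_endFix _ fun p hp => ?_
      obtain ⟨q, hq, rfl⟩ := List.mem_map.1 hp
      simp [(h1 q hq).2]
    exact ⟨_, h4, h5, T.h0 _ (T.τ.VJ_le_G1 i h4) h5, fun e => h3 (by
      rw [← Cert.opp_opp T.ω (C.wg F w), e, map_one])⟩

theorem exists_conj (L : List ℕ) (hL : ∀ i ∈ L, i < D.rank) {γ : ℕ} (hγ : γ < D.nroots) :
    ∃ m ∈ T.M, ∃ c : F, c ≠ 0 ∧ T.φ c = c ∧ (∀ t, m * C.xg F γ t * m⁻¹ =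
      C.xg F (rw D (L.flatMap (T.gw.getD · [])) γ) (c * t)) ∧ ∀ A B : ℕ → Prop,
      (∀ r < D.nroots, A r → B (rw D (L.flatMap (T.gw.getD · [])) r)) →
        ∀ g ∈ UU C F A, m * g * m⁻¹ ∈ UU C F B := by
  obtain ⟨w, hw, e⟩ : ∃ w ∈ T.τ.T.fixJ Set.univ,
      ∀ r : Fin D.nroots, (w r : ℕ) = rw D (L.flatMap (T.gw.getD · [])) r := by
    induction L with
    | nil => exact ⟨1, one_mem _, fun _ => rfl⟩
    | cons i L ih =>
      obtain ⟨w, hw, e⟩ := ih fun j hj => hL j (List.mem_cons_of_mem _ hj)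
      obtain ⟨g, h1, -, h2⟩ := T.words.word ⟨i, hL i List.mem_cons_self⟩
      refine ⟨_, mul_mem (T.τ.wJ_mem ⟨i, hL i List.mem_cons_self⟩) hw, fun r => ?_⟩
      rw [Perm.mul_apply, ← h2, word_val, h1, e, List.flatMap_cons, rw, rw, rw, List.foldr_append]
  obtain ⟨m, hm, hm1, hm2, rfl⟩ := T.two.lift hw
  obtain ⟨c, -, hc⟩ := (Cert.nu_spec (C := C) (Cert.mem_N.1 hm)).2
  have h1 : ∀ t, m * C.xg F γ t * m⁻¹ = C.xg F ((C.split F).ν m ⟨γ, hγ⟩) (c ⟨γ, hγ⟩ * t) :=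
    fun t => Subtype.ext (hc ⟨γ, hγ⟩ t)
  refine ⟨m, hm1, c ⟨γ, hγ⟩, Units.ne_zero _, ?_, fun t => by rw [h1, e], fun A B h g hg =>
    conj_U hm (fun r hr => ?_) hg⟩
  · have h2 := congrArg (endTwist C T.φ).σ (h1 1)
    rw [map_mul, map_mul, map_inv, show (endTwist C T.φ).σ m = m from hm2, endTwist_xg,
      endTwist_xg, map_one, h1, mul_one] at h2
    exact (Cert.xg_injective (Fin.is_lt _) h2).symm
  · rw [Set.mem_ofPred_eq, e]
    exact h r r.2 hr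

variable {T}

theorem ld_conj (L : List ℕ) {γ δ : ℕ} {A B : ℕ → Prop} (h : (∀ i ∈ L, i < D.rank) ∧
    γ < D.nroots ∧ rw D (L.flatMap (T.gw.getD · [])) γ = δ ∧
      ∀ r < D.nroots, A r → B (rw D (L.flatMap (T.gw.getD · [])) r)) :
    ∃ c : F, c ≠ 0 ∧ T.φ c = c ∧ ∀ t, Ld C T.M γ A t → Ld C T.M δ B (c * t) := by
  obtain ⟨m, hm, c, h1, h2, h3, h4⟩ := T.exists_conj L h.1 h.2.1
  refine ⟨c, h1, h2, fun t ⟨u, hu, h5⟩ => ⟨_, cj1 _ hm hu, ?_⟩⟩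
  have := h4 A B h.2.2.2 _ h5
  rwa [← conj_mul, ← conj_inv, h3, h.2.2.1] at this

theorem xg_mem {r : ℕ} (hr : r < D.nroots ∧ T.π r = r ∧ T.η r = 1) {t : F} (ht : T.φ t = t) :
    C.xg F r t ∈ T.M := by
  have hf : C.xg F r t ∈ T.τ.fix := by
    rw [Twist.mem_fix, T.map r hr.1, hr.2.1, hr.2.2, ht, Int.cast_one, one_mul]
  refine T.h0 _ ?_ ((endTwist_xg _ _ _).trans (by rw [ht]; rfl))
  by_cases hp : C.S.pos ⟨r, hr.1⟩
  · exact T.τ.Up_le_G1 ⟨Cert.xg_mem_U hr.1 hp t, hf⟩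
  · exact T.τ.Vn_le_G1 ⟨Cert.xg_mem_U (A := {r | ¬ C.S.pos r}) hr.1 hp t, hf⟩

theorem ld_smul {r γ : ℕ} (hr : (r < D.nroots ∧ T.π r = r ∧ T.η r = 1) ∧
    (D.neg r < D.nroots ∧ T.π (D.neg r) = D.neg r ∧ T.η (D.neg r) = 1) ∧ γ < D.nroots ∧
      D.pairing r γ = 1) {B : ℕ → Prop} {c t : F} (hc : c ≠ 0) (hc' : T.φ c = c)
    (h : Ld C T.M γ B t) : Ld C T.M γ B (c * t) := by
  obtain ⟨u, hu, h⟩ := h
  refine ⟨_, cj1 _ (Cert.hg_mem1 (T.φ.eqLocusField (RingHom.id F)) (fun _ => xg_mem hr.1)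
    (fun _ => xg_mem hr.2.1) hc') hu, ?_⟩
  have := conj_U_H (Cert.hg_mem_H hr.1.1 hc) h
  rwa [← conj_mul, ← conj_inv, Cert.hg_conj hr.1.1 hr.2.2.1 hc, hr.2.2.2, zpow_one] at this

theorem ld_strip {γ : ℕ} {A B : List ℕ} (h1 : ∀ r < D.nroots, r ∈ γ :: A ++ B → D.IsPosRoot r ∧
    ∀ s < D.nroots, s ∈ γ :: A ++ B → CT D (fun _ => False) r s fun _ => False)
    (h2 : γ < D.nroots ∧ (∀ r ∈ γ :: A, T.π r ∈ γ :: A ∧ r ∉ B) ∧ ∀ r ∈ B, T.π r = r ∧ T.η r = 1)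
    {t : F} (h : Ld C T.M γ (· ∈ A ++ B) t) : Ld C T.M γ (· ∈ A) t := by
  obtain ⟨u, hu, h⟩ := h
  have h3 : ∀ L : List ℕ, L ⊆ γ :: A ++ B → Clo (C.split F) {r | (r : ℕ) ∈ L} fun _ => 0 :=
    fun L hL => clo_of_comm (A := (· ∈ L)) fun r hr h =>
      ⟨(h1 r hr (hL h)).1, fun s hs h' => (h1 r hr (hL h)).2 s hs (hL h')⟩
  obtain ⟨a, ha, b, hb, e⟩ := (h3 (A ++ B) (by simp)).filt.exists_mul (Set.toFinite _)
    (T₁ := {r | (r : ℕ) ∈ A}) (T₂ := {r | (r : ℕ) ∈ B}) (fun r hr => List.mem_append.1 hr)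
    (by rw [gen_eq_U]; exact h)
  rw [gen_eq_U] at ha hb
  have ha' : C.xg F γ t * a ∈ UU C F (· ∈ γ :: A) :=
    mul_mem (xg_mem_UU (A := (· ∈ γ :: A)) h2.1 List.mem_cons_self t)
      (U_sub ha fun r hr => List.mem_cons_of_mem _ hr.2)
  have hb' : b ∈ UU C F (· ∈ B) := U_sub hb fun r hr => hr.2
  have e' : u = C.xg F γ t * a * b := by rw [mul_assoc, ← e, mul_inv_cancel_left]
  have h4 := T.τ.map_U (A' := {r | (r : ℕ) ∈ γ :: A}) (fun r hr => by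
    rw [Set.mem_ofPred_eq, T.ρ_val]; exact (h2.2.1 r hr).1) ha'
  have h5 := T.τ.map_U (A' := {r | (r : ℕ) ∈ B}) (fun r hr => by
    rw [Set.mem_ofPred_eq, T.ρ_val, (h2.2.2 r hr).1]; exact hr) hb'
  have h6 : T.τ.σ b * b⁻¹ = (T.τ.σ (C.xg F γ t * a))⁻¹ * (C.xg F γ t * a) := by
    rw [eq_inv_mul_iff_mul_eq, ← mul_assoc, ← map_mul, ← e', T.τ.mem_fix.1 (T.le hu), e',
      mul_inv_cancel_right]
  have h7 := mul_mem (inv_mem h4) ha'
  rw [← h6] at h7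
  replace h7 := mem_U_inter (P := C.split F) (h3 (γ :: A) (List.subset_append_left _ _))
    (h3 B (List.subset_append_right _ _))
    (fun r hr => (C.pos_iff r).2 (h1 r r.2 (List.mem_append_left _ hr)).1)
    (fun r hr => (C.pos_iff r).2 (h1 r r.2 (List.mem_append_right _ hr)).1) h7
    (mul_mem h5 (inv_mem hb'))
  replace h7 := eq_one_of_mem_U (fun (r : Fin D.nroots) hr => (h2.2.1 r hr.1).2 hr.2) h7
  rw [mul_inv_eq_one] at h7
  have h8 : T.τ.σ b = (endTwist C T.φ).σ b := (U_le (K := T.τ.σ.eqLocus (endTwist C T.φ).σ)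
    fun r hr x hx => by
      obtain ⟨s, rfl⟩ := Cert.mem_X.1 hx
      show T.τ.σ _ = (endTwist C T.φ).σ _
      rw [T.map r r.2, endTwist_xg, (h2.2.2 r hr).1, (h2.2.2 r hr).2, Int.cast_one, one_mul]) hb'
  have h9 := T.two.U0 b (U_sub hb' fun r hr =>
    (C.pos_iff r).2 (h1 r r.2 (List.mem_append_right _ hr)).1) h7 (h8.symm.trans h7)
  refine ⟨_, mul_mem hu (inv_mem h9), ?_⟩
  rw [e', mul_inv_cancel_right, inv_mul_cancel_left]
  exact U_sub ha fun r hr => hr.2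

theorem wg_mem {i : Fin D.rank} {L : List ℕ} {w : F → List (ℕ × F)}
    (hL : ∀ r : Fin D.nroots, (r : ℕ) ∈ D.simple i :: L → r ∈ C.S.inv (C.S.wJ (T.τ.T.orb i)))
    (hL' : ∀ r < D.nroots, r ∈ L → Ns D i r) (hw : ∀ t, ∀ p ∈ w t, p.1 < D.nroots ∧ p.1 ∈ L)
    (hU : ∀ u ∈ T.τ.UJ i, ∃ t, u = C.wg F ((D.simple i, t) :: w t)) {t : F}
    (h : Ld C T.M (D.simple i) (· ∈ L) t) : C.wg F ((D.simple i, t) :: w t) ∈ T.M := by
  obtain ⟨u, hu, h⟩ := h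
  obtain ⟨s, rfl⟩ := hU u (T.τ.mem_UJ.2 ⟨by
    have := mul_mem (xg_mem_UU (A := (· ∈ D.simple i :: L)) (C.V.basic.simple_lt i i.2) (by simp) t)
      (UU_mono (fun r _ h => List.mem_cons_of_mem _ h) h)
    rw [mul_inv_cancel_left] at this
    exact U_sub this hL, T.le hu⟩)
  have h1 := UU_mono hL' h
  have h2 : C.wg F (w s) ∈ UU C F (Ns D i) := Cert.wg_mem fun p hp =>
    xg_mem_UU (hw s p hp).1 (hL' _ (hw s p hp).1 (hw s p hp).2) _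
  rw [UU_Ns] at h1 h2
  have h3 := (simple_comp_unique i ((mem_X_α C).2 ⟨t, rfl⟩) h1 ((mem_X_α C).2 ⟨s, rfl⟩) h2
    (by rw [Cert.wg_cons]; exact mul_inv_cancel_left _ _)).1
  rwa [Cert.xg_injective (C := C) (C.V.basic.simple_lt i i.2) h3]

theorem G1_le (h : ∀ i, T.τ.UJ i ≤ T.M) : T.τ.G1 ≤ T.M := T.τ.G1_le h fun i v hv => by
  obtain ⟨m, hm, hm1, -, e⟩ := T.two.lift (T.τ.wJ_mem i)
  simpa [mul_assoc] using cj1 T.M hm1 (h i (T.τ.conj_mem_UJ hm (T.le hm1) e hv))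

theorem le_fix (hD : D ∈ [chevG2, chevB2, chevD4, chevF4, chevE6, chevE7, chevE8]) (p : ℕ)
    [Fact p.Prime] [CharP F p] [Finite T.M]
    (h1 : (∀ k < D.rank, ∀ j < D.rank, D.cartan (T.pl.getD k 0) (D.simple (T.pl.getD j 0)) =
      D.cartan k (D.simple j)) ∧ (∃ k < D.rank, T.pl.getD k 0 = k) ∧
      (T.π (D.nroots - 1) = D.nroots - 1 ∧ T.η (D.nroots - 1) = 1) ∧ ∀ i < D.rank,
        D.cartan (T.pl.getD i 0) (D.nroots - 1) = 0 ↔ D.cartan i (D.nroots - 1) = 0)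
    {L : List ℕ} (h2 : L.Nodup ∧ (∀ r ∈ L, D.IsPosRoot r) ∧ (L.Pairwise fun r s =>
      r < D.nroots ∧ s < D.nroots ∧ s ≠ r ∧ s ≠ D.neg r ∧ D.commTerms r s = []) ∧
      ∃ i j : Fin D.rank, i ≠ j ∧ D.simple i ∈ L ∧ D.simple j ∈ L)
    (h3 : C.wg F (L.map (·, 1)) ∈ T.M)
    (hloc : ∀ i, ∀ c ∈ Rad (C.split F) (T.τ.T.orb i), ∀ a ∈ T.τ.UJ i, c * a ∈ T.M →
      a ∈ (endTwist C T.φ).fix) : T.M ≤ (endTwist C T.φ).fix := by
  obtain ⟨h4, ⟨k, hk, h5⟩, h6, h7⟩ := h1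
  obtain ⟨h8, h9, h10, i, j, hij, hi, hj⟩ := h2
  have hG : T.two.Good (chevLin C F) := good_of_orbW hD T.two T.φ rfl
    (rsCoord1_compat C.R T.τ.T fun k j => by
      rw [C.A_eq, C.A_eq, T.words.pi, T.words.pi, h4 k k.2 j j.2]) T.hW fun l e => by
      have h11 : T.τ.T.π ⟨k, hk⟩ = ⟨k, hk⟩ := Fin.ext ((T.words.pi _).trans h5)
      have h12 : ∀ m : Fin D.rank, ⟨k, hk⟩ = m := fun m => Perm.SameCycle.eq_of_left
        ((T.τ.T.orb_eq_of_mem (e.ge (Set.mem_univ ⟨k, hk⟩))).ge (e.ge (Set.mem_univ m))) h11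
      exact hij ((h12 i).symm.trans (h12 j))
  have hθ := topData hD
  have : Finite T.two.M := ‹Finite T.M›
  have e : (L.map (·, (1 : F))).map Prod.fst = L := by simp [List.map_map, Function.comp_def]
  refine chev_le_fix T.two T.φ rfl hG (fun u hu hM => T.two.U_fix hloc hu hM) p
    (θ := ⟨D.nroots - 1, hθ.1.1⟩) hθ (xg_mem ⟨hθ.1.1, h6⟩ (map_one _)) (fun i => ?_) fun hp => ?_
  · show D.cartan (T.τ.T.π i) _ = 0 ↔ _
    rw [T.words.pi]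
    exact h7 i i.2
  · subst hp
    exact ⟨_, Cert.wg_mem_Up (e.symm ▸ h9), h3, wg_mul_self (e.symm ▸ h10), fun w _ =>
      two_simple (e.symm ▸ h8) (e.symm ▸ h9) hij (List.mem_map.2 ⟨_, hi, rfl⟩)
        (List.mem_map.2 ⟨_, hj, rfl⟩) _⟩

end TwSet

theorem orbW_of_list {ρ : ℕ → ℕ} {pl : List ℕ} (σ : TwHom C F ρ) (T : TwData D ρ pl) (h)
    (hU : ∀ i : Fin D.rank, ∃ L, OrbList D pl i L ∧ (∀ r ∈ L, ∃ j < D.rank, r = D.simple j) ∧
      C.wg F (L.map (·, 1)) ∈ (σ.twist T h).UJ i) : OrbW (σ.twist T h) := fun i => by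
  obtain ⟨L, h1, h2, h3⟩ := hU i
  have e : (L.map (·, (1 : F))).map Prod.fst = L := by simp [List.map_map, Function.comp_def]
  refine ⟨_, e.symm ▸ h1.1, e.symm ▸ h1.pos, h3, by simp, fun t ht hp => ?_⟩
  have h4 := (σ.mem_orbList T h1 t).2 (by rw [C.S.inv_wJ]; exact ⟨ht, hp⟩)
  obtain ⟨j, hj, e⟩ := h2 _ h4
  exact ⟨List.mem_map_of_mem h4, ⟨j, hj⟩, Fin.ext (e.trans (C.simple_val ⟨j, hj⟩).symm)⟩

end Cfsg.Agent.H73
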