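import Mathlib
import Cfsg.Agent.H73.Sub8
import Cfsg.Agent.H34.TwE6

/-!
The subfield points of the twisted group of type `E₆` form a maximal subgroup.
-/

set_option autoImplicit false

namespace Cfsg.Agent.H73

open Equiv H34 H34.Split H75 H40 H37 Cfsg.Lie

theorem mem_orb_of_list {D : ChevalleyDatum} {C : Cert D} {F : Type*} [Field F] {ρ : ℕ → ℕ}
    {pl : List ℕ} (σ : TwHom C F ρ) (T : TwData D ρ pl) {i : Fin D.rank} {L : List ℕ}
    (h : OrbList D pl i L) {j : Fin D.rank} (hj : D.simple j ∈ L) : j ∈ (σ.sym T).orb i := by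
  have := (σ.mem_orbList T h (C.S.α j)).1 (by rwa [sgn_α, C.simple_val])
  rw [C.S.inv_wJ] at this
  exact C.S.α_mem_Phi_iff.1 this.1

variable {K : Type*} [Field K] (φ : K →+* K) (h2 : ∀ t, φ (φ t) = t)
  {M : Subgroup (chevE6.group K)} (le : M ≤ (tE6 φ h2).G1)
  (h0 : ∀ g ∈ (tE6 φ h2).G1, g ∈ (endTwist cE6 φ).fix → g ∈ M)

/-- The setting in type `E₆`. -/
noncomputable def setE6 : TwSet cE6 K where
  τ := tE6 φ h2
  φ := φ
  π := piT grTE6
  η := etaT grTE6
  map := (sE6 φ).map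
  ρ_val := twDataE6.ρP_val
  ω := twDataE6.opp
  σω := (sE6 φ).σ_opp twDataE6
  hW := orbW_of_list _ _ _ fun i => by
    rcases orbE6 i with ⟨r, hr, h⟩ | ⟨p, hp, h⟩
    · exact ⟨_, h, by clear h; revert r; decide +kernel,
        (E6_UJ1 φ h2 hr h).2 ⟨1, map_one φ, rfl⟩⟩
    · exact ⟨_, h, by clear h; revert p; decide +kernel, (E6_UJ2 φ h2 hp h).2 ⟨1, by simp⟩⟩
  pl := symE6
  gw := orbwE6
  words := isOrbWords_E6 (isCartan_E6 cE6) _ (E6_π φ h2)
  M := M
  le := le.trans (tE6 φ h2).G1_le_fix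
  h0 := h0

include le h0 in
set_option synthInstance.maxSize 1024 in
theorem E6_max [Finite M] (p : ℕ) [Fact p.Prime] [CharP K p] :
    M ≤ (endTwist cE6 φ).fix ∨ (tE6 φ h2).G1 ≤ M := by
  let T := setE6 φ h2 le h0
  have : Finite T.M := ‹Finite M›
  have hz : ∀ n : ℤ, False → (n : K) = 0 := fun _ h => h.elim
  have hN : Nrm cE6 K (· ∈ [66] ++ [69, 70, 71]) := nrm_of hz (by decide +kernel)
  let A := LdG M (γ := 68) (by decide +kernel) hN
  have hs : ∀ {c t}, φ c = c → t ∈ A → c * t ∈ A := fun {c t} hc ht => by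
    by_cases h : c = 0
    · rw [h, zero_mul]; exact zero_mem _
    · exact TwSet.ld_smul (T := T) (r := 65) (by dsimp only [T, setE6]; decide +kernel) h hc ht
  have h3 : cE6.wg K [(42, 1), (37, 1)] ∈ M :=
    h0 _ (by simpa using (E6_mem2 φ h2 (p := (42, 37)) (by simp) 1).1) (wg_mem_endFix _ (by simp))
  have h4 : Ld cE6 M 42 (· ∈ [37]) 1 := ⟨_, h3, by
    rw [Cert.wg_cons, inv_mul_cancel_left, Cert.wg_cons, Cert.wg_nil, mul_one]
    exact xg_mem_UU (A := (· ∈ [37])) (r := 37) (by decide +kernel) (by simp) _⟩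
  by_cases hA : ∀ t ∈ A, φ t = t
  · refine Or.inl (TwSet.le_fix (T := T) (by simp) p (by dsimp only [T, setE6]; decide +kernel)
      (L := [42, 37]) ⟨by decide, by decide +kernel, by decide +kernel, (2 : Fin 6), (4 : Fin 6),
        (by decide : (2 : Fin 6) ≠ 4), by decide +kernel⟩ h3 fun i c hc a ha hM => ?_)
    rcases orbE6 i with ⟨r, hr, h⟩ | ⟨q, hq, h⟩
    · obtain ⟨t, ht, rfl⟩ := (E6_UJ1 φ h2 hr h).1 ha
      exact wg_mem_endFix φ (by simpa using ht)
    obtain ⟨t, rfl⟩ := (E6_UJ2 φ h2 hq h).1 ha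
    suffices φ t = t from wg_mem_endFix φ (by simp [this])
    simp only [List.mem_cons, List.not_mem_nil, or_false] at hq
    rcases hq with rfl | rfl
    · have h5 : Ld cE6 M 36 (Ns chevE6 5) (φ t) := ld_of_rad' (j := (5 : Fin 6))
        (mem_orb_of_list (sE6 φ) twDataE6 h (by decide +kernel)) (by decide +kernel) hc (by
          rw [Cert.wg_cons, Cert.wg_cons, Cert.wg_nil, mul_one,
            (Cert.commute_xg (r := 56) (s := 36) (by decide +kernel) _ _).eq, inv_mul_cancel_left]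
          exact xg_mem_UU (A := Ns chevE6 5) (r := 56) (by decide +kernel) (by decide +kernel) _) hM
      obtain ⟨c, h6, h7, h8⟩ := TwSet.ld_conj (T := T) [2, 3, 2, 1, 3, 0] (γ := 42) (δ := 67)
        (A := (· ∈ [37])) (B := (· ∈ [55])) (by dsimp only [T, setE6]; decide +kernel)
      have h9 := hA _ (h5.step hz hN (by decide +kernel) (by decide +kernel) (by decide +kernel)
        (by decide +kernel) (N := -1) (by decide +kernel) (by decide +kernel) (h8 1 h4))
      simpa [h2, h6, show φ c = c from h7, eq_comm] using h9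
    · have h5 : Ld cE6 M 42 (Ns chevE6 2) t := ld_of_rad' (j := (2 : Fin 6))
        (mem_orb_of_list (sE6 φ) twDataE6 h (by decide +kernel)) (by decide +kernel) hc (by
          rw [Cert.wg_cons, Cert.wg_cons, Cert.wg_nil, mul_one, inv_mul_cancel_left]
          exact xg_mem_UU (A := Ns chevE6 2) (r := 37) (by decide +kernel) (by decide +kernel) _) hM
      simpa using hA _ (h5.step hz hN (by decide +kernel) (by decide +kernel) (by decide +kernel)
        (by decide +kernel) (N := -1) (by decide +kernel) (by decide +kernel)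
        (Ld.of_mem (B := fun _ => False) (TwSet.xg_mem (T := T) (r := 65)
          (by dsimp only [T, setE6]; decide +kernel) (map_one φ))))
  push Not at hA
  obtain ⟨t, ht, ht'⟩ := hA
  have h5 : (1 : K) ∈ A := by
    obtain ⟨c, h6, h7, h8⟩ := TwSet.ld_conj (T := T) [0, 2, 3, 2, 1, 3, 0] (γ := 42) (δ := 68)
      (A := (· ∈ [37])) (B := (· ∈ [66] ++ [69, 70, 71])) (by dsimp only [T, setE6]; decide +kernel)
    simpa [h6] using hs (c := c⁻¹) (by rw [map_inv₀, show φ c = c from h7]) (h8 1 h4)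
  have h6 : ∀ s, Ld cE6 M 68 (· ∈ [66]) s := fun s => by
    have e : t - φ t ≠ 0 := sub_ne_zero.2 ht'.symm
    have e' : φ t - t ≠ 0 := sub_ne_zero.2 ht'
    refine TwSet.ld_strip (T := T) (B := [69, 70, 71]) (by decide +kernel)
      (by dsimp only [T, setE6]; decide +kernel) ?_
    have := add_mem (hs (c := (t * φ s - s * φ t) / (t - φ t)) (by
      simp only [map_div₀, map_sub, map_mul, h2]; field_simp; ring) h5)
      (hs (c := (s - φ s) / (t - φ t)) (by simp only [map_div₀, map_sub, h2]; field_simp; ring) ht)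
    rwa [show (t * φ s - s * φ t) / (t - φ t) * 1 + (s - φ s) / (t - φ t) * t = s by
      field_simp; ring] at this
  have h7 : ∀ (i : Fin 6) (r r' : ℕ) (L : List ℕ), (r, r') ∈ [(56, 36), (42, 37)] →
      chevE6.simple i = r → OrbList chevE6 symE6 i [r, r'] → (r' < chevE6.nroots ∧ Ns chevE6 i r') →
      ((∀ i ∈ L, i < chevE6.rank) ∧ 68 < chevE6.nroots ∧ rw chevE6 (L.flatMap (orbwE6.getD · [])) 68 = r ∧
        ∀ s < chevE6.nroots, s ∈ [66] → rw chevE6 (L.flatMap (orbwE6.getD · [])) s ∈ [r']) →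
      ∀ s, cE6.wg K [(r, s), (r', φ s)] ∈ M := by
    rintro i _ r' L a1 rfl a2 a3 a4 s
    obtain ⟨c, b1, -, b2⟩ := TwSet.ld_conj (T := T) L (A := (· ∈ [66])) (B := (· ∈ [r'])) a4
    exact TwSet.wg_mem (T := T) (i := i) (L := [r']) (w := fun s => [(r', φ s)])
      (fun r => ((sE6 φ).mem_orbList twDataE6 a2 r).1) (fun r _ h => by rw [List.mem_singleton.1 h]; exact a3.2)
      (by simpa using a3.1) (fun u => (E6_UJ2 φ h2 a1 a2).1) (by simpa [b1] using b2 _ (h6 (c⁻¹ * s)))
  refine Or.inr (TwSet.G1_le (T := T) fun i u hu => ?_)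
  rcases orbE6 i with ⟨r, hr, h⟩ | ⟨q, hq, h⟩
  · obtain ⟨t, ht, rfl⟩ := (E6_UJ1 φ h2 hr h).1 hu
    exact h0 _ (E6_mem1 φ h2 hr ht).1 (wg_mem_endFix _ (by simpa using ht))
  obtain ⟨t, rfl⟩ := (E6_UJ2 φ h2 hq h).1 hu
  simp only [List.mem_cons, List.not_mem_nil, or_false] at hq
  rcases hq with rfl | rfl
  · exact h7 0 56 36 [2, 3, 2, 1, 3, 2, 0] (by simp) (by decide +kernel) (by decide +kernel)
      (by decide +kernel) (by decide +kernel) t
  · exact h7 2 42 37 [3, 0, 2, 1, 3, 2, 0] (by simp) (by decide +kernel) (by decide +kernel)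
      (by decide +kernel) (by decide +kernel) t

end Cfsg.Agent.H73
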