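import Mathlib
import Cfsg.Agent.H73.Sub9
import Cfsg.Agent.H34.TwD4

/-!
The subfield points of the twisted group of type `D₄` form a maximal subgroup.
-/

set_option autoImplicit false

namespace Cfsg.Agent.H73

open Equiv H34 H34.Split H75 H40 H37 Cfsg.Lie

variable {K : Type*} [Field K] (φ : K →+* K) (h3 : ∀ t, φ (φ (φ t)) = t)

include h3 in
theorem span_three {A : AddSubgroup K} (hs : ∀ {c t}, φ c = c → t ∈ A → c * t ∈ A) (h1 : 1 ∈ A)
    {t : K} (ht : t ∈ A) (ht' : φ t * φ (φ t) ∈ A) (h : φ t ≠ t) (s : K) : s ∈ A := by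
  have e1 : t - φ t ≠ 0 := sub_ne_zero.2 h.symm
  have e2 : φ t - φ (φ t) ≠ 0 := by rwa [← map_sub, map_ne_zero]
  have e3 : φ (φ t) - t ≠ 0 := by
    have := (map_ne_zero φ).2 e2
    rwa [map_sub, h3] at this
  let d := (t - φ t) * (φ t - φ (φ t)) * (φ (φ t) - t)
  have hd : φ d = d := by simp only [d, map_mul, map_sub, h3]; ring
  have hd0 : d ≠ 0 := mul_ne_zero (mul_ne_zero e1 e2) e3
  have := add_mem (add_mem
    (hs (c := (s * t * (φ t - φ (φ t)) * (φ t + φ (φ t)) + φ s * φ t * (φ (φ t) - t) * (φ (φ t) + t) +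
      φ (φ s) * φ (φ t) * (t - φ t) * (t + φ t)) / d) (by
        simp only [map_div₀, hd, map_mul, map_sub, map_add, h3]; ring) h1)
    (hs (c := -(s * t * (φ t - φ (φ t)) + φ s * φ t * (φ (φ t) - t) +
      φ (φ s) * φ (φ t) * (t - φ t)) / d) (by
        simp only [map_div₀, hd, map_mul, map_sub, map_add, map_neg, h3]; ring) ht))
    (hs (c := -(s * (φ t - φ (φ t)) + φ s * (φ (φ t) - t) + φ (φ s) * (t - φ t)) / d) (by
        simp only [map_div₀, hd, map_mul, map_sub, map_add, map_neg, h3]; ring) ht')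
  convert this using 1
  simp only [d]
  field_simp
  ring

variable {M : Subgroup (chevD4.group K)} (le : M ≤ (tD4 φ h3).G1)
  (h0 : ∀ g ∈ (tD4 φ h3).G1, g ∈ (endTwist cD4 φ).fix → g ∈ M)

/-- The setting in type `D₄`. -/
noncomputable def setD4 : TwSet cD4 K where
  τ := tD4 φ h3
  φ := φ
  π := piT grTD4a
  η := etaT grTD4a
  map := (sD4 φ).map
  ρ_val := twDataD4.ρP_val
  ω := twDataD4.opp
  σω := (sD4 φ).σ_opp twDataD4
  hW := orbW_of_list _ _ _ fun i => by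
    rcases orbD4 i with h | h
    · exact ⟨_, h, by decide +kernel, (D4_UJ1 φ h3 h).2 ⟨1, map_one φ, rfl⟩⟩
    · exact ⟨_, h, by decide +kernel, (D4_UJ3 φ h3 h).2 ⟨1, by simp⟩⟩
  pl := symD4
  gw := orbwD4
  words := isOrbWords_D4 (isCartan_D4 cD4) _ (D4_π φ h3)
  M := M
  le := le.trans (tD4 φ h3).G1_le_fix
  h0 := h0

include le h0

theorem D4_smul {B : ℕ → Prop} {c t : K} (hc : c ≠ 0) (hc' : φ c = c) (h : Ld cD4 M 18 B t) :
    Ld cD4 M 18 B (c * t) :=
  TwSet.ld_smul (T := setD4 φ h3 le h0) (r := 22) (by dsimp only [setD4]; decide +kernel) hc hc' h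

theorem D4_wg {t : K} (h : Ld cD4 M 18 (· ∈ [13, 12]) t) :
    cD4.wg K [(18, t), (13, φ t), (12, φ (φ t))] ∈ M := by
  have e : chevD4.simple (0 : Fin 4) = 18 := by decide +kernel
  rw [← e] at h ⊢
  exact TwSet.wg_mem (T := setD4 φ h3 le h0) (i := (0 : Fin 4)) (L := [13, 12])
    (w := fun s => [(13, φ s), (12, φ (φ s))])
    (fun r hr => ((sD4 φ).mem_orbList twDataD4 orbD4_3 r).1 (e ▸ hr)) (by decide +kernel)
    (by simp; decide +kernel) (fun u hu => e ▸ (D4_UJ3 φ h3 orbD4_3).1 hu) h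

set_option synthInstance.maxSize 1024 in
theorem D4_lead {t : K} (h : Ld cD4 M 18 (Ns chevD4 0) t) : Ld cD4 M 18 (· ∈ [13, 12]) t := by
  let T := setD4 φ h3 le h0
  have hz : ∀ n : ℤ, False → (n : K) = 0 := fun _ h => h.elim
  have hN : Nrm cD4 K (· ∈ [20, 21] ++ [22, 23]) := nrm_of hz (by decide +kernel)
  let A := LdG M (γ := 17) (by decide +kernel) hN
  have hU : ∀ {r : ℕ}, chevD4.IsPosRoot r → ∀ t, cD4.xg K r t ∈ (cD4.split K).Up := xg_mem_Up
  have hc : ∀ {r s : ℕ}, r < chevD4.nroots ∧ s < chevD4.nroots ∧ s ≠ r ∧ s ≠ chevD4.neg r ∧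
    chevD4.commTerms r s = [] → ∀ t u, Commute (cD4.xg K r t) (cD4.xg K s u) := Cert.commute_xg
  obtain ⟨u, hu, h⟩ := h
  have hNs : UU cD4 K (Ns chevD4 0) ≤ (cD4.split K).Up := UU_le_Up fun _ _ h => h.1
  have hu' : u ∈ (cD4.split K).Up := by
    simpa using mul_mem (hU (r := 18) (by decide +kernel) t) (hNs h)
  obtain ⟨c, hc1, a, ha, rfl⟩ := dec cD4.S.cl_pos (cD4.S.wJ (T.τ.T.orb (0 : Fin 4))) hu'
  obtain ⟨s, rfl⟩ := (D4_UJ3 φ h3 orbD4_3).1 (T.τ.mem_UJ.2 ⟨U_sub ha fun _ h => h.2,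
    (T.τ.fix_dec (T.τ.wJ_mem _) (U_sub hc1 fun _ h => h.2) (U_sub ha fun _ h => h.2.2)
      (T.le hu)).2⟩)
  have hc2 : c ∈ UU cD4 K fun r => chevD4.IsPosRoot r ∧ r ∉ [18, 13, 12] := U_sub hc1 fun r hr =>
    ⟨(cD4.pos_iff r).1 hr.1, fun h => (((sD4 φ).mem_orbList twDataD4 orbD4_3 r).1 h).2 hr.2⟩
  have hN' : Nrm cD4 K fun r => chevD4.IsPosRoot r ∧ r ∉ [18, 13, 12] :=
    nrm_of hz (by decide +kernel)
  simp only [Cert.wg_cons, Cert.wg_nil, mul_one] at h hu
  obtain rfl : t = s := by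
    have h1 := UU_mono (B := Ns chevD4 0) (by decide +kernel)
      (hN' _ (inv_mem (hU (r := 18) (by decide +kernel) s)) c hc2)
    have h2 := mul_mem (mul_mem h1 (xg_mem_UU (A := Ns chevD4 0) (r := 13) (by decide +kernel)
      (by decide +kernel) (φ s))) (xg_mem_UU (A := Ns chevD4 0) (r := 12) (by decide +kernel)
      (by decide +kernel) (φ (φ s)))
    have e : chevD4.simple (0 : Fin 4) = 18 := by decide +kernel
    have h4 := UU_Ns (C := cD4) (F := K) (0 : Fin 4)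
    exact Cert.xg_injective (C := cD4) (r := 18) (by decide +kernel) (simple_comp_unique (0 : Fin 4)
      ((mem_X_α cD4).2 ⟨t, by rw [e]; rfl⟩) (h4.le h) ((mem_X_α cD4).2 ⟨s, by rw [e]; rfl⟩)
      (h4.le h2) (by group)).1
  have hy : cD4.xg K 15 (-1) * cD4.xg K 16 (-1) * cD4.xg K 19 1 ∈ M := by
    refine T.two.U0 _ (mul_mem (mul_mem (hU (by decide +kernel) _) (hU (by decide +kernel) _))
      (hU (by decide +kernel) _)) ?_ ?_
    · obtain ⟨e1, e2, e3, e4, e5, e6⟩ : piT grTD4a 15 = 19 ∧ piT grTD4a 16 = 15 ∧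
        piT grTD4a 19 = 16 ∧ etaT grTD4a 15 = -1 ∧ etaT grTD4a 16 = 1 ∧ etaT grTD4a 19 = -1 := by
        decide +kernel
      show T.τ.σ _ = cD4.xg K 15 (-1) * cD4.xg K 16 (-1) * cD4.xg K 19 1
      rw [map_mul, map_mul, T.map _ (by decide +kernel), T.map _ (by decide +kernel),
        T.map _ (by decide +kernel)]
      simp only [T, setD4, e1, e2, e3, e4, e5, e6, map_neg, map_one, Int.cast_neg, Int.cast_one,
        mul_neg, mul_one, neg_neg]
      rw [mul_assoc, ((hc (by decide +kernel) _ _).mul_right (hc (by decide +kernel) _ _)).eq]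
    · show _ ∈ (endTwist cD4 φ).fix
      simpa [mul_assoc] using wg_mem_endFix (C := cD4) φ (w := [(15, -1), (16, -1), (19, 1)]) (by simp)
  have h1 : cD4.xg K 13 (φ t) * cD4.xg K 12 (φ (φ t)) ∈ UU cD4 K (· ∈ [13, 12]) :=
    mul_mem (xg_mem_UU (by decide +kernel) (by simp) _) (xg_mem_UU (by decide +kernel) (by simp) _)
  have h1' := UU_le_Up (by decide +kernel) h1
  have h2 : cD4.xg K 15 (-1) * cD4.xg K 16 (-1) ∈ UU cD4 K (· ∈ [15, 16]) :=
    mul_mem (xg_mem_UU (by decide +kernel) (by simp) _) (xg_mem_UU (by decide +kernel) (by simp) _)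
  have h4 : (cD4.xg K 13 (φ t) * cD4.xg K 12 (φ (φ t)))⁻¹ * (c * (cD4.xg K 18 t *
      (cD4.xg K 13 (φ t) * cD4.xg K 12 (φ (φ t))))) ∈
        UU cD4 K fun r => chevD4.IsPosRoot r ∧ r ∉ [13, 12] := by
    have := mul_mem (UU_mono (B := fun r => chevD4.IsPosRoot r ∧ r ∉ [13, 12]) (by decide +kernel)
      (hN' _ (inv_mem h1') c hc2)) (xg_mem_UU (r := 18) (by decide +kernel) (by decide +kernel) t)
    rw [((hc (by decide +kernel) _ _).mul_right (hc (by decide +kernel) _ _)).eq]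
    simpa [mul_assoc] using this
  have h5 : cD4.xg K 19 1 ∈ UU cD4 K (· ∈ [19]) := xg_mem_UU (by decide +kernel) (by simp) _
  have h6 := cm_lead (K := (cD4.split K).Up) hN h1' (UU_le_Up (by decide +kernel) h2)
    (cm_UU hz hN (fun _ _ h => h.1) (by decide +kernel) (by decide +kernel) h4 h2)
    (cm_UU hz hN (fun _ _ h => h.1) (by decide +kernel) (by decide +kernel) h4 h5)
    (cm_UU hz hN (by decide +kernel) (by decide +kernel) (by decide +kernel) h1 h5)
  rw [comm_two (Sgl.eq hz (k := 17) (N := -1) (by decide +kernel) _ _)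
    (Sgl.eq hz (k := 17) (N := -1) (by decide +kernel) _ _) (hc (by decide +kernel) _ _)
    (hc (by decide +kernel) _ _) (hc (by decide +kernel) _ _) (hc (by decide +kernel) _ _),
    ← Cert.xg_add, mul_inv_cancel_left] at h6
  have h7 : _ ∈ A := ⟨_, mul_mem (mul_mem (mul_mem hu hy) (inv_mem hu)) (inv_mem hy), h6⟩
  obtain ⟨d, d1, d2, d3⟩ := TwSet.ld_conj (T := T) [0, 1] (γ := 18) (δ := 17) (A := (· ∈ [13, 12]))
    (B := (· ∈ [20, 21] ++ [22, 23])) (by dsimp only [T, setD4]; decide +kernel)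
  have h8 : φ (d⁻¹ * (t + φ t + φ (φ t))) = d⁻¹ * (t + φ t + φ (φ t)) := by
    simp only [map_mul, map_inv₀, map_add, h3, show φ d = d from d2]; ring
  have h9 : _ ∈ A := d3 _ ⟨_, h0 _ (D4_mem3 φ h3 (d⁻¹ * (t + φ t + φ (φ t)))).1
    (wg_mem_endFix _ (by simp [h8])), by
      rw [Cert.wg_cons, inv_mul_cancel_left]
      exact Cert.wg_mem_U (by simp; decide +kernel)⟩
  have h10 := add_mem h7 h9
  rw [mul_inv_cancel_left₀ d1, show ((-1 : ℤ) : K) * -1 * -φ t + ((-1 : ℤ) : K) * -1 * -φ (φ t) +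
    (t + φ t + φ (φ t)) = t by push_cast; ring] at h10
  obtain ⟨d, d1, d2, d3⟩ := TwSet.ld_conj (T := T) [1, 0] (γ := 17) (δ := 18) (A := (· ∈ [20, 21]))
    (B := (· ∈ [13, 12])) (by dsimp only [T, setD4]; decide +kernel)
  simpa [d1] using D4_smul φ h3 le h0 (inv_ne_zero d1) (by rw [map_inv₀, show φ d = d from d2])
    (d3 _ (TwSet.ld_strip (T := T) (by decide +kernel) (by dsimp only [T, setD4]; decide +kernel) h10))

theorem D4_sharp {t : K} (h : cD4.wg K [(18, t), (13, φ t), (12, φ (φ t))] ∈ M) :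
    Ld cD4 M 18 (Ns chevD4 0) (φ t * φ (φ t)) := by
  let T := setD4 φ h3 le h0
  have h1 := cj1 _ h (TwSet.xg_mem (T := T) (r := 14) (by dsimp only [T, setD4]; decide +kernel)
    (map_one φ))
  simp only [Cert.wg_cons, Cert.wg_nil, mul_one] at h1
  rw [show ∀ a b c x : chevD4.group K, a * (b * c) * x * (a * (b * c))⁻¹ =
      a * (b * (c * x * c⁻¹) * b⁻¹) * a⁻¹ by intros; group,
    Sgl.conj (k := 15) (N := -1) (by decide +kernel), ← conj_mul (b := cD4.xg K 13 _),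
    Sgl.conj (k := 17) (N := -1) (by decide +kernel),
    Sgl.conj (k := 16) (N := -1) (by decide +kernel), ← conj_mul (b := cD4.xg K 18 _),
    ← conj_mul (b := cD4.xg K 18 _), ← conj_mul (b := cD4.xg K 18 _),
    Sgl.conj (k := 22) (N := 1) (by decide +kernel),
    Sgl.conj (k := 20) (N := 1) (by decide +kernel),
    Sgl.conj (k := 21) (N := 1) (by decide +kernel),
    Sgl.conj (k := 19) (N := 1) (by decide +kernel)] at h1
  simp only [Int.cast_neg, Int.cast_one, mul_neg, neg_mul, neg_neg, one_mul, mul_one,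
    mul_assoc] at h1
  have h2 := mul_mem (inv_mem (TwSet.xg_mem (T := T) (r := 22)
    (by dsimp only [T, setD4]; decide +kernel) (t := -(φ (φ t) * (φ t * t)))
    (by simp only [T, setD4, map_neg, map_mul, h3]; ring))) h1
  rw [inv_mul_cancel_left] at h2
  obtain ⟨d, d1, d2, d3⟩ := TwSet.ld_conj (T := T) [1, 0] (γ := 17) (δ := 18)
    (A := (· ∈ [14, 15, 16, 19, 20, 21])) (B := Ns chevD4 0)
    (by dsimp only [T, setD4]; decide +kernel)
  have h4 : ∀ r ∈ [14, 15, 16, 19, 20, 21], ∀ t,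
      cD4.xg K r t ∈ UU cD4 K (· ∈ [14, 15, 16, 19, 20, 21]) := fun r hr =>
    xg_mem_UU (by revert r; decide +kernel) hr
  simpa [d1, mul_comm (φ t)] using D4_smul φ h3 le h0 (inv_ne_zero d1)
    (by rw [map_inv₀, show φ d = d from d2]) (d3 _ ⟨_, h2, by
      rw [inv_mul_cancel_left]
      exact mul_mem (h4 _ (by simp) _) (mul_mem (h4 _ (by simp) _) (mul_mem (h4 _ (by simp) _)
        (mul_mem (h4 _ (by simp) _) (mul_mem (h4 _ (by simp) _) (h4 _ (by simp) _)))))⟩)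

theorem D4_max [Finite M] (p : ℕ) [Fact p.Prime] [CharP K p] :
    M ≤ (endTwist cD4 φ).fix ∨ (tD4 φ h3).G1 ≤ M := by
  let T := setD4 φ h3 le h0
  have : Finite T.M := ‹Finite M›
  let A := LdG M (γ := 18) (by decide +kernel)
    (nrm_of (C := cD4) (z := fun _ => False) (B := Ns chevD4 0) (by simp) (by decide +kernel))
  have h1 : cD4.wg K [(18, 1), (13, 1), (12, 1)] ∈ M :=
    h0 _ (by simpa using (D4_mem3 φ h3 1).1) (wg_mem_endFix _ (by simp))
  have h2 : ∀ s t u, (cD4.xg K 18 s)⁻¹ * cD4.wg K [(18, s), (13, t), (12, u)] ∈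
      UU cD4 K (Ns chevD4 0) := fun s t u => by
    rw [Cert.wg_cons, inv_mul_cancel_left]
    exact Cert.wg_mem_U (by simp; decide +kernel)
  by_cases hA : ∀ t ∈ A, φ t = t
  · refine Or.inl (TwSet.le_fix (T := T) (by simp) p (by dsimp only [T, setD4]; decide +kernel)
      (L := [18, 13, 12]) ⟨by decide, by decide +kernel, by decide +kernel, (0 : Fin 4), (2 : Fin 4),
        (by decide : (0 : Fin 4) ≠ 2), by decide +kernel⟩ h1 fun i c hc a ha hM => ?_)
    rcases orbD4 i with h | h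
    · obtain ⟨t, ht, rfl⟩ := (D4_UJ1 φ h3 h).1 ha
      exact wg_mem_endFix φ (by simpa using ht)
    obtain ⟨t, rfl⟩ := (D4_UJ3 φ h3 h).1 ha
    have := hA t (ld_of_rad' (j := (0 : Fin 4)) (mem_orb_of_list (sD4 φ) twDataD4 h
      (by decide +kernel)) (by decide +kernel) hc (h2 _ _ _) hM)
    exact wg_mem_endFix φ (by simp [this])
  push Not at hA
  obtain ⟨t, ht, ht'⟩ := hA
  refine Or.inr (TwSet.G1_le (T := T) fun i u hu => ?_)
  rcases orbD4 i with h | h
  · obtain ⟨t, ht, rfl⟩ := (D4_UJ1 φ h3 h).1 hu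
    exact h0 _ (D4_mem1 φ h3 ht).1 (wg_mem_endFix _ (by simpa using ht))
  obtain ⟨s, rfl⟩ := (D4_UJ3 φ h3 h).1 hu
  refine D4_wg φ h3 le h0 (D4_lead φ h3 le h0 (span_three φ h3 (A := A) (fun {c t} hc ht => ?_)
    ⟨_, h1, h2 _ _ _⟩ ht (D4_sharp φ h3 le h0 (D4_wg φ h3 le h0 (D4_lead φ h3 le h0 ht))) ht' s))
  by_cases h : c = 0
  · rw [h, zero_mul]; exact zero_mem _
  · exact D4_smul φ h3 le h0 h hc ht

end Cfsg.Agent.H73
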