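import Cfsg.Agent.H4.SvDefs

/-! Project SV: the embedding of the Sylow `2`-subgroup model in `Sp₆(2)`. -/

set_option autoImplicit false

namespace Cfsg.Agent.H73.SvEmb1

open Cfsg.Agent.H4.SV Matrix

theorem mA_mul (g h : T9) : mA (g * h) = mA g * mA h := by
  ext i j
  fin_cases i <;> fin_cases j <;>
    simp [mA, Matrix.mul_apply, Fin.sum_univ_three, mul_def, T9.mul] <;> ring

theorem mD_mul (g h : T9) : mD (g * h) = mD g * mD h := by
  ext i j
  fin_cases i <;> fin_cases j <;>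
    simp [mD, Matrix.mul_apply, Fin.sum_univ_three, mul_def, T9.mul] <;> ring

theorem mS_mul (g h : T9) : mS (g * h) = mS g + mA g * mS h * (mA g)ᵀ := by
  ext i j
  simp only [Matrix.add_apply, Matrix.mul_apply, Fin.sum_univ_three, transpose_apply]
  fin_cases i <;> fin_cases j <;> simp [mS, mA, mul_def, T9.mul] <;> ring

theorem AD (g : T9) : (mA g)ᵀ * mD g = 1 := by
  obtain ⟨p, q, r, a, b, c, d, e, f⟩ := g
  simp only [mA, mD]
  revert p q r
  decide

theorem DA (g : T9) : mD g * (mA g)ᵀ = 1 := mul_eq_one_comm.mp (AD g)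

theorem AD' (g : T9) : mA g * (mD g)ᵀ = 1 := by
  simpa using congrArg transpose (DA g)

theorem St (g : T9) : (mS g)ᵀ = mS g := by
  ext i j
  fin_cases i <;> fin_cases j <;> rfl

theorem emb1 : Emb1Stmt := by
  refine ⟨fun g => ?_, fun g h => ?_, fun g h e => ?_⟩
  · rw [SymplecticGroup.mem_iff, mat, Matrix.J, fromBlocks_transpose, fromBlocks_multiply,
      fromBlocks_multiply]
    have h1 : mS g * mD g * (mA g)ᵀ = mS g := by rw [Matrix.mul_assoc, DA, Matrix.mul_one]
    have h2 : mA g * ((mD g)ᵀ * mS g) = mS g := by rw [← Matrix.mul_assoc, AD', Matrix.one_mul]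
    simp [h1, h2, AD', DA, St]
  · rw [mat, mat, mat, fromBlocks_multiply, mA_mul, mD_mul, mS_mul]
    have h1 : mA g * mS h * (mA g)ᵀ * (mD g * mD h) = mA g * (mS h * mD h) := by
      rw [Matrix.mul_assoc, ← Matrix.mul_assoc (mA g)ᵀ, AD, Matrix.one_mul, Matrix.mul_assoc]
    rw [Matrix.add_mul, h1]
    simp [Matrix.mul_assoc, add_comm]
  · obtain ⟨h1, h2, -, h4⟩ := fromBlocks_inj.mp e
    have h3 : mS g = mS h := by
      rw [h4] at h2
      simpa [Matrix.mul_assoc, DA] using congrArg (· * (mA h)ᵀ) h2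
    ext
    exacts [congrFun₂ h1 0 1, congrFun₂ h1 0 2, congrFun₂ h1 1 2, congrFun₂ h3 0 0, congrFun₂ h3 0 1,
      congrFun₂ h3 0 2, congrFun₂ h3 1 1, congrFun₂ h3 1 2, congrFun₂ h3 2 2]

end Cfsg.Agent.H73.SvEmb1
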