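import Cfsg.Agent.H6.TIDefs

/-!
Project TI, piece ONE: every point with a large axis has two large axes.
-/

set_option autoImplicit false

namespace Cfsg.Agent.H73.TiOne

open Cfsg Subgroup Cfsg.Agent.H6.TI
open Cfsg.Agent.H83 (cj)
open scoped Cfsg.Agent.H63

universe u

section Dih

variable {G : Type u} [Group G] {a b : G}

theorem inv_pow_left (ha : a * a = 1) (hb : b * b = 1) (k : ℕ) :
    a * (a * b) ^ k = ((a * b) ^ k)⁻¹ * a := by
  have ia : a⁻¹ = a := inv_eq_of_mul_eq_one_right ha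
  have ib : b⁻¹ = b := inv_eq_of_mul_eq_one_right hb
  have h : a * (a * b) * a⁻¹ = (a * b)⁻¹ := by
    rw [← mul_assoc, ha, one_mul, mul_inv_rev, ia, ib]
  rw [← inv_pow, ← h, conj_pow, inv_mul_cancel_right]

theorem inv_pow_right (ha : a * a = 1) (hb : b * b = 1) (k : ℕ) :
    b * (a * b) ^ k = ((a * b) ^ k)⁻¹ * b := by
  have ia : a⁻¹ = a := inv_eq_of_mul_eq_one_right ha
  have ib : b⁻¹ = b := inv_eq_of_mul_eq_one_right hb
  have h : b * (a * b) * b⁻¹ = (a * b)⁻¹ := by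
    rw [← mul_assoc, mul_inv_cancel_right, mul_inv_rev, ia, ib]
  rw [← inv_pow, ← h, conj_pow, inv_mul_cancel_right]

/-- reflections of a dihedral group are conjugate to one of the generators -/
theorem refl_conj (ha : a * a = 1) (hb : b * b = 1) (k : ℕ) :
    ∃ g : G, a * (a * b) ^ k = g * a * g⁻¹ ∨ a * (a * b) ^ k = g * b * g⁻¹ := by
  obtain ⟨j, rfl | rfl⟩ := Nat.even_or_odd' k
  · refine ⟨((a * b) ^ j)⁻¹, Or.inl ?_⟩
    rw [two_mul, pow_add, ← mul_assoc, inv_pow_left ha hb, inv_inv]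
  · refine ⟨((a * b) ^ j)⁻¹, Or.inr ?_⟩
    rw [pow_succ', ← mul_assoc, ← mul_assoc, ha, one_mul, two_mul, pow_add, ← mul_assoc,
      inv_pow_right ha hb, inv_inv]

end Dih

variable {G : Type u} [Group G] [Finite G] {Ω : Set (Subgroup G)}

/-- the situation with one large axis per point -/
structure One (Ω : Set (Subgroup G)) : Prop where
  ti : TI Ω
  ba : BA Ω
  le : ∀ P ∈ Ω, ∀ Q ∈ Ω, P ≠ Q → ax P Q ≤ zc Ω P

/-- `d` lies in the point `P` outside the axis -/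
def D1 (Ω : Set (Subgroup G)) (P : Subgroup G) (d : G) : Prop := P ∈ Ω ∧ d ∈ P ∧ d ∉ zc Ω P

omit [Finite G] in
theorem D1.ne_one {P : Subgroup G} {d : G} (h : D1 Ω P d) : d ≠ 1 := fun e =>
  h.2.2 (e ▸ one_mem _)

omit [Finite G] in
theorem One.conj (H : One Ω) {P : Subgroup G} {d : G} (h : D1 Ω P d) (g : G) :
    D1 Ω (cj g P) (g * d * g⁻¹) := by
  refine ⟨H.ti.conj _ h.1 g, H83.conj_mem_cj h.2.1, fun e => h.2.2 ?_⟩
  rw [zc_cj H.ti, H83.mem_cj] at e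
  simpa [mul_assoc] using e

omit [Finite G] in
theorem One.sq (H : One Ω) {P : Subgroup G} {d : G} (h : D1 Ω P d) : d * d = 1 :=
  H.ti.sq _ h.1 _ h.2.1

omit [Finite G] in
theorem One.eq (H : One Ω) {P Q : Subgroup G} {d : G} (h : D1 Ω P d) (hQ : Q ∈ Ω)
    (hd : d ∈ N[Q]) : P = Q := by
  by_contra hne
  exact h.2.2 (H.le _ h.1 _ hQ hne ⟨h.2.1, hd⟩)

omit [Finite G] in
theorem One.refl (H : One Ω) {P Q : Subgroup G} {a b : G} (ha : D1 Ω P a) (hb : D1 Ω Q b)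
    (k : ℕ) : ∃ R, D1 Ω R (a * (a * b) ^ k) := by
  obtain ⟨g, h | h⟩ := refl_conj (H.sq ha) (H.sq hb) k
  · exact ⟨_, h ▸ H.conj ha g⟩
  · exact ⟨_, h ▸ H.conj hb g⟩

theorem One.odd (H : One Ω) {P Q : Subgroup G} {a b : G} (ha : D1 Ω P a) (hb : D1 Ω Q b)
    (hne : P ≠ Q) : Odd (orderOf (a * b)) := by
  by_contra hev
  obtain ⟨k, hk⟩ := Nat.not_odd_iff_even.1 hev
  have hpos := orderOf_pos (a * b)
  have hz1 : (a * b) ^ k ≠ 1 := pow_ne_one_of_lt_orderOf (by omega) (by omega)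
  have hz2 : (a * b) ^ k * (a * b) ^ k = 1 := by rw [← pow_add, ← hk, pow_orderOf_eq_one]
  have hzi : ((a * b) ^ k)⁻¹ = (a * b) ^ k := inv_eq_of_mul_eq_one_right hz2
  have za : (a * b) ^ k * a = a * (a * b) ^ k := by rw [inv_pow_left (H.sq ha) (H.sq hb), hzi]
  have zb : (a * b) ^ k * b = b * (a * b) ^ k := by rw [inv_pow_right (H.sq ha) (H.sq hb), hzi]
  obtain ⟨R, hR⟩ := H.refl ha hb k
  obtain ⟨R', hR'⟩ := H.refl ha hb (k + 1)
  have e : a * (a * b) ^ (k + 1) = b * (a * b) ^ k := by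
    rw [pow_succ', ← mul_assoc, ← mul_assoc, H.sq ha, one_mul]
  rw [e] at hR'
  have h1 : R = P := H.eq hR ha.1
    (mul_mem (le_normalizer ha.2.1) (H.ba.cent P ha.1 a ha.2.1 ha.ne_one _ za))
  have h2 : R' = Q := H.eq hR' hb.1
    (mul_mem (le_normalizer hb.2.1) (H.ba.cent Q hb.1 b hb.2.1 hb.ne_one _ zb))
  subst h1 h2
  exact hne (H.ba.eq _ ha.1 _ hb.1 _ ((mul_mem_cancel_left ha.2.1).1 hR.2.1)
    ((mul_mem_cancel_left hb.2.1).1 hR'.2.1) hz1)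

theorem One.swap (H : One Ω) {P Q : Subgroup G} {a b : G} (ha : D1 Ω P a) (hb : D1 Ω Q b)
    (hne : P ≠ Q) : ∃ s R, D1 Ω R s ∧ s * a * s⁻¹ = b ∧
      ∀ x, Commute x a → Commute x b → Commute x s := by
  obtain ⟨m, hm⟩ := H.odd ha hb hne
  obtain ⟨R, hR⟩ := H.refl ha hb (m + 1)
  refine ⟨_, R, hR, ?_, fun x h1 h2 => h1.mul_right ((h1.mul_right h2).pow_right _)⟩
  rw [inv_eq_of_mul_eq_one_right (H.sq hR)]
  have h1 : (a * b) ^ (m + 1) * (a * b) ^ (m + 1) = a * b := by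
    rw [← pow_add, show m + 1 + (m + 1) = 2 * m + 1 + 1 by ring, pow_succ, ← hm,
      pow_orderOf_eq_one, one_mul]
  calc a * (a * b) ^ (m + 1) * a * (a * (a * b) ^ (m + 1))
      = a * ((a * b) ^ (m + 1) * (a * a) * (a * b) ^ (m + 1)) := by group
    _ = a * (a * b) := by rw [H.sq ha, mul_one, h1]
    _ = b := by rw [← mul_assoc, H.sq ha, one_mul]

/-- uniqueness of swaps -/
theorem One.uniq (H : One Ω) {A P R R' : Subgroup G} {a p s s' : G} (ha : D1 Ω A a)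
    (hp : D1 Ω P p) (hne : A ≠ P) (hs : D1 Ω R s) (hs' : D1 Ω R' s') (e : s * a * s⁻¹ = p)
    (e' : s' * a * s'⁻¹ = p) : s = s' := by
  obtain ⟨s0, R0, h0, e0, hc⟩ := H.swap ha hp hne
  have key : ∀ {R : Subgroup G} {s : G}, D1 Ω R s → s * a * s⁻¹ = p → s = s0 := by
    intro R s hs e
    have is : s⁻¹ = s := inv_eq_of_mul_eq_one_right (H.sq hs)
    have i0 : s0⁻¹ = s0 := inv_eq_of_mul_eq_one_right (H.sq h0)
    have c1 : Commute (s⁻¹ * s0) a := by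
      change s⁻¹ * s0 * a = a * (s⁻¹ * s0)
      calc s⁻¹ * s0 * a = s⁻¹ * (s0 * a * s0⁻¹) * s0 := by group
        _ = s⁻¹ * (s * a * s⁻¹) * s0 := by rw [e0, e]
        _ = _ := by group
    have c2 : Commute (s * s0⁻¹) p := by
      change s * s0⁻¹ * p = p * (s * s0⁻¹)
      calc s * s0⁻¹ * p = s * s0⁻¹ * (s0 * a * s0⁻¹) := by rw [e0]
        _ = (s * a * s⁻¹) * (s * s0⁻¹) := by group
        _ = _ := by rw [e]
    rw [is] at c1
    rw [i0] at c2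
    have c3 := hc _ c1 c2
    have c4 : s * s0 = s0 * s := by
      have : s * s0 * s0 = s0 * (s * s0) := c3
      exact mul_right_cancel (b := s0) (by rw [this, mul_assoc])
    have h1 : R = R0 := H.eq hs h0.1 (H.ba.cent R0 h0.1 s0 h0.2.1 h0.ne_one s c4)
    subst h1
    by_contra hne'
    have h2 : s * s0 ≠ 1 := fun k => hne' (by rw [← i0]; exact eq_inv_of_mul_eq_one_left k)
    have h3 : A = R := H.eq ha hs.1
      (H.ba.cent R hs.1 _ (mul_mem hs.2.1 h0.2.1) h2 a c1.symm)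
    subst h3
    refine hne (H.ba.eq _ ha.1 _ hp.1 p ?_ hp.2.1 hp.ne_one)
    rw [← e]
    exact mul_mem (mul_mem hs.2.1 ha.2.1) (inv_mem hs.2.1)
  rw [key hs e, key hs' e']

omit [Finite G] in
/-- an odd element normalising `A` and a coset of the axis fixes an element of the coset -/
theorem One.fix (H : One Ω) {A : Subgroup G} {a ρ : G} (ha : D1 Ω A a) (hρ : ρ ∈ N[A])
    (hi : a⁻¹ * (ρ * a * ρ⁻¹) ∈ zc Ω A) (ho : Odd (orderOf ρ)) :
    ∃ a1, D1 Ω A a1 ∧ ρ * a1 = a1 * ρ := by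
  have hz : ∀ x ∈ zc Ω A, ρ * x * ρ⁻¹ ∈ zc Ω A := fun x hx => by
    have := H83.conj_mem_cj (g := ρ) hx
    rwa [← zc_cj H.ti, H83.cj_eq_self hρ] at this
  have hzA : zc Ω A ≤ A := inf_le_left
  have key : ∀ k : ℕ, ∃ x ∈ zc Ω A, (a * ρ) ^ k = a ^ k * x * ρ ^ k := by
    intro k
    induction k with
    | zero => exact ⟨1, one_mem _, by simp⟩
    | succ k ih =>
      obtain ⟨x, hx, e⟩ := ih
      have hc : Commute a (a⁻¹ * (ρ * a * ρ⁻¹)) := H.ba.mul_comm A ha.1 _ ha.2.1 _ (hzA hi)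
      refine ⟨(a⁻¹ * (ρ * a * ρ⁻¹)) ^ k * (ρ * x * ρ⁻¹), mul_mem (pow_mem hi k) (hz x hx), ?_⟩
      have h1 : ρ * a ^ k * ρ⁻¹ = a ^ k * (a⁻¹ * (ρ * a * ρ⁻¹)) ^ k := by
        rw [← hc.mul_pow, mul_inv_cancel_left, conj_pow]
      calc (a * ρ) ^ (k + 1) = a * ρ * (a ^ k * x * ρ ^ k) := by rw [pow_succ', e]
        _ = a * (ρ * a ^ k * ρ⁻¹) * (ρ * x * ρ⁻¹) * (ρ * ρ ^ k) := by group
        _ = _ := by rw [h1, ← pow_succ', pow_succ' a]; group
  obtain ⟨x, hx, e⟩ := key (orderOf ρ)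
  obtain ⟨m, hm⟩ := ho
  have h1 : a ^ orderOf ρ = a := by rw [hm, pow_succ, pow_mul, pow_two, H.sq ha, one_pow, one_mul]
  rw [h1, pow_orderOf_eq_one, mul_one] at e
  have h2 : a * x ∈ A := mul_mem ha.2.1 (hzA hx)
  refine ⟨a * x, ⟨ha.1, h2, fun k => ha.2.2 ((mul_mem_cancel_right hx).1 k)⟩, ?_⟩
  have h3 : Commute (a * ρ) (a * x) := e ▸ (Commute.refl _).pow_right _
  have h4 : Commute a (a * x) := H.ba.mul_comm A ha.1 _ ha.2.1 _ h2
  have := h4.inv_left.mul_left h3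
  rwa [inv_mul_cancel_left] at this

theorem one : ONEStmt.{u} := by
  intro G _ _ Ω h0 ba bb A0 B0 hAB0
  by_contra hno
  push Not at hno
  have hti : TI Ω := h0.toTI
  have hed : HasEd Ω := ⟨_, _, hAB0.toEd⟩
  have hz : ∀ {P B}, Mn Ω P B → zc Ω P = ax P B := by
    intro P B hPB
    obtain ⟨g, rfl⟩ := hti.trans A0 hAB0.l P hPB.l
    have h1 : zc Ω A0 = ax A0 B0 := by
      ext x
      rw [mem_zc]
      exact ⟨fun h => ⟨h.1, h.2 _ hAB0⟩, fun h => ⟨h.1, fun B hB => ((hno B hB).ge h).2⟩⟩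
    have h2 := hPB.cj hti g⁻¹
    rw [H83.cj_inv_cj] at h2
    rw [zc_cj hti, h1, ← hno _ h2, ← ax_cj, H83.cj_cj_inv]
  have H : One Ω := ⟨hti, ba, fun P hP Q hQ hne => by
    by_cases hb : ax P Q = ⊥
    · rw [hb]; exact bot_le
    obtain ⟨B, hB⟩ := ba.exMn hed P hP
    obtain ⟨m, hm, h1, -⟩ := ba.conjAx hB ⟨hP, hQ, hne, hb⟩
    rw [(ax_cjN hm Q).1, ← hz hB, H83.cj_le_iff, ← zc_cj hti, H83.cj_eq_self (inv_mem hm)] at h1
    exact h1⟩
  have hD : ∀ P ∈ Ω, ∃ d, D1 Ω P d := by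
    intro P hP
    obtain ⟨B, hB⟩ := ba.exMn hed P hP
    by_contra hn
    have h1 : P ≤ ax P B := fun d hd => by
      by_contra k
      exact hn ⟨d, hP, hd, hz hB ▸ k⟩
    have h2 := (ba.hq hB.toEd).2.1
    rw [qq, relIndex_eq_one.2 h1] at h2
    omega
  have main : ∀ A ∈ Ω, ∀ P ∈ Ω, A ≠ P → ax A P = zc Ω A := by
    intro A hA P hP hne
    obtain ⟨B, hB⟩ := ba.exMn hed A hA
    obtain ⟨a0, ha0⟩ := hD A hA
    obtain ⟨p0, hp0⟩ := hD P hP
    obtain ⟨s0, R0, hs0, e0, -⟩ := H.swap ha0 hp0 hne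
    have i0 : s0⁻¹ = s0 := inv_eq_of_mul_eq_one_right (H.sq hs0)
    have hcj : cj s0 A = P :=
      ba.eq _ (hti.conj A hA s0) _ hP p0 (e0 ▸ H83.conj_mem_cj ha0.2.1) hp0.2.1 hp0.ne_one
    have hR0 : R0 ≠ A := by
      rintro rfl
      exact hne ((H83.cj_eq_self (le_normalizer hs0.2.1)).symm.trans hcj)
    have hzA : zc Ω A ≤ A := inf_le_left
    have key : ∀ i : zc Ω A, ∃ ρ : ax R0 A, (ρ : G) * a0 * (ρ : G)⁻¹ = a0 * i := by
      intro i
      have h1 : D1 Ω A (a0 * i) :=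
        ⟨hA, mul_mem ha0.2.1 (hzA i.2), fun k => ha0.2.2 ((mul_mem_cancel_right i.2).1 k)⟩
      have h2 := H.conj h1 s0
      rw [hcj] at h2
      obtain ⟨s, R, hs, e, -⟩ := H.swap ha0 h2 hne
      have e1 : s0 * s * a0 * (s0 * s)⁻¹ = a0 * i := by
        calc s0 * s * a0 * (s0 * s)⁻¹ = s0 * (s * a0 * s⁻¹) * s0⁻¹ := by group
          _ = (s0 * s0) * (a0 * i) * (s0 * s0)⁻¹ := by rw [e]; group
          _ = _ := by rw [H.sq hs0]; group
      have hn : s0 * s ∈ N[A] := ba.norm A hA a0 ha0.2.1 ha0.ne_one _ (e1 ▸ h1.2.1)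
      by_cases hR : R0 = R
      · subst hR
        exact ⟨⟨s0 * s, mul_mem hs0.2.1 hs.2.1, hn⟩, e1⟩
      · exfalso
        obtain ⟨a1, ha1, e2⟩ := H.fix ha0 hn (by rw [e1, inv_mul_cancel_left]; exact i.2)
          (H.odd hs0 hs hR)
        have h3 := H.conj ha1 s0
        rw [hcj] at h3
        have e3 : s * a1 * s⁻¹ = s0 * a1 * s0⁻¹ := by
          calc s * a1 * s⁻¹ = s0⁻¹ * (s0 * s * a1) * s⁻¹ := by group
            _ = s0⁻¹ * a1 * s0 := by rw [e2]; group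
            _ = _ := by rw [i0]
        have h4 := H.uniq ha1 h3 hne hs hs0 e3 rfl
        subst h4
        exact hR (ba.eq _ hs0.1 _ hs.1 _ hs0.2.1 hs.2.1 hs.ne_one)
    choose f hf using key
    have hinj : Function.Injective f := fun i j e => by
      have := hf i
      rw [e, hf j] at this
      exact Subtype.ext (mul_left_cancel this).symm
    have hcard : hh A B ≤ hh R0 A := by
      rw [hh, hh, ← hz hB]
      exact Nat.card_le_card_of_injective f hinj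
    have hE : Ed Ω R0 A := ⟨hs0.1, hA, hR0, fun k => hB.nb (by
      rw [hh, hh, k, card_bot] at hcard
      exact (Subgroup.card_le_one_iff_eq_bot _).1 hcard)⟩
    have hM : Mn Ω A R0 := ba.msymm ⟨hE, fun P Q e => (hB.max P Q e).trans hcard⟩
    obtain ⟨h1, -, -, h2⟩ := bb.lin hM.toEd (onL_left A R0)
      ⟨s0, mem_sup_right hs0.2.1, hcj.symm⟩ hne
    exact (hz ⟨h1, fun P Q e => h2 ▸ hM.max P Q e⟩).symm
  let S : Set G := {x | ∃ P ∈ Ω, x ∈ zc Ω P}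
  have hS : ∀ x ∈ S, ∀ y ∈ S, x * y = y * x := by
    rintro x ⟨P, hP, hx⟩ y ⟨Q, hQ, hy⟩
    by_cases e : P = Q
    · subst e; exact ba.mul_comm P hP x hx.1 y hy.1
    · exact ba.comm P hP Q hQ e x (main P hP Q hQ e ▸ hx) y (main Q hQ P hP (Ne.symm e) ▸ hy)
  have hC : (centralizer S).Normal := ⟨fun c hc g => by
    rw [mem_centralizer_iff] at hc ⊢
    rintro x ⟨P, hP, hx⟩
    have h1 : g⁻¹ * x * g⁻¹⁻¹ ∈ S :=
      ⟨_, hti.conj P hP g⁻¹, by rw [zc_cj hti]; exact H83.conj_mem_cj hx⟩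
    have h2 := hc _ h1
    calc x * (g * c * g⁻¹) = g * (g⁻¹ * x * g⁻¹⁻¹ * c) * g⁻¹ := by group
      _ = _ := by rw [h2]; group⟩
  have hN := h0.ab (centralizer S ⊓ centralizer (centralizer S : Set G)) inferInstance
    (fun x hx y hy => mem_centralizer_iff.1 hy.2 x hx.1)
  apply hAB0.nb
  rw [eq_bot_iff, ← hN, ← hz hAB0]
  intro x hx
  have hxS : x ∈ S := ⟨_, hAB0.l, hx⟩
  exact ⟨mem_centralizer_iff.2 fun y hy => hS y hy x hxS,
    mem_centralizer_iff.2 fun c hc => (mem_centralizer_iff.1 hc x hxS).symm⟩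

end Cfsg.Agent.H73.TiOne
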